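import Mathlib

set_option autoImplicit false

namespace Cfsg.Agent.Lib.Helper14.AbPerm

/-- the largest product of the parts of a partition of `n`. -/
def g : ℕ → ℕ
  | 0 => 1
  | 1 => 1
  | 2 => 2
  | 3 => 3
  | 4 => 4
  | (n+5) => 3 * g (n+2)

theorem g_add_three (n : ℕ) (hn : 2 ≤ n) : g (n + 3) = 3 * g n := by
  obtain ⟨m, rfl⟩ : ∃ m, n = m + 2 := ⟨n - 2, by omega⟩
  show g (m + 5) = 3 * g (m + 2)
  rw [g]

theorem g_three_le (n : ℕ) : 3 * g n ≤ g (n + 3) := by
  rcases Nat.lt_or_ge n 2 with h | h
  · interval_cases n <;> simp [g]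
  · rw [g_add_three n h]

theorem g_pos (n : ℕ) : 0 < g n := by
  induction n using Nat.strong_induction_on with
  | _ n ih =>
    rcases Nat.lt_or_ge n 5 with h | h
    · interval_cases n <;> simp [g]
    · obtain ⟨m, rfl⟩ : ∃ m, n = m + 3 := ⟨n - 3, by omega⟩
      rw [g_add_three m (by omega)]
      have := ih m (by omega)
      omega

theorem g_ratio (n : ℕ) (hn : 2 ≤ n) : 2 * g (n + 1) ≤ 3 * g n := by
  induction n using Nat.strong_induction_on with
  | _ n ih =>
    rcases Nat.lt_or_ge n 5 with h | h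
    · interval_cases n <;> simp [g]
    · obtain ⟨m, rfl⟩ : ∃ m, n = m + 3 := ⟨n - 3, by omega⟩
      rw [show m + 3 + 1 = (m + 1) + 3 by ring, g_add_three (m + 1) (by omega),
        g_add_three m (by omega)]
      have := ih m (by omega) (by omega)
      omega

theorem g_two_le (n : ℕ) : 2 * g n ≤ g (n + 2) := by
  rcases Nat.lt_or_ge n 3 with h | h
  · interval_cases n <;> simp [g]
  · obtain ⟨m, rfl⟩ : ∃ m, n = m + 1 := ⟨n - 1, by omega⟩
    rw [show m + 1 + 2 = m + 3 by ring, g_add_three m (by omega)]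
    exact g_ratio m (by omega)

theorem g_mono (n : ℕ) : g n ≤ g (n + 1) := by
  induction n using Nat.strong_induction_on with
  | _ n ih =>
    rcases Nat.lt_or_ge n 5 with h | h
    · interval_cases n <;> simp [g]
    · obtain ⟨m, rfl⟩ : ∃ m, n = m + 3 := ⟨n - 3, by omega⟩
      rw [show m + 3 + 1 = (m + 1) + 3 by ring, g_add_three (m + 1) (by omega),
        g_add_three m (by omega)]
      have := ih m (by omega)
      omega

theorem g_mul_le (m n : ℕ) (hm : 1 ≤ m) : m * g n ≤ g (m + n) := by
  induction m using Nat.strong_induction_on with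
  | _ m ih =>
    rcases Nat.lt_or_ge m 5 with h | h
    · interval_cases m
      · rw [one_mul, add_comm]; exact g_mono n
      · rw [add_comm]; exact g_two_le n
      · rw [add_comm]; exact g_three_le n
      · have h1 := g_two_le n
        have h2 := g_two_le (n + 2)
        rw [show 4 + n = n + 2 + 2 by ring]
        omega
    · obtain ⟨m', rfl⟩ : ∃ m', m = m' + 3 := ⟨m - 3, by omega⟩
      have h1 := ih m' (by omega) (by omega)
      have h2 := g_three_le (m' + n)
      rw [show m' + 3 + n = m' + n + 3 by ring]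
      have h3 : (m' + 3) * g n ≤ 3 * (m' * g n) := by
        have : m' + 3 ≤ 3 * m' := by omega
        calc (m' + 3) * g n ≤ (3 * m') * g n := Nat.mul_le_mul_right _ this
          _ = 3 * (m' * g n) := by ring
      omega

theorem g_3k (k : ℕ) : g (3 * k) = 3 ^ k := by
  induction k with
  | zero => simp [g]
  | succ k ih =>
    rcases Nat.eq_zero_or_pos k with h | h
    · subst h; simp [g]
    · rw [show 3 * (k + 1) = 3 * k + 3 by ring, g_add_three _ (by omega), ih, pow_succ]
      ring

theorem g_3k2 (k : ℕ) : g (3 * k + 2) = 2 * 3 ^ k := by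
  induction k with
  | zero => simp [g]
  | succ k ih =>
    rw [show 3 * (k + 1) + 2 = (3 * k + 2) + 3 by ring, g_add_three _ (by omega), ih, pow_succ]
    ring

theorem g_3k1 (k : ℕ) (hk : 1 ≤ k) : g (3 * k + 1) = 4 * 3 ^ (k - 1) := by
  induction k with
  | zero => omega
  | succ k ih =>
    rcases Nat.eq_zero_or_pos k with h | h
    · subst h; simp [g]
    · rw [show 3 * (k + 1) + 1 = (3 * k + 1) + 3 by ring, g_add_three _ (by omega), ih h]
      obtain ⟨j, rfl⟩ : ∃ j, k = j + 1 := ⟨k - 1, by omega⟩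
      simp only [Nat.add_sub_cancel, pow_succ]
      ring

open Equiv

/-- an abelian permutation group moving only the points of `s` has order at most `g |s|`. -/
theorem ub {α : Type*} [Fintype α] [DecidableEq α] (n : ℕ) :
    ∀ (s : Finset α), s.card = n → ∀ A : Subgroup (Perm α),
      (∀ a ∈ A, ∀ b ∈ A, a * b = b * a) → (∀ a ∈ A, ∀ x, x ∉ s → a x = x) →
      Nat.card A ≤ g n := by
  classical
  induction n using Nat.strong_induction_on with
  | _ n ih =>
    intro s hs A hcomm hfix
    rcases s.eq_empty_or_nonempty with h0 | ⟨ω, hω⟩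
    · subst h0
      have hA : A = ⊥ := by
        rw [eq_bot_iff]
        intro a ha
        rw [Subgroup.mem_bot]
        ext x
        simpa using hfix a ha x (by simp)
      rw [hA, Subgroup.card_bot]
      exact g_pos n
    · let O : Finset α := Finset.univ.filter (fun x => x ∈ MulAction.orbit A ω)
      have hO : ∀ x, x ∈ O ↔ ∃ a ∈ A, a ω = x := by
        intro x
        simp only [O, Finset.mem_filter, Finset.mem_univ, true_and, MulAction.mem_orbit_iff]
        constructor
        · rintro ⟨a, ha⟩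
          exact ⟨a.1, a.2, ha⟩
        · rintro ⟨a, ha, hax⟩
          exact ⟨⟨a, ha⟩, hax⟩
      have hωO : ω ∈ O := (hO ω).2 ⟨1, A.one_mem, rfl⟩
      have hOs : O ⊆ s := by
        intro x hx
        obtain ⟨a, ha, rfl⟩ := (hO x).1 hx
        by_contra hxs
        have h1 := hfix a⁻¹ (A.inv_mem ha) (a ω) hxs
        have h2 : a⁻¹ (a ω) = ω := by simp
        rw [h2] at h1
        exact hxs (h1 ▸ hω)
      let B : Subgroup A := MulAction.stabilizer A ω
      have hB : ∀ b : A, b ∈ B ↔ (b : Perm α) ω = ω := fun b => MulAction.mem_stabilizer_iff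
      have hcard : O.card * Nat.card B = Nat.card A := by
        have h1 : (MulAction.orbit A ω).ncard = O.card := by
          rw [← Set.ncard_coe_finset O]
          congr 1
          ext x
          simp [O]
        rw [← h1, ← MulAction.index_stabilizer]
        exact Subgroup.index_mul_card _
      have hB' : Nat.card (B.map A.subtype) ≤ g (n - O.card) := by
        apply ih (n - O.card) ?_ (s \ O) ?_ (B.map A.subtype)
        · intro a ha b hb
          obtain ⟨a', -, rfl⟩ := Subgroup.mem_map.1 ha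
          obtain ⟨b', -, rfl⟩ := Subgroup.mem_map.1 hb
          exact hcomm _ a'.2 _ b'.2
        · intro b hb x hx
          obtain ⟨b', hb', rfl⟩ := Subgroup.mem_map.1 hb
          rw [Finset.mem_sdiff, not_and_or, not_not] at hx
          rcases hx with hx | hx
          · exact hfix _ b'.2 x hx
          · obtain ⟨a, ha, rfl⟩ := (hO x).1 hx
            have h1 := hcomm _ b'.2 a ha
            have h2 := congrArg (fun f : Perm α => f ω) h1
            simp only [Perm.mul_apply, Subgroup.coe_subtype] at h2 ⊢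
            rw [h2, (hB b').1 hb']
        · have : 0 < O.card := Finset.card_pos.2 ⟨ω, hωO⟩
          have : O.card ≤ s.card := Finset.card_le_card hOs
          omega
        · rw [Finset.card_sdiff_of_subset hOs, hs]
      have hBc : Nat.card (B.map A.subtype) = Nat.card B :=
        Subgroup.card_map_of_injective A.subtype_injective
      have hOn : O.card ≤ n := hs ▸ Finset.card_le_card hOs
      have hOpos : 1 ≤ O.card := Finset.card_pos.2 ⟨ω, hωO⟩
      calc Nat.card A = O.card * Nat.card B := hcard.symm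
        _ ≤ O.card * g (n - O.card) := Nat.mul_le_mul_left _ (hBc ▸ hB')
        _ ≤ g (O.card + (n - O.card)) := g_mul_le _ _ hOpos
        _ = g n := by rw [Nat.add_sub_cancel' hOn]

theorem ub_fin (n : ℕ) (A : Subgroup (Perm (Fin n))) (hA : IsMulCommutative A) :
    Nat.card A ≤ g n := by
  apply ub n Finset.univ (by simp) A
  · intro a ha b hb
    exact setLike_mul_comm ha hb
  · intro a _ x hx
    exact absurd (Finset.mem_univ x) hx

/-- realizability of an order by an abelian permutation group of degree `n`. -/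
def R (n c : ℕ) : Prop :=
  ∃ A : Subgroup (Perm (Fin n)), IsMulCommutative A ∧ Nat.card A = c

theorem R_add {n₁ n₂ c₁ c₂ : ℕ} (h₁ : R n₁ c₁) (h₂ : R n₂ c₂) (n : ℕ) (hn : n = n₁ + n₂) :
    R n (c₁ * c₂) := by
  subst hn
  obtain ⟨A₁, hA₁, rfl⟩ := h₁
  obtain ⟨A₂, hA₂, rfl⟩ := h₂
  let φ : Perm (Fin n₁) × Perm (Fin n₂) →* Perm (Fin (n₁ + n₂)) :=
    (finSumFinEquiv.permCongrHom : Perm (Fin n₁ ⊕ Fin n₂) ≃* Perm (Fin (n₁ + n₂))).toMonoidHom.comp
      (Perm.sumCongrHom (Fin n₁) (Fin n₂))
  have hφ : Function.Injective φ := by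
    intro x y hxy
    apply Perm.sumCongrHom_injective
    exact (finSumFinEquiv.permCongrHom :
      Perm (Fin n₁ ⊕ Fin n₂) ≃* Perm (Fin (n₁ + n₂))).injective hxy
  refine ⟨(A₁.prod A₂).map φ, ?_, ?_⟩
  · apply IsMulCommutative.of_comm
    rintro ⟨a, ha⟩ ⟨b, hb⟩
    apply Subtype.ext
    obtain ⟨a', ha', rfl⟩ := Subgroup.mem_map.1 ha
    obtain ⟨b', hb', rfl⟩ := Subgroup.mem_map.1 hb
    show φ a' * φ b' = φ b' * φ a'
    rw [← map_mul, ← map_mul]
    congr 1
    rw [Subgroup.mem_prod] at ha' hb'
    exact Prod.ext (setLike_mul_comm ha'.1 hb'.1)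
      (setLike_mul_comm ha'.2 hb'.2)
  · rw [Subgroup.card_map_of_injective hφ]
    rw [Nat.card_congr (Subgroup.prodEquiv A₁ A₂).toEquiv, Nat.card_prod]

theorem R_base (m : ℕ) (hm : 1 ≤ m) : R m m := by
  refine ⟨Subgroup.zpowers (finRotate m), ?_, ?_⟩
  · apply IsMulCommutative.of_comm
    rintro ⟨a, ha⟩ ⟨b, hb⟩
    apply Subtype.ext
    obtain ⟨i, rfl⟩ := Subgroup.mem_zpowers_iff.1 ha
    obtain ⟨j, rfl⟩ := Subgroup.mem_zpowers_iff.1 hb
    show finRotate m ^ i * finRotate m ^ j = finRotate m ^ j * finRotate m ^ i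
    rw [← zpow_add, ← zpow_add, add_comm]
  · rw [Nat.card_zpowers]
    rcases Nat.lt_or_ge m 2 with h | h
    · have : m = 1 := by omega
      subst this
      simp
      rfl
    · obtain ⟨k, rfl⟩ : ∃ k, m = k + 2 := ⟨m - 2, by omega⟩
      rw [(isCycle_finRotate).orderOf, support_finRotate, Finset.card_univ, Fintype.card_fin]

theorem R_pow3 (k : ℕ) : R (3 * k) (3 ^ k) := by
  induction k with
  | zero =>
    refine ⟨⊥, ?_, by simp⟩
    apply IsMulCommutative.of_comm
    intro a b
    exact Subsingleton.elim _ _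
  | succ k ih =>
    have := R_add ih (R_base 3 (by norm_num)) (3 * (k + 1)) (by ring)
    rwa [← pow_succ] at this

end Cfsg.Agent.Lib.Helper14.AbPerm
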