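import Mathlib
import Cfsg.Agent.Lib.Helper14.AbPerm

set_option autoImplicit false

namespace Cfsg.Agent.Lib.Helper14.AbPerm

open Equiv

/-- the largest product of the parts of a partition of `n` into parts `≥ 3` (for `n ≥ 3`). -/
def G3 : ℕ → ℕ
  | 0 => 1
  | 1 => 1
  | 2 => 1
  | 3 => 3
  | 4 => 4
  | 5 => 5
  | 6 => 9
  | 7 => 12
  | 8 => 16
  | (n+9) => 3 * G3 (n+6)

theorem G3_add_three (n : ℕ) (hn : 6 ≤ n) : G3 (n + 3) = 3 * G3 n := by
  obtain ⟨m, rfl⟩ : ∃ m, n = m + 6 := ⟨n - 6, by omega⟩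
  show G3 (m + 9) = 3 * G3 (m + 6)
  rw [G3]

theorem G3_pos (n : ℕ) : 1 ≤ G3 n := by
  induction n using Nat.strong_induction_on with
  | _ n ih =>
    rcases Nat.lt_or_ge n 9 with h | h
    · interval_cases n <;> simp [G3]
    · obtain ⟨m, rfl⟩ : ∃ m, n = m + 3 := ⟨n - 3, by omega⟩
      rw [G3_add_three m (by omega)]
      have := ih m (by omega)
      omega

theorem G3_three (n : ℕ) : 3 * G3 n ≤ G3 (n + 3) := by
  rcases Nat.lt_or_ge n 6 with h | h
  · interval_cases n <;> simp [G3]
  · rw [G3_add_three n h]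

theorem G3_four (n : ℕ) : 4 * G3 n ≤ G3 (n + 4) := by
  induction n using Nat.strong_induction_on with
  | _ n ih =>
    rcases Nat.lt_or_ge n 9 with h | h
    · interval_cases n <;> simp [G3]
    · obtain ⟨m, rfl⟩ : ∃ m, n = m + 3 := ⟨n - 3, by omega⟩
      rw [show m + 3 + 4 = (m + 4) + 3 by ring, G3_add_three (m + 4) (by omega),
        G3_add_three m (by omega)]
      have := ih m (by omega)
      omega

theorem G3_five (n : ℕ) : 5 * G3 n ≤ G3 (n + 5) := by
  induction n using Nat.strong_induction_on with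
  | _ n ih =>
    rcases Nat.lt_or_ge n 9 with h | h
    · interval_cases n <;> simp [G3]
    · obtain ⟨m, rfl⟩ : ∃ m, n = m + 3 := ⟨n - 3, by omega⟩
      rw [show m + 3 + 5 = (m + 5) + 3 by ring, G3_add_three (m + 5) (by omega),
        G3_add_three m (by omega)]
      have := ih m (by omega)
      omega

theorem G3_mul_le (m n : ℕ) (hm : 3 ≤ m) : m * G3 n ≤ G3 (m + n) := by
  induction m using Nat.strong_induction_on with
  | _ m ih =>
    rcases Nat.lt_or_ge m 6 with h | h
    · interval_cases m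
      · rw [add_comm]; exact G3_three n
      · rw [add_comm]; exact G3_four n
      · rw [add_comm]; exact G3_five n
    · obtain ⟨m', rfl⟩ : ∃ m', m = m' + 3 := ⟨m - 3, by omega⟩
      have h1 := ih m' (by omega) (by omega)
      have h2 := G3_three (m' + n)
      rw [show m' + 3 + n = m' + n + 3 by ring]
      have h3 : (m' + 3) * G3 n ≤ 3 * (m' * G3 n) := by
        have : m' + 3 ≤ 3 * m' := by omega
        calc (m' + 3) * G3 n ≤ (3 * m') * G3 n := Nat.mul_le_mul_right _ this
          _ = 3 * (m' * G3 n) := by ring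
      omega

theorem G3_3k2 (k : ℕ) (hk : 2 ≤ k) : G3 (3 * k + 2) = 16 * 3 ^ (k - 2) := by
  obtain ⟨j, rfl⟩ : ∃ j, k = j + 2 := ⟨k - 2, by omega⟩
  simp only [Nat.add_sub_cancel]
  induction j with
  | zero => simp [G3]
  | succ j ih =>
    rw [show 3 * (j + 1 + 2) + 2 = (3 * (j + 2) + 2) + 3 by ring, G3_add_three _ (by omega),
      ih (by omega), pow_succ]
    ring

/-- Orbit-peeling bound with a lower bound `t` on the sizes of the orbits of an abelian
group `A`; the bound is for subgroups `B` of `A` supported on an `A`-invariant set `s`. -/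
theorem ub_orb {α : Type*} [Fintype α] [DecidableEq α] (A : Subgroup (Perm α))
    (hcomm : ∀ a ∈ A, ∀ b ∈ A, a * b = b * a) (t : ℕ) (G : ℕ → ℕ) (hG0 : ∀ n, 1 ≤ G n)
    (hG : ∀ m n, t ≤ m → m * G n ≤ G (m + n)) (n : ℕ) :
    ∀ s : Finset α, s.card = n → (∀ a ∈ A, ∀ x ∈ s, a x ∈ s) →
      (∀ x ∈ s, t ≤ Set.ncard {y | ∃ a ∈ A, a x = y}) →
      ∀ B : Subgroup (Perm α), B ≤ A → (∀ b ∈ B, ∀ x, x ∉ s → b x = x) →
      Nat.card B ≤ G n := by
  classical
  induction n using Nat.strong_induction_on with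
  | _ n ih =>
    intro s hs hinv horb B hBA hfix
    rcases s.eq_empty_or_nonempty with h0 | ⟨ω, hω⟩
    · subst h0
      have hB : B = ⊥ := by
        rw [eq_bot_iff]
        intro a ha
        rw [Subgroup.mem_bot]
        ext x
        simpa using hfix a ha x (by simp)
      rw [hB, Subgroup.card_bot]
      exact hG0 n
    · let O : Finset α := Finset.univ.filter (fun y => ∃ a ∈ A, a ω = y)
      have hO : ∀ x, x ∈ O ↔ ∃ a ∈ A, a ω = x := by
        intro x
        simp [O]
      have hωO : ω ∈ O := (hO ω).2 ⟨1, A.one_mem, rfl⟩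
      have hOs : O ⊆ s := by
        intro x hx
        obtain ⟨a, ha, rfl⟩ := (hO x).1 hx
        exact hinv a ha ω hω
      have htO : t ≤ O.card := by
        have h1 := horb ω hω
        have h2 : Set.ncard {y | ∃ a ∈ A, a ω = y} = O.card := by
          rw [← Set.ncard_coe_finset O]
          congr 1
          ext x
          simp [O]
        rw [h2] at h1
        exact h1
      let OB : Finset α := Finset.univ.filter (fun x => x ∈ MulAction.orbit B ω)
      have hOB : OB ⊆ O := by
        intro x hx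
        simp only [OB, Finset.mem_filter, Finset.mem_univ, true_and,
          MulAction.mem_orbit_iff] at hx
        obtain ⟨b, hb⟩ := hx
        exact (hO x).2 ⟨b.1, hBA b.2, hb⟩
      let B₁ : Subgroup B := MulAction.stabilizer B ω
      have hB₁ : ∀ b : B, b ∈ B₁ ↔ (b : Perm α) ω = ω := fun b => MulAction.mem_stabilizer_iff
      have hcard : OB.card * Nat.card B₁ = Nat.card B := by
        have h1 : (MulAction.orbit B ω).ncard = OB.card := by
          rw [← Set.ncard_coe_finset OB]
          congr 1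
          ext x
          simp [OB]
        rw [← h1, ← MulAction.index_stabilizer]
        exact Subgroup.index_mul_card _
      have hOn : O.card ≤ n := hs ▸ Finset.card_le_card hOs
      have hOpos : 1 ≤ O.card := Finset.card_pos.2 ⟨ω, hωO⟩
      have hB' : Nat.card (B₁.map B.subtype) ≤ G (n - O.card) := by
        apply ih (n - O.card) (by omega) (s \ O) ?_ ?_ ?_ (B₁.map B.subtype) ?_ ?_
        · rw [Finset.card_sdiff_of_subset hOs, hs]
        · intro a ha x hx
          rw [Finset.mem_sdiff] at hx ⊢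
          refine ⟨hinv a ha x hx.1, ?_⟩
          intro hax
          apply hx.2
          obtain ⟨c, hc, hcx⟩ := (hO _).1 hax
          refine (hO x).2 ⟨a⁻¹ * c, A.mul_mem (A.inv_mem ha) hc, ?_⟩
          rw [Perm.mul_apply, hcx]
          simp
        · intro x hx
          exact horb x (Finset.mem_sdiff.1 hx).1
        · intro b hb
          obtain ⟨b', -, rfl⟩ := Subgroup.mem_map.1 hb
          exact hBA b'.2
        · intro b hb x hx
          obtain ⟨b', hb', rfl⟩ := Subgroup.mem_map.1 hb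
          rw [Finset.mem_sdiff, not_and_or, not_not] at hx
          rcases hx with hx | hx
          · exact hfix _ b'.2 x hx
          · obtain ⟨a, ha, rfl⟩ := (hO x).1 hx
            have h1 := hcomm _ (hBA b'.2) a ha
            have h2 := congrArg (fun f : Perm α => f ω) h1
            simp only [Perm.mul_apply, Subgroup.coe_subtype] at h2 ⊢
            rw [h2, (hB₁ b').1 hb']
      have hBc : Nat.card (B₁.map B.subtype) = Nat.card B₁ :=
        Subgroup.card_map_of_injective B.subtype_injective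
      calc Nat.card B = OB.card * Nat.card B₁ := hcard.symm
        _ ≤ O.card * Nat.card B₁ := Nat.mul_le_mul_right _ (Finset.card_le_card hOB)
        _ ≤ O.card * G (n - O.card) := Nat.mul_le_mul_left _ (hBc ▸ hB')
        _ ≤ G (O.card + (n - O.card)) := hG _ _ htO
        _ = G n := by rw [Nat.add_sub_cancel' hOn]

/-- an even abelian group with an orbit `{x, y}` of size two is no larger than an abelian
group on the remaining points. -/
theorem even_two {α : Type*} [Fintype α] [DecidableEq α] (A : Subgroup (Perm α))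
    (hcomm : ∀ a ∈ A, ∀ b ∈ A, a * b = b * a) (heven : ∀ a ∈ A, Perm.sign a = 1)
    (x y : α) (hxy : x ≠ y)
    (hO : ∀ a ∈ A, (a x = x ∧ a y = y) ∨ (a x = y ∧ a y = x)) :
    Nat.card A ≤ g (Fintype.card α - 2) := by
  classical
  have hτ : ∀ a ∈ A, a * swap x y = swap x y * a := by
    intro a ha
    rw [Equiv.mul_swap_eq_swap_mul]
    rcases hO a ha with ⟨h1, h2⟩ | ⟨h1, h2⟩
    · rw [h1, h2]
    · rw [h1, h2, swap_comm]
  let F : A → Perm α := fun a => if (a : Perm α) x = x then (a : Perm α) else a * swap x y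
  have hFcomm : ∀ a b : A, F a * F b = F b * F a := by
    intro a b
    have c1 : Commute (a : Perm α) (b : Perm α) := hcomm _ a.2 _ b.2
    have c2 : Commute (a : Perm α) (swap x y) := hτ _ a.2
    have c3 : Commute (b : Perm α) (swap x y) := hτ _ b.2
    simp only [F]
    split_ifs
    · exact c1
    · exact (c1.mul_right c2 : Commute (a : Perm α) (b * swap x y))
    · exact ((c1.symm.mul_right c3).symm : Commute (a * swap x y) (b : Perm α))
    · exact ((c1.mul_right c2).mul_left ((c3.symm).mul_right (Commute.refl _)) :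
        Commute (a * swap x y) (b * swap x y))
  have hFx : ∀ a : A, F a x = x ∧ F a y = y := by
    intro a
    simp only [F]
    rcases hO _ a.2 with ⟨h1, h2⟩ | ⟨h1, h2⟩
    · rw [if_pos h1]; exact ⟨h1, h2⟩
    · rw [if_neg (by rw [h1]; exact hxy.symm)]
      simp [Perm.mul_apply, h1, h2]
  have hFinj : Function.Injective F := by
    intro a b hab
    have hsw : Perm.sign (swap x y) = -1 := Perm.sign_swap hxy
    have ha := heven _ a.2
    have hb := heven _ b.2
    simp only [F] at hab
    split_ifs at hab with h1 h2 h2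
    · exact Subtype.ext hab
    · exfalso
      have := congrArg Perm.sign hab
      rw [Perm.sign_mul, ha, hb, hsw] at this
      exact absurd this (by decide)
    · exfalso
      have := congrArg Perm.sign hab
      rw [Perm.sign_mul, ha, hb, hsw] at this
      exact absurd this (by decide)
    · exact Subtype.ext (mul_right_cancel hab)
  let C : Subgroup (Perm α) := Subgroup.closure (Set.range F)
  have hCcomm : ∀ a ∈ C, ∀ b ∈ C, a * b = b * a := by
    have : IsMulCommutative C := Subgroup.isMulCommutative_closure (by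
      rintro _ ⟨a, rfl⟩ _ ⟨b, rfl⟩
      exact hFcomm a b)
    intro a ha b hb
    exact setLike_mul_comm ha hb
  have hCfix : ∀ c ∈ C, ∀ z, z ∉ (Finset.univ.erase x).erase y → c z = z := by
    have hle : C ≤ MulAction.stabilizer (Perm α) x ⊓ MulAction.stabilizer (Perm α) y := by
      rw [Subgroup.closure_le]
      rintro _ ⟨a, rfl⟩
      exact ⟨MulAction.mem_stabilizer_iff.2 (hFx a).1, MulAction.mem_stabilizer_iff.2 (hFx a).2⟩
    intro c hc z hz
    have hc' := hle hc
    have hz' : z = x ∨ z = y := by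
      by_contra hne
      push Not at hne
      exact hz (Finset.mem_erase.2 ⟨hne.2, Finset.mem_erase.2 ⟨hne.1, Finset.mem_univ z⟩⟩)
    rcases hz' with rfl | rfl
    · exact MulAction.mem_stabilizer_iff.1 hc'.1
    · exact MulAction.mem_stabilizer_iff.1 hc'.2
  have hcardC : Nat.card C ≤ g (Fintype.card α - 2) := by
    apply ub (Fintype.card α - 2) ((Finset.univ.erase x).erase y) ?_ C hCcomm hCfix
    rw [Finset.card_erase_of_mem (Finset.mem_erase.2 ⟨hxy.symm, Finset.mem_univ y⟩),
      Finset.card_erase_of_mem (Finset.mem_univ x), Finset.card_univ]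
    rfl
  have hAC : Nat.card A ≤ Nat.card C := by
    apply Nat.card_le_card_of_injective (fun a : A => (⟨F a, Subgroup.subset_closure ⟨a, rfl⟩⟩ : C))
    intro a b hab
    exact hFinj (congrArg Subtype.val hab)
  exact hAC.trans hcardC


/-- the bound for even abelian groups of degree `3k+2`. -/
theorem even_ub (k : ℕ) (hk : 2 ≤ k) (A : Subgroup (Perm (Fin (3 * k + 2))))
    (hcomm : ∀ a ∈ A, ∀ b ∈ A, a * b = b * a) (heven : ∀ a ∈ A, Perm.sign a = 1) :
    Nat.card A ≤ 16 * 3 ^ (k - 2) := by
  classical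
  obtain ⟨j, rfl⟩ : ∃ j, k = j + 2 := ⟨k - 2, by omega⟩
  simp only [Nat.add_sub_cancel]
  by_cases h1 : ∃ x, ∀ a ∈ A, a x = x
  · obtain ⟨x, hx⟩ := h1
    have h2 : Nat.card A ≤ g (3 * (j + 2) + 1) := by
      apply ub (3 * (j + 2) + 1) (Finset.univ.erase x) ?_ A hcomm ?_
      · rw [Finset.card_erase_of_mem (Finset.mem_univ x), Finset.card_univ, Fintype.card_fin]
        rfl
      · intro a ha z hz
        have : z = x := by
          by_contra hne
          exact hz (Finset.mem_erase.2 ⟨hne, Finset.mem_univ z⟩)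
        rw [this]
        exact hx a ha
    rw [g_3k1 _ (by omega)] at h2
    have h3 : 4 * 3 ^ (j + 2 - 1) = 12 * 3 ^ j := by
      rw [show j + 2 - 1 = j + 1 by omega, pow_succ]; ring
    omega
  · push Not at h1
    by_cases h2 : ∃ x, Set.ncard {y | ∃ a ∈ A, a x = y} = 2
    · obtain ⟨x, hx⟩ := h2
      obtain ⟨a₀, ha₀, hne⟩ := h1 x
      obtain ⟨u, v, huv, hset⟩ := Set.ncard_eq_two.1 hx
      have hxm : x ∈ ({u, v} : Set _) := hset ▸ ⟨1, A.one_mem, rfl⟩
      have hym : a₀ x ∈ ({u, v} : Set _) := hset ▸ ⟨a₀, ha₀, rfl⟩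
      have horb : ∀ a ∈ A, a x = x ∨ a x = a₀ x := by
        intro a ha
        have ham : a x ∈ ({u, v} : Set _) := hset ▸ ⟨a, ha, rfl⟩
        simp only [Set.mem_insert_iff, Set.mem_singleton_iff] at hxm hym ham
        rcases hxm with h | h <;> rcases hym with h' | h' <;> rcases ham with h'' | h'' <;>
          simp_all
      have ha₀y : a₀ (a₀ x) = x := by
        rcases horb (a₀ * a₀) (A.mul_mem ha₀ ha₀) with h | h
        · exact h
        · exfalso
          apply hne
          exact a₀.injective h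
      have hO : ∀ a ∈ A, (a x = x ∧ a (a₀ x) = a₀ x) ∨ (a x = a₀ x ∧ a (a₀ x) = x) := by
        intro a ha
        have hc := congrArg (fun f : Perm _ => f x) (hcomm a ha a₀ ha₀)
        simp only [Perm.mul_apply] at hc
        rcases horb a ha with h | h
        · left
          exact ⟨h, by rw [hc, h]⟩
        · right
          exact ⟨h, by rw [hc, h, ha₀y]⟩
      have h3 := even_two A hcomm heven x (a₀ x) (Ne.symm hne) hO
      rw [Fintype.card_fin, show 3 * (j + 2) + 2 - 2 = 3 * (j + 2) by omega, g_3k, pow_add]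
        at h3
      omega
    · have h3 := ub_orb A hcomm 3 G3 G3_pos (fun m n hm => G3_mul_le m n hm) (3 * (j + 2) + 2)
        Finset.univ (by simp) (fun _ _ _ _ => Finset.mem_univ _) ?_ A le_rfl
        (fun _ _ x hx => absurd (Finset.mem_univ x) hx)
      · rw [G3_3k2 _ (by omega)] at h3
        simpa using h3
      · intro x _
        obtain ⟨a₀, ha₀, hne⟩ := h1 x
        have hsub : ({x, a₀ x} : Set _) ⊆ {y | ∃ a ∈ A, a x = y} := by
          rintro z (rfl | rfl)
          · exact ⟨1, A.one_mem, rfl⟩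
          · exact ⟨a₀, ha₀, rfl⟩
        have h4 : 2 ≤ Set.ncard {y | ∃ a ∈ A, a x = y} := by
          have := Set.ncard_le_ncard hsub (Set.toFinite _)
          rwa [Set.ncard_pair (Ne.symm hne)] at this
        have h5 : Set.ncard {y | ∃ a ∈ A, a x = y} ≠ 2 := fun h => h2 ⟨x, h⟩
        omega

/-- realizability of an order by an even abelian permutation group of degree `n`. -/
def R' (n c : ℕ) : Prop :=
  ∃ A : Subgroup (Perm (Fin n)), IsMulCommutative A ∧ Nat.card A = c ∧
    ∀ a ∈ A, Perm.sign a = 1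

theorem R'_add {n₁ n₂ c₁ c₂ : ℕ} (h₁ : R' n₁ c₁) (h₂ : R' n₂ c₂) (n : ℕ) (hn : n = n₁ + n₂) :
    R' n (c₁ * c₂) := by
  subst hn
  obtain ⟨A₁, hA₁, rfl, he₁⟩ := h₁
  obtain ⟨A₂, hA₂, rfl, he₂⟩ := h₂
  let φ : Perm (Fin n₁) × Perm (Fin n₂) →* Perm (Fin (n₁ + n₂)) :=
    (finSumFinEquiv.permCongrHom : Perm (Fin n₁ ⊕ Fin n₂) ≃* Perm (Fin (n₁ + n₂))).toMonoidHom.comp
      (Perm.sumCongrHom (Fin n₁) (Fin n₂))
  have hφ : Function.Injective φ := by
    intro x y hxy
    apply Perm.sumCongrHom_injective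
    exact (finSumFinEquiv.permCongrHom :
      Perm (Fin n₁ ⊕ Fin n₂) ≃* Perm (Fin (n₁ + n₂))).injective hxy
  refine ⟨(A₁.prod A₂).map φ, ?_, ?_, ?_⟩
  · apply IsMulCommutative.of_comm
    rintro ⟨a, ha⟩ ⟨b, hb⟩
    apply Subtype.ext
    obtain ⟨a', ha', rfl⟩ := Subgroup.mem_map.1 ha
    obtain ⟨b', hb', rfl⟩ := Subgroup.mem_map.1 hb
    show φ a' * φ b' = φ b' * φ a'
    rw [← map_mul, ← map_mul]
    congr 1
    rw [Subgroup.mem_prod] at ha' hb'
    exact Prod.ext (setLike_mul_comm ha'.1 hb'.1) (setLike_mul_comm ha'.2 hb'.2)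
  · rw [Subgroup.card_map_of_injective hφ]
    rw [Nat.card_congr (Subgroup.prodEquiv A₁ A₂).toEquiv, Nat.card_prod]
  · intro a ha
    obtain ⟨a', ha', rfl⟩ := Subgroup.mem_map.1 ha
    rw [Subgroup.mem_prod] at ha'
    have e : φ a' = finSumFinEquiv.permCongr (Equiv.sumCongr a'.1 a'.2) := rfl
    rw [e, Perm.sign_permCongr, Perm.sign_sumCongr, he₁ _ ha'.1, he₂ _ ha'.2, mul_one]

theorem R'_three : R' 3 3 := by
  refine ⟨Subgroup.zpowers (finRotate 3), ?_, ?_, ?_⟩
  · apply IsMulCommutative.of_comm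
    rintro ⟨a, ha⟩ ⟨b, hb⟩
    apply Subtype.ext
    obtain ⟨i, rfl⟩ := Subgroup.mem_zpowers_iff.1 ha
    obtain ⟨j, rfl⟩ := Subgroup.mem_zpowers_iff.1 hb
    show finRotate 3 ^ i * finRotate 3 ^ j = finRotate 3 ^ j * finRotate 3 ^ i
    rw [← zpow_add, ← zpow_add, add_comm]
  · rw [Nat.card_zpowers, (isCycle_finRotate (n := 1)).orderOf, support_finRotate,
      Finset.card_univ, Fintype.card_fin]
  · intro a ha
    obtain ⟨i, rfl⟩ := Subgroup.mem_zpowers_iff.1 ha
    rw [map_zpow, sign_finRotate]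
    simp

/-- the Klein four-group in `A_4`. -/
def kA : Perm (Fin 4) := swap 0 1 * swap 2 3
def kB : Perm (Fin 4) := swap 0 2 * swap 1 3
def kK : Finset (Perm (Fin 4)) := {1, kA, kB, kA * kB}

theorem R'_four : R' 4 4 := by
  have h1 : ∀ x ∈ kK, ∀ y ∈ kK, x * y ∈ kK := by decide
  have h2 : ∀ x ∈ kK, x⁻¹ ∈ kK := by decide
  have h3 : ∀ x ∈ kK, ∀ y ∈ kK, x * y = y * x := by decide
  have h4 : ∀ x ∈ kK, Perm.sign x = 1 := by decide
  have h5 : kK.card = 4 := by decide
  let V : Subgroup (Perm (Fin 4)) :=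
    { carrier := (kK : Set (Perm (Fin 4)))
      mul_mem' := fun {x y} hx hy => h1 x hx y hy
      one_mem' := by decide
      inv_mem' := fun {x} hx => h2 x hx }
  refine ⟨V, ?_, ?_, ?_⟩
  · apply IsMulCommutative.of_comm
    rintro ⟨a, ha⟩ ⟨b, hb⟩
    exact Subtype.ext (h3 a ha b hb)
  · have : Nat.card V = Nat.card (kK : Set (Perm (Fin 4))) := rfl
    rw [this, Nat.card_coe_set_eq, Set.ncard_coe_finset, h5]
  · intro a ha
    exact h4 a ha

theorem R'_pow3 (k : ℕ) : R' (3 * k) (3 ^ k) := by
  induction k with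
  | zero =>
    refine ⟨⊥, ?_, by simp, ?_⟩
    · apply IsMulCommutative.of_comm
      intro a b
      exact Subsingleton.elim _ _
    · intro a ha
      rw [Subgroup.mem_bot] at ha
      rw [ha, map_one]
  | succ k ih =>
    have := R'_add ih R'_three (3 * (k + 1)) (by ring)
    rwa [← pow_succ] at this

/-- conversion to subgroups of the alternating group. -/
theorem R'_alt {n c : ℕ} (h : R' n c) :
    ∃ A : Subgroup (alternatingGroup (Fin n)), IsMulCommutative A ∧ Nat.card A = c := by
  obtain ⟨A, hA, rfl, he⟩ := h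
  have hle : A ≤ alternatingGroup (Fin n) := fun a ha => Perm.mem_alternatingGroup.2 (he a ha)
  refine ⟨A.subgroupOf (alternatingGroup (Fin n)), ?_, ?_⟩
  · apply IsMulCommutative.of_comm
    rintro ⟨a, ha⟩ ⟨b, hb⟩
    apply Subtype.ext
    apply Subtype.ext
    rw [Subgroup.mem_subgroupOf] at ha hb
    exact setLike_mul_comm ha hb
  · exact Nat.card_congr (Subgroup.subgroupOfEquivOfLe hle).toEquiv

/-- transfer of an abelian subgroup of the alternating group to the symmetric group. -/
theorem alt_to_perm {n : ℕ} (A : Subgroup (alternatingGroup (Fin n))) (hA : IsMulCommutative A) :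
    ∃ A' : Subgroup (Perm (Fin n)), (∀ a ∈ A', ∀ b ∈ A', a * b = b * a) ∧
      (∀ a ∈ A', Perm.sign a = 1) ∧ Nat.card A' = Nat.card A := by
  refine ⟨A.map (alternatingGroup (Fin n)).subtype, ?_, ?_, ?_⟩
  · intro a ha b hb
    obtain ⟨a', ha', rfl⟩ := Subgroup.mem_map.1 ha
    obtain ⟨b', hb', rfl⟩ := Subgroup.mem_map.1 hb
    rw [← map_mul, ← map_mul, setLike_mul_comm ha' hb']
  · intro a ha
    obtain ⟨a', -, rfl⟩ := Subgroup.mem_map.1 ha
    exact Perm.mem_alternatingGroup.1 a'.2
  · exact Subgroup.card_map_of_injective (Subgroup.subtype_injective _)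

end Cfsg.Agent.Lib.Helper14.AbPerm
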