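import Mathlib

set_option autoImplicit false

namespace Cfsg.Agent.Lib.Helper14.FreeSL2

open Polynomial Matrix

universe u

section Field

variable (F : Type u) [Field F]

noncomputable def aMat (i : ℕ) : Matrix.SpecialLinearGroup (Fin 2) F[X] :=
  ⟨!![1 + X ^ (i + 1) * X ^ (i + 1), X ^ (i + 1); X ^ (i + 1), 1], by
    simp [Matrix.det_fin_two]⟩

theorem aMat_coe (i : ℕ) : ((aMat F i : Matrix.SpecialLinearGroup (Fin 2) F[X]) : Matrix (Fin 2) (Fin 2) F[X]) =
    !![1 + X ^ (i + 1) * X ^ (i + 1), X ^ (i + 1); X ^ (i + 1), 1] := rfl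

theorem aMat_inv_coe (i : ℕ) : (((aMat F i)⁻¹ : Matrix.SpecialLinearGroup (Fin 2) F[X]) : Matrix (Fin 2) (Fin 2) F[X]) =
    !![1, -X ^ (i + 1); -X ^ (i + 1), 1 + X ^ (i + 1) * X ^ (i + 1)] := by
  rw [Matrix.SpecialLinearGroup.coe_inv, aMat_coe, Matrix.adjugate_fin_two_of]

variable {F}

theorem fwd (k : ℕ) (hk : 1 ≤ k) (x y : F[X]) (hxy : x ≠ 0 ∨ y ≠ 0)
    (hn : ¬ (x ≠ 0 ∧ y.natDegree = x.natDegree + k)) :
    (X ^ k * x + y ≠ 0) ∧
      ((1 + X ^ k * X ^ k) * x + X ^ k * y).natDegree = (X ^ k * x + y).natDegree + k := by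
  have hf : (X ^ k : F[X]) ≠ 0 := pow_ne_zero k X_ne_zero
  have hfd : (X ^ k : F[X]).natDegree = k := natDegree_X_pow k
  have hg : (1 + X ^ k * X ^ k : F[X]) = X ^ (2 * k) + C 1 := by
    rw [map_one]; ring
  have hg0 : (1 + X ^ k * X ^ k : F[X]) ≠ 0 := by
    rw [hg]
    exact X_pow_add_C_ne_zero (by omega) 1
  have hgd : (1 + X ^ k * X ^ k : F[X]).natDegree = 2 * k := by
    rw [hg]
    exact natDegree_X_pow_add_C
  by_cases hx : x = 0
  · subst hx
    have hy : y ≠ 0 := by tauto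
    simp only [mul_zero, zero_add]
    refine ⟨hy, ?_⟩
    rw [natDegree_mul hf hy, hfd]
    omega
  by_cases hy : y = 0
  · subst hy
    simp only [mul_zero, add_zero]
    refine ⟨mul_ne_zero hf hx, ?_⟩
    rw [natDegree_mul hg0 hx, natDegree_mul hf hx, hgd, hfd]
    omega
  have hne : y.natDegree ≠ x.natDegree + k := fun h => hn ⟨hx, h⟩
  have d1 : (X ^ k * x).natDegree = k + x.natDegree := by rw [natDegree_mul hf hx, hfd]
  have d2 : ((1 + X ^ k * X ^ k) * x).natDegree = 2 * k + x.natDegree := by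
    rw [natDegree_mul hg0 hx, hgd]
  have d3 : (X ^ k * y).natDegree = k + y.natDegree := by rw [natDegree_mul hf hy, hfd]
  rcases Nat.lt_or_gt_of_ne hne with hlt | hgt
  · have e1 : (X ^ k * x + y).natDegree = k + x.natDegree := by
      rw [natDegree_add_eq_left_of_natDegree_lt (by omega), d1]
    have e2 : ((1 + X ^ k * X ^ k) * x + X ^ k * y).natDegree = 2 * k + x.natDegree := by
      rw [natDegree_add_eq_left_of_natDegree_lt (by omega), d2]
    refine ⟨?_, by omega⟩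
    intro h0
    rw [h0, natDegree_zero] at e1
    omega
  · have e1 : (X ^ k * x + y).natDegree = y.natDegree := by
      rw [natDegree_add_eq_right_of_natDegree_lt (by omega)]
    have e2 : ((1 + X ^ k * X ^ k) * x + X ^ k * y).natDegree = k + y.natDegree := by
      rw [natDegree_add_eq_right_of_natDegree_lt (by omega), d3]
    refine ⟨?_, by omega⟩
    intro h0
    rw [h0, natDegree_zero] at e1
    omega

variable (F)

def setX (i : ULift.{u} ℕ) : Set (Matrix.SpecialLinearGroup (Fin 2) F[X]) :=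
  {M | (M : Matrix (Fin 2) (Fin 2) F[X]) 1 0 ≠ 0 ∧
    ((M : Matrix (Fin 2) (Fin 2) F[X]) 0 0).natDegree = ((M : Matrix (Fin 2) (Fin 2) F[X]) 1 0).natDegree + (i.down + 1)}

def setY (i : ULift.{u} ℕ) : Set (Matrix.SpecialLinearGroup (Fin 2) F[X]) :=
  {M | (M : Matrix (Fin 2) (Fin 2) F[X]) 0 0 ≠ 0 ∧
    ((M : Matrix (Fin 2) (Fin 2) F[X]) 1 0).natDegree = ((M : Matrix (Fin 2) (Fin 2) F[X]) 0 0).natDegree + (i.down + 1)}

variable {F}

theorem col_ne_zero (M : Matrix.SpecialLinearGroup (Fin 2) F[X]) :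
    (M : Matrix (Fin 2) (Fin 2) F[X]) 0 0 ≠ 0 ∨ (M : Matrix (Fin 2) (Fin 2) F[X]) 1 0 ≠ 0 := by
  by_contra h
  rw [not_or, not_not, not_not] at h
  have hdet := M.det_coe
  rw [Matrix.det_fin_two, h.1, h.2] at hdet
  simp at hdet

variable (F)

theorem lift_injective :
    Function.Injective (FreeGroup.lift (fun i : ULift.{u} ℕ => aMat F i.down)) := by
  apply FreeGroup.injective_lift_of_ping_pong (fun i : ULift.{u} ℕ => aMat F i.down) (setX F) (setY F)
  · intro i
    refine ⟨aMat F i.down, ?_, ?_⟩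
    · rw [aMat_coe]
      simp
    · rw [aMat_coe]
      have h1 : (1 + X ^ (i.down + 1) * X ^ (i.down + 1) : F[X]) = X ^ (2 * (i.down + 1)) + C 1 := by
        rw [map_one]; ring
      simp only [Matrix.of_apply, Matrix.cons_val', Matrix.cons_val_zero, Matrix.cons_val_one,
        Matrix.cons_val_fin_one]
      rw [h1, natDegree_X_pow_add_C, natDegree_X_pow]
      omega
  · intro i j hij
    rw [Function.onFun, Set.disjoint_left]
    rintro M ⟨_, h1⟩ ⟨_, h2⟩
    apply hij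
    have : i.down = j.down := by omega
    exact ULift.ext _ _ this
  · intro i j hij
    rw [Function.onFun, Set.disjoint_left]
    rintro M ⟨_, h1⟩ ⟨_, h2⟩
    apply hij
    have : i.down = j.down := by omega
    exact ULift.ext _ _ this
  · intro i j
    rw [Set.disjoint_left]
    rintro M ⟨_, h1⟩ ⟨_, h2⟩
    omega
  · intro i
    rintro _ ⟨M, hM, rfl⟩
    have hM' : ¬ ((M : Matrix (Fin 2) (Fin 2) F[X]) 0 0 ≠ 0 ∧
        ((M : Matrix (Fin 2) (Fin 2) F[X]) 1 0).natDegree =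
          ((M : Matrix (Fin 2) (Fin 2) F[X]) 0 0).natDegree + (i.down + 1)) := hM
    have key := fwd (i.down + 1) (by omega) _ _ (col_ne_zero M) hM'
    change (aMat F i.down * M) ∈ setX F i
    refine ⟨?_, ?_⟩
    · have : ((aMat F i.down * M : Matrix.SpecialLinearGroup (Fin 2) F[X]) : Matrix (Fin 2) (Fin 2) F[X]) 1 0 =
          X ^ (i.down + 1) * (M : Matrix (Fin 2) (Fin 2) F[X]) 0 0 + (M : Matrix (Fin 2) (Fin 2) F[X]) 1 0 := by
        rw [Matrix.SpecialLinearGroup.coe_mul, aMat_coe, Matrix.mul_apply, Fin.sum_univ_two]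
        simp
      rw [this]
      exact key.1
    · have h1 : ((aMat F i.down * M : Matrix.SpecialLinearGroup (Fin 2) F[X]) : Matrix (Fin 2) (Fin 2) F[X]) 1 0 =
          X ^ (i.down + 1) * (M : Matrix (Fin 2) (Fin 2) F[X]) 0 0 + (M : Matrix (Fin 2) (Fin 2) F[X]) 1 0 := by
        rw [Matrix.SpecialLinearGroup.coe_mul, aMat_coe, Matrix.mul_apply, Fin.sum_univ_two]
        simp
      have h2 : ((aMat F i.down * M : Matrix.SpecialLinearGroup (Fin 2) F[X]) : Matrix (Fin 2) (Fin 2) F[X]) 0 0 =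
          (1 + X ^ (i.down + 1) * X ^ (i.down + 1)) * (M : Matrix (Fin 2) (Fin 2) F[X]) 0 0 +
            X ^ (i.down + 1) * (M : Matrix (Fin 2) (Fin 2) F[X]) 1 0 := by
        rw [Matrix.SpecialLinearGroup.coe_mul, aMat_coe, Matrix.mul_apply, Fin.sum_univ_two]
        simp
      rw [h1, h2]
      exact key.2
  · intro i
    rintro _ ⟨M, hM, rfl⟩
    have hM' : ¬ ((M : Matrix (Fin 2) (Fin 2) F[X]) 1 0 ≠ 0 ∧
        ((M : Matrix (Fin 2) (Fin 2) F[X]) 0 0).natDegree =
          ((M : Matrix (Fin 2) (Fin 2) F[X]) 1 0).natDegree + (i.down + 1)) := hM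
    have hcol : (M : Matrix (Fin 2) (Fin 2) F[X]) 1 0 ≠ 0 ∨ -(M : Matrix (Fin 2) (Fin 2) F[X]) 0 0 ≠ 0 := by
      rcases col_ne_zero M with h | h
      · exact Or.inr (neg_ne_zero.mpr h)
      · exact Or.inl h
    have hM'' : ¬ ((M : Matrix (Fin 2) (Fin 2) F[X]) 1 0 ≠ 0 ∧
        (-(M : Matrix (Fin 2) (Fin 2) F[X]) 0 0).natDegree =
          ((M : Matrix (Fin 2) (Fin 2) F[X]) 1 0).natDegree + (i.down + 1)) := by
      rw [natDegree_neg]; exact hM'
    have key := fwd (i.down + 1) (by omega) _ _ hcol hM''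
    change ((aMat F i.down)⁻¹ * M) ∈ setY F i
    have h1 : (((aMat F i.down)⁻¹ * M : Matrix.SpecialLinearGroup (Fin 2) F[X]) : Matrix (Fin 2) (Fin 2) F[X]) 0 0 =
        -(X ^ (i.down + 1) * (M : Matrix (Fin 2) (Fin 2) F[X]) 1 0 + -(M : Matrix (Fin 2) (Fin 2) F[X]) 0 0) := by
      rw [Matrix.SpecialLinearGroup.coe_mul, aMat_inv_coe, Matrix.mul_apply, Fin.sum_univ_two]
      simp
    have h2 : (((aMat F i.down)⁻¹ * M : Matrix.SpecialLinearGroup (Fin 2) F[X]) : Matrix (Fin 2) (Fin 2) F[X]) 1 0 =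
        (1 + X ^ (i.down + 1) * X ^ (i.down + 1)) * (M : Matrix (Fin 2) (Fin 2) F[X]) 1 0 +
          X ^ (i.down + 1) * -(M : Matrix (Fin 2) (Fin 2) F[X]) 0 0 := by
      rw [Matrix.SpecialLinearGroup.coe_mul, aMat_inv_coe, Matrix.mul_apply, Fin.sum_univ_two]
      simp
      ring
    refine ⟨?_, ?_⟩
    · rw [h1]
      exact neg_ne_zero.mpr key.1
    · rw [h1, h2, natDegree_neg]
      exact key.2

def dle (A : Matrix (Fin 2) (Fin 2) F[X]) (d : ℕ) : Prop := ∀ i j, (A i j).natDegree ≤ d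

variable {F}

theorem dle_mul {A B : Matrix (Fin 2) (Fin 2) F[X]} {d e : ℕ} (hA : dle F A d) (hB : dle F B e) :
    dle F (A * B) (d + e) := by
  intro i j
  rw [Matrix.mul_apply, Fin.sum_univ_two]
  exact natDegree_add_le_of_degree_le (natDegree_mul_le_of_le (hA i 0) (hB 0 j))
    (natDegree_mul_le_of_le (hA i 1) (hB 1 j))

theorem dle_one : dle F (1 : Matrix (Fin 2) (Fin 2) F[X]) 0 := by
  intro i j
  rw [Matrix.one_apply]
  split_ifs <;> simp

variable (F)

theorem natDegree_g_le (k : ℕ) : (1 + X ^ k * X ^ k : F[X]).natDegree ≤ 2 * k := by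
  have hg : (1 + X ^ k * X ^ k : F[X]) = X ^ (2 * k) + C 1 := by
    rw [map_one]; ring
  rw [hg]
  exact natDegree_X_pow_add_C.le

theorem dle_aMat (i : ℕ) : dle F (aMat F i : Matrix (Fin 2) (Fin 2) F[X]) (2 * (i + 1)) := by
  intro r c
  rw [aMat_coe]
  have h1 := natDegree_g_le F (i + 1)
  have h2 : (X ^ (i + 1) : F[X]).natDegree ≤ 2 * (i + 1) := by
    rw [natDegree_X_pow]; omega
  fin_cases r <;> fin_cases c <;> (simp; try assumption)

theorem dle_aMat_inv (i : ℕ) :
    dle F (((aMat F i)⁻¹ : Matrix.SpecialLinearGroup (Fin 2) F[X]) : Matrix (Fin 2) (Fin 2) F[X]) (2 * (i + 1)) := by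
  intro r c
  rw [aMat_inv_coe]
  have h1 := natDegree_g_le F (i + 1)
  have h2 : (X ^ (i + 1) : F[X]).natDegree ≤ 2 * (i + 1) := by
    rw [natDegree_X_pow]; omega
  fin_cases r <;> fin_cases c <;> (simp; try assumption)

def degB (L : List (ℕ × Bool)) : ℕ := (L.map (fun x => 2 * (x.1 + 1))).sum

theorem dle_word (L : List (ℕ × Bool)) :
    dle F (((L.map fun x => cond x.2 (aMat F x.1) (aMat F x.1)⁻¹).prod :
      Matrix.SpecialLinearGroup (Fin 2) F[X]) : Matrix (Fin 2) (Fin 2) F[X]) (degB L) := by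
  induction L with
  | nil =>
    simp only [List.map_nil, List.prod_nil, degB, List.sum_nil]
    exact dle_one
  | cons x L ih =>
    rw [List.map_cons, List.prod_cons, Matrix.SpecialLinearGroup.coe_mul]
    have hd : degB (x :: L) = 2 * (x.1 + 1) + degB L := by
      simp [degB]
    rw [hd]
    refine dle_mul ?_ ih
    rcases x with ⟨i, b⟩
    cases b
    · exact dle_aMat_inv F i
    · exact dle_aMat F i

theorem dle_lift (w : FreeGroup ℕ) :
    dle F ((FreeGroup.lift (aMat F) w : Matrix.SpecialLinearGroup (Fin 2) F[X]) : Matrix (Fin 2) (Fin 2) F[X])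
      (degB w.toWord) := by
  have h := dle_word F w.toWord
  have h2 : FreeGroup.lift (aMat F) w = (w.toWord.map fun x => cond x.2 (aMat F x.1) (aMat F x.1)⁻¹).prod := by
    conv_lhs => rw [← FreeGroup.mk_toWord (x := w)]
    rw [FreeGroup.lift_mk]
  rw [h2]
  exact h

theorem lift_ne_one (w : FreeGroup ℕ) (hw : w ≠ 1) : FreeGroup.lift (aMat F) w ≠ 1 := by
  have h1 : (FreeGroup.lift (fun i : ULift.{u} ℕ => aMat F i.down)).comp
      (FreeGroup.map (ULift.up : ℕ → ULift.{u} ℕ)) = FreeGroup.lift (aMat F) := by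
    ext i
    simp
  have h2 : Function.Injective (FreeGroup.map (ULift.up : ℕ → ULift.{u} ℕ)) := by
    have h3 : (FreeGroup.map (ULift.down : ULift.{u} ℕ → ℕ)).comp (FreeGroup.map (ULift.up : ℕ → ULift.{u} ℕ)) =
        MonoidHom.id _ := by
      ext i
      simp
    intro a b hab
    have := congrArg (FreeGroup.map (ULift.down : ULift.{u} ℕ → ℕ)) hab
    have ha := DFunLike.congr_fun h3 a
    have hb := DFunLike.congr_fun h3 b
    simp only [MonoidHom.comp_apply, MonoidHom.id_apply] at ha hb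
    rw [ha, hb] at this
    exact this
  intro h
  rw [← h1, MonoidHom.comp_apply] at h
  have h4 := lift_injective F (h.trans (map_one _).symm)
  exact hw (h2 (h4.trans (map_one _).symm))

end Field

theorem exists_sq_ne_one (w : FreeGroup ℕ) (hw : w ≠ 1) :
    ∃ D : ℕ, ∀ (F : Type u) [Field F] [Fintype F], D < Fintype.card F →
      ∃ g : ℕ → Matrix.SpecialLinearGroup (Fin 2) F, (FreeGroup.lift g w) ^ 2 ≠ 1 := by
  refine ⟨degB (w ^ 2).toWord, ?_⟩
  intro F _ _ hcard
  have hw2 : w ^ 2 ≠ 1 := by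
    intro h
    have h1 : (fun a : FreeGroup ℕ => a ^ 2) w = (fun a : FreeGroup ℕ => a ^ 2) 1 := by
      simpa using h
    exact hw (pow_left_injective (by norm_num) h1)
  have hV := lift_ne_one F (w ^ 2) hw2
  have hdeg := dle_lift F (w ^ 2)
  set V := FreeGroup.lift (aMat F) (w ^ 2) with hVdef
  have hex : ∃ i j, (V : Matrix (Fin 2) (Fin 2) F[X]) i j ≠ (1 : Matrix (Fin 2) (Fin 2) F[X]) i j := by
    by_contra hcon
    push Not at hcon
    apply hV
    apply Subtype.ext
    apply Matrix.ext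
    intro i j
    exact hcon i j
  obtain ⟨i, j, hij⟩ := hex
  set P : F[X] := (V : Matrix (Fin 2) (Fin 2) F[X]) i j - (1 : Matrix (Fin 2) (Fin 2) F[X]) i j with hP
  have hP0 : P ≠ 0 := sub_ne_zero.mpr hij
  have hPdeg : P.natDegree ≤ degB (w ^ 2).toWord := by
    refine (natDegree_sub_le _ _).trans (max_le (hdeg i j) ?_)
    exact le_trans (dle_one i j) (Nat.zero_le _)
  have hext : ∃ t : F, P.eval t ≠ 0 := by
    by_contra hcon
    push Not at hcon
    apply hP0
    apply eq_zero_of_natDegree_lt_card_of_eval_eq_zero' P Finset.univ (fun t _ => hcon t)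
    rw [Finset.card_univ]
    omega
  obtain ⟨t, ht⟩ := hext
  let φ : Matrix.SpecialLinearGroup (Fin 2) F[X] →* Matrix.SpecialLinearGroup (Fin 2) F :=
    Matrix.SpecialLinearGroup.map (evalRingHom t)
  refine ⟨fun i => φ (aMat F i), ?_⟩
  have hφ : FreeGroup.lift (fun i => φ (aMat F i)) = φ.comp (FreeGroup.lift (aMat F)) := by
    ext i
    simp
  rw [hφ, MonoidHom.comp_apply, ← map_pow, ← map_pow, ← hVdef]
  intro h1
  apply ht
  have h2 := congrArg (fun M : Matrix.SpecialLinearGroup (Fin 2) F => (M : Matrix (Fin 2) (Fin 2) F) i j) h1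
  simp only [φ, Matrix.SpecialLinearGroup.map_apply_coe, RingHom.mapMatrix_apply, Matrix.map_apply,
    Matrix.SpecialLinearGroup.coe_one] at h2
  rw [hP, eval_sub]
  have h3 : ((1 : Matrix (Fin 2) (Fin 2) F[X]) i j).eval t = (1 : Matrix (Fin 2) (Fin 2) F) i j := by
    rw [Matrix.one_apply, Matrix.one_apply]
    split_ifs <;> simp
  rw [h3]
  rw [coe_evalRingHom] at h2
  rw [h2, sub_self]

end Cfsg.Agent.Lib.Helper14.FreeSL2
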