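import Mathlib
import Cfsg.Agent.Lib.Helper14.Spec3a

set_option autoImplicit false
set_option linter.style.haveILetI false
set_option linter.unusedSectionVars false

namespace Cfsg.Agent.Lib.Helper14.Inv3

open Cfsg.Agent.Lib.Helper14.Spec3

variable {K : Type*} [Field K]

theorem adj3 (A : Matrix (Fin 3) (Fin 3) K) :
    A.adjugate = A * A - A.trace • A + A.adjugate.trace • (1 : Matrix (Fin 3) (Fin 3) K) := by
  ext i j
  fin_cases i <;> fin_cases j <;>
    simp [Matrix.mul_apply, Fin.sum_univ_three, Matrix.adjugate_fin_three,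
      Matrix.trace_fin_three] <;>
    ring

/-- A quasi-idempotent `3 × 3` matrix of trace zero and determinant zero vanishes. -/
theorem qidem_tr0 (h2 : (2 : K) ≠ 0) (P : Matrix (Fin 3) (Fin 3) K) (c : K) (hc : c ≠ 0)
    (hP : P * P = c • P) (htr : P.trace = 0) (hdet : P.det = 0) : P = 0 := by
  have h := adj3 P
  rw [hP, htr, zero_smul, sub_zero] at h
  have ht := congrArg Matrix.trace h
  rw [Matrix.trace_add, Matrix.trace_smul, Matrix.trace_smul, htr, Matrix.trace_one,
    Fintype.card_fin] at ht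
  have he : P.adjugate.trace = 0 := by
    have e : 2 * P.adjugate.trace = 0 := by
      simp only [smul_eq_mul, mul_zero, zero_add] at ht
      push_cast at ht
      linear_combination -ht
    exact (mul_eq_zero.mp e).resolve_left h2
  rw [he, zero_smul, add_zero] at h
  have h3 := Matrix.mul_adjugate P
  rw [h, hdet, zero_smul, Matrix.mul_smul, hP, smul_smul] at h3
  have h4 : (c * c)⁻¹ • ((c * c) • P) = 0 := by rw [h3, smul_zero]
  rw [smul_smul, inv_mul_cancel₀ (mul_ne_zero hc hc), one_smul] at h4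
  exact h4

/-- A quasi-idempotent `3 × 3` matrix whose trace equals its eigenvalue has zero adjugate. -/
theorem qidem_tr1 (h2 : (2 : K) ≠ 0) (P : Matrix (Fin 3) (Fin 3) K) (c : K)
    (hP : P * P = c • P) (htr : P.trace = c) : P.adjugate = 0 ∧ P.det = 0 := by
  have h := adj3 P
  rw [hP, htr, sub_self, zero_add] at h
  have ht := congrArg Matrix.trace h
  rw [Matrix.trace_smul, Matrix.trace_one, Fintype.card_fin] at ht
  have he : P.adjugate.trace = 0 := by
    have e : 2 * P.adjugate.trace = 0 := by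
      simp only [smul_eq_mul] at ht
      push_cast at ht
      linear_combination -ht
    exact (mul_eq_zero.mp e).resolve_left h2
  rw [he, zero_smul] at h
  refine ⟨h, ?_⟩
  have h3 := Matrix.mul_adjugate P
  rw [h, mul_zero] at h3
  have h4 := congrFun (congrFun h3 0) 0
  simpa using h4.symm

theorem inv_trace (M : Matrix (Fin 3) (Fin 3) K) (hdet : M.det = 1)
    (hM : M * M = 1) (hne : M ≠ 1) : M.trace = -1 := by
  have h := cayley3 M hdet
  have e3 : M ^ 3 = M := by
    show M ^ (2 + 1) = M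
    rw [pow_succ, pow_two, hM, one_mul]
  rw [e3, pow_two, hM] at h
  have h1 : (1 + M.adjugate.trace) • M = (1 + M.trace) • (1 : Matrix (Fin 3) (Fin 3) K) := by
    rw [add_smul, add_smul, one_smul, one_smul]
    calc M + M.adjugate.trace • M
        = (M - M.trace • (1 : Matrix (Fin 3) (Fin 3) K) + M.adjugate.trace • M - 1) +
          (1 + M.trace • (1 : Matrix (Fin 3) (Fin 3) K)) := by abel
      _ = 1 + M.trace • (1 : Matrix (Fin 3) (Fin 3) K) := by rw [h, zero_add]
  by_cases hs : 1 + M.adjugate.trace = 0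
  · rw [hs, zero_smul] at h1
    have h4 := congrFun (congrFun h1 0) 0
    simp at h4
    linear_combination -h4
  · exfalso
    obtain ⟨c, hc⟩ : ∃ c : K, M = c • (1 : Matrix (Fin 3) (Fin 3) K) := by
      refine ⟨(1 + M.adjugate.trace)⁻¹ * (1 + M.trace), ?_⟩
      rw [← smul_smul, ← h1, smul_smul, inv_mul_cancel₀ hs, one_smul]
    have hc2 : c * c = 1 := by
      have h5 := hM
      rw [hc, Matrix.smul_mul, Matrix.mul_smul, one_mul, smul_smul] at h5
      have h6 := congrFun (congrFun h5 0) 0
      simpa using h6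
    have hc3 : c ^ 3 = 1 := by
      have h5 := hdet
      rw [hc, Matrix.det_smul, Matrix.det_one, Fintype.card_fin, mul_one] at h5
      exact h5
    have hc1 : c = 1 := by
      have e : c ^ 3 = c * (c * c) := by ring
      rw [e, hc2, mul_one] at hc3
      exact hc3
    apply hne
    rw [hc, hc1, one_smul]

theorem one_add_sq (T : Matrix (Fin 3) (Fin 3) K) (hT : T * T = 1) :
    (1 + T) * (1 + T) = (2 : K) • (1 + T) := by
  rw [add_mul, mul_add, mul_add, one_mul, one_mul, mul_one, hT, two_smul]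
  abel

/-- Two distinct commuting involutions of determinant one: `(1 + T)(1 + X) = 0`. -/
theorem inv_pair (h2 : (2 : K) ≠ 0) (T X : Matrix (Fin 3) (Fin 3) K) (hTd : T.det = 1)
    (hT : T * T = 1) (hT1 : T ≠ 1) (hXd : X.det = 1) (hX : X * X = 1) (hX1 : X ≠ 1)
    (hTX : T * X = X * T) (hne : T ≠ X) : (1 + T) * (1 + X) = 0 := by
  have htT := inv_trace T hTd hT hT1
  have htX := inv_trace X hXd hX hX1
  have hTXsq : (T * X) * (T * X) = 1 := by
    rw [mul_assoc, ← mul_assoc X T X, ← hTX, mul_assoc T X X, hX, mul_one, hT]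
  have hTX1 : T * X ≠ 1 := by
    intro h
    apply hne
    have h' : T * (T * X) = T := by rw [h, mul_one]
    rw [← mul_assoc, hT, one_mul] at h'
    exact h'.symm
  have htTX := inv_trace (T * X) (by rw [Matrix.det_mul, hTd, hXd, mul_one]) hTXsq hTX1
  have hcomm : (1 + X) * (1 + T) = (1 + T) * (1 + X) := by
    rw [add_mul, mul_add, mul_add, add_mul, mul_add, mul_add, hTX]
    simp only [one_mul, mul_one]
    abel
  have hQT := qidem_tr1 h2 (1 + T) 2 (one_add_sq T hT) (by
    rw [Matrix.trace_add, Matrix.trace_one, Fintype.card_fin, htT]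
    push_cast
    ring)
  apply qidem_tr0 h2 _ 4 (by
    have e : (4 : K) = 2 * 2 := by norm_num
    rw [e]
    exact mul_ne_zero h2 h2)
  · calc (1 + T) * (1 + X) * ((1 + T) * (1 + X))
        = (1 + T) * ((1 + X) * (1 + T)) * (1 + X) := by simp only [mul_assoc]
      _ = (1 + T) * ((1 + T) * (1 + X)) * (1 + X) := by rw [hcomm]
      _ = ((1 + T) * (1 + T)) * ((1 + X) * (1 + X)) := by simp only [mul_assoc]
      _ = (4 : K) • ((1 + T) * (1 + X)) := by
          rw [one_add_sq T hT, one_add_sq X hX, Matrix.smul_mul, Matrix.mul_smul, smul_smul]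
          norm_num
  · have e : (1 + T) * (1 + X) = 1 + T + X + T * X := by
      rw [add_mul, mul_add, mul_add, one_mul, one_mul, mul_one]
      abel
    rw [e, Matrix.trace_add, Matrix.trace_add, Matrix.trace_add, Matrix.trace_one,
      Fintype.card_fin, htT, htX, htTX]
    push_cast
    ring
  · rw [Matrix.det_mul, hQT.2, zero_mul]

/-- Three pairwise distinct, pairwise commuting involutions of determinant one. -/
theorem inv_triple (h2 : (2 : K) ≠ 0) (T X Y : Matrix (Fin 3) (Fin 3) K) (hTd : T.det = 1)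
    (hT : T * T = 1) (hT1 : T ≠ 1) (hXd : X.det = 1) (hX : X * X = 1) (hX1 : X ≠ 1)
    (hYd : Y.det = 1) (hY : Y * Y = 1) (hY1 : Y ≠ 1)
    (hTX : T * X = X * T) (hTY : T * Y = Y * T) (hXY : X * Y = Y * X)
    (hneTX : T ≠ X) (hneTY : T ≠ Y) (hneXY : X ≠ Y) : Y = T * X := by
  have htT := inv_trace T hTd hT hT1
  have htX := inv_trace X hXd hX hX1
  have htY := inv_trace Y hYd hY hY1
  have pTX := inv_pair h2 T X hTd hT hT1 hXd hX hX1 hTX hneTX
  have pXT := inv_pair h2 X T hXd hX hX1 hTd hT hT1 hTX.symm (Ne.symm hneTX)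
  have pTY := inv_pair h2 T Y hTd hT hT1 hYd hY hY1 hTY hneTY
  have pYT := inv_pair h2 Y T hYd hY hY1 hTd hT hT1 hTY.symm (Ne.symm hneTY)
  have pXY := inv_pair h2 X Y hXd hX hX1 hYd hY hY1 hXY hneXY
  have pYX := inv_pair h2 Y X hYd hY hY1 hXd hX hX1 hXY.symm (Ne.symm hneXY)
  obtain ⟨W, hW⟩ : ∃ W : Matrix (Fin 3) (Fin 3) K,
      W = (1 + T) + (1 + X) + (1 + Y) - (2 : K) • (1 : Matrix (Fin 3) (Fin 3) K) := ⟨_, rfl⟩
  have hWT : W * (1 + T) = 0 := by
    rw [hW, sub_mul, add_mul, add_mul, one_add_sq T hT, pXT, pYT, Matrix.smul_mul, one_mul]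
    simp
  have hWX : W * (1 + X) = 0 := by
    rw [hW, sub_mul, add_mul, add_mul, one_add_sq X hX, pTX, pYX, Matrix.smul_mul, one_mul]
    simp
  have hWY : W * (1 + Y) = 0 := by
    rw [hW, sub_mul, add_mul, add_mul, one_add_sq Y hY, pTY, pXY, Matrix.smul_mul, one_mul]
    simp
  have hWW : W * W = (-2 : K) • W := by
    have e : W * W = W * (1 + T) + W * (1 + X) + W * (1 + Y) -
        W * ((2 : K) • (1 : Matrix (Fin 3) (Fin 3) K)) := by
      nth_rewrite 2 [hW]
      rw [mul_sub, mul_add, mul_add]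
    rw [e, hWT, hWX, hWY, Matrix.mul_smul, mul_one]
    simp
  have hWtr : W.trace = 0 := by
    rw [hW, Matrix.trace_sub, Matrix.trace_add, Matrix.trace_add, Matrix.trace_add,
      Matrix.trace_add, Matrix.trace_add, Matrix.trace_smul, Matrix.trace_one, Fintype.card_fin,
      htT, htX, htY]
    simp only [smul_eq_mul]
    push_cast
    ring
  have hWdet : W.det = 0 := by
    by_contra hd
    have hu : IsUnit W.det := isUnit_iff_ne_zero.mpr hd
    have h1 : W⁻¹ * (W * (1 + T)) = 1 + T := by
      rw [← mul_assoc, Matrix.nonsing_inv_mul W hu, one_mul]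
    rw [hWT, mul_zero] at h1
    have h3 := congrArg Matrix.trace h1
    rw [Matrix.trace_zero, Matrix.trace_add, Matrix.trace_one, Fintype.card_fin, htT] at h3
    apply h2
    push_cast at h3
    linear_combination -h3
  have hW0 := qidem_tr0 h2 W (-2) (neg_ne_zero.mpr h2) hWW hWtr hWdet
  have e1 : 1 + T + X + Y = 0 := by
    rw [hW] at hW0
    have e : (1 + T) + (1 + X) + (1 + Y) - (2 : K) • (1 : Matrix (Fin 3) (Fin 3) K) =
        1 + T + X + Y := by
      rw [two_smul]
      abel
    rw [e] at hW0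
    exact hW0
  have e2 : 1 + T + X + T * X = 0 := by
    rw [← pTX, add_mul, mul_add, mul_add, one_mul, one_mul, mul_one]
    abel
  have e3 : Y - T * X = 0 := by
    calc Y - T * X = (1 + T + X + Y) - (1 + T + X + T * X) := by abel
      _ = 0 := by rw [e1, e2, sub_zero]
  exact sub_eq_zero.mp e3

end Cfsg.Agent.Lib.Helper14.Inv3
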