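import Mathlib
import Cfsg.Agent.Lib.Helper14.Inv3a
import Cfsg.Agent.Lib.Helper2.Unitary2
import Cfsg.Agent.S2644

set_option autoImplicit false
set_option linter.style.haveILetI false
set_option linter.unusedSectionVars false

namespace Cfsg.Agent.Lib.Helper14.Inv3

open Cfsg.Agent.Lib.Helper2.Unitary Cfsg.Agent.Lib.Helper2.HermCount Matrix

variable {F : Type*} [Field F] [Fintype F]

theorem mat_ext_mulVec {n : ℕ} (A B : Matrix (Fin n) (Fin n) F)
    (h : ∀ x : Fin n → F, A *ᵥ x = B *ᵥ x) : A = B := by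
  ext i j
  have := congrFun (h (Pi.single j 1)) i
  rw [Matrix.mulVec_single_one, Matrix.mulVec_single_one] at this
  exact this

theorem two_pow_q {q : ℕ} (hF : Fintype.card F = q ^ 2) : (2 : F) ^ q = 2 := by
  have := map_ofNat (frob hF) 2
  rwa [frob_apply] at this

/-- The involution attached to a unit vector. -/
def imat (q : ℕ) (u : Fin 3 → F) : Matrix (Fin 3) (Fin 3) F :=
  -(Cfsg.unitaryTransvection 3 q u (-2))

theorem imat_mulVec (q : ℕ) (u x : Fin 3 → F) :
    imat q u *ᵥ x = (2 * Cfsg.hermForm 3 F q x u) • u - x := by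
  unfold imat
  rw [Matrix.neg_mulVec, qr_mulVec]
  module

theorem imat_isU {q : ℕ} (hF : Fintype.card F = q ^ 2) (u : Fin 3 → F)
    (hu : Cfsg.hermForm 3 F q u u = 1) : IsU 3 q (imat q u) := by
  intro x y
  rw [imat_mulVec, imat_mulVec, H_sub_left, H_sub_right hF, H_sub_right hF, H_smul_left,
    H_smul_left, H_smul_right, H_smul_right, mul_pow, two_pow_q hF, H_conj hF 3 y u, hu]
  ring

theorem imat_det {q : ℕ} (u : Fin 3 → F)
    (hu : Cfsg.hermForm 3 F q u u = 1) : (imat q u).det = 1 := by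
  unfold imat
  rw [Matrix.det_neg, Cfsg.Agent.S2644.det_ut, hu, Fintype.card_fin]
  ring

theorem imat_sq {q : ℕ} (u : Fin 3 → F)
    (hu : Cfsg.hermForm 3 F q u u = 1) : imat q u * imat q u = 1 := by
  apply mat_ext_mulVec
  intro x
  rw [← Matrix.mulVec_mulVec, imat_mulVec, imat_mulVec, H_sub_left, H_smul_left, hu,
    Matrix.one_mulVec]
  module

theorem imat_trace {q : ℕ} (u : Fin 3 → F)
    (hu : Cfsg.hermForm 3 F q u u = 1) : (imat q u).trace = -1 := by
  unfold imat Cfsg.unitaryTransvection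
  rw [Matrix.trace_neg, Matrix.trace_add, Matrix.trace_smul, Matrix.trace_vecMulVec,
    Matrix.trace_one, Fintype.card_fin]
  have : u ⬝ᵥ (fun j => u j ^ q) = Cfsg.hermForm 3 F q u u := rfl
  rw [this, hu]
  simp only [smul_eq_mul]
  push_cast
  ring

theorem imat_ne_one {q : ℕ} (h2 : (2 : F) ≠ 0) (u : Fin 3 → F)
    (hu : Cfsg.hermForm 3 F q u u = 1) : imat q u ≠ 1 := by
  intro h
  have ht := imat_trace u hu
  rw [h, Matrix.trace_one, Fintype.card_fin] at ht
  have e : (2 : F) * 2 = 0 := by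
    push_cast at ht
    linear_combination ht
  rcases mul_eq_zero.mp e with h | h <;> exact h2 h

theorem imat_conj_isU {q : ℕ} (g : Matrix (Fin 3) (Fin 3) F) (hg : IsU 3 q g) (u : Fin 3 → F) :
    g * imat q u = imat q (g *ᵥ u) * g := by
  apply mat_ext_mulVec
  intro x
  rw [← Matrix.mulVec_mulVec, ← Matrix.mulVec_mulVec, imat_mulVec, imat_mulVec, hg,
    Matrix.mulVec_sub, Matrix.mulVec_smul]

theorem imat_smul {q : ℕ} (c : F) (hc : c * c ^ q = 1) (u : Fin 3 → F) :
    imat q (c • u) = imat q u := by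
  apply mat_ext_mulVec
  intro x
  rw [imat_mulVec, imat_mulVec, H_smul_right, smul_smul]
  congr 2
  linear_combination (2 * Cfsg.hermForm 3 F q x u) * hc

theorem imat_fiber {q : ℕ} (h2 : (2 : F) ≠ 0) (u w : Fin 3 → F)
    (hw : Cfsg.hermForm 3 F q w w = 1) (h : imat q u = imat q w) :
    w = Cfsg.hermForm 3 F q w u • u := by
  have h1 : imat q u *ᵥ w = imat q w *ᵥ w := by rw [h]
  rw [imat_mulVec, imat_mulVec, hw] at h1
  have h3 : (2 : F) • w = (2 : F) • (Cfsg.hermForm 3 F q w u • u) := by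
    rw [smul_smul]
    have : (2 * Cfsg.hermForm 3 F q w u) • u =
        ((2 * Cfsg.hermForm 3 F q w u) • u - w) + w := by abel
    rw [this, h1]
    module
  have h4 : (2 : F)⁻¹ • ((2 : F) • w) = (2 : F)⁻¹ • ((2 : F) • (Cfsg.hermForm 3 F q w u • u)) := by
    rw [h3]
  rw [smul_smul, smul_smul, inv_mul_cancel₀ h2, one_smul, one_smul] at h4
  exact h4

/-- The fibre of `u ↦ imat q u` over a point has `q + 1` elements. -/
theorem card_fiber {q : ℕ} (hF : Fintype.card F = q ^ 2) (h2 : (2 : F) ≠ 0) (u₀ : Fin 3 → F)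
    (hu₀ : Cfsg.hermForm 3 F q u₀ u₀ = 1) :
    Nat.card {u : Fin 3 → F // Cfsg.hermForm 3 F q u u = 1 ∧ imat q u = imat q u₀} = q + 1 := by
  rw [← Cfsg.Agent.S0754.result hF (1 : F) one_ne_zero (one_pow q)]
  apply Nat.card_congr
  have key : ∀ u : Fin 3 → F, Cfsg.hermForm 3 F q u u = 1 → imat q u = imat q u₀ →
      u = Cfsg.hermForm 3 F q u u₀ • u₀ := fun u hu h => imat_fiber h2 u₀ u hu h.symm
  exact
    { toFun := fun u => ⟨Cfsg.hermForm 3 F q u.1 u₀, by
        have h := key u.1 u.2.1 u.2.2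
        have h' := u.2.1
        rw [h, H_smul_left, H_smul_right, hu₀, mul_one] at h'
        rw [pow_succ']
        exact h'⟩
      invFun := fun c => ⟨c.1 • u₀, by
        have hc : c.1 * c.1 ^ q = 1 := by
          rw [← pow_succ']
          exact c.2
        refine ⟨?_, imat_smul c.1 hc u₀⟩
        rw [H_smul_left, H_smul_right, hu₀, mul_one]
        exact hc⟩
      left_inv := fun u => by
        apply Subtype.ext
        exact (key u.1 u.2.1 u.2.2).symm
      right_inv := fun c => by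
        apply Subtype.ext
        show Cfsg.hermForm 3 F q (c.1 • u₀) u₀ = c.1
        rw [H_smul_left, hu₀, mul_one] }

end Cfsg.Agent.Lib.Helper14.Inv3
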