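import Mathlib
import Cfsg.Agent.Lib.Helper14.Inv3b

set_option autoImplicit false
set_option linter.style.haveILetI false
set_option linter.unusedSectionVars false

namespace Cfsg.Agent.Lib.Helper14.Inv3

open Cfsg.Agent.Lib.Helper2.Unitary Cfsg.Agent.Lib.Helper2.HermCount Matrix

set_option maxHeartbeats 2000000 in
/-- The `2 × 2` minors through a diagonal entry of a `3 × 3` matrix with zero adjugate vanish. -/
theorem minor_of_adj0 {K : Type*} [Field K] (Q : Matrix (Fin 3) (Fin 3) K)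
    (h : Q.adjugate = 0) : ∀ i j k : Fin 3, Q i k * Q j j = Q i j * Q j k := by
  have e := fun a b => congrFun (congrFun h a) b
  have e00 := e 0 0
  have e01 := e 0 1
  have e02 := e 0 2
  have e10 := e 1 0
  have e11 := e 1 1
  have e12 := e 1 2
  have e20 := e 2 0
  have e21 := e 2 1
  have e22 := e 2 2
  simp [Matrix.adjugate_fin_three] at e00 e01 e02 e10 e11 e12 e20 e21 e22
  intro i j k
  fin_cases i <;> fin_cases j <;> fin_cases k <;>
    (try simp only [Fin.zero_eta, Fin.mk_one, Fin.reduceFinMk, Fin.isValue]) <;>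
    first
    | ring1
    | linear_combination e00
    | linear_combination -e00
    | linear_combination e01
    | linear_combination -e01
    | linear_combination e02
    | linear_combination -e02
    | linear_combination e10
    | linear_combination -e10
    | linear_combination e11
    | linear_combination -e11
    | linear_combination e12
    | linear_combination -e12
    | linear_combination e20
    | linear_combination -e20
    | linear_combination e21
    | linear_combination -e21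
    | linear_combination e22
    | linear_combination -e22

variable {F : Type*} [Field F] [Fintype F]

theorem isU_herm {q : ℕ} (hF : Fintype.card F = q ^ 2) (M : Matrix (Fin 3) (Fin 3) F)
    (hU : IsU 3 q M) (hM : M * M = 1) (i j : Fin 3) : (M i j) ^ q = M j i := by
  have h1 := isU_transpose_mul hF hU
  have h2 : Mᵀ * Mᵀ = 1 := by rw [← Matrix.transpose_mul, hM, Matrix.transpose_one]
  have h3 : M.map (frob hF) = Mᵀ := by
    calc M.map (frob hF) = (Mᵀ * Mᵀ) * M.map (frob hF) := by rw [h2, one_mul]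
      _ = Mᵀ * (Mᵀ * M.map (frob hF)) := by rw [mul_assoc]
      _ = Mᵀ := by rw [h1, mul_one]
  have h4 := congrFun (congrFun h3 i) j
  simpa [frob_apply] using h4

/-- Every involution of `SU₃` is the involution attached to a unit vector. -/
theorem inv_vec {q : ℕ} (hF : Fintype.card F = q ^ 2) (h2 : (2 : F) ≠ 0)
    (M : Matrix (Fin 3) (Fin 3) F) (hU : IsU 3 q M) (hdet : M.det = 1) (hM : M * M = 1)
    (hne : M ≠ 1) : ∃ u : Fin 3 → F, Cfsg.hermForm 3 F q u u = 1 ∧ M = imat q u := by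
  have hq0 : q ≠ 0 := by have := two_le_q hF; omega
  have htr := inv_trace M hdet hM hne
  have hQQ := one_add_sq M hM
  have hQtr : (1 + M).trace = 2 := by
    rw [Matrix.trace_add, Matrix.trace_one, Fintype.card_fin, htr]
    push_cast
    ring
  obtain ⟨hadj, -⟩ := qidem_tr1 h2 (1 + M) 2 hQQ hQtr
  have hmin := minor_of_adj0 (1 + M) hadj
  obtain ⟨Q, hQ⟩ : ∃ Q, Q = 1 + M := ⟨_, rfl⟩
  rw [← hQ] at hQQ hQtr hmin
  have hherm : ∀ i j, (Q i j) ^ q = Q j i := by
    intro i j
    rw [hQ, Matrix.add_apply, Matrix.add_apply, pow_q_add hF, isU_herm hF M hU hM]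
    congr 1
    by_cases hij : i = j
    · subst hij
      simp
    · rw [Matrix.one_apply_ne hij, Matrix.one_apply_ne (Ne.symm hij), zero_pow hq0]
  obtain ⟨j, hj⟩ : ∃ j, Q j j ≠ 0 := by
    by_contra hcon
    push Not at hcon
    have : Q.trace = 0 := by
      rw [Matrix.trace_fin_three, hcon, hcon, hcon]
      ring
    rw [hQtr] at this
    exact h2 this
  have hδq : (Q j j) ^ q = Q j j := hherm j j
  have hc0 : (2 * Q j j)⁻¹ ≠ 0 := inv_ne_zero (mul_ne_zero h2 hj)
  have hcq : ((2 * Q j j)⁻¹) ^ q = (2 * Q j j)⁻¹ := by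
    rw [inv_pow, mul_pow, two_pow_q hF, hδq]
  have hcard := Cfsg.Agent.S0754.result hF _ hc0 hcq
  obtain ⟨⟨μ, hμ⟩⟩ : Nonempty {x : F // x ^ (q + 1) = (2 * Q j j)⁻¹} := by
    have : 0 < Nat.card {x : F // x ^ (q + 1) = (2 * Q j j)⁻¹} := by
      rw [hcard]
      omega
    exact (Nat.card_pos_iff.mp this).1
  have hμ' : μ * μ ^ q = (2 * Q j j)⁻¹ := by
    rw [← pow_succ']
    exact hμ
  obtain ⟨v, hv⟩ : ∃ v : Fin 3 → F, v = fun i => Q i j := ⟨_, rfl⟩
  have hvv : Cfsg.hermForm 3 F q v v = 2 * Q j j := by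
    have h5 := congrFun (congrFun hQQ j) j
    rw [Matrix.mul_apply, Matrix.smul_apply, smul_eq_mul] at h5
    rw [← h5, hv]
    show ∑ i, Q i j * (Q i j) ^ q = ∑ i, Q j i * Q i j
    apply Finset.sum_congr rfl
    intro i _
    rw [hherm i j]
    ring
  have hQx : ∀ x : Fin 3 → F, Q *ᵥ x = ((Q j j)⁻¹ * Cfsg.hermForm 3 F q x v) • v := by
    intro x
    funext i
    rw [Matrix.mulVec, dotProduct, Pi.smul_apply, smul_eq_mul, Cfsg.hermForm, Finset.mul_sum,
      Finset.sum_mul]
    apply Finset.sum_congr rfl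
    intro k _
    rw [hv]
    show Q i k * x k = (Q j j)⁻¹ * (x k * (Q k j) ^ q) * Q i j
    rw [hherm k j]
    have := hmin i j k
    field_simp
    linear_combination x k * this
  refine ⟨μ • v, ?_, ?_⟩
  · rw [H_smul_left, H_smul_right, hvv, ← mul_assoc, hμ']
    exact inv_mul_cancel₀ (mul_ne_zero h2 hj)
  · apply mat_ext_mulVec
    intro x
    have hMx : M *ᵥ x = Q *ᵥ x - x := by
      rw [hQ, Matrix.add_mulVec, Matrix.one_mulVec]
      abel
    rw [hMx, hQx, imat_mulVec, H_smul_right, smul_smul]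
    congr 2
    have : 2 * (μ ^ q * Cfsg.hermForm 3 F q x v) * μ =
        (2 * Cfsg.hermForm 3 F q x v) * (μ * μ ^ q) := by ring
    rw [this, hμ']
    field_simp

/-- The involutions attached to two unit vectors are conjugate under `SU₃`. -/
theorem imat_conj {q : ℕ} (hF : Fintype.card F = q ^ 2) (u w : Fin 3 → F)
    (hu : Cfsg.hermForm 3 F q u u = 1) (hw : Cfsg.hermForm 3 F q w w = 1) :
    ∃ g : Matrix (Fin 3) (Fin 3) F, IsU 3 q g ∧ g.det = 1 ∧ g * imat q u = imat q w * g := by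
  obtain ⟨g₀, hg₀, hg₀u⟩ := exists_isU_map' hF 3 u w hu hw
  have hδ := det_norm hF hg₀
  have hδ0 : g₀.det ≠ 0 := by
    intro h
    rw [h, zero_mul] at hδ
    exact zero_ne_one hδ
  have hδ' : g₀.det⁻¹ * (g₀.det⁻¹) ^ q = 1 := by rw [inv_pow, ← mul_inv, hδ, inv_one]
  have hw0 : Cfsg.hermForm 3 F q w w ≠ 0 := by
    rw [hw]
    exact one_ne_zero
  obtain ⟨hD, hDdet⟩ := Cfsg.Agent.S2644.dil hF w hw0 g₀.det⁻¹ hδ'
  obtain ⟨D, hDdef⟩ : ∃ D, D =
      Cfsg.unitaryTransvection 3 q w ((g₀.det⁻¹ - 1) / Cfsg.hermForm 3 F q w w) := ⟨_, rfl⟩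
  rw [← hDdef] at hD hDdet
  have hDw : D *ᵥ w = g₀.det⁻¹ • w := by
    rw [hDdef, qr_mulVec, hw, div_one, mul_one]
    module
  refine ⟨D * g₀, isU_mul hD hg₀, by rw [Matrix.det_mul, hDdet, inv_mul_cancel₀ hδ0], ?_⟩
  rw [mul_assoc, imat_conj_isU g₀ hg₀ u, hg₀u, ← mul_assoc, imat_conj_isU D hD w, hDw,
    imat_smul _ hδ' w, mul_assoc]

end Cfsg.Agent.Lib.Helper14.Inv3
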