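import Mathlib
import Cfsg.Agent.Lib.Helper14.Inv3c

set_option autoImplicit false
set_option linter.style.haveILetI false
set_option linter.unusedSectionVars false

namespace Cfsg.Agent.Lib.Helper14.Inv3

open Cfsg.Agent.Lib.Helper2.Unitary Cfsg.Agent.Lib.Helper2.HermCount Matrix

variable {F : Type*} [Field F] [Fintype F]

theorem H_symm_zero {q : ℕ} (hF : Fintype.card F = q ^ 2) {n : ℕ} (u w : Fin n → F)
    (h : Cfsg.hermForm n F q w u = 0) : Cfsg.hermForm n F q u w = 0 := by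
  have hq0 : q ≠ 0 := by have := two_le_q hF; omega
  rw [← H_conj hF n w u, h, zero_pow hq0]

theorem imat_comm_of_perp {q : ℕ} (hF : Fintype.card F = q ^ 2) (u w : Fin 3 → F)
    (h : Cfsg.hermForm 3 F q w u = 0) : imat q u * imat q w = imat q w * imat q u := by
  have h' := H_symm_zero hF u w h
  apply mat_ext_mulVec
  intro x
  simp only [← Matrix.mulVec_mulVec, imat_mulVec, H_sub_left, H_smul_left, h, h']
  module

theorem imat_comm_iff {q : ℕ} (hF : Fintype.card F = q ^ 2) (h2 : (2 : F) ≠ 0)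
    (u w : Fin 3 → F) (hu : Cfsg.hermForm 3 F q u u = 1) (hw : Cfsg.hermForm 3 F q w w = 1) :
    imat q u * imat q w = imat q w * imat q u ↔
      (imat q u = imat q w ∨ Cfsg.hermForm 3 F q w u = 0) := by
  constructor
  · intro hc
    by_cases he : imat q u = imat q w
    · exact Or.inl he
    · right
      have h0 := inv_pair h2 (imat q u) (imat q w) (imat_det u hu) (imat_sq u hu)
        (imat_ne_one h2 u hu) (imat_det w hw) (imat_sq w hw) (imat_ne_one h2 w hw) hc he
      have h3 : ((1 + imat q u) * (1 + imat q w)) *ᵥ w =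
          (4 * Cfsg.hermForm 3 F q w u) • u := by
        simp only [← Matrix.mulVec_mulVec, Matrix.add_mulVec, Matrix.one_mulVec, imat_mulVec, hw,
          H_add_left, H_sub_left, H_smul_left]
        module
      rw [h0, Matrix.zero_mulVec] at h3
      have h4 : Cfsg.hermForm 3 F q ((4 * Cfsg.hermForm 3 F q w u) • u) u = 0 := by
        rw [← h3, H_zero_left]
      rw [H_smul_left, hu, mul_one] at h4
      have h44 : (4 : F) ≠ 0 := by
        have e : (4 : F) = 2 * 2 := by norm_num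
        rw [e]
        exact mul_ne_zero h2 h2
      exact (mul_eq_zero.mp h4).resolve_left h44
  · rintro (he | h0)
    · rw [he]
    · exact imat_comm_of_perp hF u w h0

theorem imat_ne_of_perp {q : ℕ} (h2 : (2 : F) ≠ 0) (u w : Fin 3 → F)
    (hw : Cfsg.hermForm 3 F q w w = 1) (h : Cfsg.hermForm 3 F q w u = 0) :
    imat q u ≠ imat q w := by
  intro he
  have := imat_fiber h2 u w hw he
  rw [h, zero_smul] at this
  rw [this, H_zero_left] at hw
  exact zero_ne_one hw

/-- Two orthogonal unit vectors admit no nonzero isotropic vector orthogonal to both. -/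
theorem no_iso_perp {q : ℕ} (hF : Fintype.card F = q ^ 2) (h2 : (2 : F) ≠ 0)
    (u v r : Fin 3 → F) (hu : Cfsg.hermForm 3 F q u u = 1) (hv : Cfsg.hermForm 3 F q v v = 1)
    (huv : Cfsg.hermForm 3 F q v u = 0) (hru : Cfsg.hermForm 3 F q r u = 0)
    (hrv : Cfsg.hermForm 3 F q r v = 0) (hrr : Cfsg.hermForm 3 F q r r = 0) : r = 0 := by
  have hq0 : q ≠ 0 := by have := two_le_q hF; omega
  have hc := imat_comm_of_perp hF u v huv
  have hne := imat_ne_of_perp h2 u v hv huv
  have hT := imat_sq u hu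
  have hX := imat_sq v hv
  obtain ⟨Y, hY⟩ : ∃ Y, Y = imat q u * imat q v := ⟨_, rfl⟩
  have hYsq : Y * Y = 1 := by
    rw [hY]
    calc imat q u * imat q v * (imat q u * imat q v)
        = imat q u * (imat q v * imat q u) * imat q v := by simp only [mul_assoc]
      _ = imat q u * (imat q u * imat q v) * imat q v := by rw [hc]
      _ = (imat q u * imat q u) * (imat q v * imat q v) := by simp only [mul_assoc]
      _ = 1 := by rw [hT, hX, one_mul]
  have hY1 : Y ≠ 1 := by
    intro h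
    apply hne
    have e : imat q u = (imat q u * imat q v) * imat q v := by rw [mul_assoc, hX, mul_one]
    rw [e, ← hY, h, one_mul]
  have hYU : IsU 3 q Y := by
    rw [hY]
    exact isU_mul (imat_isU hF u hu) (imat_isU hF v hv)
  have hYdet : Y.det = 1 := by rw [hY, Matrix.det_mul, imat_det u hu, imat_det v hv, mul_one]
  obtain ⟨z, hz, hYz⟩ := inv_vec hF h2 Y hYU hYdet hYsq hY1
  have h1 : Y *ᵥ r = r := by
    rw [hY]
    simp only [← Matrix.mulVec_mulVec, imat_mulVec, H_sub_left, H_smul_left, hru, hrv]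
    module
  rw [hYz, imat_mulVec] at h1
  obtain ⟨c, hc'⟩ : ∃ c : F, r = c • z := by
    refine ⟨Cfsg.hermForm 3 F q r z, ?_⟩
    have h3 : (2 : F) • r = (2 : F) • (Cfsg.hermForm 3 F q r z • z) := by
      rw [smul_smul]
      have : (2 * Cfsg.hermForm 3 F q r z) • z =
          ((2 * Cfsg.hermForm 3 F q r z) • z - r) + r := by abel
      rw [this, h1]
      module
    have h4 : (2 : F)⁻¹ • ((2 : F) • r) =
        (2 : F)⁻¹ • ((2 : F) • (Cfsg.hermForm 3 F q r z • z)) := by rw [h3]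
    rw [smul_smul, smul_smul, inv_mul_cancel₀ h2, one_smul, one_smul] at h4
    exact h4
  rw [hc', H_smul_left, H_smul_right, hz, mul_one] at hrr
  have hc0 : c = 0 := by
    rcases mul_eq_zero.mp hrr with h | h
    · exact h
    · exact (pow_eq_zero_iff hq0).mp h
  rw [hc', hc0, zero_smul]

/-- The conjugated cross product. -/
def cr (q : ℕ) (u w : Fin 3 → F) : Fin 3 → F :=
  ![(u 1 * w 2 - u 2 * w 1) ^ q, (u 2 * w 0 - u 0 * w 2) ^ q, (u 0 * w 1 - u 1 * w 0) ^ q]

theorem H_cr_left {q : ℕ} (hF : Fintype.card F = q ^ 2) (u w : Fin 3 → F) :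
    Cfsg.hermForm 3 F q u (cr q u w) = 0 := by
  simp only [Cfsg.hermForm, Fin.sum_univ_three, cr, Matrix.cons_val_zero, Matrix.cons_val_one,
    Matrix.cons_val_two, Matrix.head_cons, Matrix.tail_cons, pow_q_pow_q hF]
  ring

theorem H_cr_right {q : ℕ} (hF : Fintype.card F = q ^ 2) (u w : Fin 3 → F) :
    Cfsg.hermForm 3 F q w (cr q u w) = 0 := by
  simp only [Cfsg.hermForm, Fin.sum_univ_three, cr, Matrix.cons_val_zero, Matrix.cons_val_one,
    Matrix.cons_val_two, Matrix.head_cons, Matrix.tail_cons, pow_q_pow_q hF]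
  ring

theorem H_cr_self {q : ℕ} (hF : Fintype.card F = q ^ 2) (u w : Fin 3 → F) :
    Cfsg.hermForm 3 F q (cr q u w) (cr q u w) =
      Cfsg.hermForm 3 F q u u * Cfsg.hermForm 3 F q w w -
        Cfsg.hermForm 3 F q w u * Cfsg.hermForm 3 F q u w := by
  simp only [Cfsg.hermForm, Fin.sum_univ_three, cr, Matrix.cons_val_zero, Matrix.cons_val_one,
    Matrix.cons_val_two, Matrix.head_cons, Matrix.tail_cons, pow_q_pow_q hF, pow_q_sub hF, mul_pow]
  ring

theorem exists_normalize {q : ℕ} (hF : Fintype.card F = q ^ 2) {n : ℕ} (v : Fin n → F)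
    (hv : Cfsg.hermForm n F q v v ≠ 0) :
    ∃ μ : F, Cfsg.hermForm n F q (μ • v) (μ • v) = 1 := by
  have hδq : (Cfsg.hermForm n F q v v) ^ q = Cfsg.hermForm n F q v v := H_conj hF n v v
  have hcard := Cfsg.Agent.S0754.result hF (Cfsg.hermForm n F q v v)⁻¹ (inv_ne_zero hv)
    (by rw [inv_pow, hδq])
  obtain ⟨⟨μ, hμ⟩⟩ : Nonempty {x : F // x ^ (q + 1) = (Cfsg.hermForm n F q v v)⁻¹} := by
    have : 0 < Nat.card {x : F // x ^ (q + 1) = (Cfsg.hermForm n F q v v)⁻¹} := by
      rw [hcard]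
      omega
    exact (Nat.card_pos_iff.mp this).1
  refine ⟨μ, ?_⟩
  rw [H_smul_left, H_smul_right, ← mul_assoc, ← pow_succ', hμ, inv_mul_cancel₀ hv]

/-- A common unit vector orthogonal to two unit vectors spanning a nondegenerate plane. -/
theorem exists_perp {q : ℕ} (hF : Fintype.card F = q ^ 2) (u w : Fin 3 → F)
    (hu : Cfsg.hermForm 3 F q u u = 1) (hw : Cfsg.hermForm 3 F q w w = 1)
    (hN : Cfsg.hermForm 3 F q w u * Cfsg.hermForm 3 F q u w ≠ 1) :
    ∃ v : Fin 3 → F, Cfsg.hermForm 3 F q v v = 1 ∧ Cfsg.hermForm 3 F q v u = 0 ∧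
      Cfsg.hermForm 3 F q v w = 0 := by
  have h0 : Cfsg.hermForm 3 F q (cr q u w) (cr q u w) ≠ 0 := by
    rw [H_cr_self hF, hu, hw, mul_one]
    intro h
    apply hN
    linear_combination -h
  obtain ⟨μ, hμ⟩ := exists_normalize hF _ h0
  refine ⟨μ • cr q u w, hμ, ?_, ?_⟩
  · rw [H_smul_left, H_symm_zero hF _ _ (H_cr_left hF u w), mul_zero]
  · rw [H_smul_left, H_symm_zero hF _ _ (H_cr_right hF u w), mul_zero]

/-- In the degenerate case there is a unit vector orthogonal to `u` spanning a nondegenerate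
plane with `w`. -/
theorem exists_mid {q : ℕ} (hF : Fintype.card F = q ^ 2) (h2 : (2 : F) ≠ 0) (u w : Fin 3 → F)
    (hu : Cfsg.hermForm 3 F q u u = 1) (hw : Cfsg.hermForm 3 F q w w = 1)
    (hN : Cfsg.hermForm 3 F q w u * Cfsg.hermForm 3 F q u w = 1)
    (hne : w ≠ Cfsg.hermForm 3 F q w u • u) :
    ∃ v : Fin 3 → F, Cfsg.hermForm 3 F q v v = 1 ∧ Cfsg.hermForm 3 F q v u = 0 ∧
      Cfsg.hermForm 3 F q w v * Cfsg.hermForm 3 F q v w ≠ 1 := by
  have hq0 : q ≠ 0 := by have := two_le_q hF; omega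
  obtain ⟨r, hr⟩ : ∃ r, r = w - Cfsg.hermForm 3 F q w u • u := ⟨_, rfl⟩
  have hr0 : r ≠ 0 := by
    rw [hr]
    intro h
    exact hne (sub_eq_zero.mp h)
  have huw : Cfsg.hermForm 3 F q u w = (Cfsg.hermForm 3 F q w u) ^ q := (H_conj hF 3 w u).symm
  have hru : Cfsg.hermForm 3 F q r u = 0 := by
    rw [hr, H_sub_left, H_smul_left, hu, mul_one, sub_self]
  have hrr : Cfsg.hermForm 3 F q r r = 0 := by
    rw [hr, H_sub_left, H_sub_right hF, H_sub_right hF, H_smul_left, H_smul_left, H_smul_right,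
      H_smul_right, hu, hw]
    rw [huw] at hN ⊢
    linear_combination -hN
  obtain ⟨g, hg, hge⟩ := exists_isU_map' hF 3 (Pi.single 0 1) u
    (by rw [H_single_right hF]; simp) hu
  obtain ⟨v₁, hv₁⟩ : ∃ v₁ : Fin 3 → F, v₁ = g *ᵥ (Pi.single 1 1) := ⟨_, rfl⟩
  have hv₁v₁ : Cfsg.hermForm 3 F q v₁ v₁ = 1 := by
    rw [hv₁, hg, H_single_right hF]
    simp
  have hv₁u : Cfsg.hermForm 3 F q v₁ u = 0 := by
    rw [hv₁, ← hge, hg, H_single_right hF]
    simp
  have hb : Cfsg.hermForm 3 F q v₁ r ≠ 0 := by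
    intro h
    exact hr0 (no_iso_perp hF h2 u v₁ r hu hv₁v₁ hv₁u hru (H_symm_zero hF r v₁ h) hrr)
  have hxw : ∀ x : Fin 3 → F, Cfsg.hermForm 3 F q x u = 0 →
      Cfsg.hermForm 3 F q w x * Cfsg.hermForm 3 F q x w =
        (Cfsg.hermForm 3 F q x r) ^ q * Cfsg.hermForm 3 F q x r := by
    intro x hx
    have e : Cfsg.hermForm 3 F q x w = Cfsg.hermForm 3 F q x r := by
      rw [hr, H_sub_right hF, H_smul_right, hx, mul_zero, sub_zero]
    rw [← H_conj hF 3 x w, e]
  by_cases hN1 : (Cfsg.hermForm 3 F q v₁ r) ^ q * Cfsg.hermForm 3 F q v₁ r = 1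
  · have hm1 : ((-1 : F)) ^ q = -1 := by rw [pow_q_neg hF, one_pow]
    have hcard := Cfsg.Agent.S0754.result hF (-1 : F) (neg_ne_zero.mpr one_ne_zero) hm1
    obtain ⟨⟨a, ha⟩⟩ : Nonempty {x : F // x ^ (q + 1) = -1} := by
      have : 0 < Nat.card {x : F // x ^ (q + 1) = -1} := by
        rw [hcard]
        omega
      exact (Nat.card_pos_iff.mp this).1
    have ha' : a * a ^ q = -1 := by
      rw [← pow_succ']
      exact ha
    have ha0 : a ≠ 0 := by
      rintro rfl
      rw [zero_mul] at ha'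
      exact neg_ne_zero.mpr one_ne_zero ha'.symm
    obtain ⟨b, hbdef⟩ : ∃ b, b = Cfsg.hermForm 3 F q v₁ r := ⟨_, rfl⟩
    rw [← hbdef] at hb hN1
    obtain ⟨c, hc⟩ : ∃ c, c = ((a * b)⁻¹) ^ q := ⟨_, rfl⟩
    have hcq : c ^ q = (a * b)⁻¹ := by rw [hc, pow_q_pow_q hF]
    have hab : a * b ≠ 0 := mul_ne_zero ha0 hb
    have e1 : c * (a ^ q * b ^ q) = 1 := by
      have : c * (a ^ q * b ^ q) = (c ^ q * (a * b)) ^ q := by
        rw [mul_pow, mul_pow, pow_q_pow_q hF]
      rw [this, hcq, inv_mul_cancel₀ hab, one_pow]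
    have e2 : a * ((a * b)⁻¹ * b) = 1 := by
      field_simp
    have hvu : Cfsg.hermForm 3 F q (a • v₁ + c • r) u = 0 := by
      rw [H_add_left, H_smul_left, H_smul_left, hv₁u, hru]
      ring
    have hvr : Cfsg.hermForm 3 F q (a • v₁ + c • r) r = a * b := by
      rw [H_add_left, H_smul_left, H_smul_left, hrr, ← hbdef]
      ring
    refine ⟨a • v₁ + c • r, ?_, hvu, ?_⟩
    · have hrv : Cfsg.hermForm 3 F q r v₁ = b ^ q := by rw [hbdef, H_conj hF]
      simp only [H_add_left, H_add_right hF, H_smul_left, H_smul_right, hv₁v₁, hrr, hcq, hrv,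
        ← hbdef]
      linear_combination ha' + e2 + e1
    · rw [hxw _ hvu, hvr, mul_pow]
      intro h
      have h3 : (a * a ^ q) * (b ^ q * b) = 1 := by linear_combination h
      rw [ha', hN1] at h3
      have h4 : (2 : F) = 0 := by linear_combination -h3
      exact h2 h4
  · refine ⟨v₁, hv₁v₁, hv₁u, ?_⟩
    rw [hxw v₁ hv₁u]
    exact hN1

end Cfsg.Agent.Lib.Helper14.Inv3
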