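import Mathlib
import Cfsg.Agent.Lib.Helper14.Inv3d

set_option autoImplicit false
set_option linter.style.haveILetI false
set_option linter.unusedSectionVars false

namespace Cfsg.Agent.Lib.Helper14.Inv3

open Cfsg.Agent.Lib.Helper2.Unitary Cfsg.Agent.Lib.Helper2.HermCount Matrix

theorem card_split {α : Type*} [Finite α] (p r : α → Prop) :
    Nat.card {x // p x} = Nat.card {x // p x ∧ r x} + Nat.card {x // p x ∧ ¬ r x} := by
  classical
  haveI := Fintype.ofFinite α
  rw [Nat.card_eq_fintype_card, Nat.card_eq_fintype_card, Nat.card_eq_fintype_card,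
    Fintype.card_subtype, Fintype.card_subtype, Fintype.card_subtype]
  have e1 : Finset.univ.filter (fun x => p x ∧ r x) = (Finset.univ.filter p).filter r :=
    (Finset.filter_filter p r Finset.univ).symm
  have e2 : Finset.univ.filter (fun x => p x ∧ ¬ r x) =
      (Finset.univ.filter p).filter (fun x => ¬ r x) :=
    (Finset.filter_filter p _ Finset.univ).symm
  rw [e1, e2, Finset.card_filter_add_card_filter_not]

variable {F : Type*} [Field F] [Fintype F]

theorem card_transport {q : ℕ} (hF : Fintype.card F = q ^ 2) (g : Matrix (Fin 3) (Fin 3) F)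
    (hg : IsU 3 q g) (P : (Fin 3 → F) → Prop) :
    Nat.card {w : Fin 3 → F // P (g *ᵥ w)} = Nat.card {w : Fin 3 → F // P w} := by
  have hdet := (Matrix.isUnit_iff_isUnit_det g).mp (isUnit_of_isU hF hg)
  apply Nat.card_congr
  exact
    { toFun := fun w => ⟨g *ᵥ w.1, w.2⟩
      invFun := fun w => ⟨g⁻¹ *ᵥ w.1, by
        rw [Matrix.mulVec_mulVec, Matrix.mul_nonsing_inv g hdet, Matrix.one_mulVec]
        exact w.2⟩
      left_inv := fun w => by
        apply Subtype.ext
        show g⁻¹ *ᵥ (g *ᵥ w.1) = w.1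
        rw [Matrix.mulVec_mulVec, Matrix.nonsing_inv_mul g hdet, Matrix.one_mulVec]
      right_inv := fun w => by
        apply Subtype.ext
        show g *ᵥ (g⁻¹ *ᵥ w.1) = w.1
        rw [Matrix.mulVec_mulVec, Matrix.mul_nonsing_inv g hdet, Matrix.one_mulVec] }

theorem H3_succ (q : ℕ) (w : Fin 3 → F) :
    Cfsg.hermForm 3 F q w w = w 0 * (w 0) ^ q + ∑ i : Fin 2, w i.succ * (w i.succ) ^ q :=
  H_succ 2 q w w

/-- The number of unit vectors orthogonal to a unit vector. -/
theorem card_perp {q : ℕ} (hF : Fintype.card F = q ^ 2) (u : Fin 3 → F)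
    (hu : Cfsg.hermForm 3 F q u u = 1) :
    Nat.card {w : Fin 3 → F // Cfsg.hermForm 3 F q w w = 1 ∧ Cfsg.hermForm 3 F q w u = 0} =
      (ZU q 2).2 := by
  obtain ⟨g, hg, hge⟩ := exists_isU_map' hF 3 (Pi.single 0 1) u
    (by rw [H_single_right hF]; simp) hu
  rw [← card_transport hF g hg
    (fun w => Cfsg.hermForm 3 F q w w = 1 ∧ Cfsg.hermForm 3 F q w u = 0)]
  have h1 := card_herm hF 2 (1 : F) (one_pow q)
  rw [if_neg one_ne_zero] at h1
  rw [← h1]
  have key : ∀ w : Fin 3 → F, (Cfsg.hermForm 3 F q (g *ᵥ w) (g *ᵥ w) = 1 ∧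
      Cfsg.hermForm 3 F q (g *ᵥ w) u = 0) ↔
      (w 0 = 0 ∧ ∑ i : Fin 2, w i.succ * (w i.succ) ^ q = 1) := by
    intro w
    have e1 : Cfsg.hermForm 3 F q (g *ᵥ w) u = w 0 := by
      rw [← hge, hg, H_single_right hF]
    rw [hg, e1, H3_succ]
    constructor
    · rintro ⟨h1, h0⟩
      refine ⟨h0, ?_⟩
      rw [h0, zero_mul, zero_add] at h1
      exact h1
    · rintro ⟨h0, h1⟩
      refine ⟨?_, h0⟩
      rw [h0, zero_mul, zero_add]
      exact h1
  apply Nat.card_congr
  exact
    { toFun := fun w => ⟨fun i => w.1 i.succ, ((key w.1).mp w.2).2⟩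
      invFun := fun v => ⟨Fin.cons 0 v.1, (key _).mpr ⟨by simp, by simpa using v.2⟩⟩
      left_inv := fun w => by
        apply Subtype.ext
        funext i
        refine Fin.cases ?_ (fun j => ?_) i
        · show (Fin.cons 0 (fun i : Fin 2 => w.1 i.succ) : Fin 3 → F) 0 = w.1 0
          rw [Fin.cons_zero]
          exact ((key w.1).mp w.2).1.symm
        · show (Fin.cons 0 (fun i : Fin 2 => w.1 i.succ) : Fin 3 → F) j.succ = w.1 j.succ
          rw [Fin.cons_succ]
      right_inv := fun v => by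
        apply Subtype.ext
        funext i
        show (Fin.cons 0 v.1 : Fin 3 → F) i.succ = v.1 i
        rw [Fin.cons_succ] }

theorem card_iso2 {q : ℕ} (hF : Fintype.card F = q ^ 2) :
    Nat.card {v : Fin 2 → F // ∑ i, v i * (v i) ^ q = 0 ∧ v ≠ 0} = (ZU q 2).1 - 1 := by
  have hq0 : q ≠ 0 := by have := two_le_q hF; omega
  have h1 := card_herm hF 2 (0 : F) (zero_pow hq0)
  rw [if_pos rfl] at h1
  have h3 := card_split (fun v : Fin 2 → F => ∑ i, v i * (v i) ^ q = 0) (fun v => v = 0)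
  have h4 : Nat.card {v : Fin 2 → F // ∑ i, v i * (v i) ^ q = 0 ∧ v = 0} = 1 := by
    rw [Nat.card_eq_one_iff_unique]
    exact ⟨⟨fun a b => Subtype.ext (a.2.2.trans b.2.2.symm)⟩, ⟨⟨0, by simp, rfl⟩⟩⟩
  rw [h1, h4] at h3
  have h5 : Nat.card {v : Fin 2 → F // ∑ i, v i * (v i) ^ q = 0 ∧ v ≠ 0} =
      Nat.card {v : Fin 2 → F // ∑ i, v i * (v i) ^ q = 0 ∧ ¬ v = 0} := rfl
  rw [h5]
  omega

/-- The number of unit vectors spanning a degenerate plane with a unit vector. -/
theorem card_degen {q : ℕ} (hF : Fintype.card F = q ^ 2) (u : Fin 3 → F)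
    (hu : Cfsg.hermForm 3 F q u u = 1) :
    Nat.card {w : Fin 3 → F // Cfsg.hermForm 3 F q w w = 1 ∧
        Cfsg.hermForm 3 F q w u * (Cfsg.hermForm 3 F q w u) ^ q = 1 ∧
        w ≠ Cfsg.hermForm 3 F q w u • u} = (q + 1) * ((ZU q 2).1 - 1) := by
  obtain ⟨g, hg, hge⟩ := exists_isU_map' hF 3 (Pi.single 0 1) u
    (by rw [H_single_right hF]; simp) hu
  rw [← card_transport hF g hg
    (fun w => Cfsg.hermForm 3 F q w w = 1 ∧
        Cfsg.hermForm 3 F q w u * (Cfsg.hermForm 3 F q w u) ^ q = 1 ∧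
        w ≠ Cfsg.hermForm 3 F q w u • u)]
  have hinj : Function.Injective g.mulVec :=
    Matrix.mulVec_injective_iff_isUnit.mpr (isUnit_of_isU hF hg)
  have key : ∀ w : Fin 3 → F, (Cfsg.hermForm 3 F q (g *ᵥ w) (g *ᵥ w) = 1 ∧
      Cfsg.hermForm 3 F q (g *ᵥ w) u * (Cfsg.hermForm 3 F q (g *ᵥ w) u) ^ q = 1 ∧
      g *ᵥ w ≠ Cfsg.hermForm 3 F q (g *ᵥ w) u • u) ↔
      (w 0 * (w 0) ^ q = 1 ∧ ∑ i : Fin 2, w i.succ * (w i.succ) ^ q = 0 ∧
        (fun i : Fin 2 => w i.succ) ≠ 0) := by
    intro w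
    have e1 : Cfsg.hermForm 3 F q (g *ᵥ w) u = w 0 := by
      rw [← hge, hg, H_single_right hF]
    have e3 : g *ᵥ w = w 0 • u ↔ (fun i : Fin 2 => w i.succ) = 0 := by
      rw [← hge, ← Matrix.mulVec_smul]
      constructor
      · intro h
        have h' : w = w 0 • (Pi.single 0 1 : Fin 3 → F) := hinj h
        funext i
        have := congrFun h' i.succ
        simpa using this
      · intro h
        congr 1
        funext i
        refine Fin.cases ?_ (fun j => ?_) i
        · simp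
        · have := congrFun h j
          simpa using this
    rw [hg, e1, H3_succ]
    constructor
    · rintro ⟨h1, h2, h3⟩
      exact ⟨h2, by linear_combination h1 - h2, fun h => h3 (e3.mpr h)⟩
    · rintro ⟨h2, h1, h3⟩
      exact ⟨by linear_combination h1 + h2, h2, fun h => h3 (e3.mp h)⟩
  have hc1 := Cfsg.Agent.S0754.result hF (1 : F) one_ne_zero (one_pow q)
  rw [← hc1, ← card_iso2 hF, ← Nat.card_prod]
  apply Nat.card_congr
  exact
    { toFun := fun w => (⟨w.1 0, by
          rw [pow_succ']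
          exact ((key w.1).mp w.2).1⟩,
        ⟨fun i => w.1 i.succ, ((key w.1).mp w.2).2⟩)
      invFun := fun p => ⟨Fin.cons p.1.1 p.2.1, (key _).mpr
        ⟨by simpa [pow_succ'] using p.1.2, by simpa using p.2.2.1, by simpa using p.2.2.2⟩⟩
      left_inv := fun w => by
        apply Subtype.ext
        funext i
        refine Fin.cases ?_ (fun j => ?_) i
        · show (Fin.cons (w.1 0) (fun i : Fin 2 => w.1 i.succ) : Fin 3 → F) 0 = w.1 0
          rw [Fin.cons_zero]
        · show (Fin.cons (w.1 0) (fun i : Fin 2 => w.1 i.succ) : Fin 3 → F) j.succ = w.1 j.succ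
          rw [Fin.cons_succ]
      right_inv := fun p => by
        apply Prod.ext
        · apply Subtype.ext
          show (Fin.cons p.1.1 p.2.1 : Fin 3 → F) 0 = p.1.1
          rw [Fin.cons_zero]
        · apply Subtype.ext
          funext i
          show (Fin.cons p.1.1 p.2.1 : Fin 3 → F) i.succ = p.2.1 i
          rw [Fin.cons_succ] }

/-- Characterisation of the involutions at distance three. -/
theorem no_common_iff {q : ℕ} (hF : Fintype.card F = q ^ 2) (h2 : (2 : F) ≠ 0)
    (u w : Fin 3 → F) (hu : Cfsg.hermForm 3 F q u u = 1) (hw : Cfsg.hermForm 3 F q w w = 1) :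
    (¬(imat q u * imat q w = imat q w * imat q u) ∧
      ∀ Y : Matrix (Fin 3) (Fin 3) F, Y.det = 1 → IsU 3 q Y → Y ≠ 1 → Y * Y = 1 →
        ¬(imat q u * Y = Y * imat q u ∧ Y * imat q w = imat q w * Y)) ↔
    (Cfsg.hermForm 3 F q w u * (Cfsg.hermForm 3 F q w u) ^ q = 1 ∧
      w ≠ Cfsg.hermForm 3 F q w u • u) := by
  have huw : Cfsg.hermForm 3 F q u w = (Cfsg.hermForm 3 F q w u) ^ q := (H_conj hF 3 w u).symm
  constructor
  · rintro ⟨hnc, hall⟩
    have hne : w ≠ Cfsg.hermForm 3 F q w u • u := by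
      intro h
      apply hnc
      obtain ⟨c, hc⟩ : ∃ c, c = Cfsg.hermForm 3 F q w u := ⟨_, rfl⟩
      rw [← hc] at h
      have hcc : c * c ^ q = 1 := by
        have h' := hw
        rw [h, H_smul_left, H_smul_right, hu, mul_one] at h'
        exact h'
      rw [h, imat_smul c hcc u]
    refine ⟨?_, hne⟩
    by_contra hN
    obtain ⟨v, hv, hvu, hvw⟩ := exists_perp hF u w hu hw (by rw [huw]; exact hN)
    exact hall (imat q v) (imat_det v hv) (imat_isU hF v hv) (imat_ne_one h2 v hv) (imat_sq v hv)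
      ⟨imat_comm_of_perp hF u v hvu, imat_comm_of_perp hF v w (H_symm_zero hF w v hvw)⟩
  · rintro ⟨hN, hne⟩
    have hnc : ¬(imat q u * imat q w = imat q w * imat q u) := by
      intro hc
      rcases (imat_comm_iff hF h2 u w hu hw).mp hc with he | h0
      · exact hne (imat_fiber h2 u w hw he)
      · rw [h0, zero_mul] at hN
        exact zero_ne_one hN
    refine ⟨hnc, ?_⟩
    rintro Y hYd hYU hY1 hY2 ⟨hc1, hc2⟩
    obtain ⟨v, hv, rfl⟩ := inv_vec hF h2 Y hYU hYd hY2 hY1
    rcases (imat_comm_iff hF h2 u v hu hv).mp hc1 with he | hvu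
    · rw [← he] at hc2
      exact hnc hc2
    · rcases (imat_comm_iff hF h2 v w hv hw).mp hc2 with he | hwv
      · rw [he] at hc1
        exact hnc hc1
      · obtain ⟨r, hr⟩ : ∃ r, r = w - Cfsg.hermForm 3 F q w u • u := ⟨_, rfl⟩
        have hru : Cfsg.hermForm 3 F q r u = 0 := by
          rw [hr, H_sub_left, H_smul_left, hu, mul_one, sub_self]
        have hrv : Cfsg.hermForm 3 F q r v = 0 := by
          rw [hr, H_sub_left, H_smul_left, hwv, H_symm_zero hF u v hvu, mul_zero, sub_zero]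
        have hrr : Cfsg.hermForm 3 F q r r = 0 := by
          rw [hr, H_sub_left, H_sub_right hF, H_sub_right hF, H_smul_left, H_smul_left,
            H_smul_right, H_smul_right, hu, hw, huw]
          linear_combination -hN
        have hr0 := no_iso_perp hF h2 u v r hu hv hvu hru hrv hrr
        rw [hr] at hr0
        exact hne (sub_eq_zero.mp hr0)

end Cfsg.Agent.Lib.Helper14.Inv3
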