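import Mathlib
import Cfsg.Prelude.Def_Classical

set_option autoImplicit false

namespace Cfsg.Agent.Lib.Helper14.LawEmb

open Matrix

/-! ### permutation matrices -/

theorem permHom_mulVec {m : ℕ} {F : Type*} [CommRing F] (σ : Equiv.Perm (Fin m))
    (v : Fin m → F) :
    (Matrix.permMatrixHom (R := F) σ) *ᵥ v = v ∘ (σ⁻¹ : Equiv.Perm (Fin m)) := by
  rw [Matrix.permMatrixHom_apply, Matrix.permMatrix_mulVec]

theorem det_permHom {m : ℕ} {F : Type*} [CommRing F] (σ : Equiv.Perm (Fin m)) :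
    det (Matrix.permMatrixHom (R := F) σ) = ((Equiv.Perm.sign σ : ℤˣ) : ℤ) := by
  rw [Matrix.permMatrixHom_apply, Matrix.det_permutation, Equiv.Perm.sign_inv]

theorem permHom_injective {m : ℕ} {F : Type*} [CommRing F] [Nontrivial F] :
    Function.Injective (Matrix.permMatrixHom (R := F) (n := Fin m)) := by
  intro σ τ h
  have h1 : ∀ v : Fin m → F, v ∘ (σ⁻¹ : Equiv.Perm (Fin m)) = v ∘ (τ⁻¹ : Equiv.Perm (Fin m)) := by
    intro v
    rw [← permHom_mulVec, ← permHom_mulVec, h]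
  have h2 : σ⁻¹ = τ⁻¹ := by
    ext i
    have h3 := congrFun (h1 (Pi.single (σ⁻¹ i) 1)) i
    simp only [Function.comp_apply, Pi.single_eq_same] at h3
    by_contra hne
    rw [Pi.single_apply, if_neg (fun hh => hne (by rw [hh]))] at h3
    exact one_ne_zero h3
  exact inv_injective h2

/-! ### block embedding `A ↦ A ⊕ 1` on `Fin (k + j)` -/

/-- the block embedding. -/
def blockHom (k j : ℕ) (F : Type*) [CommRing F] :
    Matrix (Fin k) (Fin k) F →* Matrix (Fin (k + j)) (Fin (k + j)) F where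
  toFun A := Matrix.reindex finSumFinEquiv finSumFinEquiv (fromBlocks A 0 0 (1 : Matrix (Fin j) (Fin j) F))
  map_one' := by
    rw [fromBlocks_one]
    simp
  map_mul' A B := by
    simp only [Matrix.reindex_apply]
    rw [Matrix.submatrix_mul_equiv, fromBlocks_multiply]
    simp

theorem blockHom_apply (k j : ℕ) (F : Type*) [CommRing F] (A : Matrix (Fin k) (Fin k) F) :
    blockHom k j F A = Matrix.reindex finSumFinEquiv finSumFinEquiv
      (fromBlocks A 0 0 (1 : Matrix (Fin j) (Fin j) F)) := rfl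

theorem det_blockHom (k j : ℕ) (F : Type*) [CommRing F] (A : Matrix (Fin k) (Fin k) F) :
    det (blockHom k j F A) = det A := by
  rw [blockHom_apply, Matrix.det_reindex_self, det_fromBlocks_zero₂₁, det_one, mul_one]

theorem blockHom_injective (k j : ℕ) (F : Type*) [CommRing F] :
    Function.Injective (blockHom k j F) := by
  intro A B h
  rw [blockHom_apply, blockHom_apply] at h
  have h2 := (Matrix.reindex finSumFinEquiv finSumFinEquiv).injective h
  exact (fromBlocks_inj.1 h2).1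

theorem blockHom_mulVec_castAdd (k j : ℕ) (F : Type*) [CommRing F] (A : Matrix (Fin k) (Fin k) F)
    (v : Fin (k + j) → F) (a : Fin k) :
    (blockHom k j F A *ᵥ v) (Fin.castAdd j a) = (A *ᵥ (fun i => v (Fin.castAdd j i))) a := by
  rw [blockHom_apply, Matrix.reindex_apply, Matrix.submatrix_mulVec_equiv, fromBlocks_mulVec]
  simp only [Function.comp_apply, Equiv.symm_symm, Matrix.zero_mulVec, add_zero]
  rw [show (finSumFinEquiv.symm (Fin.castAdd j a) : Fin k ⊕ Fin j) = Sum.inl a from by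
    rw [Equiv.symm_apply_eq]; rfl]
  rfl

theorem blockHom_mulVec_natAdd (k j : ℕ) (F : Type*) [CommRing F] (A : Matrix (Fin k) (Fin k) F)
    (v : Fin (k + j) → F) (b : Fin j) :
    (blockHom k j F A *ᵥ v) (Fin.natAdd k b) = v (Fin.natAdd k b) := by
  rw [blockHom_apply, Matrix.reindex_apply, Matrix.submatrix_mulVec_equiv, fromBlocks_mulVec]
  simp only [Function.comp_apply, Equiv.symm_symm, Matrix.zero_mulVec, zero_add, Matrix.one_mulVec]
  rw [show (finSumFinEquiv.symm (Fin.natAdd k b) : Fin k ⊕ Fin j) = Sum.inr b from by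
    rw [Equiv.symm_apply_eq]; rfl]
  rfl

/-! ### the Levi embedding `A ↦ A ⊕ A⁻ᵀ` -/

/-- the Levi embedding into matrices. -/
def leviHom0 (m : ℕ) (F : Type*) [CommRing F] :
    Matrix.GeneralLinearGroup (Fin m) F →* Matrix (Fin m ⊕ Fin m) (Fin m ⊕ Fin m) F where
  toFun A := fromBlocks (A : Matrix (Fin m) (Fin m) F) 0 0
    ((A⁻¹ : Matrix.GeneralLinearGroup (Fin m) F) : Matrix (Fin m) (Fin m) F)ᵀ
  map_one' := by
    simp [fromBlocks_one]
  map_mul' A B := by
    rw [fromBlocks_multiply]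
    simp [Matrix.transpose_mul]

theorem leviHom0_apply (m : ℕ) (F : Type*) [CommRing F] (A : Matrix.GeneralLinearGroup (Fin m) F) :
    leviHom0 m F A = fromBlocks (A : Matrix (Fin m) (Fin m) F) 0 0
      ((A⁻¹ : Matrix.GeneralLinearGroup (Fin m) F) : Matrix (Fin m) (Fin m) F)ᵀ := rfl

theorem leviHom0_injective (m : ℕ) (F : Type*) [CommRing F] :
    Function.Injective (leviHom0 m F) := by
  intro A B h
  rw [leviHom0_apply, leviHom0_apply] at h
  exact Units.ext (fromBlocks_inj.1 h).1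

theorem leviHom0_mem_symp (m : ℕ) (F : Type*) [CommRing F]
    (A : Matrix.GeneralLinearGroup (Fin m) F) :
    leviHom0 m F A ∈ Matrix.symplecticGroup (Fin m) F := by
  rw [leviHom0_apply, SymplecticGroup.fromBlocks_mem_iff]
  refine ⟨by simp, by simp, ?_⟩
  rw [← Matrix.transpose_mul]
  simp

theorem quadFormPlus_levi (m : ℕ) (F : Type*) [Field F]
    (A : Matrix.GeneralLinearGroup (Fin m) F) (v : Fin m ⊕ Fin m → F) :
    Cfsg.quadFormPlus m F (leviHom0 m F A *ᵥ v) = Cfsg.quadFormPlus m F v := by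
  rw [leviHom0_apply, fromBlocks_mulVec]
  simp only [Cfsg.quadFormPlus, Matrix.zero_mulVec, add_zero, zero_add, Sum.elim_inl, Sum.elim_inr]
  have h1 : ∑ i : Fin m, ((A : Matrix (Fin m) (Fin m) F) *ᵥ (v ∘ Sum.inl)) i *
      (((A⁻¹ : Matrix.GeneralLinearGroup (Fin m) F) : Matrix (Fin m) (Fin m) F)ᵀ *ᵥ (v ∘ Sum.inr)) i
      = ((A : Matrix (Fin m) (Fin m) F) *ᵥ (v ∘ Sum.inl)) ⬝ᵥ
        (((A⁻¹ : Matrix.GeneralLinearGroup (Fin m) F) : Matrix (Fin m) (Fin m) F)ᵀ *ᵥ
          (v ∘ Sum.inr)) := rfl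
  rw [h1, Matrix.dotProduct_mulVec, Matrix.vecMul_transpose, Matrix.mulVec_mulVec]
  have h2 : ((A⁻¹ : Matrix.GeneralLinearGroup (Fin m) F) : Matrix (Fin m) (Fin m) F) *
      (A : Matrix (Fin m) (Fin m) F) = 1 := by
    rw [← Units.val_mul, inv_mul_cancel, Units.val_one]
  rw [h2, Matrix.one_mulVec]
  rfl

/-! ### adding identity blocks on the left or on the right -/

/-- `g ↦ 1 ⊕ g`. -/
def inrHom0 (ι κ : Type*) [Fintype ι] [DecidableEq ι] [Fintype κ] [DecidableEq κ]
    (F : Type*) [CommRing F] : Matrix κ κ F →* Matrix (ι ⊕ κ) (ι ⊕ κ) F where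
  toFun g := fromBlocks 1 0 0 g
  map_one' := fromBlocks_one
  map_mul' A B := by
    rw [fromBlocks_multiply]
    simp

/-- `g ↦ g ⊕ 1`. -/
def inlHom0 (ι κ : Type*) [Fintype ι] [DecidableEq ι] [Fintype κ] [DecidableEq κ]
    (F : Type*) [CommRing F] : Matrix ι ι F →* Matrix (ι ⊕ κ) (ι ⊕ κ) F where
  toFun g := fromBlocks g 0 0 1
  map_one' := fromBlocks_one
  map_mul' A B := by
    rw [fromBlocks_multiply]
    simp

theorem inrHom0_injective (ι κ : Type*) [Fintype ι] [DecidableEq ι] [Fintype κ] [DecidableEq κ]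
    (F : Type*) [CommRing F] : Function.Injective (inrHom0 ι κ F) := by
  intro A B h
  exact (fromBlocks_inj.1 h).2.2.2

theorem inlHom0_injective (ι κ : Type*) [Fintype ι] [DecidableEq ι] [Fintype κ] [DecidableEq κ]
    (F : Type*) [CommRing F] : Function.Injective (inlHom0 ι κ F) := by
  intro A B h
  exact (fromBlocks_inj.1 h).1

theorem inrHom0_mulVec (ι κ : Type*) [Fintype ι] [DecidableEq ι] [Fintype κ] [DecidableEq κ]
    (F : Type*) [CommRing F] (g : Matrix κ κ F) (v : ι ⊕ κ → F) :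
    inrHom0 ι κ F g *ᵥ v = Sum.elim (v ∘ Sum.inl) (g *ᵥ (v ∘ Sum.inr)) := by
  show fromBlocks 1 0 0 g *ᵥ v = _
  rw [fromBlocks_mulVec]
  simp

theorem inlHom0_mulVec (ι κ : Type*) [Fintype ι] [DecidableEq ι] [Fintype κ] [DecidableEq κ]
    (F : Type*) [CommRing F] (g : Matrix ι ι F) (v : ι ⊕ κ → F) :
    inlHom0 ι κ F g *ᵥ v = Sum.elim (g *ᵥ (v ∘ Sum.inl)) (v ∘ Sum.inr) := by
  show fromBlocks g 0 0 1 *ᵥ v = _
  rw [fromBlocks_mulVec]
  simp

end Cfsg.Agent.Lib.Helper14.LawEmb
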