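import Mathlib

set_option autoImplicit false

namespace Cfsg.Agent.Lib.Helper14.Laws

/-- `w` is a law in `G`. -/
def IsLaw (w : FreeGroup ℕ) (G : Type*) [Group G] : Prop :=
  ∀ f : ℕ → G, FreeGroup.lift f w = 1

theorem lift_comp {G H : Type*} [Group G] [Group H] (φ : G →* H) (f : ℕ → G) (w : FreeGroup ℕ) :
    FreeGroup.lift (φ ∘ f) w = φ (FreeGroup.lift f w) := by
  have h : FreeGroup.lift (φ ∘ f) = φ.comp (FreeGroup.lift f) := by
    apply FreeGroup.ext_hom
    intro a
    simp
  rw [h]
  rfl

theorem IsLaw.of_injective {w : FreeGroup ℕ} {K H : Type*} [Group K] [Group H] (φ : K →* H)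
    (hφ : Function.Injective φ) (h : IsLaw w H) : IsLaw w K := by
  intro f
  apply hφ
  rw [← lift_comp, map_one]
  exact h _

theorem IsLaw.of_surjective {w : FreeGroup ℕ} {K H : Type*} [Group K] [Group H] (φ : H →* K)
    (hφ : Function.Surjective φ) (h : IsLaw w H) : IsLaw w K := by
  intro f
  obtain ⟨f', hf'⟩ : ∃ f' : ℕ → H, φ ∘ f' = f :=
    ⟨fun i => (hφ (f i)).choose, funext fun i => (hφ (f i)).choose_spec⟩
  rw [← hf', lift_comp, h f', map_one]

theorem IsLaw.of_equiv {w : FreeGroup ℕ} {K H : Type*} [Group K] [Group H] (e : H ≃* K)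
    (h : IsLaw w H) : IsLaw w K :=
  IsLaw.of_surjective e.toMonoidHom e.surjective h

/-- Laws of the central quotient pass along injective homomorphisms. -/
theorem IsLaw.center_quot {w : FreeGroup ℕ} {K H : Type*} [Group K] [Group H] (φ : K →* H)
    (hφ : Function.Injective φ) (h : IsLaw w (H ⧸ Subgroup.center H)) :
    IsLaw w (K ⧸ Subgroup.center K) := by
  intro f
  obtain ⟨f', hf'⟩ : ∃ f' : ℕ → K, (QuotientGroup.mk' (Subgroup.center K)) ∘ f' = f :=
    ⟨fun i => (QuotientGroup.mk'_surjective _ (f i)).choose,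
      funext fun i => (QuotientGroup.mk'_surjective _ (f i)).choose_spec⟩
  rw [← hf', lift_comp]
  have h1 := h ((QuotientGroup.mk' (Subgroup.center H)) ∘ (φ ∘ f'))
  rw [lift_comp, lift_comp] at h1
  have h2 : φ (FreeGroup.lift f' w) ∈ Subgroup.center H := (QuotientGroup.eq_one_iff _).1 h1
  have h3 : FreeGroup.lift f' w ∈ Subgroup.center K := by
    rw [Subgroup.mem_center_iff] at h2 ⊢
    intro g
    apply hφ
    rw [map_mul, map_mul, h2 (φ g)]
  exact (QuotientGroup.eq_one_iff _).2 h3

theorem IsLaw.of_center_bot {w : FreeGroup ℕ} {K : Type*} [Group K]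
    (hc : Subgroup.center K = ⊥) (h : IsLaw w (K ⧸ Subgroup.center K)) : IsLaw w K := by
  intro f
  have h1 := h ((QuotientGroup.mk' (Subgroup.center K)) ∘ f)
  rw [lift_comp] at h1
  have h2 : FreeGroup.lift f w ∈ Subgroup.center K := (QuotientGroup.eq_one_iff _).1 h1
  rw [hc, Subgroup.mem_bot] at h2
  exact h2

/-- A perfect group embedded in `O` lands in the commutator subgroup of `O`. -/
theorem IsLaw.of_perfect {w : FreeGroup ℕ} {K O : Type*} [Group K] [Group O] (φ : K →* O)
    (hφ : Function.Injective φ) (hK : _root_.commutator K = ⊤)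
    (h : IsLaw w (↥(_root_.commutator O) ⧸ Subgroup.center ↥(_root_.commutator O))) :
    IsLaw w (K ⧸ Subgroup.center K) := by
  have hmem : ∀ k : K, φ k ∈ _root_.commutator O := by
    intro k
    have hk : k ∈ _root_.commutator K := by rw [hK]; exact Subgroup.mem_top k
    have h1 : (_root_.commutator K).map φ ≤ _root_.commutator O := by
      rw [_root_.commutator_def, _root_.commutator_def, Subgroup.map_commutator]
      exact Subgroup.commutator_mono le_top le_top
    exact h1 (Subgroup.mem_map_of_mem φ hk)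
  let φ' : K →* ↥(_root_.commutator O) := φ.codRestrict _ hmem
  have hφ' : Function.Injective φ' := by
    intro a b hab
    apply hφ
    exact congrArg Subtype.val hab
  exact IsLaw.center_quot φ' hφ' h

/-- cardinality of a quotient of a subobject of a finite type. -/
theorem card_le_of_inj_surj {G H X : Type*} [Finite X] (i : H → X) (hi : Function.Injective i)
    (p : H → G) (hp : Function.Surjective p) : Nat.card G ≤ Nat.card X := by
  have : Finite H := Finite.of_injective i hi
  exact (Nat.card_le_card_of_surjective p hp).trans (Nat.card_le_card_of_injective i hi)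

end Cfsg.Agent.Lib.Helper14.Laws
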