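import Mathlib
import Cfsg.Agent.Lib.Helper14.SSConj3
import Cfsg.Agent.Lib.Helper14.PGraph6

namespace Cfsg.Agent.Lib.Helper14.Nilp

open Polynomial
open Cfsg.Agent.Lib.Helper14.SSConj

universe u v w

variable {F : Type u} [Field F]

/-- Kernel dimension of the `j`-th power. -/
noncomputable def kd {V : Type v} [AddCommGroup V] [Module F V] (N : Module.End F V) (j : ℕ) : ℕ :=
  Module.finrank F (LinearMap.ker (N ^ j))

theorem pow_equivariant {V : Type v} {W : Type w} [AddCommGroup V] [Module F V] [AddCommGroup W]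
    [Module F W] (φ : Module.End F V) (ψ : Module.End F W) (e : V ≃ₗ[F] W)
    (h : ∀ x, e (φ x) = ψ (e x)) (j : ℕ) (x : V) : e ((φ ^ j) x) = (ψ ^ j) (e x) := by
  induction j generalizing x with
  | zero => simp
  | succ k ih =>
    rw [pow_succ, pow_succ, Module.End.mul_apply, Module.End.mul_apply, ih, h]

theorem kd_congr {V : Type v} {W : Type w} [AddCommGroup V] [Module F V] [AddCommGroup W]
    [Module F W] (φ : Module.End F V) (ψ : Module.End F W) (e : V ≃ₗ[F] W)
    (h : ∀ x, e (φ x) = ψ (e x)) (j : ℕ) : kd φ j = kd ψ j := by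
  have h1 : LinearMap.ker (φ ^ j) = (LinearMap.ker (ψ ^ j)).comap (e : V →ₗ[F] W) := by
    ext x
    rw [Submodule.mem_comap, LinearMap.mem_ker, LinearMap.mem_ker, LinearEquiv.coe_coe,
      ← pow_equivariant φ ψ e h j x]
    constructor
    · intro hx
      rw [hx, map_zero]
    · intro hx
      exact e.injective (hx.trans (map_zero e).symm)
  unfold kd
  rw [h1]
  exact (LinearEquiv.ofSubmodule' e (LinearMap.ker (ψ ^ j))).finrank_eq

theorem finrank_ker_prodMap {V : Type v} {W : Type w} [AddCommGroup V] [Module F V]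
    [AddCommGroup W] [Module F W] [FiniteDimensional F V] [FiniteDimensional F W]
    (φ : Module.End F V) (ψ : Module.End F W) :
    Module.finrank F (LinearMap.ker (φ.prodMap ψ))
      = Module.finrank F (LinearMap.ker φ) + Module.finrank F (LinearMap.ker ψ) := by
  rw [← Module.finrank_prod]
  symm
  let f : (LinearMap.ker φ × LinearMap.ker ψ) →ₗ[F] LinearMap.ker (φ.prodMap ψ) :=
    LinearMap.codRestrict _
      ((LinearMap.ker φ).subtype.prodMap (LinearMap.ker ψ).subtype) (by
        rintro ⟨x, y⟩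
        rw [LinearMap.mem_ker]
        show (φ x.1, ψ y.1) = 0
        rw [LinearMap.mem_ker.mp x.2, LinearMap.mem_ker.mp y.2]
        rfl)
  have hf : Function.Bijective f := by
    constructor
    · rintro ⟨x, y⟩ ⟨x', y'⟩ hxy
      have h1 : ((x : V), (y : W)) = ((x' : V), (y' : W)) := congrArg Subtype.val hxy
      rw [Prod.mk.injEq] at h1
      exact Prod.ext (Subtype.ext h1.1) (Subtype.ext h1.2)
    · rintro ⟨⟨x, y⟩, hxy⟩
      have h1 : (φ x, ψ y) = 0 := LinearMap.mem_ker.mp hxy
      rw [Prod.mk_eq_zero] at h1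
      exact ⟨(⟨x, LinearMap.mem_ker.mpr h1.1⟩, ⟨y, LinearMap.mem_ker.mpr h1.2⟩), rfl⟩
  exact (LinearEquiv.ofBijective f hf).finrank_eq

theorem kd_prodMap {V : Type v} {W : Type w} [AddCommGroup V] [Module F V]
    [AddCommGroup W] [Module F W] [FiniteDimensional F V] [FiniteDimensional F W]
    (φ : Module.End F V) (ψ : Module.End F W) (j : ℕ) :
    kd (φ.prodMap ψ) j = kd φ j + kd ψ j := by
  unfold kd
  rw [Cfsg.Agent.Lib.Helper14.PGraph.prodMap_pow, finrank_ker_prodMap]

variable {V : Type v} [AddCommGroup V] [Module F V]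

theorem kd_zero (N : Module.End F V) : kd N 0 = 0 := by
  unfold kd
  rw [pow_zero]
  have : LinearMap.ker (1 : Module.End F V) = ⊥ := LinearMap.ker_id
  rw [this, finrank_bot]

theorem ker_pow_le (N : Module.End F V) (j : ℕ) :
    LinearMap.ker (N ^ j) ≤ LinearMap.ker (N ^ (j + 1)) := by
  intro x hx
  rw [LinearMap.mem_ker] at hx ⊢
  rw [pow_succ', Module.End.mul_apply, hx, map_zero]

theorem kd_le [FiniteDimensional F V] (N : Module.End F V) (j : ℕ) :
    kd N j ≤ Module.finrank F V := Submodule.finrank_le _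

theorem pow_eq_zero_iff_kd [FiniteDimensional F V] (N : Module.End F V) (j : ℕ) :
    N ^ j = 0 ↔ kd N j = Module.finrank F V := by
  constructor
  · intro h
    unfold kd
    rw [h, LinearMap.ker_zero, finrank_top]
  · intro h
    have h1 : LinearMap.ker (N ^ j) = ⊤ := Submodule.eq_top_of_finrank_eq h
    exact LinearMap.ker_eq_top.mp h1

theorem kd_step [FiniteDimensional F V] (N : Module.End F V) (m : ℕ) (hm : N ^ (m + 1) = 0)
    (hm' : N ^ m ≠ 0) (j : ℕ) (hj : j ≤ m) : kd N j < kd N (j + 1) := by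
  by_contra hcon
  push Not at hcon
  have h1 : LinearMap.ker (N ^ j) = LinearMap.ker (N ^ (j + 1)) :=
    Submodule.eq_of_le_of_finrank_le (ker_pow_le N j) hcon
  have h2 := Module.End.ker_pow_constant h1 (m + 1 - j)
  rw [show j + (m + 1 - j) = m + 1 by omega, hm, LinearMap.ker_zero] at h2
  have h3 : N ^ j = 0 := LinearMap.ker_eq_top.mp h2
  apply hm'
  rw [show m = (m - j) + j by omega, pow_add, h3, mul_zero]

theorem kd_chain [FiniteDimensional F V] (N : Module.End F V) (m : ℕ) (hm : N ^ (m + 1) = 0)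
    (hm' : N ^ m ≠ 0) (j i : ℕ) (hji : j + i ≤ m + 1) : kd N j + i ≤ kd N (j + i) := by
  induction i with
  | zero => simp
  | succ k ih =>
    have h1 := ih (by omega)
    have h2 := kd_step N m hm hm' (j + k) (by omega)
    show kd N j + (k + 1) ≤ kd N (j + k + 1)
    omega

/-- Kernel dimensions of a cyclic nilpotent endomorphism. -/
theorem kd_cyclic [FiniteDimensional F V] (N : Module.End F V) (m : ℕ) (hm : N ^ (m + 1) = 0)
    (hm' : N ^ m ≠ 0) (hd : Module.finrank F V = m + 1) (j : ℕ) : kd N j = min (m + 1) j := by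
  have htop : kd N (m + 1) = m + 1 := ((pow_eq_zero_iff_kd N (m + 1)).mp hm).trans hd
  rcases Nat.lt_or_ge j (m + 1) with hj | hj
  · have h1 := kd_chain N m hm hm' 0 j (by omega)
    have h2 := kd_chain N m hm hm' j (m + 1 - j) (by omega)
    rw [show j + (m + 1 - j) = m + 1 by omega, htop] at h2
    rw [zero_add, kd_zero] at h1
    omega
  · have h0 : N ^ j = 0 := by
      rw [show j = (j - (m + 1)) + (m + 1) by omega, pow_add, hm, mul_zero]
    rw [(pow_eq_zero_iff_kd N j).mp h0, hd]
    omega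

theorem finrank_adjoinRoot_X_pow (a : ℕ) :
    Module.finrank F (AdjoinRoot (X ^ a : F[X])) = a := by
  rw [(AdjoinRoot.powerBasis' (monic_X_pow a)).finrank, AdjoinRoot.powerBasis'_dim,
    natDegree_X_pow]

theorem mulRoot_pow (f : F[X]) (j : ℕ) (a : AdjoinRoot f) :
    ((mulRoot f) ^ j) a = (AdjoinRoot.root f) ^ j * a := by
  induction j generalizing a with
  | zero => simp
  | succ k ih =>
    rw [pow_succ, Module.End.mul_apply, ih, pow_succ, mul_assoc]
    rfl

theorem kd_mulRoot (m j : ℕ) [Module.Finite F (AdjoinRoot (X ^ (m + 1) : F[X]))] :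
    kd (mulRoot (X ^ (m + 1) : F[X])) j = min (m + 1) j := by
  apply kd_cyclic _ m
  · have h := aeval_mulRoot (X ^ (m + 1) : F[X])
    rw [map_pow, aeval_X] at h
    exact h
  · intro h0
    have h1 := LinearMap.congr_fun h0 1
    rw [mulRoot_pow, mul_one, LinearMap.zero_apply, ← AdjoinRoot.mk_X, ← map_pow,
      AdjoinRoot.mk_eq_zero] at h1
    have h2 := Polynomial.natDegree_le_of_dvd h1 (pow_ne_zero _ X_ne_zero)
    rw [natDegree_X_pow, natDegree_X_pow] at h2
    omega
  · exact finrank_adjoinRoot_X_pow (m + 1)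

end Cfsg.Agent.Lib.Helper14.Nilp
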