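import Mathlib
import Cfsg.Agent.Lib.Helper14.Nilp1
import Cfsg.Agent.Lib.Helper14.PGraph1

namespace Cfsg.Agent.Lib.Helper14.Nilp

open Polynomial
open Cfsg.Agent.Lib.Helper14.SSConj

universe u v w

variable {F : Type u} [Field F]

variable {V : Type v} [AddCommGroup V] [Module F V]

/-- Peeling off a cyclic summand of maximal length from a nilpotent endomorphism. -/
theorem peel_nil [FiniteDimensional F V] (N : Module.End F V) (m : ℕ) (hm : N ^ (m + 1) = 0)
    (v : V) (hv : (N ^ m) v ≠ 0) :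
    ∃ (U : Submodule F V) (hU : U ∈ N.invtSubmodule)
      (Θ : (AdjoinRoot (X ^ (m + 1) : F[X]) × U) ≃ₗ[F] V),
      ∀ (a : AdjoinRoot (X ^ (m + 1) : F[X])) (u : U),
        N (Θ (a, u)) = Θ (AdjoinRoot.root (X ^ (m + 1) : F[X]) * a, N.restrict hU u) := by
  classical
  have hv0 : (Polynomial.aeval N (X ^ (m + 1) : F[X])) v = 0 := by
    rw [map_pow, Polynomial.aeval_X, hm, LinearMap.zero_apply]
  obtain ⟨φ, hφ⟩ : ∃ φ : Module.Dual F V, φ ((N ^ m) v) ≠ 0 := by
    by_contra hcon
    push Not at hcon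
    exact hv ((Module.forall_dual_apply_eq_zero_iff F _).mp hcon)
  let Ψ : V →ₗ[F] (Fin (m + 1) → F) := LinearMap.pi (fun i => φ ∘ₗ (N ^ (i : ℕ)))
  have hΨ : ∀ x i, Ψ x i = φ ((N ^ (i : ℕ)) x) := fun x i => rfl
  have hU : LinearMap.ker Ψ ∈ N.invtSubmodule := by
    rw [Module.End.mem_invtSubmodule]
    intro x hx
    rw [LinearMap.mem_ker] at hx
    show Ψ (N x) = 0
    funext i
    rw [hΨ, Pi.zero_apply, ← Module.End.mul_apply, ← pow_succ]
    by_cases hi : (i : ℕ) + 1 < m + 1
    · have := congrFun hx ⟨(i : ℕ) + 1, hi⟩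
      rw [hΨ] at this
      exact this
    · have hi' : (i : ℕ) + 1 = m + 1 := by have := i.2; omega
      rw [hi', hm, LinearMap.zero_apply, map_zero]
  have key : ∀ a, Ψ (cyc N v (X ^ (m + 1)) hv0 a) = 0 → a = 0 := by
    intro a ha
    obtain ⟨P, rfl⟩ := AdjoinRoot.mk_surjective a
    rw [AdjoinRoot.mk_eq_zero]
    by_contra hnd
    rw [Polynomial.X_pow_dvd_iff] at hnd
    push Not at hnd
    have hex : ∃ d, d < m + 1 ∧ P.coeff d ≠ 0 := hnd
    have hk : Nat.find hex < m + 1 ∧ P.coeff (Nat.find hex) ≠ 0 := Nat.find_spec hex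
    have hmin : ∀ d < Nat.find hex, P.coeff d = 0 := by
      intro d hd
      by_contra h
      exact Nat.find_min hex hd ⟨by omega, h⟩
    generalize Nat.find hex = k at hk hmin
    obtain ⟨Q, hQ⟩ := Polynomial.X_pow_dvd_iff.mpr hmin
    have hQ0 : Q.coeff 0 = P.coeff k := by
      have := Polynomial.coeff_X_pow_mul Q k 0
      rw [zero_add] at this
      rw [hQ, this]
    have h1 := congrFun ha ⟨m - k, by omega⟩
    rw [hΨ, cyc_mk, Pi.zero_apply] at h1
    have h2 : (N ^ (m - k)) ((Polynomial.aeval N P) v) = Q.coeff 0 • (N ^ m) v := by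
      have hP : P = X ^ k * (X * Q.divX + C (Q.coeff 0)) := by
        rw [Polynomial.X_mul_divX_add, hQ]
      have hP2 : N ^ (m - k) * Polynomial.aeval N P
          = N ^ (m + 1) * Polynomial.aeval N Q.divX + Q.coeff 0 • N ^ m := by
        rw [hP, map_mul, map_pow, aeval_X, map_add, map_mul, aeval_X, aeval_C, ← mul_assoc,
          ← pow_add, show m - k + k = m by omega, mul_add, ← mul_assoc, ← pow_succ,
          Algebra.algebraMap_eq_smul_one, mul_smul_comm, mul_one]
      rw [← Module.End.mul_apply, hP2, hm, zero_mul, zero_add, LinearMap.smul_apply]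
    rw [show ((⟨m - k, by omega⟩ : Fin (m + 1)) : ℕ) = m - k from rfl, h2, map_smul,
      smul_eq_mul, hQ0] at h1
    rcases mul_eq_zero.mp h1 with h | h
    · exact hk.2 h
    · exact hφ h
  have hfin : Module.Finite F (AdjoinRoot (X ^ (m + 1) : F[X])) :=
    (monic_X_pow (m + 1)).finite_adjoinRoot
  have hinj : Function.Injective (Ψ ∘ₗ cyc N v (X ^ (m + 1)) hv0) := by
    rw [injective_iff_map_eq_zero]
    intro a ha
    exact key a ha
  have hsurj : Function.Surjective (Ψ ∘ₗ cyc N v (X ^ (m + 1)) hv0) := by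
    refine (LinearMap.injective_iff_surjective_of_finrank_eq_finrank ?_).mp hinj
    rw [finrank_adjoinRoot_X_pow, Module.finrank_fin_fun]
  have hbij : Function.Bijective
      ((cyc N v (X ^ (m + 1)) hv0).coprod (LinearMap.ker Ψ).subtype) := by
    constructor
    · rw [injective_iff_map_eq_zero]
      rintro ⟨a, u⟩ hau
      have h1 : cyc N v (X ^ (m + 1)) hv0 a + (u : V) = 0 := hau
      have h2 : Ψ (cyc N v (X ^ (m + 1)) hv0 a) = 0 := by
        have h3 := congrArg Ψ h1
        rw [map_add, LinearMap.mem_ker.mp u.2, add_zero, map_zero] at h3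
        exact h3
      have ha : a = 0 := key a h2
      rw [ha, map_zero, zero_add] at h1
      rw [ha]
      exact Prod.ext rfl (Subtype.ext h1)
    · intro x
      obtain ⟨a, ha⟩ := hsurj (Ψ x)
      have hmem : x - cyc N v (X ^ (m + 1)) hv0 a ∈ LinearMap.ker Ψ := by
        rw [LinearMap.mem_ker, map_sub]
        have : Ψ (cyc N v (X ^ (m + 1)) hv0 a) = Ψ x := ha
        rw [this, sub_self]
      refine ⟨(a, ⟨_, hmem⟩), ?_⟩
      show cyc N v (X ^ (m + 1)) hv0 a + (x - cyc N v (X ^ (m + 1)) hv0 a) = x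
      abel
  refine ⟨LinearMap.ker Ψ, hU, LinearEquiv.ofBijective _ hbij, ?_⟩
  intro a u
  show N (cyc N v (X ^ (m + 1)) hv0 a + (u : V))
    = cyc N v (X ^ (m + 1)) hv0 (AdjoinRoot.root (X ^ (m + 1) : F[X]) * a) + N (u : V)
  rw [map_add, cyc_root_mul]

theorem peel_nil_conj (N : Module.End F V) (f : F[X]) (U : Submodule F V)
    (hU : U ∈ N.invtSubmodule) (Θ : (AdjoinRoot f × U) ≃ₗ[F] V)
    (h : ∀ (a : AdjoinRoot f) (u : U),
        N (Θ (a, u)) = Θ (AdjoinRoot.root f * a, N.restrict hU u)) (x : AdjoinRoot f × U) :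
    Θ (((mulRoot f).prodMap (N.restrict hU)) x) = N (Θ x) := by
  obtain ⟨a, u⟩ := x
  rw [h]
  rfl

theorem peel_nil_kd [FiniteDimensional F V] (N : Module.End F V) (m : ℕ) (U : Submodule F V)
    (hU : U ∈ N.invtSubmodule) (Θ : (AdjoinRoot (X ^ (m + 1) : F[X]) × U) ≃ₗ[F] V)
    (h : ∀ (a : AdjoinRoot (X ^ (m + 1) : F[X])) (u : U),
        N (Θ (a, u)) = Θ (AdjoinRoot.root (X ^ (m + 1) : F[X]) * a, N.restrict hU u)) (j : ℕ) :
    kd N j = min (m + 1) j + kd (N.restrict hU) j := by
  have hfin : Module.Finite F (AdjoinRoot (X ^ (m + 1) : F[X])) :=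
    (monic_X_pow (m + 1)).finite_adjoinRoot
  rw [← kd_congr _ N Θ (peel_nil_conj N _ U hU Θ h) j, kd_prodMap, kd_mulRoot]

theorem peel_nil_finrank [FiniteDimensional F V] (m : ℕ) (U : Submodule F V)
    (Θ : (AdjoinRoot (X ^ (m + 1) : F[X]) × U) ≃ₗ[F] V) :
    Module.finrank F V = (m + 1) + Module.finrank F U := by
  have hfin : Module.Finite F (AdjoinRoot (X ^ (m + 1) : F[X])) :=
    (monic_X_pow (m + 1)).finite_adjoinRoot
  rw [← Θ.finrank_eq, Module.finrank_prod, finrank_adjoinRoot_X_pow]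

theorem restrict_nilpotent (N : Module.End F V) (U : Submodule F V) (hU : U ∈ N.invtSubmodule)
    (hN : IsNilpotent N) : IsNilpotent (N.restrict hU) := by
  obtain ⟨k, hk⟩ := hN
  refine ⟨k, ?_⟩
  apply LinearMap.ext
  intro x
  apply Subtype.ext
  rw [Cfsg.Agent.Lib.Helper14.PGraph.restrict_pow_apply, hk]
  rfl

theorem exists_index [Nontrivial V] (N : Module.End F V) (hN : IsNilpotent N) :
    ∃ m, N ^ (m + 1) = 0 ∧ N ^ m ≠ 0 := by
  classical
  have hex : ∃ k, N ^ k = 0 := hN
  have h1 : N ^ (Nat.find hex) = 0 := Nat.find_spec hex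
  have h0 : Nat.find hex ≠ 0 := by
    intro h
    rw [h, pow_zero] at h1
    obtain ⟨x, hx⟩ := exists_ne (0 : V)
    apply hx
    have := LinearMap.congr_fun h1 x
    rwa [Module.End.one_apply, LinearMap.zero_apply] at this
  refine ⟨Nat.find hex - 1, ?_, ?_⟩
  · rw [show Nat.find hex - 1 + 1 = Nat.find hex by omega]
    exact h1
  · exact Nat.find_min hex (by omega)

/-- The kernel dimensions of a nilpotent endomorphism come from a partition. -/
theorem exists_partition : ∀ (d : ℕ) (V : Type v) [AddCommGroup V] [Module F V]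
    [FiniteDimensional F V] (N : Module.End F V), Module.finrank F V = d → IsNilpotent N →
    ∃ l : Multiset ℕ, (∀ a ∈ l, 0 < a) ∧ l.sum = d ∧
      ∀ j, kd N j = (l.map (fun a => min a j)).sum := by
  intro d
  induction d using Nat.strong_induction_on with
  | _ d ih =>
    intro V _ _ _ N hd hN
    rcases Nat.eq_zero_or_pos d with h0 | hpos
    · refine ⟨0, by simp, by simp [h0], ?_⟩
      intro j
      have := kd_le N j
      rw [hd, h0] at this
      simp only [Multiset.map_zero, Multiset.sum_zero]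
      omega
    · have hnt : Nontrivial V := Module.nontrivial_of_finrank_pos (R := F) (by omega)
      obtain ⟨m, hm, hm'⟩ := exists_index N hN
      obtain ⟨v, hv⟩ : ∃ v, (N ^ m) v ≠ 0 := by
        by_contra hcon
        push Not at hcon
        exact hm' (LinearMap.ext hcon)
      obtain ⟨U, hU, Θ, h⟩ := peel_nil N m hm v hv
      have hfr := peel_nil_finrank m U Θ
      obtain ⟨l, hl, hsum, hkd⟩ := ih (Module.finrank F U) (by omega) U (N.restrict hU) rfl
        (restrict_nilpotent N U hU hN)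
      refine ⟨(m + 1) ::ₘ l, ?_, ?_, ?_⟩
      · intro a ha
        rcases Multiset.mem_cons.mp ha with rfl | ha
        · omega
        · exact hl a ha
      · rw [Multiset.sum_cons, hsum]
        omega
      · intro j
        rw [peel_nil_kd N m U hU Θ h j, hkd j, Multiset.map_cons, Multiset.sum_cons]

/-- Nilpotent endomorphisms with the same kernel dimensions are conjugate. -/
theorem conj_of_kd : ∀ (d : ℕ) (V W : Type v) [AddCommGroup V] [Module F V]
    [FiniteDimensional F V] [AddCommGroup W] [Module F W] [FiniteDimensional F W]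
    (N : Module.End F V) (N' : Module.End F W), Module.finrank F V = d → Module.finrank F W = d →
    IsNilpotent N → (∀ j, kd N j = kd N' j) → ∃ e : V ≃ₗ[F] W, ∀ x, e (N x) = N' (e x) := by
  intro d
  induction d using Nat.strong_induction_on with
  | _ d ih =>
    intro V W _ _ _ _ _ _ N N' hd hdW hN hkd
    rcases Nat.eq_zero_or_pos d with h0 | hpos
    · have hsub : Subsingleton W := Module.finrank_zero_iff.mp (hdW.trans h0)
      exact ⟨LinearEquiv.ofFinrankEq V W (hd.trans hdW.symm), fun x => Subsingleton.elim _ _⟩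
    · have hnt : Nontrivial V := Module.nontrivial_of_finrank_pos (R := F) (by omega)
      obtain ⟨m, hm, hm'⟩ := exists_index N hN
      have hmW : N' ^ (m + 1) = 0 := by
        rw [pow_eq_zero_iff_kd, ← hkd, hdW, ← hd]
        exact (pow_eq_zero_iff_kd N (m + 1)).mp hm
      have hmW' : N' ^ m ≠ 0 := by
        intro h
        apply hm'
        rw [pow_eq_zero_iff_kd, hkd, hd, ← hdW]
        exact (pow_eq_zero_iff_kd N' m).mp h
      have hN' : IsNilpotent N' := ⟨m + 1, hmW⟩
      obtain ⟨v, hv⟩ : ∃ v, (N ^ m) v ≠ 0 := by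
        by_contra hcon
        push Not at hcon
        exact hm' (LinearMap.ext hcon)
      obtain ⟨v', hv'⟩ : ∃ v, (N' ^ m) v ≠ 0 := by
        by_contra hcon
        push Not at hcon
        exact hmW' (LinearMap.ext hcon)
      obtain ⟨U1, hU1, Θ1, h1⟩ := peel_nil N m hm v hv
      obtain ⟨U2, hU2, Θ2, h2⟩ := peel_nil N' m hmW v' hv'
      have hfr1 := peel_nil_finrank m U1 Θ1
      have hfr2 := peel_nil_finrank m U2 Θ2
      have hkd' : ∀ j, kd (N.restrict hU1) j = kd (N'.restrict hU2) j := by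
        intro j
        have e1 := peel_nil_kd N m U1 hU1 Θ1 h1 j
        have e2 := peel_nil_kd N' m U2 hU2 Θ2 h2 j
        have e3 := hkd j
        omega
      obtain ⟨e', he'⟩ := ih (Module.finrank F U1) (by omega) U1 U2 (N.restrict hU1)
        (N'.restrict hU2) rfl (by omega) (restrict_nilpotent N U1 hU1 hN) hkd'
      refine ⟨Θ1.symm.trans (((LinearEquiv.refl F _).prodCongr e').trans Θ2), ?_⟩
      intro x
      obtain ⟨⟨a, u⟩, rfl⟩ := Θ1.surjective x
      rw [h1]
      simp only [LinearEquiv.trans_apply, LinearEquiv.symm_apply_apply,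
        LinearEquiv.prodCongr_apply, LinearEquiv.refl_apply, he', h2]

end Cfsg.Agent.Lib.Helper14.Nilp
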