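import Mathlib
import Cfsg.Agent.Lib.Helper14.Nilp2

namespace Cfsg.Agent.Lib.Helper14.Nilp

open Polynomial
open Cfsg.Agent.Lib.Helper14.SSConj

universe u v w

variable {F : Type u} [Field F]

theorem sum_min_succ (l : Multiset ℕ) (j : ℕ) :
    (l.map (fun a => min a (j + 1))).sum
      = (l.map (fun a => min a j)).sum + l.countP (fun a => j + 1 ≤ a) := by
  induction l using Multiset.induction_on with
  | empty => simp
  | cons a s ih =>
    rw [Multiset.map_cons, Multiset.sum_cons, Multiset.map_cons, Multiset.sum_cons,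
      Multiset.countP_cons, ih]
    split_ifs with h <;> omega

theorem countP_le (l : Multiset ℕ) (j : ℕ) :
    l.countP (fun a => j ≤ a) = l.count j + l.countP (fun a => j + 1 ≤ a) := by
  induction l using Multiset.induction_on with
  | empty => simp
  | cons a s ih =>
    rw [Multiset.countP_cons, Multiset.countP_cons, Multiset.count_cons, ih]
    split_ifs <;> omega

/-- A multiset of positive integers is determined by the sums of `min a j`. -/
theorem eq_of_sum_min (l l' : Multiset ℕ) (hl : ∀ a ∈ l, 0 < a) (hl' : ∀ a ∈ l', 0 < a)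
    (h : ∀ j, (l.map (fun a => min a j)).sum = (l'.map (fun a => min a j)).sum) : l = l' := by
  classical
  have h1 : ∀ j, l.countP (fun a => j + 1 ≤ a) = l'.countP (fun a => j + 1 ≤ a) := by
    intro j
    have e1 := sum_min_succ l j
    have e2 := sum_min_succ l' j
    have e3 := h j
    have e4 := h (j + 1)
    omega
  ext a
  rcases Nat.eq_zero_or_pos a with rfl | ha
  · rw [Multiset.count_eq_zero_of_notMem, Multiset.count_eq_zero_of_notMem]
    · intro h0
      exact lt_irrefl 0 (hl' 0 h0)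
    · intro h0
      exact lt_irrefl 0 (hl 0 h0)
  · obtain ⟨b, rfl⟩ : ∃ b, a = b + 1 := ⟨a - 1, by omega⟩
    have e1 := countP_le l (b + 1)
    have e2 := countP_le l' (b + 1)
    have e3 := h1 b
    have e4 := h1 (b + 1)
    omega

theorem sum_min_le (l : Multiset ℕ) (j : ℕ) : (l.map (fun a => min a j)).sum ≤ l.sum := by
  induction l using Multiset.induction_on with
  | empty => simp
  | cons a s ih =>
    rw [Multiset.map_cons, Multiset.sum_cons, Multiset.sum_cons]
    omega

theorem sum_min_eq_sum_iff (l : Multiset ℕ) (j : ℕ) :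
    (l.map (fun a => min a j)).sum = l.sum ↔ ∀ a ∈ l, a ≤ j := by
  induction l using Multiset.induction_on with
  | empty => simp
  | cons a s ih =>
    rw [Multiset.map_cons, Multiset.sum_cons, Multiset.sum_cons]
    have hle := sum_min_le s j
    constructor
    · intro h b hb
      have h1 : (s.map (fun a => min a j)).sum = s.sum := by omega
      rcases Multiset.mem_cons.mp hb with rfl | hb
      · omega
      · exact ih.mp h1 b hb
    · intro h
      have h1 := ih.mpr (fun b hb => h b (Multiset.mem_cons_of_mem hb))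
      have h2 := h a (Multiset.mem_cons_self a s)
      rw [h1]
      omega

/-- Every partition is realised by a matrix. -/
theorem exists_matrix (l : Multiset ℕ) : (∀ a ∈ l, 0 < a) →
    ∃ (n : ℕ) (M : Matrix (Fin n) (Fin n) F), n = l.sum ∧
      ∀ j, kd (Matrix.toLin' M) j = (l.map (fun a => min a j)).sum := by
  induction l using Multiset.induction_on with
  | empty =>
    intro _
    refine ⟨0, 0, by simp, ?_⟩
    intro j
    have := kd_le (Matrix.toLin' (0 : Matrix (Fin 0) (Fin 0) F)) j
    rw [Module.finrank_fin_fun] at this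
    simp only [Multiset.map_zero, Multiset.sum_zero]
    omega
  | cons a s ih =>
    intro hpos
    obtain ⟨n, M, hn, hkd⟩ := ih (fun b hb => hpos b (Multiset.mem_cons_of_mem hb))
    have ha : 0 < a := hpos a (Multiset.mem_cons_self a s)
    obtain ⟨m, rfl⟩ : ∃ m, a = m + 1 := ⟨a - 1, by omega⟩
    have hfin : Module.Finite F (AdjoinRoot (X ^ (m + 1) : F[X])) :=
      (monic_X_pow (m + 1)).finite_adjoinRoot
    have hfr : Module.finrank F (AdjoinRoot (X ^ (m + 1) : F[X]) × (Fin n → F)) = (m + 1) + n := by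
      rw [Module.finrank_prod, finrank_adjoinRoot_X_pow, Module.finrank_fin_fun]
    let b := Module.finBasisOfFinrankEq F _ hfr
    refine ⟨(m + 1) + n, LinearMap.toMatrix b b
      ((mulRoot (X ^ (m + 1) : F[X])).prodMap (Matrix.toLin' M)), by rw [Multiset.sum_cons, hn], ?_⟩
    intro j
    have h1 : kd ((mulRoot (X ^ (m + 1) : F[X])).prodMap (Matrix.toLin' M)) j
        = kd (Matrix.toLin' (LinearMap.toMatrix b b
          ((mulRoot (X ^ (m + 1) : F[X])).prodMap (Matrix.toLin' M)))) j := by
      apply kd_congr _ _ b.equivFun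
      intro x
      rw [Matrix.toLin'_apply]
      exact (LinearMap.toMatrix_mulVec_repr b b _ x).symm
    rw [← h1, kd_prodMap, kd_mulRoot, hkd, Multiset.map_cons, Multiset.sum_cons]

/-- Kernel dimensions of the powers of a matrix. -/
noncomputable def mkd {n : ℕ} (M : Matrix (Fin n) (Fin n) F) (j : ℕ) : ℕ :=
  kd (Matrix.toLin' M) j

theorem toLin'_pow' {n : ℕ} (M : Matrix (Fin n) (Fin n) F) (j : ℕ) :
    (Matrix.toLin' M) ^ j = Matrix.toLin' (M ^ j) :=
  (map_pow (Matrix.toLinAlgEquiv' (R := F) (n := Fin n)) M j).symm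

theorem mat_pow_eq_zero_iff {n : ℕ} (M : Matrix (Fin n) (Fin n) F) (j : ℕ) :
    M ^ j = 0 ↔ mkd M j = n := by
  unfold mkd
  have h := pow_eq_zero_iff_kd (Matrix.toLin' M) j
  rw [Module.finrank_fin_fun, toLin'_pow'] at h
  rw [← h]
  constructor
  · intro h0
    rw [h0, map_zero]
  · intro h0
    exact (Matrix.toLin' (R := F) (n := Fin n) (m := Fin n)).injective (h0.trans (map_zero _).symm)

theorem mat_nilpotent_iff {n : ℕ} (M : Matrix (Fin n) (Fin n) F) :
    IsNilpotent M ↔ IsNilpotent (Matrix.toLin' M) := by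
  constructor
  · rintro ⟨k, hk⟩
    exact ⟨k, by rw [toLin'_pow', hk, map_zero]⟩
  · rintro ⟨k, hk⟩
    refine ⟨k, ?_⟩
    rw [toLin'_pow'] at hk
    exact (Matrix.toLin' (R := F) (n := Fin n) (m := Fin n)).injective (hk.trans (map_zero _).symm)

theorem mkd_conj {n : ℕ} (A B X : Matrix (Fin n) (Fin n) F) (hX : X.det ≠ 0)
    (h : X * A = B * X) (j : ℕ) : mkd A j = mkd B j := by
  have hdet : LinearMap.det (Matrix.toLin' X) ≠ 0 := by rw [LinearMap.det_toLin']; exact hX
  apply kd_congr _ _ (LinearMap.equivOfDetNeZero (Matrix.toLin' X) hdet)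
  intro x
  show Matrix.toLin' X (Matrix.toLin' A x) = Matrix.toLin' B (Matrix.toLin' X x)
  rw [← LinearMap.comp_apply, ← LinearMap.comp_apply, ← Matrix.toLin'_mul, ← Matrix.toLin'_mul, h]

/-- Nilpotent matrices with the same kernel dimensions are conjugate. -/
theorem conj_of_mkd {n : ℕ} (A B : Matrix (Fin n) (Fin n) F) (hA : IsNilpotent A)
    (h : ∀ j, mkd A j = mkd B j) :
    ∃ X : Matrix (Fin n) (Fin n) F, X.det ≠ 0 ∧ X * A = B * X := by
  obtain ⟨e, he⟩ := conj_of_kd (F := F) n (Fin n → F) (Fin n → F) (Matrix.toLin' A)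
    (Matrix.toLin' B) (Module.finrank_fin_fun F) (Module.finrank_fin_fun F)
    ((mat_nilpotent_iff A).mp hA) h
  refine ⟨LinearMap.toMatrix' (e : (Fin n → F) →ₗ[F] (Fin n → F)), ?_, ?_⟩
  · rw [LinearMap.det_toMatrix']
    exact (LinearEquiv.isUnit_det' e).ne_zero
  · have h1 : (e : (Fin n → F) →ₗ[F] (Fin n → F)) ∘ₗ Matrix.toLin' A
        = Matrix.toLin' B ∘ₗ (e : (Fin n → F) →ₗ[F] (Fin n → F)) := by
      apply LinearMap.ext
      intro x
      exact he x
    have h2 := congrArg LinearMap.toMatrix' h1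
    rw [LinearMap.toMatrix'_comp, LinearMap.toMatrix'_comp, LinearMap.toMatrix'_toLin',
      LinearMap.toMatrix'_toLin'] at h2
    exact h2

theorem exists_partition_mat {n : ℕ} (A : Matrix (Fin n) (Fin n) F) (hA : IsNilpotent A) :
    ∃ l : Multiset ℕ, (∀ a ∈ l, 0 < a) ∧ l.sum = n ∧
      ∀ j, mkd A j = (l.map (fun a => min a j)).sum :=
  exists_partition (F := F) n (Fin n → F) (Matrix.toLin' A) (Module.finrank_fin_fun F)
    ((mat_nilpotent_iff A).mp hA)

theorem exists_matrix' (n : ℕ) (l : Multiset ℕ) (hl : ∀ a ∈ l, 0 < a) (hsum : l.sum = n) :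
    ∃ M : Matrix (Fin n) (Fin n) F, IsNilpotent M ∧
      ∀ j, mkd M j = (l.map (fun a => min a j)).sum := by
  obtain ⟨n', M, hn', hkd⟩ := exists_matrix (F := F) l hl
  obtain rfl : n' = n := hn'.trans hsum
  refine ⟨M, ⟨n', ?_⟩, hkd⟩
  rw [mat_pow_eq_zero_iff]
  show kd (Matrix.toLin' M) n' = n'
  rw [hkd]
  conv_rhs => rw [← hsum]
  rw [sum_min_eq_sum_iff]
  intro a ha
  rw [← hsum]
  exact Multiset.le_sum_of_mem ha

/-- Parametrisation of the kernel-dimension functions by partitions. -/
theorem card_param (n : ℕ) (R : Multiset ℕ → Prop) :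
    Nat.card {t : ℕ → ℕ // ∃ l : Multiset ℕ, (∀ a ∈ l, 0 < a) ∧ l.sum = n ∧
        (t = fun j => (l.map (fun a => min a j)).sum) ∧ R l}
      = Nat.card {μ : Nat.Partition n // R μ.parts} := by
  symm
  apply Nat.card_eq_of_bijective (fun μ => ⟨fun j => (μ.1.parts.map (fun a => min a j)).sum,
    ⟨μ.1.parts, fun a ha => μ.1.parts_pos ha, μ.1.parts_sum, rfl, μ.2⟩⟩)
  constructor
  · intro μ ν h
    have h1 : (fun j => (μ.1.parts.map (fun a => min a j)).sum)
        = (fun j => (ν.1.parts.map (fun a => min a j)).sum) := congrArg Subtype.val h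
    apply Subtype.ext
    apply Nat.Partition.ext
    exact eq_of_sum_min _ _ (fun a ha => μ.1.parts_pos ha) (fun a ha => ν.1.parts_pos ha)
      (fun j => congrFun h1 j)
  · rintro ⟨t, l, hl, hsum, rfl, hR⟩
    exact ⟨⟨⟨l, fun {a} ha => hl a ha, hsum⟩, hR⟩, rfl⟩

end Cfsg.Agent.Lib.Helper14.Nilp
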