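import Mathlib
import Cfsg.Agent.Lib.Helper14.Nilp3

namespace Cfsg.Agent.Lib.Helper14.Nilp

open Polynomial
open Cfsg.Agent.Lib.Helper14.SSConj

universe u v w

variable {F : Type u} [Field F]

theorem sub_one_pow_char_pow (p : ℕ) [Fact p.Prime] [CharP F p] {n : ℕ}
    (M : Matrix (Fin n) (Fin n) F) (k : ℕ) : (M - 1) ^ (p ^ k) = M ^ (p ^ k) - 1 := by
  have h : ((X : F[X]) - 1) ^ (p ^ k) = X ^ (p ^ k) - 1 := by rw [sub_pow_char_pow, one_pow]
  have h2 := congrArg (Polynomial.aeval M) h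
  simpa using h2

/-- An element of `GL_n` over a field of characteristic `p` has `p`-power order iff it is
unipotent. -/
theorem unip_iff (p : ℕ) [Fact p.Prime] [CharP F p] {n : ℕ}
    (g : Matrix.GeneralLinearGroup (Fin n) F) :
    (∃ k : ℕ, orderOf g = p ^ k) ↔ IsNilpotent ((g : Matrix (Fin n) (Fin n) F) - 1) := by
  have hp : p.Prime := Fact.out
  constructor
  · rintro ⟨k, hk⟩
    refine ⟨p ^ k, ?_⟩
    have h1 : g ^ (p ^ k) = 1 := by rw [← hk, pow_orderOf_eq_one]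
    have h2 : (g : Matrix (Fin n) (Fin n) F) ^ (p ^ k) = 1 := by
      rw [← Units.val_pow_eq_pow_val, h1]
      rfl
    rw [sub_one_pow_char_pow, h2, sub_self]
  · rintro ⟨k, hk⟩
    have hle : k ≤ p ^ k := (Nat.lt_pow_self hp.one_lt).le
    have h1 : ((g : Matrix (Fin n) (Fin n) F) - 1) ^ (p ^ k) = 0 := by
      rw [show p ^ k = (p ^ k - k) + k by omega, pow_add, hk, mul_zero]
    rw [sub_one_pow_char_pow, sub_eq_zero] at h1
    have h2 : g ^ (p ^ k) = 1 := by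
      apply Units.ext
      rw [Units.val_pow_eq_pow_val, h1]
      rfl
    obtain ⟨i, -, hi⟩ := (Nat.dvd_prime_pow hp).mp (orderOf_dvd_of_pow_eq_one h2)
    exact ⟨i, hi⟩

theorem order_p_iff (p : ℕ) [Fact p.Prime] [CharP F p] {n : ℕ}
    (g : Matrix.GeneralLinearGroup (Fin n) F) :
    orderOf g = p ↔ ((g : Matrix (Fin n) (Fin n) F) - 1) ^ p = 0
      ∧ (g : Matrix (Fin n) (Fin n) F) - 1 ≠ 0 := by
  have h := sub_one_pow_char_pow p (g : Matrix (Fin n) (Fin n) F) 1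
  rw [pow_one] at h
  rw [orderOf_eq_prime_iff, h, sub_eq_zero, sub_ne_zero]
  constructor
  · rintro ⟨h1, h2⟩
    refine ⟨?_, fun h3 => h2 (Units.ext h3)⟩
    rw [← Units.val_pow_eq_pow_val, h1]
    rfl
  · rintro ⟨h1, h2⟩
    refine ⟨?_, fun h3 => h2 (by rw [h3]; rfl)⟩
    apply Units.ext
    rw [Units.val_pow_eq_pow_val, h1]
    rfl

theorem gl_conj_of_mkd {n : ℕ} (g h : Matrix.GeneralLinearGroup (Fin n) F)
    (hg : IsNilpotent ((g : Matrix (Fin n) (Fin n) F) - 1))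
    (hkd : ∀ j, mkd ((g : Matrix (Fin n) (Fin n) F) - 1) j
      = mkd ((h : Matrix (Fin n) (Fin n) F) - 1) j) : IsConj g h := by
  obtain ⟨X, hX, hXg⟩ := conj_of_mkd _ _ hg hkd
  let x : Matrix.GeneralLinearGroup (Fin n) F := Matrix.GeneralLinearGroup.mkOfDetNeZero X hX
  have hx : x * g = h * x := by
    apply Units.ext
    show X * (g : Matrix (Fin n) (Fin n) F) = (h : Matrix (Fin n) (Fin n) F) * X
    rw [mul_sub, sub_mul, mul_one, one_mul] at hXg
    exact sub_left_injective hXg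
  refine isConj_iff.mpr ⟨x, ?_⟩
  rw [mul_inv_eq_iff_eq_mul]
  exact hx

theorem mkd_of_isConj {n : ℕ} (g h : Matrix.GeneralLinearGroup (Fin n) F) (hc : IsConj g h)
    (j : ℕ) : mkd ((g : Matrix (Fin n) (Fin n) F) - 1) j
      = mkd ((h : Matrix (Fin n) (Fin n) F) - 1) j := by
  obtain ⟨x, hx⟩ := isConj_iff.mp hc
  rw [mul_inv_eq_iff_eq_mul] at hx
  have hx' : (x : Matrix (Fin n) (Fin n) F) * (g : Matrix (Fin n) (Fin n) F)
      = (h : Matrix (Fin n) (Fin n) F) * (x : Matrix (Fin n) (Fin n) F) := by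
    have := congrArg Units.val hx
    exact this
  apply mkd_conj _ _ (x : Matrix (Fin n) (Fin n) F)
    ((Matrix.isUnit_iff_isUnit_det _).mp x.isUnit).ne_zero
  rw [mul_sub, sub_mul, mul_one, one_mul, hx']

theorem exists_gl {n : ℕ} (M : Matrix (Fin n) (Fin n) F) (hM : IsNilpotent M) :
    ∃ g : Matrix.GeneralLinearGroup (Fin n) F, (g : Matrix (Fin n) (Fin n) F) - 1 = M := by
  obtain ⟨g, hg⟩ := hM.isUnit_one_add
  refine ⟨g, ?_⟩
  rw [hg]
  abel

end Cfsg.Agent.Lib.Helper14.Nilp
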