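import Mathlib
import Cfsg.Agent.Lib.Helper14.Nilp4

namespace Cfsg.Agent.Lib.Helper14.Nilp

open Polynomial
open Cfsg.Agent.Lib.Helper14.SSConj

universe u v w

variable {F : Type u} [Field F]

/-- The determinant of a scalar plus a nilpotent matrix. -/
theorem det_smul_one_add {n : ℕ} (M : Matrix (Fin n) (Fin n) F) (hM : IsNilpotent M) (a : F) :
    (a • (1 : Matrix (Fin n) (Fin n) F) + M).det = a ^ n := by
  have hneg : IsNilpotent (-M) := hM.neg
  have h1 : (-M).charpoly = X ^ n := by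
    have := Matrix.isNilpotent_charpoly_sub_pow_of_isNilpotent hneg
    rw [Fintype.card_fin] at this
    exact sub_eq_zero.mp this.eq_zero
  have h2 := Matrix.eval_charpoly (-M) a
  rw [h1, eval_pow, eval_X, sub_neg_eq_add, Matrix.scalar_apply, ← Matrix.smul_one_eq_diagonal]
    at h2
  exact h2.symm

theorem rank_add_mkd {n : ℕ} (M : Matrix (Fin n) (Fin n) F) : M.rank + mkd M 1 = n := by
  unfold mkd kd Matrix.rank
  rw [pow_one, Matrix.toLin'_apply']
  have h := LinearMap.finrank_range_add_finrank_ker (Matrix.mulVecLin M)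
  rw [Module.finrank_fin_fun] at h
  exact h

/-- An endomorphism commuting with a nilpotent endomorphism with one-dimensional kernel is a
scalar plus a nilpotent. -/
theorem cent_nilpotent {V : Type v} [AddCommGroup V] [Module F V] [FiniteDimensional F V]
    (N Z : Module.End F V) (hN : IsNilpotent N) (h1 : kd N 1 = 1) (hc : Z * N = N * Z) :
    ∃ a : F, IsNilpotent (Z - a • (1 : Module.End F V)) := by
  unfold kd at h1
  rw [pow_one] at h1
  obtain ⟨w, hw0, hw⟩ := finrank_eq_one_iff'.mp h1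
  have hNw : N (w : V) = 0 := LinearMap.mem_ker.mp w.2
  have hZw : Z (w : V) ∈ LinearMap.ker N := by
    rw [LinearMap.mem_ker, ← Module.End.mul_apply, ← hc, Module.End.mul_apply, hNw, map_zero]
  obtain ⟨a, ha⟩ := hw ⟨Z (w : V), hZw⟩
  have ha' : a • (w : V) = Z (w : V) := congrArg Subtype.val ha
  refine ⟨a, ?_⟩
  have hker : ∀ x, N x = 0 → (Z - a • (1 : Module.End F V)) x = 0 := by
    intro x hx
    obtain ⟨c, hc'⟩ := hw ⟨x, LinearMap.mem_ker.mpr hx⟩
    have hc'' : c • (w : V) = x := congrArg Subtype.val hc'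
    rw [← hc'', map_smul, LinearMap.sub_apply, LinearMap.smul_apply, Module.End.one_apply, ha',
      sub_self, smul_zero]
  have hYN : Commute (Z - a • (1 : Module.End F V)) N := by
    show (Z - a • (1 : Module.End F V)) * N = N * (Z - a • (1 : Module.End F V))
    rw [sub_mul, mul_sub, hc, smul_mul_assoc, mul_smul_comm, one_mul, mul_one]
  have claim : ∀ (j : ℕ) (x : V), (N ^ j) x = 0 → ((Z - a • (1 : Module.End F V)) ^ j) x = 0 := by
    intro j
    induction j with
    | zero =>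
      intro x hx
      rw [pow_zero, Module.End.one_apply] at hx ⊢
      exact hx
    | succ k ih =>
      intro x hx
      rw [pow_succ', Module.End.mul_apply] at hx
      have h2 := hker _ hx
      rw [← Module.End.mul_apply, (hYN.pow_right k).eq, Module.End.mul_apply] at h2
      have h3 := ih _ h2
      rw [pow_succ, Module.End.mul_apply]
      exact h3
  obtain ⟨k, hk⟩ := hN
  refine ⟨k, ?_⟩
  apply LinearMap.ext
  intro x
  rw [LinearMap.zero_apply]
  apply claim
  rw [hk, LinearMap.zero_apply]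

/-- The determinant of a matrix commuting with a regular nilpotent matrix is an `n`-th power. -/
theorem cent_det {n : ℕ} (N z : Matrix (Fin n) (Fin n) F) (hN : IsNilpotent N)
    (h1 : mkd N 1 = 1) (hc : z * N = N * z) : ∃ a : F, z.det = a ^ n := by
  have hc' : Matrix.toLin' z * Matrix.toLin' N = Matrix.toLin' N * Matrix.toLin' z := by
    rw [Module.End.mul_eq_comp, Module.End.mul_eq_comp, ← Matrix.toLin'_mul, ← Matrix.toLin'_mul,
      hc]
  obtain ⟨a, ha⟩ := cent_nilpotent (Matrix.toLin' N) (Matrix.toLin' z)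
    ((mat_nilpotent_iff N).mp hN) h1 hc'
  have h2 : Matrix.toLin' z - a • (1 : Module.End F (Fin n → F))
      = Matrix.toLin' (z - a • (1 : Matrix (Fin n) (Fin n) F)) := by
    rw [map_sub, map_smul, Matrix.toLin'_one]
    rfl
  rw [h2, ← mat_nilpotent_iff] at ha
  refine ⟨a, ?_⟩
  have h3 := det_smul_one_add _ ha a
  rw [add_sub_cancel] at h3
  exact h3

theorem exists_det_eq {n : ℕ} (hn : 0 < n) (d : F) :
    ∃ X : Matrix (Fin n) (Fin n) F, X.det = d := by
  classical
  refine ⟨Matrix.diagonal (Function.update (fun _ => (1 : F)) (⟨0, hn⟩ : Fin n) d), ?_⟩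
  rw [Matrix.det_diagonal, Finset.prod_update_of_mem (Finset.mem_univ _)]
  simp

/-- Splitting of a `GL_n`-class inside `SL_n` when the determinants of the centraliser are
exactly the `n`-th powers. -/
theorem sl_class_count [Fintype F] (n : ℕ) (hn : 0 < n)
    (P : Matrix.SpecialLinearGroup (Fin n) F → Prop) (u₀ : Matrix (Fin n) (Fin n) F)
    (hP : ∀ u : Matrix.SpecialLinearGroup (Fin n) F, P u ↔
      ∃ X : Matrix (Fin n) (Fin n) F, X.det ≠ 0 ∧ X * u₀ = (u : Matrix (Fin n) (Fin n) F) * X)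
    (hu₀ : u₀.det = 1)
    (hcent : ∀ z : Matrix (Fin n) (Fin n) F, z.det ≠ 0 → z * u₀ = u₀ * z →
      ∃ a : F, z.det = a ^ n) :
    Nat.card {C : ConjClasses (Matrix.SpecialLinearGroup (Fin n) F) //
      ∃ u, ConjClasses.mk u = C ∧ P u} = Nat.gcd n (Fintype.card F - 1) := by
  classical
  have W : ∀ (u u' : Matrix.SpecialLinearGroup (Fin n) F) (X X' : Matrix (Fin n) (Fin n) F)
      (hX : X.det ≠ 0) (hX' : X'.det ≠ 0),
      X * u₀ = (u : Matrix (Fin n) (Fin n) F) * X →
      X' * u₀ = (u' : Matrix (Fin n) (Fin n) F) * X' → IsConj u u' →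
      (QuotientGroup.mk (Units.mk0 X.det hX) : Fˣ ⧸ (powMonoidHom n : Fˣ →* Fˣ).range)
        = QuotientGroup.mk (Units.mk0 X'.det hX') := by
    intro u u' X X' hX hX' hXu hXu' hconj
    obtain ⟨s, hs⟩ := isConj_iff.mp hconj
    rw [mul_inv_eq_iff_eq_mul] at hs
    have hs' : (s : Matrix (Fin n) (Fin n) F) * (u : Matrix (Fin n) (Fin n) F)
        = (u' : Matrix (Fin n) (Fin n) F) * (s : Matrix (Fin n) (Fin n) F) := by
      have := congrArg Subtype.val hs
      exact this
    have hXi : X'⁻¹ * X' = 1 := Matrix.nonsing_inv_mul X' (isUnit_iff_ne_zero.mpr hX')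
    have hXi' : X' * X'⁻¹ = 1 := Matrix.mul_nonsing_inv X' (isUnit_iff_ne_zero.mpr hX')
    have h1 : u₀ * X'⁻¹ = X'⁻¹ * (u' : Matrix (Fin n) (Fin n) F) := by
      calc u₀ * X'⁻¹ = X'⁻¹ * (X' * u₀) * X'⁻¹ := by
            rw [← Matrix.mul_assoc, hXi, Matrix.one_mul]
        _ = X'⁻¹ * (u' : Matrix (Fin n) (Fin n) F) := by
            rw [hXu', Matrix.mul_assoc, Matrix.mul_assoc, hXi', Matrix.mul_one]
    have hz : (X'⁻¹ * (s : Matrix (Fin n) (Fin n) F) * X) * u₀
        = u₀ * (X'⁻¹ * (s : Matrix (Fin n) (Fin n) F) * X) := by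
      rw [Matrix.mul_assoc, hXu, ← Matrix.mul_assoc, Matrix.mul_assoc X'⁻¹, hs',
        ← Matrix.mul_assoc, ← Matrix.mul_assoc, ← Matrix.mul_assoc, h1]
    have hzdet : (X'⁻¹ * (s : Matrix (Fin n) (Fin n) F) * X).det = X'.det⁻¹ * X.det := by
      rw [Matrix.det_mul, Matrix.det_mul, s.2, mul_one, Matrix.det_nonsing_inv,
        Ring.inverse_eq_inv']
    obtain ⟨a, ha⟩ := hcent _ (by rw [hzdet]; exact mul_ne_zero (inv_ne_zero hX') hX) hz
    rw [hzdet] at ha
    have ha0 : a ≠ 0 := by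
      rintro rfl
      rw [zero_pow (by omega)] at ha
      exact mul_ne_zero (inv_ne_zero hX') hX ha
    rw [QuotientGroup.eq]
    refine ⟨Units.mk0 a⁻¹ (inv_ne_zero ha0), ?_⟩
    apply Units.ext
    show (a⁻¹) ^ n = (X.det)⁻¹ * X'.det
    rw [inv_pow, ← ha]
    field_simp
  rw [card_classes P
    (fun u => if h : ∃ X : Matrix (Fin n) (Fin n) F,
        X.det ≠ 0 ∧ X * u₀ = (u : Matrix (Fin n) (Fin n) F) * X
      then (QuotientGroup.mk (Units.mk0 (Classical.choose h).det (Classical.choose_spec h).1) :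
        Fˣ ⧸ (powMonoidHom n : Fˣ →* Fˣ).range) else 1) (fun _ => True)]
  · rw [Nat.card_congr (Equiv.subtypeUnivEquiv (fun _ => trivial)), ← Subgroup.index_eq_card,
      IsCyclic.index_powMonoidHom_range, Nat.card_units, Nat.card_eq_fintype_card, Nat.gcd_comm]
  · intro u u' hconj
    have hex : ∀ (v v' : Matrix.SpecialLinearGroup (Fin n) F), IsConj v v' →
        (∃ X : Matrix (Fin n) (Fin n) F, X.det ≠ 0 ∧ X * u₀ = (v : Matrix (Fin n) (Fin n) F) * X) →
        (∃ X : Matrix (Fin n) (Fin n) F,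
          X.det ≠ 0 ∧ X * u₀ = (v' : Matrix (Fin n) (Fin n) F) * X) := by
      rintro v v' hvv ⟨X, hX, hXv⟩
      obtain ⟨s, hs⟩ := isConj_iff.mp hvv
      rw [mul_inv_eq_iff_eq_mul] at hs
      have hs' : (s : Matrix (Fin n) (Fin n) F) * (v : Matrix (Fin n) (Fin n) F)
          = (v' : Matrix (Fin n) (Fin n) F) * (s : Matrix (Fin n) (Fin n) F) := by
        have := congrArg Subtype.val hs
        exact this
      refine ⟨(s : Matrix (Fin n) (Fin n) F) * X, ?_, ?_⟩
      · rw [Matrix.det_mul, s.2, one_mul]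
        exact hX
      · rw [Matrix.mul_assoc, hXv, ← Matrix.mul_assoc, hs', Matrix.mul_assoc]
    by_cases h : ∃ X : Matrix (Fin n) (Fin n) F,
        X.det ≠ 0 ∧ X * u₀ = (u : Matrix (Fin n) (Fin n) F) * X
    · have h' := hex u u' hconj h
      rw [dif_pos h, dif_pos h']
      exact W u u' _ _ _ _ (Classical.choose_spec h).2 (Classical.choose_spec h').2 hconj
    · have h' : ¬ ∃ X : Matrix (Fin n) (Fin n) F,
          X.det ≠ 0 ∧ X * u₀ = (u' : Matrix (Fin n) (Fin n) F) * X :=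
        fun h' => h (hex u' u hconj.symm h')
      rw [dif_neg h, dif_neg h']
  · intro u u' hu hu' hχ
    have h := (hP u).mp hu
    have h' := (hP u').mp hu'
    rw [dif_pos h, dif_pos h', QuotientGroup.eq] at hχ
    obtain ⟨c, hc⟩ := hχ
    have hc' : (c : F) ^ n = ((Classical.choose h).det)⁻¹ * (Classical.choose h').det := by
      have := congrArg Units.val hc
      exact this
    clear hc
    obtain ⟨hX, hXu⟩ := Classical.choose_spec h
    obtain ⟨hX', hXu'⟩ := Classical.choose_spec h'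
    generalize Classical.choose h = X at hX hXu hc'
    generalize Classical.choose h' = X' at hX' hXu' hc'
    have hXi : X⁻¹ * X = 1 := Matrix.nonsing_inv_mul X (isUnit_iff_ne_zero.mpr hX)
    have hXi' : X * X⁻¹ = 1 := Matrix.mul_nonsing_inv X (isUnit_iff_ne_zero.mpr hX)
    have h1 : u₀ * X⁻¹ = X⁻¹ * (u : Matrix (Fin n) (Fin n) F) := by
      calc u₀ * X⁻¹ = X⁻¹ * (X * u₀) * X⁻¹ := by
            rw [← Matrix.mul_assoc, hXi, Matrix.one_mul]
        _ = X⁻¹ * (u : Matrix (Fin n) (Fin n) F) := by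
            rw [hXu, Matrix.mul_assoc, Matrix.mul_assoc, hXi', Matrix.mul_one]
    have hsdet : (((c : F)⁻¹) • (X' * X⁻¹)).det = 1 := by
      rw [Matrix.det_smul, Fintype.card_fin, Matrix.det_mul, Matrix.det_nonsing_inv,
        Ring.inverse_eq_inv', inv_pow, hc']
      field_simp
    let s : Matrix.SpecialLinearGroup (Fin n) F := ⟨((c : F)⁻¹) • (X' * X⁻¹), hsdet⟩
    have hs : s * u = u' * s := by
      apply Subtype.ext
      show (((c : F)⁻¹) • (X' * X⁻¹)) * (u : Matrix (Fin n) (Fin n) F)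
        = (u' : Matrix (Fin n) (Fin n) F) * (((c : F)⁻¹) • (X' * X⁻¹))
      rw [Matrix.smul_mul, Matrix.mul_smul, Matrix.mul_assoc, ← h1, ← Matrix.mul_assoc, hXu',
        Matrix.mul_assoc]
    refine isConj_iff.mpr ⟨s, ?_⟩
    rw [mul_inv_eq_iff_eq_mul]
    exact hs
  · intro u _
    trivial
  · intro t _
    obtain ⟨d, rfl⟩ := QuotientGroup.mk_surjective t
    obtain ⟨X, hXd⟩ := exists_det_eq (n := n) hn (d : F)
    have hX : X.det ≠ 0 := by rw [hXd]; exact d.ne_zero
    have hXi : X⁻¹ * X = 1 := Matrix.nonsing_inv_mul X (isUnit_iff_ne_zero.mpr hX)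
    have hXi' : X * X⁻¹ = 1 := Matrix.mul_nonsing_inv X (isUnit_iff_ne_zero.mpr hX)
    have hudet : (X * u₀ * X⁻¹).det = 1 := by
      rw [Matrix.det_mul, Matrix.det_mul, hu₀, mul_one, ← Matrix.det_mul, hXi', Matrix.det_one]
    let u : Matrix.SpecialLinearGroup (Fin n) F := ⟨X * u₀ * X⁻¹, hudet⟩
    have hXu : X * u₀ = (u : Matrix (Fin n) (Fin n) F) * X := by
      show X * u₀ = X * u₀ * X⁻¹ * X
      rw [Matrix.mul_assoc (X * u₀), hXi, Matrix.mul_one]
    have h : ∃ X : Matrix (Fin n) (Fin n) F,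
        X.det ≠ 0 ∧ X * u₀ = (u : Matrix (Fin n) (Fin n) F) * X := ⟨X, hX, hXu⟩
    refine ⟨u, (hP u).mpr h, ?_⟩
    rw [dif_pos h]
    rw [W u u _ X _ hX (Classical.choose_spec h).2 hXu (IsConj.refl u)]
    congr 1
    exact Units.ext hXd

end Cfsg.Agent.Lib.Helper14.Nilp
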