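import Mathlib
import Cfsg.Agent.Lib.Helper2.SLGen
import Cfsg.Agent.Lib.Helper14.Nilp5

set_option linter.unusedSimpArgs false

namespace Cfsg.Agent.Lib.Helper14.RegU

open Matrix Matrix.SpecialLinearGroup
open Cfsg.Agent.Lib.Helper2.SLGen

variable {F : Type*} [Field F] {m : ℕ}

theorem fin_val_add_one (i : Fin (m + 3)) (h : (i : ℕ) ≠ m + 2) :
    ((i + 1 : Fin (m + 3)) : ℕ) = i + 1 := by
  rw [Fin.val_add_one]
  rw [if_neg]
  intro h'
  apply h
  rw [h']
  rfl

theorem fin_add_one_eq_zero (i : Fin (m + 3)) (h : (i : ℕ) = m + 2) : i + 1 = 0 := by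
  have : i = Fin.last (m + 2) := Fin.ext h
  rw [this]
  exact Fin.last_add_one _

theorem fin_add_one_ne_zero (i : Fin (m + 3)) (h : (i : ℕ) ≠ m + 2) : i + 1 ≠ 0 := by
  intro h0
  have := fin_val_add_one i h
  rw [h0] at this
  simp at this

/-- Weighted cyclic shift matrix. -/
def Nm (c : Fin (m + 3) → F) : Matrix (Fin (m + 3)) (Fin (m + 3)) F :=
  Matrix.of (fun i j => if j = i + 1 then c i else 0)

theorem Nm_mulVec (c : Fin (m + 3) → F) (v : Fin (m + 3) → F) (i : Fin (m + 3)) :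
    (Nm c *ᵥ v) i = c i * v (i + 1) := by
  simp [Nm, Matrix.mulVec, dotProduct]

theorem Nm_pow_mulVec_zero (c : Fin (m + 3) → F) (hc : c (Fin.last (m + 2)) = 0) (k : ℕ) :
    ∀ (v : Fin (m + 3) → F) (i : Fin (m + 3)), m + 3 ≤ (i : ℕ) + k → ((Nm c ^ k) *ᵥ v) i = 0 := by
  induction k with
  | zero =>
    intro v i h
    have := i.2
    omega
  | succ k ih =>
    intro v i h
    rw [pow_succ', ← Matrix.mulVec_mulVec, Nm_mulVec]
    by_cases hi : (i : ℕ) = m + 2
    · have : i = Fin.last (m + 2) := Fin.ext hi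
      rw [this, hc, zero_mul]
    · rw [ih v (i + 1) (by rw [fin_val_add_one i hi]; omega), mul_zero]

theorem Nm_pow_eq_zero (c : Fin (m + 3) → F) (hc : c (Fin.last (m + 2)) = 0) :
    (Nm c) ^ (m + 3) = 0 := by
  rw [Matrix.ext_iff_mulVec]
  intro v
  funext i
  rw [Nm_pow_mulVec_zero c hc _ v i (by omega)]
  simp

theorem Nm_pow_ne_zero (c : Fin (m + 3) → F) (hc : ∀ i : Fin (m + 3), (i : ℕ) ≠ m + 2 → c i ≠ 0) :
    (Nm c) ^ (m + 2) ≠ 0 := by
  have key : ∀ (k : ℕ) (i : Fin (m + 3)), (i : ℕ) + k = m + 2 →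
      ((Nm c ^ k) *ᵥ (Pi.single (Fin.last (m + 2)) 1)) i ≠ 0 := by
    intro k
    induction k with
    | zero =>
      intro i h
      have : i = Fin.last (m + 2) := Fin.ext (by simpa using h)
      rw [this, pow_zero, Matrix.one_mulVec, Pi.single_eq_same]
      exact one_ne_zero
    | succ k ih =>
      intro i h
      have hi : (i : ℕ) ≠ m + 2 := by omega
      rw [pow_succ', ← Matrix.mulVec_mulVec, Nm_mulVec]
      exact mul_ne_zero (hc i hi) (ih (i + 1) (by rw [fin_val_add_one i hi]; omega))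
  intro h0
  have := key (m + 2) 0 (by simp)
  rw [h0, Matrix.zero_mulVec] at this
  exact this rfl

/-- The weights of the regular unipotent element `u`. -/
def cu : Fin (m + 3) → F :=
  fun i => if (i : ℕ) = 0 then 1 else if (i : ℕ) = m + 2 then 0 else -1

/-- The weights of `y`. -/
def cy : Fin (m + 3) → F := fun i => if (i : ℕ) = 0 then 0 else -1

/-- The weights of `r`. -/
def cr : Fin (m + 3) → F :=
  fun i => if (i : ℕ) = 0 then 0 else if (i : ℕ) = m + 2 then 0 else -1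

theorem Nm_cu_pow : (Nm (cu (F := F) (m := m))) ^ (m + 3) = 0 := by
  apply Nm_pow_eq_zero
  simp [cu]

theorem det_u : (1 + Nm (cu (F := F) (m := m))).det = 1 := by
  have h := Cfsg.Agent.Lib.Helper14.Nilp.det_smul_one_add (Nm (cu (F := F) (m := m)))
    ⟨m + 3, Nm_cu_pow⟩ 1
  rw [one_smul, one_pow] at h
  exact h

/-- The regular unipotent element `u`. -/
noncomputable def uS : SpecialLinearGroup (Fin (m + 3)) F := ⟨1 + Nm cu, det_u⟩

theorem uS_mulVec (v : Fin (m + 3) → F) (i : Fin (m + 3)) :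
    ((uS : SpecialLinearGroup (Fin (m + 3)) F).1 *ᵥ v) i = v i + cu i * v (i + 1) := by
  show ((1 + Nm cu) *ᵥ v) i = _
  rw [Matrix.add_mulVec, Matrix.one_mulVec, Pi.add_apply, Nm_mulVec]

theorem uS_nilpotent :
    IsNilpotent ((uS : SpecialLinearGroup (Fin (m + 3)) F).1 - 1) := by
  refine ⟨m + 3, ?_⟩
  show ((1 + Nm cu) - 1) ^ (m + 3) = 0
  rw [add_sub_cancel_left]
  exact Nm_cu_pow

theorem uS_regular :
    ((uS : SpecialLinearGroup (Fin (m + 3)) F).1 - 1) ^ (m + 2) ≠ 0 := by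
  show ((1 + Nm cu) - 1) ^ (m + 2) ≠ 0
  rw [add_sub_cancel_left]
  apply Nm_pow_ne_zero
  intro i hi
  unfold cu
  split_ifs <;> simp

theorem h01 : (0 : Fin (m + 3)) ≠ 1 := by
  intro h
  have := congrArg Fin.val h
  simp at this

theorem hL0 : Fin.last (m + 2) ≠ (0 : Fin (m + 3)) := by
  intro h
  have := congrArg Fin.val h
  simp at this

/-- `r = u * x_{01}(-1)`. -/
noncomputable def rS : SpecialLinearGroup (Fin (m + 3)) F := uS * SpecialLinearGroup.transvection h01 (-1)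

/-- `y = x_{L0}(-1) * r`. -/
noncomputable def yS : SpecialLinearGroup (Fin (m + 3)) F := SpecialLinearGroup.transvection hL0 (-1) * rS

theorem rS_mulVec (v : Fin (m + 3) → F) (i : Fin (m + 3)) :
    ((rS : SpecialLinearGroup (Fin (m + 3)) F).1 *ᵥ v) i = v i + cr i * v (i + 1) := by
  show (((uS : SpecialLinearGroup (Fin (m + 3)) F).1 *
    (SpecialLinearGroup.transvection h01 (-1) : SpecialLinearGroup (Fin (m + 3)) F).1) *ᵥ v) i = _
  rw [← Matrix.mulVec_mulVec, uS_mulVec, tv_mulVec_apply, tv_mulVec_apply]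
  by_cases h0 : (i : ℕ) = 0
  · obtain rfl : i = 0 := Fin.ext h0
    simp [cu, cr, h01.symm]
  · have hi0 : i ≠ 0 := fun h => h0 (by rw [h]; rfl)
    by_cases hL : (i : ℕ) = m + 2
    · simp [cu, cr, h0, hL, hi0]
    · have := fin_add_one_ne_zero i hL
      simp [cu, cr, h0, hL, hi0, this]

theorem yS_mulVec (v : Fin (m + 3) → F) (i : Fin (m + 3)) :
    ((yS : SpecialLinearGroup (Fin (m + 3)) F).1 *ᵥ v) i = v i + cy i * v (i + 1) := by
  show (((SpecialLinearGroup.transvection hL0 (-1) : SpecialLinearGroup (Fin (m + 3)) F).1 *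
    (rS : SpecialLinearGroup (Fin (m + 3)) F).1) *ᵥ v) i = _
  rw [← Matrix.mulVec_mulVec, tv_mulVec_apply]
  simp only [rS_mulVec]
  by_cases hL : (i : ℕ) = m + 2
  · obtain rfl : i = Fin.last (m + 2) := Fin.ext hL
    simp [cr, cy]
  · have hiL : i ≠ Fin.last (m + 2) := fun h => hL (by rw [h]; rfl)
    by_cases h0 : (i : ℕ) = 0
    · simp [cr, cy, h0, hL, hiL]
    · simp [cr, cy, h0, hL, hiL]

end Cfsg.Agent.Lib.Helper14.RegU
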