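import Mathlib
import Cfsg.Agent.Lib.Helper14.RegU1

set_option linter.unusedSimpArgs false

namespace Cfsg.Agent.Lib.Helper14.RegU

open Matrix Matrix.SpecialLinearGroup
open Cfsg.Agent.Lib.Helper2.SLGen

variable {F : Type*} [Field F] {m : ℕ}

/-- The signs of the monomial conjugating element. -/
def sg : Fin (m + 3) → F := fun i => if (i : ℕ) = 0 then 1 else -1

theorem weights (j : Fin (m + 3)) :
    (sg j : F) * cu j = cy (j + 1) * sg (j + 1) := by
  by_cases h0 : (j : ℕ) = 0
  · have h1 : ((j + 1 : Fin (m + 3)) : ℕ) = 1 := by rw [fin_val_add_one j (by omega), h0]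
    simp [sg, cu, cy, h0, h1]
  · by_cases hL : (j : ℕ) = m + 2
    · have h1 : j + 1 = 0 := fin_add_one_eq_zero j hL
      simp [sg, cu, cy, h0, hL, h1]
    · have h1 : ((j + 1 : Fin (m + 3)) : ℕ) = j + 1 := fin_val_add_one j hL
      simp [sg, cu, cy, h0, hL, h1]

theorem finRotate_symm_apply' (i : Fin (m + 3)) : (finRotate (m + 3)).symm i = i - 1 := by
  rw [Equiv.symm_apply_eq, finRotate_succ_apply, sub_add_cancel]

/-- The matrix of the monomial conjugating element. -/
def hM : Matrix (Fin (m + 3)) (Fin (m + 3)) F :=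
  (Matrix.diagonal sg).submatrix (finRotate (m + 3)).symm id

theorem hM_mulVec (v : Fin (m + 3) → F) (i : Fin (m + 3)) :
    ((hM : Matrix (Fin (m + 3)) (Fin (m + 3)) F) *ᵥ v) i = sg (i - 1) * v (i - 1) := by
  simp [hM, Matrix.mulVec, dotProduct, Matrix.diagonal_apply, finRotate_symm_apply']

theorem det_hM : (hM : Matrix (Fin (m + 3)) (Fin (m + 3)) F).det = 1 := by
  unfold hM
  have h := Matrix.det_permute (R := F) ((finRotate (m + 3)).symm : Equiv.Perm (Fin (m + 3)))
    (Matrix.diagonal sg)
  rw [h, Matrix.det_diagonal]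
  have hs : Equiv.Perm.sign ((finRotate (m + 3)).symm : Equiv.Perm (Fin (m + 3)))
      = (-1) ^ (m + 2) := by
    rw [Equiv.Perm.sign_symm, sign_finRotate]
    rfl
  have hp : ∏ i : Fin (m + 3), (sg i : F) = (-1) ^ (m + 2) := by
    rw [Fin.prod_univ_succ]
    simp [sg]
  rw [hs, hp]
  simp only [Units.val_pow_eq_pow_val, Units.val_neg, Units.val_one, Int.cast_pow, Int.cast_neg,
    Int.cast_one]
  rw [← mul_pow]
  simp

/-- The monomial conjugating element. -/
noncomputable def hS : SpecialLinearGroup (Fin (m + 3)) F := ⟨hM, det_hM⟩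

/-- `h u h⁻¹ = y`. -/
theorem hS_conj : (hS : SpecialLinearGroup (Fin (m + 3)) F) * uS * hS⁻¹ = yS := by
  rw [mul_inv_eq_iff_eq_mul]
  apply Subtype.ext
  rw [Matrix.ext_iff_mulVec]
  intro v
  funext i
  show ((hM * (uS : SpecialLinearGroup (Fin (m + 3)) F).1) *ᵥ v) i
    = (((yS : SpecialLinearGroup (Fin (m + 3)) F).1 * hM) *ᵥ v) i
  rw [← Matrix.mulVec_mulVec, ← Matrix.mulVec_mulVec, hM_mulVec, uS_mulVec, yS_mulVec, hM_mulVec,
    hM_mulVec, sub_add_cancel, add_sub_cancel_right]
  have hw := weights (F := F) (i - 1)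
  rw [sub_add_cancel] at hw
  rw [mul_add, ← mul_assoc, hw]
  ring

/-- Transvections with the same row commute. -/
theorem tv_comm_row {i j k : Fin (m + 3)} (hij : i ≠ j) (hik : i ≠ k) (a b : F) :
    (SpecialLinearGroup.transvection hij a : SpecialLinearGroup (Fin (m + 3)) F)
        * SpecialLinearGroup.transvection hik b
      = SpecialLinearGroup.transvection hik b * SpecialLinearGroup.transvection hij a := by
  apply Subtype.ext
  rw [Matrix.ext_iff_mulVec]
  intro v
  funext l
  simp only [coe_mul, ← mulVec_mulVec, tv_mulVec_apply]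
  by_cases hl : l = i
  · subst hl
    simp only [if_true, if_neg hij.symm, if_neg hik.symm]
    ring
  · simp only [if_neg hl]

/-- Transvections with the same column commute. -/
theorem tv_comm_col {i j k : Fin (m + 3)} (hji : j ≠ i) (hki : k ≠ i) (a b : F) :
    (SpecialLinearGroup.transvection hji a : SpecialLinearGroup (Fin (m + 3)) F)
        * SpecialLinearGroup.transvection hki b
      = SpecialLinearGroup.transvection hki b * SpecialLinearGroup.transvection hji a := by
  apply Subtype.ext
  rw [Matrix.ext_iff_mulVec]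
  intro v
  funext l
  simp only [coe_mul, ← mulVec_mulVec, tv_mulVec_apply]
  by_cases hlj : l = j
  · subst hlj
    by_cases hlk : l = k
    · subst hlk
      simp only [if_true, if_neg hji.symm]
      ring
    · simp only [if_true, if_neg hlk, if_neg hji.symm, if_neg hki.symm, if_neg (Ne.symm hlk)]
  · by_cases hlk : l = k
    · subst hlk
      simp only [if_true, if_neg hlj, if_neg hji.symm, if_neg hki.symm, if_neg (Ne.symm hlj)]
    · simp only [if_neg hlj, if_neg hlk]

/-- Moving a row-`0` transvection past `u`. -/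
theorem tv_row_u {j : Fin (m + 3)} (h0 : (j : ℕ) ≠ 0) (hL : (j : ℕ) ≠ m + 2)
    (h0j : (0 : Fin (m + 3)) ≠ j) (h0j' : (0 : Fin (m + 3)) ≠ j + 1) (a : F) :
    (SpecialLinearGroup.transvection h0j a : SpecialLinearGroup (Fin (m + 3)) F) * uS
      = uS * (SpecialLinearGroup.transvection h0j a * SpecialLinearGroup.transvection h0j' (-a)) := by
  apply Subtype.ext
  rw [Matrix.ext_iff_mulVec]
  intro v
  funext k
  simp only [coe_mul, ← mulVec_mulVec, tv_mulVec_apply, uS_mulVec]
  have hj0 : j ≠ 0 := h0j.symm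
  have hj1 : j + 1 ≠ 0 := h0j'.symm
  by_cases hk : k = 0
  · subst hk
    have h1 : (0 : Fin (m + 3)) + 1 ≠ 0 := by rw [zero_add]; exact h01.symm
    simp only [if_true, if_neg h1, if_neg hj0, if_neg hj1]
    simp [cu, h0, hL]
    ring
  · by_cases hkL : (k : ℕ) = m + 2
    · have hk1 : k + 1 = 0 := fin_add_one_eq_zero k hkL
      have hk0 : (k : ℕ) ≠ 0 := by omega
      simp [cu, hk, hkL, hk0]
    · have hk1 : k + 1 ≠ 0 := fin_add_one_ne_zero k hkL
      simp only [if_neg hk, if_neg hk1]

theorem tv_rowL_u (a : F) :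
    (SpecialLinearGroup.transvection (hL0 (m := m)).symm a : SpecialLinearGroup (Fin (m + 3)) F) * uS
      = uS * SpecialLinearGroup.transvection (hL0 (m := m)).symm a := by
  apply Subtype.ext
  rw [Matrix.ext_iff_mulVec]
  intro v
  funext k
  simp only [coe_mul, ← mulVec_mulVec, tv_mulVec_apply, uS_mulVec]
  by_cases hk : k = 0
  · subst hk
    have h1 : (0 : Fin (m + 3)) + 1 ≠ 0 := by rw [zero_add]; exact h01.symm
    simp only [if_true, if_neg h1]
    simp [cu]
    ring
  · by_cases hkL : (k : ℕ) = m + 2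
    · have hk1 : k + 1 = 0 := fin_add_one_eq_zero k hkL
      have hk0 : (k : ℕ) ≠ 0 := by omega
      simp [cu, hk, hkL, hk0]
    · have hk1 : k + 1 ≠ 0 := fin_add_one_ne_zero k hkL
      simp only [if_neg hk, if_neg hk1]

/-- Moving a column-`0` transvection past `y`. -/
theorem tv_col_y {j : Fin (m + 3)} (h0 : (j : ℕ) ≠ 0) (hL : (j : ℕ) ≠ m + 2)
    (hj0 : j ≠ (0 : Fin (m + 3))) (hj0' : j + 1 ≠ (0 : Fin (m + 3))) (a : F) :
    (yS : SpecialLinearGroup (Fin (m + 3)) F) * SpecialLinearGroup.transvection hj0' a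
      = SpecialLinearGroup.transvection hj0' a * SpecialLinearGroup.transvection hj0 (-a) * yS := by
  apply Subtype.ext
  rw [Matrix.ext_iff_mulVec]
  intro v
  funext k
  simp only [coe_mul, ← mulVec_mulVec, tv_mulVec_apply, yS_mulVec]
  have hjj : j + 1 ≠ j := by
    intro h
    have := congrArg Fin.val h
    rw [fin_val_add_one j hL] at this
    omega
  have h1 : (0 : Fin (m + 3)) + 1 ≠ 0 := by rw [zero_add]; exact h01.symm
  have e0 : ∀ w : Fin (m + 3) → F, w 0 + cy (0 : Fin (m + 3)) * w (0 + 1) = w 0 := by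
    intro w
    simp [cy]
  by_cases hk : k = j + 1
  · subst hk
    have h2 : j + 1 + 1 ≠ j + 1 := by
      intro h
      have h' : j + 1 = j := add_right_cancel h
      exact hjj h'
    simp only [if_true, if_neg h2, if_neg hjj, if_neg hj0.symm, e0]
    ring
  · by_cases hkj : k = j
    · subst hkj
      simp only [if_true, if_neg hk, e0]
      simp [cy, h0]
      ring
    · have hk1 : k + 1 ≠ j + 1 := fun h => hkj (add_right_cancel h)
      simp only [if_neg hk, if_neg hkj, if_neg hk1]

end Cfsg.Agent.Lib.Helper14.RegU
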