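import Mathlib
import Cfsg.Agent.Lib.Helper14.RegU2

set_option linter.unusedSimpArgs false

namespace Cfsg.Agent.Lib.Helper14.RegU

open Matrix Matrix.SpecialLinearGroup
open Cfsg.Agent.Lib.Helper2.SLGen

variable {F : Type*} [Field F] {m : ℕ}

theorem h1L : (1 : Fin (m + 3)) ≠ Fin.last (m + 2) := by
  intro h
  have := congrArg Fin.val h
  simp at this

/-- The embedding matrix `P`. -/
def Pm (F : Type*) [Field F] (m : ℕ) : Matrix (Fin (m + 3)) (Fin 3) F :=
  Matrix.of (fun i k => if k = 0 then (if i = 0 then 1 else 0)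
    else if k = 1 then (if i = 0 then 0 else 1) else (if i = Fin.last (m + 2) then 1 else 0))

/-- The projection matrix `Q`. -/
def Qm (F : Type*) [Field F] (m : ℕ) : Matrix (Fin 3) (Fin (m + 3)) F :=
  Matrix.of (fun k j => if k = 0 then (if j = 0 then 1 else 0)
    else if k = 1 then (if j = 1 then 1 else 0)
    else ((if j = Fin.last (m + 2) then 1 else 0) - (if j = 1 then 1 else 0)))

theorem Pm_mulVec (w : Fin 3 → F) (i : Fin (m + 3)) :
    (Pm F m *ᵥ w) i =
      if i = 0 then w 0 else w 1 + (if i = Fin.last (m + 2) then w 2 else 0) := by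
  simp only [Pm, Matrix.mulVec, dotProduct, Fin.sum_univ_three, Matrix.of_apply]
  by_cases h0 : i = 0
  · subst h0
    simp [(hL0 (m := m)).symm]
  · by_cases hL : i = Fin.last (m + 2)
    · simp [h0, hL, hL0]
    · simp [h0, hL]

theorem Qm_mulVec (v : Fin (m + 3) → F) (k : Fin 3) :
    (Qm F m *ᵥ v) k =
      if k = 0 then v 0 else if k = 1 then v 1 else v (Fin.last (m + 2)) - v 1 := by
  fin_cases k <;> simp [Qm, Matrix.mulVec, dotProduct, sub_mul, Finset.sum_sub_distrib]

theorem Qm_mul_Pm : Qm F m * Pm F m = 1 := by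
  rw [Matrix.ext_iff_mulVec]
  intro w
  funext k
  rw [← Matrix.mulVec_mulVec, Qm_mulVec, Pm_mulVec, Pm_mulVec, Pm_mulVec, Matrix.one_mulVec]
  fin_cases k <;> simp [(h01 (m := m)).symm, hL0 (m := m), h1L (m := m)]

/-- The embedding `X ↦ 1 + P (X - 1) Q` of `3 × 3` matrices. -/
def psiM (m : ℕ) (X : Matrix (Fin 3) (Fin 3) F) : Matrix (Fin (m + 3)) (Fin (m + 3)) F :=
  1 + Pm F m * (X - 1) * Qm F m

theorem psiM_one :
    psiM m (1 : Matrix (Fin 3) (Fin 3) F) = 1 := by
  simp [psiM]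

theorem psiM_mul (X Y : Matrix (Fin 3) (Fin 3) F) :
    psiM m (X * Y) = psiM m X * psiM m Y := by
  unfold psiM
  have h : Pm F m * (X - 1) * Qm F m * (Pm F m * (Y - 1) * Qm F m)
      = Pm F m * ((X - 1) * (Y - 1)) * Qm F m := by
    calc Pm F m * (X - 1) * Qm F m * (Pm F m * (Y - 1) * Qm F m)
        = Pm F m * (X - 1) * (Qm F m * Pm F m) * (Y - 1) * Qm F m := by
          simp only [Matrix.mul_assoc]
      _ = _ := by rw [Qm_mul_Pm, Matrix.mul_one]; simp only [Matrix.mul_assoc]
  have e : X * Y - 1 = (X - 1) + (Y - 1) + (X - 1) * (Y - 1) := by noncomm_ring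
  rw [e, Matrix.mul_add, Matrix.mul_add, Matrix.add_mul, Matrix.add_mul, ← h]
  noncomm_ring

theorem det_psiM (X : Matrix (Fin 3) (Fin 3) F) :
    (psiM m X).det = X.det := by
  unfold psiM
  rw [Matrix.mul_assoc, Matrix.det_one_add_mul_comm, Matrix.mul_assoc, Qm_mul_Pm]
  simp

/-- The embedding of `SL₃` into `SL_{m+3}`. -/
noncomputable def psiHom (m : ℕ) :
    SpecialLinearGroup (Fin 3) F →* SpecialLinearGroup (Fin (m + 3)) F where
  toFun X := ⟨psiM m X.1, by rw [det_psiM]; exact X.2⟩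
  map_one' := Subtype.ext psiM_one
  map_mul' X Y := Subtype.ext (psiM_mul X.1 Y.1)

theorem psiHom_mulVec (X : SpecialLinearGroup (Fin 3) F) (v : Fin (m + 3) → F) (i : Fin (m + 3)) :
    ((psiHom m X : SpecialLinearGroup (Fin (m + 3)) F).1 *ᵥ v) i
      = v i + (if i = 0 then (X.1 *ᵥ (Qm F m *ᵥ v)) 0 - v 0
          else ((X.1 *ᵥ (Qm F m *ᵥ v)) 1 - v 1) + (if i = Fin.last (m + 2)
            then (X.1 *ᵥ (Qm F m *ᵥ v)) 2 - (v (Fin.last (m + 2)) - v 1) else 0)) := by
  show ((1 + Pm F m * (X.1 - 1) * Qm F m) *ᵥ v) i = _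
  rw [Matrix.add_mulVec, Matrix.one_mulVec, Pi.add_apply, ← Matrix.mulVec_mulVec,
    ← Matrix.mulVec_mulVec, Pm_mulVec, Matrix.sub_mulVec, Matrix.one_mulVec]
  simp only [Pi.sub_apply, Qm_mulVec]
  simp

theorem f01 : (0 : Fin 3) ≠ 1 := by decide

theorem f10 : (1 : Fin 3) ≠ 0 := by decide

theorem f02 : (0 : Fin 3) ≠ 2 := by decide

theorem psiHom_x12 :
    psiHom m (SpecialLinearGroup.transvection f01 (1 : F))
      = SpecialLinearGroup.transvection h01 1 := by
  apply Subtype.ext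
  rw [Matrix.ext_iff_mulVec]
  intro v
  funext i
  rw [psiHom_mulVec]
  simp only [tv_mulVec_apply, Qm_mulVec]
  by_cases h0 : i = 0
  · subst h0
    simp
  · by_cases hL : i = Fin.last (m + 2)
    · simp [h0, hL]
    · simp [h0, hL]

theorem psiHom_x21 :
    (rS : SpecialLinearGroup (Fin (m + 3)) F)
        * psiHom m (SpecialLinearGroup.transvection f10 (1 : F))
      = SpecialLinearGroup.transvection hL0 1 * rS := by
  apply Subtype.ext
  rw [Matrix.ext_iff_mulVec]
  intro v
  funext i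
  simp only [coe_mul, ← mulVec_mulVec, rS_mulVec, psiHom_mulVec, tv_mulVec_apply, Qm_mulVec]
  have e0 : (cr (0 : Fin (m + 3)) : F) = 0 := by simp [cr]
  have eL : (cr (Fin.last (m + 2)) : F) = 0 := by simp [cr]
  by_cases h0 : i = 0
  · subst h0
    have h1 : (0 : Fin (m + 3)) + 1 ≠ 0 := by rw [zero_add]; exact h01.symm
    simp [e0, (hL0 (m := m)).symm]
  · by_cases hL : i = Fin.last (m + 2)
    · subst hL
      simp [eL, e0, hL0 (m := m)]
    · have hL' : (i : ℕ) ≠ m + 2 := fun h => hL (Fin.ext h)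
      have h0' : (i : ℕ) ≠ 0 := fun h => h0 (Fin.ext h)
      have hi1 : i + 1 ≠ 0 := fin_add_one_ne_zero i hL'
      simp [h0, hL, hi1, cr, h0', hL']

theorem psiHom_x12_x13 :
    psiHom m (SpecialLinearGroup.transvection f01 (1 : F)
        * SpecialLinearGroup.transvection f02 (1 : F))
      = SpecialLinearGroup.transvection (hL0 (m := m)).symm 1 := by
  apply Subtype.ext
  rw [Matrix.ext_iff_mulVec]
  intro v
  funext i
  rw [psiHom_mulVec]
  simp only [coe_mul, ← mulVec_mulVec, tv_mulVec_apply, Qm_mulVec]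
  by_cases h0 : i = 0
  · subst h0
    simp
    ring
  · by_cases hL : i = Fin.last (m + 2)
    · simp [h0, hL]
    · simp [h0, hL]

theorem sl3_key :
    (SpecialLinearGroup.transvection f01 (1 : F) * SpecialLinearGroup.transvection f02 1
      * (SpecialLinearGroup.transvection f10 (-1) * SpecialLinearGroup.transvection f02 1)
      * (SpecialLinearGroup.transvection f01 1 * SpecialLinearGroup.transvection f02 1))
    * (SpecialLinearGroup.transvection f01 (1 : F) * SpecialLinearGroup.transvection f02 1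
      * (SpecialLinearGroup.transvection f10 (-1) * SpecialLinearGroup.transvection f02 1)
      * (SpecialLinearGroup.transvection f01 1 * SpecialLinearGroup.transvection f02 1))
    * (SpecialLinearGroup.transvection f01 1 * SpecialLinearGroup.transvection f02 1)
    = SpecialLinearGroup.transvection f02 1
      * (SpecialLinearGroup.transvection f01 1 * SpecialLinearGroup.transvection f02 1)
      * ((SpecialLinearGroup.transvection f01 (1 : F) * SpecialLinearGroup.transvection f02 1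
      * (SpecialLinearGroup.transvection f10 (-1) * SpecialLinearGroup.transvection f02 1)
      * (SpecialLinearGroup.transvection f01 1 * SpecialLinearGroup.transvection f02 1))
    * (SpecialLinearGroup.transvection f01 (1 : F) * SpecialLinearGroup.transvection f02 1
      * (SpecialLinearGroup.transvection f10 (-1) * SpecialLinearGroup.transvection f02 1)
      * (SpecialLinearGroup.transvection f01 1 * SpecialLinearGroup.transvection f02 1))) := by
  apply Subtype.ext
  rw [Matrix.ext_iff_mulVec]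
  intro v
  funext k
  simp only [coe_mul, ← mulVec_mulVec, tv_mulVec_apply]
  fin_cases k <;> simp <;> ring

theorem sl3_word (H : Subgroup (SpecialLinearGroup (Fin 3) F))
    (ha : SpecialLinearGroup.transvection f01 (1 : F) * SpecialLinearGroup.transvection f10 1 ∈ H)
    (hb : SpecialLinearGroup.transvection f01 (1 : F) * SpecialLinearGroup.transvection f02 1 ∈ H) :
    SpecialLinearGroup.transvection f01 (1 : F) ∈ H := by
  have hq : SpecialLinearGroup.transvection f10 (-1 : F) * SpecialLinearGroup.transvection f02 1 ∈ H := by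
    have h := H.mul_mem (H.inv_mem ha) hb
    have e : (SpecialLinearGroup.transvection f01 (1 : F) * SpecialLinearGroup.transvection f10 1)⁻¹
        * (SpecialLinearGroup.transvection f01 (1 : F) * SpecialLinearGroup.transvection f02 1)
        = SpecialLinearGroup.transvection f10 (-1 : F) * SpecialLinearGroup.transvection f02 1 := by
      rw [_root_.mul_inv_rev, transvection_inv, mul_assoc, inv_mul_cancel_left]
    rw [e] at h
    exact h
  have hw := H.mul_mem (H.mul_mem hb hq) hb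
  have hww := H.mul_mem hw hw
  have ht : SpecialLinearGroup.transvection f02 (1 : F) ∈ H := by
    have h := H.mul_mem (H.mul_mem (H.mul_mem hww hb) (H.inv_mem hww)) (H.inv_mem hb)
    rw [sl3_key] at h
    simpa [mul_assoc] using h
  have h := H.mul_mem hb (H.inv_mem ht)
  simpa [mul_assoc] using h

/-- The action of the auxiliary matrix `Z₀`. -/
def Zf3 (v : Fin 3 → F) : Fin 3 → F :=
  ![v 0 + v 1 + v 2, v 0 + 2 * v 1 + v 2, -2 * v 0 - v 1 - v 2]

theorem word3 (H : Subgroup (SpecialLinearGroup (Fin 3) F)) (u y T : SpecialLinearGroup (Fin 3) F)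
    (hu1 : ∀ v : Fin 3 → F, u.1 *ᵥ v = ![v 0 + v 1, v 1 - v 2, v 2])
    (hy1 : ∀ v : Fin 3 → F, y.1 *ᵥ v = ![v 0, v 1 - v 2, v 2 - v 0])
    (hT1 : ∀ v : Fin 3 → F, T.1 *ᵥ v = ![v 0 + v 2, v 1, v 2])
    (hu : u ∈ H) (hy : y ∈ H) : T ∈ H := by
  have hz : ∀ v : Fin 3 → F, (y * u * y * u * (u * y)⁻¹).1 *ᵥ v = Zf3 v := by
    intro v
    have h1 : ∀ v' : Fin 3 → F, (y * u * y * u).1 *ᵥ v' = Zf3 ((u * y).1 *ᵥ v') := by
      intro v'
      simp only [coe_mul, ← mulVec_mulVec, hu1, hy1, Zf3]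
      ext i
      fin_cases i <;> simp <;> ring
    have h2 : (u * y).1 *ᵥ ((u * y)⁻¹.1 *ᵥ v) = v := by
      rw [mulVec_mulVec, ← coe_mul, mul_inv_cancel, coe_one, one_mulVec]
    rw [coe_mul (y * u * y * u), ← mulVec_mulVec, h1, h2]
  have hkey : u * T * y * u = (y * u * y * u * (u * y)⁻¹) * y * y := by
    apply Subtype.ext
    rw [Matrix.ext_iff_mulVec]
    intro v
    rw [coe_mul _ y, coe_mul _ y, ← mulVec_mulVec, ← mulVec_mulVec, hz]
    simp only [coe_mul, ← mulVec_mulVec, hu1, hy1, hT1, Zf3]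
    ext i
    fin_cases i <;> simp <;> ring
  have hzH : y * u * y * u * (u * y)⁻¹ ∈ H :=
    H.mul_mem (H.mul_mem (H.mul_mem (H.mul_mem hy hu) hy) hu) (H.inv_mem (H.mul_mem hu hy))
  have hT : T = u⁻¹ * ((y * u * y * u * (u * y)⁻¹) * y * y) * u⁻¹ * y⁻¹ := by
    rw [← hkey]
    group
  rw [hT]
  exact H.mul_mem (H.mul_mem (H.mul_mem (H.inv_mem hu) (H.mul_mem (H.mul_mem hzH hy) hy))
    (H.inv_mem hu)) (H.inv_mem hy)

theorem uS0_mulVec (v : Fin 3 → F) :
    (uS (m := 0) : SpecialLinearGroup (Fin 3) F).1 *ᵥ v = ![v 0 + v 1, v 1 - v 2, v 2] := by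
  funext i
  rw [uS_mulVec]
  fin_cases i
  · show v 0 + cu (0 : Fin 3) * v 1 = v 0 + v 1
    simp [cu]
  · show v 1 + cu (1 : Fin 3) * v 2 = v 1 - v 2
    simp [cu]
    ring
  · show v 2 + cu (2 : Fin 3) * v 0 = v 2
    simp [cu]

theorem yS0_mulVec (v : Fin 3 → F) :
    (yS (m := 0) : SpecialLinearGroup (Fin 3) F).1 *ᵥ v = ![v 0, v 1 - v 2, v 2 - v 0] := by
  funext i
  rw [yS_mulVec]
  fin_cases i
  · show v 0 + cy (0 : Fin 3) * v 1 = v 0
    simp [cy]
  · show v 1 + cy (1 : Fin 3) * v 2 = v 1 - v 2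
    simp [cy]
    ring
  · show v 2 + cy (2 : Fin 3) * v 0 = v 2 - v 0
    simp [cy]
    ring

theorem tS0_mulVec (v : Fin 3 → F) :
    (SpecialLinearGroup.transvection (hL0 (m := 0)).symm (1 : F) :
      SpecialLinearGroup (Fin 3) F).1 *ᵥ v = ![v 0 + v 2, v 1, v 2] := by
  funext i
  rw [tv_mulVec_apply]
  fin_cases i
  · show (if (0 : Fin 3) = 0 then v 0 + 1 * v 2 else v 0) = v 0 + v 2
    simp
  · show (if (1 : Fin 3) = 0 then v 0 + 1 * v 2 else v 1) = v 1
    simp
  · show (if (2 : Fin 3) = 0 then v 0 + 1 * v 2 else v 2) = v 2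
    simp

/-- For `n = 3`: `x_{02}(1)` lies in the subgroup generated by `u` and `y`. -/
theorem word3' (H : Subgroup (SpecialLinearGroup (Fin (0 + 3)) F))
    (hu : uS ∈ H) (hy : yS ∈ H) :
    SpecialLinearGroup.transvection (hL0 (m := 0)).symm (1 : F) ∈ H :=
  word3 H uS yS _ uS0_mulVec yS0_mulVec tS0_mulVec hu hy

end Cfsg.Agent.Lib.Helper14.RegU
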