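import Mathlib
import Cfsg.Agent.Lib.Helper14.RegU3

set_option linter.unusedSimpArgs false

namespace Cfsg.Agent.Lib.Helper14.RegU

open Matrix Matrix.SpecialLinearGroup
open Cfsg.Agent.Lib.Helper2.SLGen
open scoped commutatorElement

variable {F : Type*} [Field F] {m : ℕ}

/-- General commutator formula for transvections. -/
theorem tv_commutator {ι : Type*} [DecidableEq ι] [Fintype ι] {i j k : ι} (hij : i ≠ j)
    (hik : i ≠ k) (hkj : k ≠ j) (a b : F) :
    (SpecialLinearGroup.transvection hij (a * b) : SpecialLinearGroup ι F)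
      = ⁅SpecialLinearGroup.transvection hik a, SpecialLinearGroup.transvection hkj b⁆ := by
  rw [commutatorElement_def, transvection_inv, transvection_inv]
  apply Subtype.ext
  rw [Matrix.ext_iff_mulVec]
  intro v
  funext l
  simp only [coe_mul, ← mulVec_mulVec, tv_mulVec_apply]
  have hji : j ≠ i := hij.symm
  have hki : k ≠ i := hik.symm
  have hjk : j ≠ k := hkj.symm
  by_cases hli : l = i
  · subst hli
    simp only [if_true, if_neg hik, if_neg hki, if_neg hij, if_neg hji, if_neg hkj, if_neg hjk]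
    ring
  · by_cases hlk : l = k
    · subst hlk
      simp only [if_true, if_neg hik, if_neg hki, if_neg hij, if_neg hji, if_neg hkj, if_neg hjk]
      ring
    · simp only [if_neg hli, if_neg hlk]

theorem tv_congr {ι : Type*} [DecidableEq ι] [Fintype ι] {i j j' : ι} (e : j = j') (hij : i ≠ j)
    (hij' : i ≠ j') (c : F) :
    (SpecialLinearGroup.transvection hij c : SpecialLinearGroup ι F)
      = SpecialLinearGroup.transvection hij' c := by
  subst e
  rfl

theorem comm_mem {G : Type*} [Group G] (H : Subgroup G) {a b : G} (ha : a ∈ H) (hb : b ∈ H) :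
    ⁅a, b⁆ ∈ H := by
  rw [commutatorElement_def]
  exact H.mul_mem (H.mul_mem (H.mul_mem ha hb) (H.inv_mem ha)) (H.inv_mem hb)

theorem tv_rowL_r (a : F) :
    (SpecialLinearGroup.transvection (hL0 (m := m)).symm a : SpecialLinearGroup (Fin (m + 3)) F)
        * rS
      = rS * SpecialLinearGroup.transvection (hL0 (m := m)).symm a := by
  unfold rS
  rw [← mul_assoc, tv_rowL_u, mul_assoc, tv_comm_row, ← mul_assoc]

theorem uS_eq_rS_mul :
    (uS : SpecialLinearGroup (Fin (m + 3)) F) = rS * SpecialLinearGroup.transvection h01 1 := by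
  unfold rS
  rw [mul_assoc, ← transvection_add]
  simp

theorem yS_inv :
    (yS : SpecialLinearGroup (Fin (m + 3)) F)⁻¹
      = rS⁻¹ * SpecialLinearGroup.transvection hL0 1 := by
  unfold yS
  rw [_root_.mul_inv_rev, transvection_inv, neg_neg]

theorem rS_mem (H : Subgroup (SpecialLinearGroup (Fin (m + 3)) F)) (hu : uS ∈ H) (hy : yS ∈ H)
    (ht : SpecialLinearGroup.transvection (hL0 (m := m)).symm (1 : F) ∈ H) : rS ∈ H := by
  let Φ : SpecialLinearGroup (Fin 3) F →* SpecialLinearGroup (Fin (m + 3)) F :=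
    (MulAut.conj (rS : SpecialLinearGroup (Fin (m + 3)) F)).toMonoidHom.comp (psiHom m)
  have hΦ : ∀ X, Φ X = rS * psiHom m X * rS⁻¹ := fun X => rfl
  have ha : SpecialLinearGroup.transvection f01 (1 : F) * SpecialLinearGroup.transvection f10 1
      ∈ H.comap Φ := by
    rw [Subgroup.mem_comap, hΦ, map_mul, psiHom_x12]
    have e : psiHom m (SpecialLinearGroup.transvection f10 (1 : F)) * rS⁻¹
        = rS⁻¹ * SpecialLinearGroup.transvection hL0 1 := by
      rw [eq_inv_mul_iff_mul_eq, ← mul_assoc, psiHom_x21, mul_assoc, mul_inv_cancel, mul_one]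
    have e2 : (rS : SpecialLinearGroup (Fin (m + 3)) F) * (SpecialLinearGroup.transvection h01 1
        * psiHom m (SpecialLinearGroup.transvection f10 (1 : F))) * rS⁻¹ = uS * yS⁻¹ := by
      rw [yS_inv, uS_eq_rS_mul, mul_assoc, mul_assoc, e, mul_assoc]
    rw [e2]
    exact H.mul_mem hu (H.inv_mem hy)
  have hb : SpecialLinearGroup.transvection f01 (1 : F) * SpecialLinearGroup.transvection f02 1
      ∈ H.comap Φ := by
    rw [Subgroup.mem_comap, hΦ, psiHom_x12_x13, ← tv_rowL_r, mul_assoc, mul_inv_cancel, mul_one]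
    exact ht
  have hx := sl3_word (H.comap Φ) ha hb
  rw [Subgroup.mem_comap, hΦ, psiHom_x12, ← uS_eq_rS_mul] at hx
  have e3 : (rS : SpecialLinearGroup (Fin (m + 3)) F) = (uS * rS⁻¹)⁻¹ * uS := by group
  rw [e3]
  exact H.mul_mem (H.inv_mem hx) hu

theorem row_mem (H : Subgroup (SpecialLinearGroup (Fin (m + 3)) F)) (hu : uS ∈ H)
    (h1 : SpecialLinearGroup.transvection (h01 (m := m)) (1 : F) ∈ H) :
    ∀ (k : ℕ) (j : Fin (m + 3)), (j : ℕ) = k + 1 → ∀ h : (0 : Fin (m + 3)) ≠ j,
      SpecialLinearGroup.transvection h (1 : F) ∈ H := by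
  intro k
  induction k with
  | zero =>
    intro j hj h
    have e : j = 1 := Fin.ext (by rw [hj]; simp)
    subst e
    exact h1
  | succ k ih =>
    intro j hj h
    have hk : k + 1 < m + 3 := by have := j.2; omega
    have hj'L : ((⟨k + 1, hk⟩ : Fin (m + 3)) : ℕ) ≠ m + 2 := by
      have := j.2
      simp only
      omega
    have e : j = (⟨k + 1, hk⟩ : Fin (m + 3)) + 1 :=
      Fin.ext (by rw [fin_val_add_one _ hj'L, hj])
    subst e
    have h0j' : (0 : Fin (m + 3)) ≠ ⟨k + 1, hk⟩ := by
      intro h'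
      have := congrArg Fin.val h'
      simp at this
    have hm := ih ⟨k + 1, hk⟩ rfl h0j'
    have key := tv_row_u (F := F) (j := ⟨k + 1, hk⟩) (by simp) hj'L h0j' h (1 : F)
    have e2 : SpecialLinearGroup.transvection h (-1 : F)
        = (SpecialLinearGroup.transvection h0j' (1 : F))⁻¹ * uS⁻¹
          * (SpecialLinearGroup.transvection h0j' 1 * uS) := by
      rw [key]
      group
    have h3 : SpecialLinearGroup.transvection h (-1 : F) ∈ H := by
      rw [e2]
      exact H.mul_mem (H.mul_mem (H.inv_mem hm) (H.inv_mem hu)) (H.mul_mem hm hu)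
    have h4 := H.inv_mem h3
    rwa [transvection_inv, neg_neg] at h4

theorem col_mem (H : Subgroup (SpecialLinearGroup (Fin (m + 3)) F)) (hy : yS ∈ H)
    (hL : SpecialLinearGroup.transvection (hL0 (m := m)) (1 : F) ∈ H) :
    ∀ (k : ℕ) (j : Fin (m + 3)), (j : ℕ) + k = m + 2 → ∀ h : j ≠ (0 : Fin (m + 3)),
      SpecialLinearGroup.transvection h (1 : F) ∈ H := by
  intro k
  induction k with
  | zero =>
    intro j hj h
    have e : j = Fin.last (m + 2) := Fin.ext (by simpa using hj)
    subst e
    exact hL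
  | succ k ih =>
    intro j hj h
    have hjL : (j : ℕ) ≠ m + 2 := by omega
    have hj0 : (j : ℕ) ≠ 0 := fun h' => h (Fin.ext h')
    have hj1 : j + 1 ≠ 0 := fin_add_one_ne_zero j hjL
    have hm := ih (j + 1) (by rw [fin_val_add_one j hjL]; omega) hj1
    have key := tv_col_y (F := F) hj0 hjL h hj1 (1 : F)
    have e2 : SpecialLinearGroup.transvection h (-1 : F)
        = (SpecialLinearGroup.transvection hj1 (1 : F))⁻¹
          * (yS * SpecialLinearGroup.transvection hj1 1) * yS⁻¹ := by
      rw [key]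
      group
    have h3 : SpecialLinearGroup.transvection h (-1 : F) ∈ H := by
      rw [e2]
      exact H.mul_mem (H.mul_mem (H.inv_mem hm) (H.mul_mem hy hm)) (H.inv_mem hy)
    have h4 := H.inv_mem h3
    rwa [transvection_inv, neg_neg] at h4

/-- Lemma A: `u`, `y` and `x_{0L}(1)` generate all `x_{ij}(1)`. -/
theorem lemmaA (H : Subgroup (SpecialLinearGroup (Fin (m + 3)) F)) (hu : uS ∈ H) (hy : yS ∈ H)
    (ht : SpecialLinearGroup.transvection (hL0 (m := m)).symm (1 : F) ∈ H) :
    ∀ (i j : Fin (m + 3)) (hij : i ≠ j), SpecialLinearGroup.transvection hij (1 : F) ∈ H := by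
  have hr := rS_mem H hu hy ht
  have h1 : SpecialLinearGroup.transvection (h01 (m := m)) (1 : F) ∈ H := by
    have e : SpecialLinearGroup.transvection (h01 (m := m)) (1 : F) = rS⁻¹ * uS := by
      rw [uS_eq_rS_mul, inv_mul_cancel_left]
    rw [e]
    exact H.mul_mem (H.inv_mem hr) hu
  have hL : SpecialLinearGroup.transvection (hL0 (m := m)) (1 : F) ∈ H := by
    have e : SpecialLinearGroup.transvection (hL0 (m := m)) (1 : F) = (yS * rS⁻¹)⁻¹ := by
      unfold yS
      rw [mul_inv_cancel_right, transvection_inv, neg_neg]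
    rw [e]
    exact H.inv_mem (H.mul_mem hy (H.inv_mem hr))
  have hrow : ∀ (j : Fin (m + 3)) (h : (0 : Fin (m + 3)) ≠ j),
      SpecialLinearGroup.transvection h (1 : F) ∈ H := by
    intro j h
    have hj : (j : ℕ) ≠ 0 := fun h' => h (Fin.ext h'.symm)
    exact row_mem H hu h1 ((j : ℕ) - 1) j (by omega) h
  have hcol : ∀ (j : Fin (m + 3)) (h : j ≠ (0 : Fin (m + 3))),
      SpecialLinearGroup.transvection h (1 : F) ∈ H := by
    intro j h
    exact col_mem H hy hL (m + 2 - (j : ℕ)) j (by have := j.2; omega) h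
  intro i j hij
  by_cases hi : i = 0
  · subst hi
    exact hrow j hij
  · by_cases hj : j = 0
    · subst hj
      exact hcol i hij
    · rw [transvection_eq_commutator hij hi (Ne.symm hj) 1]
      exact comm_mem H (hcol i hi) (hrow j (Ne.symm hj))

theorem exists_third (i j : Fin (m + 3)) : ∃ k : Fin (m + 3), k ≠ i ∧ k ≠ j := by
  obtain ⟨k, hk⟩ : ∃ k, k ∉ ({i, j} : Finset (Fin (m + 3))) := by
    by_contra hcon
    push Not at hcon
    have h1 : Fintype.card (Fin (m + 3)) ≤ ({i, j} : Finset (Fin (m + 3))).card := by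
      rw [← Finset.card_univ]
      exact Finset.card_le_card (fun x _ => hcon x)
    have h2 : ({i, j} : Finset (Fin (m + 3))).card ≤ 2 := Finset.card_le_two
    rw [Fintype.card_fin] at h1
    omega
  simp only [Finset.mem_insert, Finset.mem_singleton, not_or] at hk
  exact ⟨k, hk.1, hk.2⟩

/-- If all `x_{ij}(1)` lie in `H` and one `x_{i₀j₀}(t)` does, then all `x_{ij}(t)` do. -/
theorem spread (H : Subgroup (SpecialLinearGroup (Fin (m + 3)) F))
    (h1 : ∀ (i j : Fin (m + 3)) (hij : i ≠ j), SpecialLinearGroup.transvection hij (1 : F) ∈ H)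
    (t : F) {i0 j0 : Fin (m + 3)} (h0 : i0 ≠ j0)
    (ht : SpecialLinearGroup.transvection h0 t ∈ H) :
    ∀ (i j : Fin (m + 3)) (hij : i ≠ j), SpecialLinearGroup.transvection hij t ∈ H := by
  have s1 : ∀ (j : Fin (m + 3)) (h : i0 ≠ j), SpecialLinearGroup.transvection h t ∈ H := by
    intro j h
    by_cases hj : j = j0
    · subst hj
      exact ht
    · have e := tv_commutator (F := F) h h0 (Ne.symm hj) t 1
      rw [mul_one] at e
      rw [e]
      exact comm_mem H ht (h1 _ _ _)
  have s2 : ∀ (i j : Fin (m + 3)) (hij : i ≠ j), i ≠ i0 → j ≠ i0 →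
      SpecialLinearGroup.transvection hij t ∈ H := by
    intro i j hij hi hj
    have e := tv_commutator (F := F) hij hi (Ne.symm hj) 1 t
    rw [one_mul] at e
    rw [e]
    exact comm_mem H (h1 _ _ _) (s1 _ _)
  intro i j hij
  by_cases hi : i = i0
  · subst hi
    exact s1 j hij
  · by_cases hj : j = i0
    · subst hj
      obtain ⟨k, hki, hkj⟩ := exists_third i j
      have e := tv_commutator (F := F) hij (Ne.symm hki) hkj t 1
      rw [mul_one] at e
      rw [e]
      exact comm_mem H (s2 i k (Ne.symm hki) hi hkj) (h1 _ _ _)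
    · exact s2 i j hij hi hj

/-- Lemma B. -/
theorem lemmaB (H : Subgroup (SpecialLinearGroup (Fin (m + 3)) F))
    (h1 : ∀ (i j : Fin (m + 3)) (hij : i ≠ j), SpecialLinearGroup.transvection hij (1 : F) ∈ H)
    (θ : F) (hθ : ∀ x : F, x ≠ 0 → ∃ k : ℕ, θ ^ k = x)
    (hθH : SpecialLinearGroup.transvection (hL0 (m := m)).symm θ ∈ H) : H = ⊤ := by
  have hθall := spread H h1 θ (hL0 (m := m)).symm hθH
  have hpow : ∀ (k : ℕ) (i j : Fin (m + 3)) (hij : i ≠ j),
      SpecialLinearGroup.transvection hij (θ ^ k) ∈ H := by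
    intro k
    induction k with
    | zero =>
      intro i j hij
      rw [pow_zero]
      exact h1 i j hij
    | succ k ih =>
      have h2 : SpecialLinearGroup.transvection (hL0 (m := m)).symm (θ ^ (k + 1)) ∈ H := by
        rw [pow_succ, tv_commutator (hL0 (m := m)).symm h01 h1L (θ ^ k) θ]
        exact comm_mem H (ih _ _ _) (hθall _ _ _)
      exact spread H h1 _ (hL0 (m := m)).symm h2
  rw [eq_top_iff]
  intro A _
  refine transvection_induction (fun A => A ∈ H) ?_ (fun A B hA hB => H.mul_mem hA hB) A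
  intro i j hij c
  by_cases hc : c = 0
  · subst hc
    rw [transvection_coeff_zero]
    exact H.one_mem
  · obtain ⟨k, rfl⟩ := hθ c hc
    exact hpow k i j hij

theorem exists_gen (F : Type*) [Field F] [Fintype F] :
    ∃ θ : F, ∀ x : F, x ≠ 0 → ∃ k : ℕ, θ ^ k = x := by
  obtain ⟨g0, hg0⟩ := IsCyclic.exists_monoid_generator (α := Fˣ)
  refine ⟨(g0 : F), fun x hx => ?_⟩
  obtain ⟨k, hk⟩ := (Submonoid.mem_powers_iff _ _).mp (hg0 (Units.mk0 x hx))
  refine ⟨k, ?_⟩
  have := congrArg Units.val hk
  simpa using this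

theorem tv_row_u_last {j : Fin (m + 3)} (hj : (j : ℕ) = m + 1) (h0j : (0 : Fin (m + 3)) ≠ j)
    (a : F) :
    (SpecialLinearGroup.transvection h0j a : SpecialLinearGroup (Fin (m + 3)) F) * uS
      = uS * (SpecialLinearGroup.transvection h0j a
          * SpecialLinearGroup.transvection (hL0 (m := m)).symm (-a)) := by
  have e : j + 1 = Fin.last (m + 2) :=
    Fin.ext (by rw [fin_val_add_one j (by omega), hj]; rfl)
  have h0j' : (0 : Fin (m + 3)) ≠ j + 1 := by
    rw [e]
    exact (hL0 (m := m)).symm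
  rw [tv_row_u (by omega) (by omega) h0j h0j' a, tv_congr e h0j' (hL0 (m := m)).symm]

theorem gen_zero (θ : F) (hθ : ∀ x : F, x ≠ 0 → ∃ k : ℕ, θ ^ k = x)
    (H : Subgroup (SpecialLinearGroup (Fin (0 + 3)) F)) (hu : uS ∈ H) (hy : yS ∈ H)
    (hg : SpecialLinearGroup.transvection (h01 (m := 0)) (-θ) * uS
      * (SpecialLinearGroup.transvection (h01 (m := 0)) (-θ))⁻¹ ∈ H) : H = ⊤ := by
  have key := tv_row_u_last (F := F) (m := 0) (j := 1) (by simp) h01 (-θ)
  rw [neg_neg] at key
  have e : SpecialLinearGroup.transvection (h01 (m := 0)) (-θ) * uS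
      * (SpecialLinearGroup.transvection (h01 (m := 0)) (-θ))⁻¹
      = uS * SpecialLinearGroup.transvection (hL0 (m := 0)).symm θ := by
    rw [key, tv_comm_row, mul_assoc, mul_assoc, mul_inv_cancel, mul_one]
  have hκ : SpecialLinearGroup.transvection (hL0 (m := 0)).symm θ ∈ H := by
    have e2 : SpecialLinearGroup.transvection (hL0 (m := 0)).symm θ
        = uS⁻¹ * (SpecialLinearGroup.transvection (h01 (m := 0)) (-θ) * uS
          * (SpecialLinearGroup.transvection (h01 (m := 0)) (-θ))⁻¹) := by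
      rw [e]
      group
    rw [e2]
    exact H.mul_mem (H.inv_mem hu) hg
  exact lemmaB H (lemmaA H hu hy (word3' H hu hy)) θ hθ hκ

theorem gen_succ (θ : F) (hθ : ∀ x : F, x ≠ 0 → ∃ k : ℕ, θ ^ k = x)
    (H : Subgroup (SpecialLinearGroup (Fin (m + 1 + 3)) F)) (hu : uS ∈ H) (hy : yS ∈ H)
    (a b : Fin (m + 1 + 3)) (ha : (a : ℕ) = m + 1) (hb : (b : ℕ) = m + 2)
    (h0a : (0 : Fin (m + 1 + 3)) ≠ a) (h0b : (0 : Fin (m + 1 + 3)) ≠ b)
    (hg : (SpecialLinearGroup.transvection h0a (-1) * SpecialLinearGroup.transvection h0b (-θ))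
      * uS * (SpecialLinearGroup.transvection h0a (-1)
        * SpecialLinearGroup.transvection h0b (-θ))⁻¹ ∈ H) : H = ⊤ := by
  have e_ab : a + 1 = b := Fin.ext (by rw [fin_val_add_one a (by omega), ha, hb])
  have h0a1 : (0 : Fin (m + 1 + 3)) ≠ a + 1 := by
    rw [e_ab]
    exact h0b
  have kA := tv_row_u (F := F) (j := a) (by omega) (by omega) h0a h0a1 (-1 : F)
  rw [tv_congr e_ab h0a1 h0b, neg_neg] at kA
  have kB := tv_row_u_last (F := F) hb h0b (-θ)
  rw [neg_neg] at kB
  have kB1 := tv_row_u_last (F := F) hb h0b (1 : F)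
  have kL := tv_rowL_u (m := m + 1) θ
  have hAB : SpecialLinearGroup.transvection h0a (-1 : F) * SpecialLinearGroup.transvection h0b 1
      = SpecialLinearGroup.transvection h0b 1 * SpecialLinearGroup.transvection h0a (-1) :=
    tv_comm_row _ _ _ _
  have hCD : SpecialLinearGroup.transvection h0b (-θ)
        * SpecialLinearGroup.transvection (hL0 (m := m + 1)).symm θ
      = SpecialLinearGroup.transvection (hL0 (m := m + 1)).symm θ
        * SpecialLinearGroup.transvection h0b (-θ) :=
    tv_comm_row _ _ _ _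
  have hAD : SpecialLinearGroup.transvection h0a (-1 : F)
        * SpecialLinearGroup.transvection (hL0 (m := m + 1)).symm θ
      = SpecialLinearGroup.transvection (hL0 (m := m + 1)).symm θ
        * SpecialLinearGroup.transvection h0a (-1) :=
    tv_comm_row _ _ _ _
  have hED : SpecialLinearGroup.transvection (hL0 (m := m + 1)).symm (-1 : F)
        * SpecialLinearGroup.transvection (hL0 (m := m + 1)).symm θ
      = SpecialLinearGroup.transvection (hL0 (m := m + 1)).symm θ
        * SpecialLinearGroup.transvection (hL0 (m := m + 1)).symm (-1) :=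
    tv_comm_row _ _ _ _
  generalize hA : SpecialLinearGroup.transvection h0a (-1 : F) = A at *
  generalize hB : SpecialLinearGroup.transvection h0b (1 : F) = B at *
  generalize hC : SpecialLinearGroup.transvection h0b (-θ) = C at *
  generalize hD : SpecialLinearGroup.transvection (hL0 (m := m + 1)).symm θ = D at *
  generalize hE : SpecialLinearGroup.transvection (hL0 (m := m + 1)).symm (-1 : F) = E at *
  have c1 : A * B * (C * D) = B * D * (A * C) := by
    calc A * B * (C * D) = B * A * (D * C) := by rw [hAB, hCD]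
      _ = B * (A * D) * C := by simp only [mul_assoc]
      _ = B * (D * A) * C := by rw [hAD]
      _ = B * D * (A * C) := by simp only [mul_assoc]
  have e1 : A * C * uS * (A * C)⁻¹ = uS * (B * D) := by
    rw [mul_inv_eq_iff_eq_mul]
    calc A * C * uS = A * (C * uS) := mul_assoc _ _ _
      _ = A * (uS * (C * D)) := by rw [kB]
      _ = (A * uS) * (C * D) := by rw [mul_assoc]
      _ = uS * (A * B) * (C * D) := by rw [kA]
      _ = uS * (A * B * (C * D)) := by rw [mul_assoc]
      _ = uS * (B * D * (A * C)) := by rw [c1]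
      _ = uS * (B * D) * (A * C) := by simp only [mul_assoc]
  have hκ : B * D ∈ H := by
    have e2 : B * D = uS⁻¹ * (A * C * uS * (A * C)⁻¹) := by
      rw [e1]
      group
    rw [e2]
    exact H.mul_mem (H.inv_mem hu) hg
  have e3 : B * D * uS = uS * (B * D * E) := by
    calc B * D * uS = B * (D * uS) := mul_assoc _ _ _
      _ = B * (uS * D) := by rw [kL]
      _ = (B * uS) * D := by rw [mul_assoc]
      _ = uS * (B * E) * D := by rw [kB1]
      _ = uS * (B * (E * D)) := by simp only [mul_assoc]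
      _ = uS * (B * (D * E)) := by rw [hED]
      _ = uS * (B * D * E) := by simp only [mul_assoc]
  have hEH : E ∈ H := by
    have e4 : E = (B * D)⁻¹ * uS⁻¹ * (B * D * uS) := by
      rw [e3]
      group
    rw [e4]
    exact H.mul_mem (H.mul_mem (H.inv_mem hκ) (H.inv_mem hu)) (H.mul_mem hκ hu)
  have hT1 : SpecialLinearGroup.transvection (hL0 (m := m + 1)).symm (1 : F) ∈ H := by
    have h4 := H.inv_mem hEH
    rwa [← hE, transvection_inv, neg_neg] at h4
  have h1 := lemmaA H hu hy hT1
  have hDH : D ∈ H := by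
    have e5 : D = B⁻¹ * (B * D) := by group
    rw [e5]
    refine H.mul_mem (H.inv_mem ?_) hκ
    rw [← hB]
    exact h1 _ _ _
  rw [← hD] at hDH
  exact lemmaB H h1 θ hθ hDH

/-- Main theorem: three conjugate regular unipotent elements generate `SL_{m+3}(F)`. -/
theorem main_m (F : Type*) [Field F] [Fintype F] (m : ℕ) :
    ∃ u g h : SpecialLinearGroup (Fin (m + 3)) F,
      (IsNilpotent ((u : Matrix (Fin (m + 3)) (Fin (m + 3)) F) - 1) ∧
        ((u : Matrix (Fin (m + 3)) (Fin (m + 3)) F) - 1) ^ (m + 2) ≠ 0) ∧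
      Subgroup.closure
        ({u, g * u * g⁻¹, h * u * h⁻¹} : Set (SpecialLinearGroup (Fin (m + 3)) F)) = ⊤ := by
  obtain ⟨θ, hθ⟩ := exists_gen F
  rcases m with _ | m
  · refine ⟨uS, SpecialLinearGroup.transvection (h01 (m := 0)) (-θ), hS,
      ⟨uS_nilpotent, uS_regular⟩, ?_⟩
    apply gen_zero θ hθ
    · exact Subgroup.subset_closure (by simp)
    · rw [← hS_conj]
      exact Subgroup.subset_closure (by simp)
    · exact Subgroup.subset_closure (by simp)
  · have hka : m + 1 < m + 1 + 3 := by omega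
    have hkb : m + 2 < m + 1 + 3 := by omega
    have h0a : (0 : Fin (m + 1 + 3)) ≠ ⟨m + 1, hka⟩ := by
      intro h
      have := congrArg Fin.val h
      simp at this
    have h0b : (0 : Fin (m + 1 + 3)) ≠ ⟨m + 2, hkb⟩ := by
      intro h
      have := congrArg Fin.val h
      simp at this
    refine ⟨uS, SpecialLinearGroup.transvection h0a (-1) * SpecialLinearGroup.transvection h0b (-θ),
      hS, ⟨uS_nilpotent, uS_regular⟩, ?_⟩
    apply gen_succ θ hθ _ _ _ ⟨m + 1, hka⟩ ⟨m + 2, hkb⟩ rfl rfl h0a h0b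
    · exact Subgroup.subset_closure (by simp)
    · exact Subgroup.subset_closure (by simp)
    · rw [← hS_conj]
      exact Subgroup.subset_closure (by simp)

end Cfsg.Agent.Lib.Helper14.RegU
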