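import Mathlib
import Cfsg.Agent.Lib.Helper1.CharReg
import Cfsg.Agent.Lib.Helper1.CharInd

set_option autoImplicit false
set_option linter.unusedSectionVars false
set_option linter.unusedVariables false

namespace Cfsg.Agent.Lib.Helper14.TorusMF

open scoped ComplexConjugate
open Cfsg.Agent.Lib.Helper1

universe u v w

section dual

variable {A : Type v} [CommGroup A] [Finite A]

theorem card_dual : Nat.card (A →* ℂˣ) = Nat.card A := by
  have : NeZero (Monoid.exponent A) := ⟨Monoid.exponent_ne_zero_of_finite⟩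
  exact CommGroup.card_monoidHom_of_hasEnoughRootsOfUnity A ℂ

theorem finite_dual : Finite (A →* ℂˣ) :=
  Nat.finite_of_card_ne_zero (by rw [card_dual]; exact Nat.card_pos.ne')

theorem sum_dual_one [Fintype (A →* ℂˣ)] :
    ∑ lam : A →* ℂˣ, ((lam 1 : ℂˣ) : ℂ) = (Nat.card A : ℂ) := by
  simp only [map_one, Units.val_one, Finset.sum_const, Finset.card_univ, nsmul_eq_mul, mul_one]
  rw [← card_dual (A := A), Nat.card_eq_fintype_card]

theorem sum_dual_ne [Fintype (A →* ℂˣ)] {c : A} (hc : c ≠ 1) :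
    ∑ lam : A →* ℂˣ, ((lam c : ℂˣ) : ℂ) = 0 := by
  have : NeZero (Monoid.exponent A) := ⟨Monoid.exponent_ne_zero_of_finite⟩
  obtain ⟨φ, hφ⟩ := CommGroup.exists_apply_ne_one_of_hasEnoughRootsOfUnity A ℂ hc
  have h1 : ∑ lam : A →* ℂˣ, (((φ * lam) c : ℂˣ) : ℂ) = ∑ lam : A →* ℂˣ, ((lam c : ℂˣ) : ℂ) :=
    Fintype.sum_equiv (Equiv.mulLeft φ) _ _ (fun lam => rfl)
  have h2 : ∑ lam : A →* ℂˣ, (((φ * lam) c : ℂˣ) : ℂ) =
      ((φ c : ℂˣ) : ℂ) * ∑ lam : A →* ℂˣ, ((lam c : ℂˣ) : ℂ) := by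
    rw [Finset.mul_sum]
    apply Finset.sum_congr rfl
    intro lam _
    rw [MonoidHom.mul_apply, Units.val_mul]
  rw [h2] at h1
  have h3 : (((φ c : ℂˣ) : ℂ) - 1) * ∑ lam : A →* ℂˣ, ((lam c : ℂˣ) : ℂ) = 0 := by
    rw [sub_mul, h1, one_mul, sub_self]
  rcases mul_eq_zero.mp h3 with h | h
  · exfalso
    apply hφ
    apply Units.ext
    rw [Units.val_one]
    exact sub_eq_zero.mp h
  · exact h

end dual

section comb

theorem comb_core {I Λ : Type*} [Fintype I] [Fintype Λ] [DecidableEq I] [DecidableEq Λ]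
    (m' : Λ → I → ℕ) (i₀ : I)
    (h1 : ∑ lam, m' lam i₀ = 1)
    (h2 : ∑ i, (∑ lam, m' lam i) ^ 2 = Fintype.card Λ + 1)
    (h3 : ∀ lam, ∃ i, m' lam i ≠ 0)
    (h4 : ∀ lam, ¬ ∀ i, m' lam i = if i = i₀ then 1 else 0) :
    (∀ i, ∑ lam, m' lam i ≤ 1) ∧
      (Finset.univ.filter (fun i => ∑ lam, m' lam i = 1)).card = Fintype.card Λ + 1 := by
  have hN1 : ∀ lam, 1 ≤ ∑ i, m' lam i := by
    intro lam
    obtain ⟨i, hi⟩ := h3 lam
    have := Finset.single_le_sum (f := fun i => m' lam i) (fun i _ => Nat.zero_le _)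
      (Finset.mem_univ i)
    have h0 : 1 ≤ m' lam i := Nat.one_le_iff_ne_zero.mpr hi
    exact le_trans h0 this
  obtain ⟨lam₀, -, hlam₀⟩ := Finset.exists_ne_zero_of_sum_ne_zero (by rw [h1]; exact one_ne_zero :
    ∑ lam, m' lam i₀ ≠ 0)
  have hN2 : 2 ≤ ∑ i, m' lam₀ i := by
    by_contra hlt
    push Not at hlt
    apply h4 lam₀
    intro i
    have hi₀ := Finset.single_le_sum (f := fun i => m' lam₀ i) (fun i _ => Nat.zero_le _)
      (Finset.mem_univ i₀)
    by_cases hi : i = i₀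
    · rw [if_pos hi, hi]
      have : 1 ≤ m' lam₀ i₀ := Nat.one_le_iff_ne_zero.mpr hlam₀
      omega
    · rw [if_neg hi]
      have hsub : ({i, i₀} : Finset I) ⊆ Finset.univ := Finset.subset_univ _
      have := Finset.sum_le_sum_of_subset (f := fun i => m' lam₀ i) hsub
      rw [Finset.sum_pair hi] at this
      have : 1 ≤ m' lam₀ i₀ := Nat.one_le_iff_ne_zero.mpr hlam₀
      omega
  have htot : Fintype.card Λ + 1 ≤ ∑ i, ∑ lam, m' lam i := by
    rw [Finset.sum_comm]
    have h5 : ∑ lam : Λ, (1 + if lam = lam₀ then 1 else 0) ≤ ∑ lam, ∑ i, m' lam i := by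
      apply Finset.sum_le_sum
      intro lam _
      by_cases hl : lam = lam₀
      · rw [if_pos hl, hl]
        exact hN2
      · rw [if_neg hl]
        exact hN1 lam
    rw [Finset.sum_add_distrib, Finset.sum_const, Finset.card_univ, smul_eq_mul, mul_one,
      Finset.sum_ite_eq' Finset.univ lam₀ (fun _ => 1), if_pos (Finset.mem_univ _)] at h5
    exact h5
  have hle : ∀ i, ∑ lam, m' lam i ≤ (∑ lam, m' lam i) ^ 2 := fun i => Nat.le_self_pow two_ne_zero _
  have heq : ∀ i, (∑ lam, m' lam i) ^ 2 = ∑ lam, m' lam i := by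
    intro j
    by_contra hne
    have hlt : ∑ lam, m' lam j < (∑ lam, m' lam j) ^ 2 := lt_of_le_of_ne (hle j) (Ne.symm hne)
    have := Finset.sum_lt_sum (s := Finset.univ) (fun i _ => hle i) ⟨j, Finset.mem_univ j, hlt⟩
    omega
  have hle1 : ∀ i, ∑ lam, m' lam i ≤ 1 := by
    intro i
    have h := heq i
    by_contra hgt
    push Not at hgt
    nlinarith
  refine ⟨hle1, ?_⟩
  rw [Finset.card_filter]
  have h6 : ∑ i, (if ∑ lam, m' lam i = 1 then 1 else 0) = ∑ i, ∑ lam, m' lam i := by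
    apply Finset.sum_congr rfl
    intro i _
    have := hle1 i
    by_cases h : ∑ lam, m' lam i = 1
    · rw [if_pos h, h]
    · rw [if_neg h]
      omega
  rw [h6]
  have h7 : ∑ i, ∑ lam, m' lam i = ∑ i, (∑ lam, m' lam i) ^ 2 :=
    Finset.sum_congr rfl (fun i _ => (heq i).symm)
  rw [h7, h2]

end comb

section main

variable {G : Type u} [Group G] [Fintype G] {A : Type v} [CommGroup A] [Fintype A]
  {X : Type w} [Finite X] [MulAction (G × A) X]

variable (G A X) in
theorem piT_isCharacter :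
    Cfsg.IsCharacter (G × A) (fun t : G × A => (Nat.card (MulAction.fixedBy X t) : ℂ)) := by
  have h := isCharacter_character (Representation.ofMulAction ℂ (G × A) X)
  have e : (Representation.ofMulAction ℂ (G × A) X).character =
      fun t => (Nat.card (MulAction.fixedBy X t) : ℂ) := funext (fun t => char_ofMulAction t)
  rwa [e] at h

variable (X) in
/-- the `lam`-isotypic part of the permutation character -/
noncomputable def piLam (lam : A →* ℂˣ) (g : G) : ℂ :=
  (Nat.card A : ℂ)⁻¹ * ∑ c : A, conj ((lam c : ℂˣ) : ℂ) *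
    (Nat.card (MulAction.fixedBy X ((g, c) : G × A)) : ℂ)

theorem piLam_classFunction (lam : A →* ℂˣ) : Cfsg.IsClassFunction G (piLam X lam) := by
  intro g h
  unfold piLam
  congr 1
  apply Finset.sum_congr rfl
  intro c _
  have hT := IsCharacter.isClassFunction (piT_isCharacter G A X) (g, c) (h, 1)
  have e : ((h, 1) : G × A) * (g, c) * (h, 1)⁻¹ = (h * g * h⁻¹, c) := by
    apply Prod.ext
    · simp
    · simp
  rw [e] at hT
  rw [hT]

theorem piLam_inner (lam : A →* ℂˣ) {ψ : G → ℂ} (hψ : Cfsg.IsCharacter G ψ) :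
    ∃ n : ℕ, Cfsg.classInner (piLam X lam) ψ = (n : ℂ) := by
  have hΨ : Cfsg.IsCharacter (G × A) ((ψ ∘ ⇑(MonoidHom.fst G A)) *
      ((fun a => ((lam a : ℂˣ) : ℂ)) ∘ ⇑(MonoidHom.snd G A))) :=
    IsCharacter.mul (IsCharacter.comp hψ (MonoidHom.fst G A))
      (IsCharacter.comp (IsIrrCharacter.isCharacter (isIrrCharacter_of_monoidHom lam))
        (MonoidHom.snd G A))
  obtain ⟨n, hn⟩ := IsCharacter.classInner_nat (piT_isCharacter G A X) hΨ
  refine ⟨n, ?_⟩
  rw [← hn]
  unfold Cfsg.classInner piLam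
  rw [Fintype.sum_prod_type, Nat.card_prod]
  have hG : (Nat.card G : ℂ) ≠ 0 := by
    have := Nat.card_pos (α := G)
    exact_mod_cast this.ne'
  have hA : (Nat.card A : ℂ) ≠ 0 := by
    have := Nat.card_pos (α := A)
    exact_mod_cast this.ne'
  push_cast
  rw [mul_inv, mul_assoc]
  congr 1
  rw [Finset.mul_sum]
  apply Finset.sum_congr rfl
  intro g _
  rw [Finset.mul_sum, Finset.sum_mul, Finset.mul_sum]
  apply Finset.sum_congr rfl
  intro c _
  simp only [Pi.mul_apply, Function.comp_apply, MonoidHom.coe_fst, MonoidHom.coe_snd, map_mul]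
  ring

theorem piLam_isCharacter (lam : A →* ℂˣ) : Cfsg.IsCharacter G (piLam X lam) :=
  isCharacter_of_classInner_nat (piLam_classFunction lam)
    (fun χ hχ => piLam_inner lam (IsIrrCharacter.isCharacter hχ))

theorem sum_piLam [Fintype (A →* ℂˣ)] (g : G) :
    ∑ lam : A →* ℂˣ, piLam X lam g = (Nat.card (MulAction.fixedBy X ((g, 1) : G × A)) : ℂ) := by
  classical
  unfold piLam
  rw [← Finset.mul_sum, Finset.sum_comm]
  have hA : (Nat.card A : ℂ) ≠ 0 := by
    have := Nat.card_pos (α := A)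
    exact_mod_cast this.ne'
  have h1 : ∀ c : A, ∑ lam : A →* ℂˣ, conj ((lam c : ℂˣ) : ℂ) *
      (Nat.card (MulAction.fixedBy X ((g, c) : G × A)) : ℂ) =
      if c = 1 then (Nat.card A : ℂ) * (Nat.card (MulAction.fixedBy X ((g, 1) : G × A)) : ℂ)
      else 0 := by
    intro c
    rw [← Finset.sum_mul, ← map_sum]
    by_cases hc : c = 1
    · rw [if_pos hc, hc, sum_dual_one, Complex.conj_natCast]
    · rw [if_neg hc, sum_dual_ne hc, map_zero, zero_mul]
  rw [Finset.sum_congr rfl (fun c _ => h1 c), Finset.sum_ite_eq' Finset.univ (1 : A),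
    if_pos (Finset.mem_univ _), ← mul_assoc, inv_mul_cancel₀ hA, one_mul]

theorem piLam_one (h3 : ∀ (c : A) (x : X), ((1, c) : G × A) • x = x → c = 1) (lam : A →* ℂˣ) :
    piLam X lam (1 : G) = (Nat.card X : ℂ) / (Nat.card A : ℂ) := by
  classical
  unfold piLam
  have h1 : ∀ c : A, conj ((lam c : ℂˣ) : ℂ) *
      (Nat.card (MulAction.fixedBy X ((1, c) : G × A)) : ℂ) =
      if c = 1 then (Nat.card X : ℂ) else 0 := by
    intro c
    by_cases hc : c = 1
    · rw [if_pos hc, hc, map_one, Units.val_one, map_one, one_mul]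
      have : MulAction.fixedBy X ((1, 1) : G × A) = Set.univ := by
        ext x
        simp only [MulAction.mem_fixedBy, Set.mem_univ, iff_true]
        exact one_smul _ x
      rw [this, Nat.card_congr (Equiv.Set.univ X)]
    · rw [if_neg hc]
      have : IsEmpty (MulAction.fixedBy X ((1, c) : G × A)) := by
        constructor
        rintro ⟨x, hx⟩
        exact hc (h3 c x hx)
      rw [Nat.card_of_isEmpty, Nat.cast_zero, mul_zero]
  rw [Finset.sum_congr rfl (fun c _ => h1 c), Finset.sum_ite_eq' Finset.univ (1 : A),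
    if_pos (Finset.mem_univ _), div_eq_inv_mul]

/-- **Multiplicity-freeness from a free commuting abelian group.** -/
theorem multfree_of_torus (k : ℕ) (hk : Nat.card A = k)
    (h1 : ∑ g : G, Nat.card (MulAction.fixedBy X ((g, 1) : G × A)) = Nat.card G)
    (h2 : ∑ g : G, (Nat.card (MulAction.fixedBy X ((g, 1) : G × A))) ^ 2 = (k + 1) * Nat.card G)
    (h3 : ∀ (c : A) (x : X), ((1, c) : G × A) • x = x → c = 1)
    (h4 : Nat.card A < Nat.card X) :
    ∃ χ : Fin k → (G → ℂ), (∀ i, Cfsg.IsIrrCharacter G (χ i)) ∧ Function.Injective χ ∧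
      ∀ g : G, (Nat.card (MulAction.fixedBy X ((g, 1) : G × A)) : ℂ) = 1 + ∑ i, χ i g := by
  classical
  have : Fintype (Cfsg.IrrCharacter G) := irrFintype
  have : Finite (A →* ℂˣ) := finite_dual
  have : Fintype (A →* ℂˣ) := Fintype.ofFinite _
  have hG : (Nat.card G : ℂ) ≠ 0 := by
    have := Nat.card_pos (α := G)
    exact_mod_cast this.ne'
  have hApos : 0 < Nat.card A := Nat.card_pos
  have hA : (Nat.card A : ℂ) ≠ 0 := by exact_mod_cast hApos.ne'
  have hdec : ∀ lam : A →* ℂˣ, ∃ m : Cfsg.IrrCharacter G → ℕ,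
      (∀ ψ : Cfsg.IrrCharacter G, Cfsg.classInner (piLam X lam) (ψ : G → ℂ) = (m ψ : ℂ)) ∧
      piLam X lam = ∑ ψ : Cfsg.IrrCharacter G, (m ψ : ℂ) • (ψ : G → ℂ) :=
    fun lam => IsCharacter.eq_sum_irr (piLam_isCharacter lam)
  choose m' hm'1 hm'2 using hdec
  let ψ₁ : Cfsg.IrrCharacter G := ⟨fun _ => 1, isIrrCharacter_one⟩
  set π : G → ℂ := fun g => (Nat.card (MulAction.fixedBy X ((g, 1) : G × A)) : ℂ) with hπdef
  have hπ : π = ∑ lam : A →* ℂˣ, piLam X lam := by
    funext g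
    rw [Finset.sum_apply, sum_piLam]
  have hπc : Cfsg.IsClassFunction G π :=
    IsCharacter.isClassFunction (IsCharacter.comp (piT_isCharacter G A X) (MonoidHom.inl G A))
  have hπψ : ∀ ψ : Cfsg.IrrCharacter G,
      Cfsg.classInner π (ψ : G → ℂ) = ((∑ lam, m' lam ψ : ℕ) : ℂ) := by
    intro ψ
    rw [hπ, classInner_sum_left]
    push_cast
    exact Finset.sum_congr rfl (fun lam _ => hm'1 lam ψ)
  have hπdec : π = ∑ ψ : Cfsg.IrrCharacter G, ((∑ lam, m' lam ψ : ℕ) : ℂ) • (ψ : G → ℂ) := by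
    have h := classFunction_expansion hπc
    rw [Finset.sum_congr rfl (fun ψ _ => by rw [hπψ ψ])] at h
    exact h
  have hcardΛ : Fintype.card (A →* ℂˣ) = k := by
    rw [← Nat.card_eq_fintype_card, card_dual, hk]
  have H1 : ∑ lam, m' lam ψ₁ = 1 := by
    have h := hπψ ψ₁
    have h' : Cfsg.classInner π (ψ₁ : G → ℂ) = 1 := by
      unfold Cfsg.classInner
      have : ∑ g : G, π g * conj ((ψ₁ : G → ℂ) g) = (Nat.card G : ℂ) := by
        have e : ∀ g : G, π g * conj ((ψ₁ : G → ℂ) g) =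
            ((Nat.card (MulAction.fixedBy X ((g, 1) : G × A)) : ℕ) : ℂ) := by
          intro g
          show π g * conj (1 : ℂ) = _
          rw [map_one, mul_one]
        rw [Finset.sum_congr rfl (fun g _ => e g), ← Nat.cast_sum, h1]
      rw [this, inv_mul_cancel₀ hG]
    rw [h'] at h
    exact_mod_cast h.symm
  have H2 : ∑ ψ : Cfsg.IrrCharacter G, (∑ lam, m' lam ψ) ^ 2 = Fintype.card (A →* ℂˣ) + 1 := by
    rw [hcardΛ]
    have hA1 : Cfsg.classInner π π = ((k + 1 : ℕ) : ℂ) := by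
      unfold Cfsg.classInner
      have : ∑ g : G, π g * conj (π g) = ((k + 1 : ℕ) : ℂ) * (Nat.card G : ℂ) := by
        have e : ∀ g : G, π g * conj (π g) =
            (((Nat.card (MulAction.fixedBy X ((g, 1) : G × A))) ^ 2 : ℕ) : ℂ) := by
          intro g
          show (Nat.card (MulAction.fixedBy X ((g, 1) : G × A)) : ℂ) *
            conj (Nat.card (MulAction.fixedBy X ((g, 1) : G × A)) : ℂ) = _
          rw [Complex.conj_natCast]
          push_cast
          ring
        rw [Finset.sum_congr rfl (fun g _ => e g), ← Nat.cast_sum, h2]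
        push_cast
        ring
      rw [this, mul_comm, mul_assoc, mul_inv_cancel₀ hG, mul_one]
    have hA2 : Cfsg.classInner π π =
        ((∑ ψ : Cfsg.IrrCharacter G, (∑ lam, m' lam ψ) ^ 2 : ℕ) : ℂ) := by
      have e : Cfsg.classInner π π = Cfsg.classInner π
          (∑ ψ : Cfsg.IrrCharacter G, ((∑ lam, m' lam ψ : ℕ) : ℂ) • (ψ : G → ℂ)) :=
        congrArg (Cfsg.classInner π) hπdec
      rw [e, classInner_sum_right, Nat.cast_sum]
      apply Finset.sum_congr rfl
      intro ψ _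
      rw [classInner_smul_right, hπψ ψ, Complex.conj_natCast]
      push_cast
      ring
    rw [hA1] at hA2
    exact_mod_cast hA2.symm
  have hX : (Nat.card X : ℂ) / (Nat.card A : ℂ) ≠ 0 := by
    have : (Nat.card X : ℂ) ≠ 0 := by
      have : 0 < Nat.card X := lt_of_le_of_lt (Nat.zero_le _) h4
      exact_mod_cast this.ne'
    exact div_ne_zero this hA
  have hX1 : (Nat.card X : ℂ) / (Nat.card A : ℂ) ≠ 1 := by
    intro h
    rw [div_eq_one_iff_eq hA] at h
    have : Nat.card X = Nat.card A := by exact_mod_cast h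
    omega
  have H3 : ∀ lam : A →* ℂˣ, ∃ ψ, m' lam ψ ≠ 0 := by
    intro lam
    by_contra hcon
    push Not at hcon
    have h0 : piLam (G := G) X lam = 0 := by
      rw [hm'2 lam]
      apply Finset.sum_eq_zero
      intro ψ _
      rw [hcon ψ, Nat.cast_zero, zero_smul]
    have := piLam_one (G := G) h3 lam
    rw [h0] at this
    exact hX this.symm
  have H4 : ∀ lam : A →* ℂˣ, ¬ ∀ ψ, m' lam ψ = if ψ = ψ₁ then 1 else 0 := by
    intro lam hcon
    have h0 : piLam X lam = (ψ₁ : G → ℂ) := by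
      rw [hm'2 lam]
      have : ∀ ψ : Cfsg.IrrCharacter G, ((m' lam ψ : ℕ) : ℂ) • (ψ : G → ℂ) =
          if ψ = ψ₁ then (ψ₁ : G → ℂ) else 0 := by
        intro ψ
        rw [hcon ψ]
        by_cases hψ : ψ = ψ₁
        · rw [if_pos hψ, if_pos hψ, Nat.cast_one, one_smul, hψ]
        · rw [if_neg hψ, if_neg hψ, Nat.cast_zero, zero_smul]
      rw [Finset.sum_congr rfl (fun ψ _ => this ψ), Finset.sum_ite_eq' Finset.univ ψ₁,
        if_pos (Finset.mem_univ _)]
    have := piLam_one (G := G) h3 lam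
    rw [h0] at this
    exact hX1 this.symm
  obtain ⟨hle1, hcard⟩ := comb_core m' ψ₁ H1 H2 H3 H4
  rw [hcardΛ] at hcard
  have hmem : ψ₁ ∈ Finset.univ.filter (fun ψ : Cfsg.IrrCharacter G => ∑ lam, m' lam ψ = 1) := by
    rw [Finset.mem_filter]
    exact ⟨Finset.mem_univ _, H1⟩
  have hC : ((Finset.univ.filter (fun ψ : Cfsg.IrrCharacter G =>
      ∑ lam, m' lam ψ = 1)).erase ψ₁).card = k := by
    rw [Finset.card_erase_of_mem hmem, hcard]
    rfl
  let e := Finset.equivFinOfCardEq hC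
  refine ⟨fun i => (((e.symm i) : Cfsg.IrrCharacter G) : G → ℂ), fun i => (e.symm i).1.2, ?_, ?_⟩
  · intro i j hij
    have h5 : ((e.symm i) : Cfsg.IrrCharacter G) = ((e.symm j) : Cfsg.IrrCharacter G) :=
      Subtype.ext hij
    exact e.symm.injective (Subtype.ext h5)
  · intro g
    have h5 : π g = ∑ ψ : Cfsg.IrrCharacter G, ((∑ lam, m' lam ψ : ℕ) : ℂ) * (ψ : G → ℂ) g := by
      conv_lhs => rw [hπdec]
      rw [Finset.sum_apply]
      rfl
    have h6 : ∀ ψ : Cfsg.IrrCharacter G, ((∑ lam, m' lam ψ : ℕ) : ℂ) * (ψ : G → ℂ) g =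
        if ∑ lam, m' lam ψ = 1 then (ψ : G → ℂ) g else 0 := by
      intro ψ
      have := hle1 ψ
      by_cases h : ∑ lam, m' lam ψ = 1
      · rw [if_pos h, h, Nat.cast_one, one_mul]
      · rw [if_neg h]
        have h0 : ∑ lam, m' lam ψ = 0 := by omega
        rw [h0, Nat.cast_zero, zero_mul]
    show π g = _
    rw [h5, Finset.sum_congr rfl (fun ψ _ => h6 ψ), ← Finset.sum_filter,
      ← Finset.add_sum_erase _ _ hmem]
    congr 1
    rw [← Finset.sum_coe_sort, ← Equiv.sum_comp e.symm]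

end main

end Cfsg.Agent.Lib.Helper14.TorusMF
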