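import Mathlib
import Cfsg.Agent.Lib.Helper19.LinExt
import Cfsg.Agent.Lib.Helper1.CharMore
import Cfsg.Agent.Lib.Helper14.TorusMF

/-!
# `SL_n(F)` acting on the non-zero vectors: transitivity, orbits on pairs, permutation character
-/

set_option autoImplicit false
set_option linter.unusedSectionVars false
set_option linter.unusedVariables false

namespace Cfsg.Agent.Lib.Helper14.SLVec

open Matrix

section trans

variable {F : Type*} [Field F] {n : ℕ}

theorem exists_sl_std (hn : 3 ≤ n) (v w : Fin n → F) (h : LinearIndependent F ![v, w]) :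
    ∃ g : Matrix.SpecialLinearGroup (Fin n) F,
      g.1 *ᵥ (Pi.single (⟨0, by omega⟩ : Fin n) (1 : F)) = v ∧
      g.1 *ᵥ (Pi.single (⟨1, by omega⟩ : Fin n) (1 : F)) = w := by
  have hstd : LinearIndependent F ![(Pi.single (⟨0, by omega⟩ : Fin n) (1 : F) : Fin n → F),
      Pi.single (⟨1, by omega⟩ : Fin n) (1 : F)] := by
    rw [LinearIndependent.pair_iff]
    intro s t hst
    have h0 := congrFun hst (⟨0, by omega⟩ : Fin n)
    have h1 := congrFun hst (⟨1, by omega⟩ : Fin n)
    simp [Fin.ext_iff] at h0 h1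
    exact ⟨h0, h1⟩
  obtain ⟨g₀, hg0, hg1⟩ := Cfsg.Agent.Lib.Helper19.exists_linearEquiv_pair _ _ _ _ hstd h
  let M₀ : Matrix (Fin n) (Fin n) F := LinearMap.toMatrix' (g₀ : (Fin n → F) →ₗ[F] (Fin n → F))
  have hdet : M₀.det ≠ 0 := by
    have h1 : M₀.det = LinearMap.det (g₀ : (Fin n → F) →ₗ[F] (Fin n → F)) :=
      LinearMap.det_toMatrix' _
    rw [h1]
    exact (LinearEquiv.isUnit_det' g₀).ne_zero
  let d : Fin n → F := Function.update (fun _ => (1 : F)) (⟨2, by omega⟩ : Fin n) (M₀.det)⁻¹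
  have hd : ∏ i, d i = (M₀.det)⁻¹ := by
    show ∏ i ∈ Finset.univ, Function.update (fun _ => (1 : F)) (⟨2, by omega⟩ : Fin n)
      (M₀.det)⁻¹ i = _
    rw [Finset.prod_update_of_mem (Finset.mem_univ _)]
    simp
  have hM : (M₀ * Matrix.diagonal d).det = 1 := by
    rw [Matrix.det_mul, Matrix.det_diagonal, hd, mul_inv_cancel₀ hdet]
  refine ⟨⟨M₀ * Matrix.diagonal d, hM⟩, ?_, ?_⟩
  · show (M₀ * Matrix.diagonal d) *ᵥ _ = v
    rw [← Matrix.mulVec_mulVec, Matrix.diagonal_mulVec_single]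
    have hd0 : d (⟨0, by omega⟩ : Fin n) = 1 := by
      show Function.update _ _ _ _ = _
      rw [Function.update_of_ne (by simp [Fin.ext_iff])]
    rw [hd0, mul_one]
    show (LinearMap.toMatrix' (g₀ : (Fin n → F) →ₗ[F] (Fin n → F))) *ᵥ _ = v
    rw [LinearMap.toMatrix'_mulVec]
    exact hg0
  · show (M₀ * Matrix.diagonal d) *ᵥ _ = w
    rw [← Matrix.mulVec_mulVec, Matrix.diagonal_mulVec_single]
    have hd0 : d (⟨1, by omega⟩ : Fin n) = 1 := by
      show Function.update _ _ _ _ = _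
      rw [Function.update_of_ne (by simp [Fin.ext_iff])]
    rw [hd0, mul_one]
    show (LinearMap.toMatrix' (g₀ : (Fin n → F) →ₗ[F] (Fin n → F))) *ᵥ _ = w
    rw [LinearMap.toMatrix'_mulVec]
    exact hg1

theorem exists_sl_pair (hn : 3 ≤ n) (v w v' w' : Fin n → F) (h : LinearIndependent F ![v, w])
    (h' : LinearIndependent F ![v', w']) :
    ∃ g : Matrix.SpecialLinearGroup (Fin n) F, g.1 *ᵥ v = v' ∧ g.1 *ᵥ w = w' := by
  obtain ⟨a, ha0, ha1⟩ := exists_sl_std hn v w h
  obtain ⟨b, hb0, hb1⟩ := exists_sl_std hn v' w' h'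
  refine ⟨b * a⁻¹, ?_, ?_⟩
  · rw [← ha0, Matrix.mulVec_mulVec, ← Matrix.SpecialLinearGroup.coe_mul, inv_mul_cancel_right,
      hb0]
  · rw [← ha1, Matrix.mulVec_mulVec, ← Matrix.SpecialLinearGroup.coe_mul, inv_mul_cancel_right,
      hb1]

theorem exists_indep (hn : 2 ≤ n) (v : Fin n → F) (hv : v ≠ 0) :
    ∃ w : Fin n → F, LinearIndependent F ![v, w] := by
  obtain ⟨i, hi⟩ : ∃ i, v i ≠ 0 := by
    by_contra hcon
    push Not at hcon
    exact hv (funext hcon)
  have : Nontrivial (Fin n) := Fin.nontrivial_iff_two_le.mpr hn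
  obtain ⟨j, hj⟩ := exists_ne i
  refine ⟨Pi.single j 1, ?_⟩
  rw [LinearIndependent.pair_iff]
  intro s t hst
  have h0 := congrFun hst i
  have h1 := congrFun hst j
  simp only [Pi.add_apply, Pi.smul_apply, smul_eq_mul, Pi.zero_apply, Pi.single_apply,
    if_neg hj.symm, mul_zero, add_zero, if_true, mul_one] at h0 h1
  have hs : s = 0 := by
    rcases mul_eq_zero.mp h0 with h | h
    · exact h
    · exact absurd h hi
  rw [hs, zero_mul, zero_add] at h1
  exact ⟨hs, h1⟩

theorem exists_sl_single (hn : 3 ≤ n) (v v' : Fin n → F) (hv : v ≠ 0) (hv' : v' ≠ 0) :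
    ∃ g : Matrix.SpecialLinearGroup (Fin n) F, g.1 *ᵥ v = v' := by
  obtain ⟨w, hw⟩ := exists_indep (by omega) v hv
  obtain ⟨w', hw'⟩ := exists_indep (by omega) v' hv'
  obtain ⟨g, hg, -⟩ := exists_sl_pair hn v w v' w' hw hw'
  exact ⟨g, hg⟩

theorem sl_mulVec_ne_zero (g : Matrix.SpecialLinearGroup (Fin n) F) {v : Fin n → F}
    (hv : v ≠ 0) : g.1 *ᵥ v ≠ 0 := by
  intro h
  apply hv
  have : (g⁻¹).1 *ᵥ (g.1 *ᵥ v) = v := by
    rw [Matrix.mulVec_mulVec, ← Matrix.SpecialLinearGroup.coe_mul, inv_mul_cancel,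
      Matrix.SpecialLinearGroup.coe_one, Matrix.one_mulVec]
  rw [← this, h, Matrix.mulVec_zero]

end trans

section action

variable {F : Type*} [Field F] {n : ℕ}

/-- the non-zero vectors -/
abbrev Xv (n : ℕ) (F : Type*) [Field F] : Type _ := {v : Fin n → F // v ≠ 0}

/-- `SL_n(F) × Fˣ` acts on the non-zero vectors -/
instance actT : MulAction (Matrix.SpecialLinearGroup (Fin n) F × Fˣ) (Xv n F) where
  smul t x := ⟨(t.2 : F) • (t.1.1 *ᵥ x.1),
    smul_ne_zero t.2.ne_zero (sl_mulVec_ne_zero t.1 x.2)⟩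
  one_smul x := Subtype.ext (by
    show ((1 : Fˣ) : F) • ((1 : Matrix.SpecialLinearGroup (Fin n) F).1 *ᵥ x.1) = x.1
    rw [Units.val_one, one_smul, Matrix.SpecialLinearGroup.coe_one, Matrix.one_mulVec])
  mul_smul t t' x := Subtype.ext (by
    show ((t.2 * t'.2 : Fˣ) : F) • ((t.1 * t'.1).1 *ᵥ x.1) =
      (t.2 : F) • (t.1.1 *ᵥ ((t'.2 : F) • (t'.1.1 *ᵥ x.1)))
    rw [Matrix.mulVec_smul, smul_smul, Units.val_mul, Matrix.SpecialLinearGroup.coe_mul,
      Matrix.mulVec_mulVec])

theorem actT_val (t : Matrix.SpecialLinearGroup (Fin n) F × Fˣ) (x : Xv n F) :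
    (t • x).1 = (t.2 : F) • (t.1.1 *ᵥ x.1) := rfl

/-- `SL_n(F)` acts on the non-zero vectors -/
instance actG : MulAction (Matrix.SpecialLinearGroup (Fin n) F) (Xv n F) :=
  MulAction.compHom (Xv n F) (MonoidHom.inl (Matrix.SpecialLinearGroup (Fin n) F) Fˣ)

theorem actG_val (g : Matrix.SpecialLinearGroup (Fin n) F) (x : Xv n F) :
    (g • x).1 = g.1 *ᵥ x.1 := by
  show ((1 : Fˣ) : F) • (g.1 *ᵥ x.1) = _
  rw [Units.val_one, one_smul]

theorem actG_eq (g : Matrix.SpecialLinearGroup (Fin n) F) (x : Xv n F) :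
    g • x = ((g, 1) : Matrix.SpecialLinearGroup (Fin n) F × Fˣ) • x := rfl

theorem pretrans (hn : 3 ≤ n) :
    MulAction.IsPretransitive (Matrix.SpecialLinearGroup (Fin n) F) (Xv n F) := by
  constructor
  intro x y
  obtain ⟨g, hg⟩ := exists_sl_single hn x.1 y.1 x.2 y.2
  exact ⟨g, Subtype.ext (by rw [actG_val, hg])⟩

open Classical in
/-- the orbit invariant of a pair -/
noncomputable def Phi (p : Xv n F × Xv n F) : F :=
  if h : ∃ c : F, p.2.1 = c • p.1.1 then Classical.choose h else 0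

theorem Phi_dep (p : Xv n F × Xv n F) (c : F) (h : p.2.1 = c • p.1.1) : Phi p = c := by
  unfold Phi
  rw [dif_pos ⟨c, h⟩]
  have key : ∀ c' : F, p.2.1 = c' • p.1.1 → c' = c := by
    intro c' hc'
    have h2 : (c - c') • p.1.1 = 0 := by
      rw [sub_smul, ← h, ← hc', sub_self]
    rcases smul_eq_zero.mp h2 with h3 | h3
    · exact (sub_eq_zero.mp h3).symm
    · exact absurd h3 p.1.2
  exact key _ (Classical.choose_spec (⟨c, h⟩ : ∃ c : F, p.2.1 = c • p.1.1))

theorem Phi_indep (p : Xv n F × Xv n F) (h : ¬ ∃ c : F, p.2.1 = c • p.1.1) : Phi p = 0 := by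
  unfold Phi
  rw [dif_neg h]

theorem dep_ne (p : Xv n F × Xv n F) (c : F) (h : p.2.1 = c • p.1.1) : c ≠ 0 := by
  rintro rfl
  rw [zero_smul] at h
  exact p.2.2 h

theorem dep_smul (g : Matrix.SpecialLinearGroup (Fin n) F) (p : Xv n F × Xv n F) (c : F)
    (h : p.2.1 = c • p.1.1) : (g • p).2.1 = c • (g • p).1.1 := by
  show (g • p.2).1 = c • (g • p.1).1
  rw [actG_val, actG_val, h, Matrix.mulVec_smul]

theorem Phi_smul (g : Matrix.SpecialLinearGroup (Fin n) F) (p : Xv n F × Xv n F) :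
    Phi (g • p) = Phi p := by
  by_cases h : ∃ c : F, p.2.1 = c • p.1.1
  · obtain ⟨c, hc⟩ := h
    rw [Phi_dep p c hc, Phi_dep (g • p) c (dep_smul g p c hc)]
  · have h' : ¬ ∃ c : F, (g • p).2.1 = c • (g • p).1.1 := by
      rintro ⟨c, hc⟩
      apply h
      have := dep_smul g⁻¹ (g • p) c hc
      rw [inv_smul_smul] at this
      exact ⟨c, this⟩
    rw [Phi_indep p h, Phi_indep (g • p) h']

theorem Phi_inj (hn : 3 ≤ n) (p p' : Xv n F × Xv n F) (h : Phi p = Phi p') :
    ∃ g : Matrix.SpecialLinearGroup (Fin n) F, g • p = p' := by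
  by_cases hp : ∃ c : F, p.2.1 = c • p.1.1
  · obtain ⟨c, hc⟩ := hp
    by_cases hp' : ∃ c : F, p'.2.1 = c • p'.1.1
    · obtain ⟨c', hc'⟩ := hp'
      rw [Phi_dep p c hc, Phi_dep p' c' hc'] at h
      subst h
      obtain ⟨g, hg⟩ := exists_sl_single hn p.1.1 p'.1.1 p.1.2 p'.1.2
      refine ⟨g, Prod.ext (Subtype.ext ?_) (Subtype.ext ?_)⟩
      · show (g • p.1).1 = _
        rw [actG_val, hg]
      · show (g • p.2).1 = _
        rw [actG_val, hc, Matrix.mulVec_smul, hg, hc']
    · rw [Phi_dep p c hc, Phi_indep p' hp'] at h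
      exact absurd h (dep_ne p c hc)
  · by_cases hp' : ∃ c : F, p'.2.1 = c • p'.1.1
    · obtain ⟨c', hc'⟩ := hp'
      rw [Phi_indep p hp, Phi_dep p' c' hc'] at h
      exact absurd h.symm (dep_ne p' c' hc')
    · have hi : LinearIndependent F ![p.1.1, p.2.1] := by
        rw [LinearIndependent.pair_iff' p.1.2]
        intro a ha
        exact hp ⟨a, ha.symm⟩
      have hi' : LinearIndependent F ![p'.1.1, p'.2.1] := by
        rw [LinearIndependent.pair_iff' p'.1.2]
        intro a ha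
        exact hp' ⟨a, ha.symm⟩
      obtain ⟨g, hg1, hg2⟩ := exists_sl_pair hn _ _ _ _ hi hi'
      refine ⟨g, Prod.ext (Subtype.ext ?_) (Subtype.ext ?_)⟩
      · show (g • p.1).1 = _
        rw [actG_val, hg1]
      · show (g • p.2).1 = _
        rw [actG_val, hg2]

theorem single_ne_zero (hn : 3 ≤ n) (i : ℕ) (hi : i < n) :
    (Pi.single (⟨i, hi⟩ : Fin n) (1 : F) : Fin n → F) ≠ 0 := by
  intro h
  have := congrFun h ⟨i, hi⟩
  simp at this

theorem Phi_surj (hn : 3 ≤ n) (c : F) : ∃ p : Xv n F × Xv n F, Phi p = c := by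
  by_cases hc : c = 0
  · refine ⟨(⟨Pi.single (⟨0, by omega⟩ : Fin n) (1 : F), single_ne_zero hn 0 (by omega)⟩,
      ⟨Pi.single (⟨1, by omega⟩ : Fin n) (1 : F), single_ne_zero hn 1 (by omega)⟩), ?_⟩
    rw [hc]
    apply Phi_indep
    rintro ⟨a, ha⟩
    have := congrFun ha (⟨1, by omega⟩ : Fin n)
    simp [Fin.ext_iff] at this
  · refine ⟨(⟨Pi.single (⟨0, by omega⟩ : Fin n) (1 : F), single_ne_zero hn 0 (by omega)⟩,
      ⟨c • Pi.single (⟨0, by omega⟩ : Fin n) (1 : F),
        smul_ne_zero hc (single_ne_zero hn 0 (by omega))⟩), ?_⟩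
    exact Phi_dep _ c rfl

theorem card_orbits_pairs [Finite F] (hn : 3 ≤ n) :
    Nat.card (MulAction.orbitRel.Quotient (Matrix.SpecialLinearGroup (Fin n) F)
      (Xv n F × Xv n F)) = Nat.card F := by
  let f : MulAction.orbitRel.Quotient (Matrix.SpecialLinearGroup (Fin n) F) (Xv n F × Xv n F) →
      F := Quotient.lift (s := MulAction.orbitRel (Matrix.SpecialLinearGroup (Fin n) F)
        (Xv n F × Xv n F)) Phi (by
      intro a b hab
      obtain ⟨g, hg⟩ := hab
      rw [← hg]
      exact Phi_smul g b)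
  have hf : Function.Bijective f := by
    constructor
    · intro a b
      induction a using Quotient.inductionOn' with
      | _ p =>
        induction b using Quotient.inductionOn' with
        | _ p' =>
          intro h
          have h' : Phi p = Phi p' := h
          obtain ⟨g, hg⟩ := Phi_inj hn p p' h'
          apply Quotient.sound'
          refine ⟨g⁻¹, ?_⟩
          show g⁻¹ • p' = p
          rw [← hg, inv_smul_smul]
    · intro c
      obtain ⟨p, hp⟩ := Phi_surj hn c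
      exact ⟨Quotient.mk'' p, hp⟩
  exact Nat.card_congr (Equiv.ofBijective f hf)

end action

section final

variable {F : Type*} [Field F] [Fintype F] [DecidableEq F] {n : ℕ}

theorem card_lt (hn : 3 ≤ n) : Nat.card Fˣ < Nat.card (Xv n F) := by
  let f : Option Fˣ → Xv n F := fun o => match o with
    | none => ⟨Pi.single (⟨1, by omega⟩ : Fin n) (1 : F), single_ne_zero hn 1 (by omega)⟩
    | some c => ⟨(c : F) • Pi.single (⟨0, by omega⟩ : Fin n) (1 : F),
        smul_ne_zero c.ne_zero (single_ne_zero hn 0 (by omega))⟩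
  have hf : Function.Injective f := by
    intro a b hab
    cases a with
    | none =>
      cases b with
      | none => rfl
      | some c =>
        exfalso
        have h1 := congrFun (congrArg Subtype.val hab) (⟨1, by omega⟩ : Fin n)
        simp [f, Fin.ext_iff] at h1
    | some c =>
      cases b with
      | none =>
        exfalso
        have h1 := congrFun (congrArg Subtype.val hab) (⟨1, by omega⟩ : Fin n)
        simp [f, Fin.ext_iff] at h1
      | some c' =>
        have h1 := congrFun (congrArg Subtype.val hab) (⟨0, by omega⟩ : Fin n)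
        simp [f] at h1
        rw [Units.ext h1]
  have := Nat.card_le_card_of_injective f hf
  rw [Finite.card_option] at this
  omega

/-- the permutation character of `SL_n(F)` on the non-zero vectors, `n ≥ 3`. -/
theorem perm_char (hn : 3 ≤ n) :
    ∃ χ : Fin (Fintype.card F - 1) → (Matrix.SpecialLinearGroup (Fin n) F → ℂ),
      (∀ i, Cfsg.IsIrrCharacter (Matrix.SpecialLinearGroup (Fin n) F) (χ i)) ∧
      Function.Injective χ ∧
      ∀ g : Matrix.SpecialLinearGroup (Fin n) F,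
        (Nat.card {v : Fin n → F // v ≠ 0 ∧ (g : Matrix (Fin n) (Fin n) F).mulVec v = v} : ℂ) =
          1 + ∑ i, χ i g := by
  have hk : Nat.card Fˣ = Fintype.card F - 1 := by
    rw [Nat.card_units, Nat.card_eq_fintype_card]
  have hq : 2 ≤ Fintype.card F := Fintype.one_lt_card
  have hpt := pretrans (F := F) hn
  have h1 : ∑ g : Matrix.SpecialLinearGroup (Fin n) F,
      Nat.card (MulAction.fixedBy (Xv n F)
        ((g, 1) : Matrix.SpecialLinearGroup (Fin n) F × Fˣ)) =
      Nat.card (Matrix.SpecialLinearGroup (Fin n) F) := by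
    have h := Cfsg.Agent.Lib.Helper1.burnside_nat (G := Matrix.SpecialLinearGroup (Fin n) F)
      (Xv n F)
    have h2 : Nat.card (MulAction.orbitRel.Quotient (Matrix.SpecialLinearGroup (Fin n) F)
        (Xv n F)) = 1 := by
      have hs : Subsingleton (MulAction.orbitRel.Quotient (Matrix.SpecialLinearGroup (Fin n) F)
          (Xv n F)) :=
        (MulAction.pretransitive_iff_subsingleton_quotient _ _).mp hpt
      have hne : Nonempty (MulAction.orbitRel.Quotient (Matrix.SpecialLinearGroup (Fin n) F)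
          (Xv n F)) :=
        ⟨Quotient.mk'' ⟨Pi.single (⟨0, by omega⟩ : Fin n) (1 : F),
          single_ne_zero hn 0 (by omega)⟩⟩
      exact Nat.card_unique
    rw [h2, one_mul] at h
    exact h
  have h2 : ∑ g : Matrix.SpecialLinearGroup (Fin n) F,
      (Nat.card (MulAction.fixedBy (Xv n F)
        ((g, 1) : Matrix.SpecialLinearGroup (Fin n) F × Fˣ))) ^ 2 =
      (Fintype.card F - 1 + 1) * Nat.card (Matrix.SpecialLinearGroup (Fin n) F) := by
    have h := Cfsg.Agent.Lib.Helper1.burnside_nat (G := Matrix.SpecialLinearGroup (Fin n) F)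
      (Xv n F × Xv n F)
    rw [card_orbits_pairs hn, Nat.card_eq_fintype_card] at h
    have e : Fintype.card F - 1 + 1 = Fintype.card F := by omega
    rw [e, ← h]
    apply Finset.sum_congr rfl
    intro g _
    rw [Cfsg.Agent.Lib.Helper1.card_fixedBy_prod]
    rfl
  have h3 : ∀ (c : Fˣ) (x : Xv n F),
      ((1, c) : Matrix.SpecialLinearGroup (Fin n) F × Fˣ) • x = x → c = 1 := by
    intro c x hx
    have h := congrArg Subtype.val hx
    rw [actT_val] at h
    simp only [Matrix.SpecialLinearGroup.coe_one, Matrix.one_mulVec] at h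
    have h' : ((c : F) - 1) • x.1 = 0 := by
      rw [sub_smul, h, one_smul, sub_self]
    rcases smul_eq_zero.mp h' with h5 | h5
    · exact Units.ext (sub_eq_zero.mp h5)
    · exact absurd h5 x.2
  obtain ⟨χ, hχ1, hχ2, hχ3⟩ := Cfsg.Agent.Lib.Helper14.TorusMF.multfree_of_torus
    (G := Matrix.SpecialLinearGroup (Fin n) F) (A := Fˣ) (X := Xv n F) (Fintype.card F - 1) hk
    h1 h2 h3 (card_lt hn)
  refine ⟨χ, hχ1, hχ2, ?_⟩
  intro g
  rw [← hχ3 g]
  congr 1
  apply Nat.card_congr
  exact {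
    toFun := fun v => ⟨⟨v.1, v.2.1⟩, by
      show ((g, 1) : Matrix.SpecialLinearGroup (Fin n) F × Fˣ) • (⟨v.1, v.2.1⟩ : Xv n F) = _
      apply Subtype.ext
      rw [actT_val]
      show ((1 : Fˣ) : F) • (g.1 *ᵥ v.1) = v.1
      rw [Units.val_one, one_smul]
      exact v.2.2⟩
    invFun := fun x => ⟨x.1.1, x.1.2, by
      have h := congrArg Subtype.val x.2
      rw [actT_val] at h
      have h' : ((1 : Fˣ) : F) • (g.1 *ᵥ x.1.1) = x.1.1 := h
      rw [Units.val_one, one_smul] at h'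
      exact h'⟩
    left_inv := fun v => rfl
    right_inv := fun x => rfl }

end final

end Cfsg.Agent.Lib.Helper14.SLVec
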