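import Mathlib

set_option autoImplicit false
set_option linter.unusedSectionVars false

namespace Cfsg.Agent.Lib.Helper14.SymGr

open Equiv

variable {α : Type*} [DecidableEq α]

def OP (f : Perm α) (p : α) : Prop := ∃ k : ℕ, Odd k ∧ (f ^ k) p = p

def IsPer (f : Perm α) (p : α) (l : ℕ) : Prop :=
  0 < l ∧ (f ^ l) p = p ∧ ∀ j, 0 < j → j < l → (f ^ j) p ≠ p

def SO (f : Perm α) (p q : α) : Prop := ∃ i : ℕ, q = (f ^ i) p

theorem fix_pow (g : Perm α) (p : α) (h : g p = p) : ∀ m : ℕ, (g ^ m) p = p := by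
  intro m
  induction m with
  | zero => simp
  | succ m ih => rw [pow_succ, Perm.mul_apply, h, ih]

theorem pow_add_apply (f : Perm α) (i j : ℕ) (p : α) :
    (f ^ (i + j)) p = (f ^ i) ((f ^ j) p) := by
  rw [pow_add, Perm.mul_apply]

theorem pow_comm_apply (f : Perm α) (i j : ℕ) (p : α) :
    (f ^ i) ((f ^ j) p) = (f ^ j) ((f ^ i) p) := by
  rw [← pow_add_apply, ← pow_add_apply, add_comm]

theorem SO.refl (f : Perm α) (p : α) : SO f p p := ⟨0, by simp⟩

theorem SO.step (f : Perm α) (p : α) : SO f p (f p) := ⟨1, by simp⟩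

theorem SO.trans {f : Perm α} {p q r : α} (h1 : SO f p q) (h2 : SO f q r) : SO f p r := by
  obtain ⟨i, rfl⟩ := h1
  obtain ⟨j, rfl⟩ := h2
  exact ⟨j + i, (pow_add_apply f j i p).symm⟩

theorem SO.symm [Fintype α] {f : Perm α} {p q : α} (h : SO f p q) : SO f q p := by
  obtain ⟨i, rfl⟩ := h
  refine ⟨i * (orderOf f - 1), ?_⟩
  rw [← pow_add_apply]
  have ho : 0 < orderOf f := orderOf_pos f
  have h1 : i * (orderOf f - 1) + i = orderOf f * i := by
    obtain ⟨o, ho'⟩ : ∃ o, orderOf f = o + 1 := ⟨orderOf f - 1, by omega⟩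
    rw [ho', Nat.add_sub_cancel]
    ring
  rw [h1, pow_mul, pow_orderOf_eq_one, one_pow]
  rfl

theorem SO.inv [Fintype α] (f : Perm α) (p : α) : SO f p (f⁻¹ p) := by
  have h : SO f (f⁻¹ p) p := ⟨1, by simp⟩
  exact h.symm

theorem exists_isPer [Fintype α] (f : Perm α) (p : α) : ∃ l, IsPer f p l := by
  classical
  have hex : ∃ l, 0 < l ∧ (f ^ l) p = p :=
    ⟨orderOf f, orderOf_pos f, by rw [pow_orderOf_eq_one]; rfl⟩
  refine ⟨Nat.find hex, (Nat.find_spec hex).1, (Nat.find_spec hex).2, ?_⟩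
  intro j hj hjl hfix
  exact Nat.find_min hex hjl ⟨hj, hfix⟩

theorem IsPer.pow_mod {f : Perm α} {p : α} {l : ℕ} (h : IsPer f p l) (i : ℕ) :
    (f ^ i) p = (f ^ (i % l)) p := by
  conv_lhs => rw [← Nat.mod_add_div i l]
  rw [pow_add_apply, pow_mul]
  rw [fix_pow (f ^ l) p h.2.1]

theorem IsPer.dvd {f : Perm α} {p : α} {l k : ℕ} (h : IsPer f p l) (hk : (f ^ k) p = p) :
    l ∣ k := by
  apply Nat.dvd_of_mod_eq_zero
  by_contra hne
  have h1 : 0 < k % l := Nat.pos_of_ne_zero hne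
  have h2 : k % l < l := Nat.mod_lt _ h.1
  exact h.2.2 _ h1 h2 (by rw [← h.pow_mod]; exact hk)

theorem IsPer.unique {f : Perm α} {p : α} {l l' : ℕ} (h : IsPer f p l) (h' : IsPer f p l') :
    l = l' :=
  Nat.dvd_antisymm (h.dvd h'.2.1) (h'.dvd h.2.1)

theorem IsPer.of_SO {f : Perm α} {p q : α} {l : ℕ} (h : IsPer f p l) (hq : SO f p q) :
    IsPer f q l := by
  obtain ⟨i, rfl⟩ := hq
  refine ⟨h.1, ?_, ?_⟩
  · rw [pow_comm_apply, h.2.1]
  · intro j hj hjl hfix
    rw [pow_comm_apply] at hfix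
    exact h.2.2 j hj hjl ((f ^ i).injective hfix)

theorem IsPer.OP_of_odd {f : Perm α} {p : α} {l : ℕ} (h : IsPer f p l) (ho : Odd l) : OP f p :=
  ⟨l, ho, h.2.1⟩

theorem IsPer.odd_of_OP {f : Perm α} {p : α} {l : ℕ} (h : IsPer f p l) (ho : OP f p) :
    Odd l := by
  obtain ⟨k, hk, hfix⟩ := ho
  exact Odd.of_dvd_nat hk (h.dvd hfix)

theorem IsPer.even_of_not_OP {f : Perm α} {p : α} {l : ℕ} (h : IsPer f p l) (ho : ¬ OP f p) :
    Even l := by
  rw [← Nat.not_odd_iff_even]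
  exact fun hodd => ho (h.OP_of_odd hodd)

theorem IsPer.congr {f g : Perm α} {p : α} {l : ℕ} (hfg : ∀ k : ℕ, (f ^ k) p = (g ^ k) p)
    (h : IsPer g p l) : IsPer f p l :=
  ⟨h.1, by rw [hfg]; exact h.2.1, fun j hj hjl => by rw [hfg]; exact h.2.2 j hj hjl⟩

theorem OP.of_SO {f : Perm α} {p q : α} (h : OP f p) (hq : SO f p q) : OP f q := by
  obtain ⟨k, hk, hfix⟩ := h
  obtain ⟨i, rfl⟩ := hq
  exact ⟨k, hk, by rw [pow_comm_apply, hfix]⟩

theorem OP.congr {f g : Perm α} {p : α} (hfg : ∀ k : ℕ, (f ^ k) p = (g ^ k) p) (h : OP g p) :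
    OP f p := by
  obtain ⟨k, hk, hfix⟩ := h
  exact ⟨k, hk, by rw [hfg]; exact hfix⟩

theorem OP_of_fix {f : Perm α} {p : α} (h : f p = p) : OP f p :=
  ⟨1, odd_one, by rw [pow_one]; exact h⟩

theorem not_OP_of_SO [Fintype α] {f : Perm α} {p q : α} (h : ¬ OP f p) (hq : SO f p q) :
    ¬ OP f q :=
  fun hq' => h (hq'.of_SO hq.symm)

theorem odd_orderOf_of_OP [Fintype α] (f : Perm α) (h : ∀ p, OP f p) : Odd (orderOf f) := by
  classical
  choose k hk hfix using h
  have hK : Odd (∏ p, k p) := by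
    apply Finset.prod_induction _ Odd (fun a b ha hb => ha.mul hb) odd_one
    intro p _
    exact hk p
  have h1 : f ^ (∏ p, k p) = 1 := by
    ext p
    obtain ⟨m, hm⟩ := Finset.dvd_prod_of_mem k (Finset.mem_univ p)
    rw [hm, pow_mul]
    rw [fix_pow (f ^ k p) p (hfix p)]
    rfl
  exact Odd.of_dvd_nat hK (orderOf_dvd_of_pow_eq_one h1)

theorem OP_of_odd_orderOf (f : Perm α) (h : Odd (orderOf f)) (p : α) : OP f p :=
  ⟨orderOf f, h, by rw [pow_orderOf_eq_one]; rfl⟩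

theorem exists_odd_exp [Fintype α] (f : Perm α) :
    ∃ N : ℕ, Odd N ∧ ∀ p, OP f p → (f ^ N) p = p := by
  classical
  let kf : α → ℕ := fun p => if h : OP f p then Classical.choose h else 1
  have hk : ∀ p, Odd (kf p) := by
    intro p
    by_cases h : OP f p
    · simp only [kf, dif_pos h]
      exact (Classical.choose_spec h).1
    · simp only [kf, dif_neg h]
      exact odd_one
  refine ⟨∏ p, kf p,
    Finset.prod_induction _ Odd (fun a b ha hb => ha.mul hb) odd_one (fun p _ => hk p), ?_⟩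
  intro p hp
  obtain ⟨m, hm⟩ := Finset.dvd_prod_of_mem kf (Finset.mem_univ p)
  rw [hm, pow_mul]
  apply fix_pow
  simp only [kf, dif_pos hp]
  exact (Classical.choose_spec hp).2

theorem pow_apply_of_fix (d σ : Perm α) (p : α)
    (h : ∀ k : ℕ, d ((σ ^ (k + 1)) p) = (σ ^ (k + 1)) p) :
    ∀ k : ℕ, ((d * σ) ^ k) p = (σ ^ k) p := by
  intro k
  induction k with
  | zero => simp
  | succ k ih =>
    rw [pow_succ', Perm.mul_apply, ih, Perm.mul_apply]
    have h1 : σ ((σ ^ k) p) = (σ ^ (k + 1)) p := by rw [pow_succ', Perm.mul_apply]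
    rw [h1, h k]

theorem OP_conj (τ g : Perm α) (p : α) : OP (τ * g * τ⁻¹) p ↔ OP g (τ⁻¹ p) := by
  constructor
  · rintro ⟨k, hk, hfix⟩
    refine ⟨k, hk, ?_⟩
    rw [conj_pow] at hfix
    have h1 := congrArg (τ⁻¹ : Perm α) hfix
    simpa using h1
  · rintro ⟨k, hk, hfix⟩
    refine ⟨k, hk, ?_⟩
    rw [conj_pow]
    simp only [Perm.mul_apply]
    rw [hfix]
    simp

theorem ins [Fintype α] (g : Perm α) (a s : α) (ha : g a = a) (hs : s ≠ a) (l : ℕ)
    (hl : IsPer g s l) :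
    IsPer (swap a (g s) * g) s (l + 1) ∧ (∀ p, SO g s p → SO (swap a (g s) * g) s p) ∧
    (swap a (g s) * g) s = a ∧ (swap a (g s) * g) a = g s ∧
    (∀ p, ¬ SO g s p → p ≠ a → ∀ k : ℕ, ((swap a (g s) * g) ^ k) p = (g ^ k) p) := by
  obtain ⟨f, hf⟩ : ∃ f : Perm α, f = swap a (g s) * g := ⟨_, rfl⟩
  rw [← hf]
  have hfs : f s = a := by simp [hf]
  have hfa : f a = g s := by simp [hf, ha]
  have hfo : ∀ p, p ≠ s → p ≠ a → f p = g p := by
    intro p hps hpa
    rw [hf, Perm.mul_apply]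
    apply swap_apply_of_ne_of_ne
    · intro h
      apply hpa
      apply g.injective
      rw [h, ha]
    · intro h
      exact hps (g.injective h)
  have hga : ∀ j : ℕ, (g ^ j) s ≠ a := by
    intro j h
    apply hs
    apply (g ^ j).injective
    rw [h, fix_pow g a ha]
  have key : ∀ j : ℕ, 1 ≤ j → j ≤ l → (f ^ (j + 1)) s = (g ^ j) s := by
    intro j hj
    induction j, hj using Nat.le_induction with
    | base =>
      intro _
      rw [pow_succ', Perm.mul_apply, pow_one, hfs, hfa, pow_one]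
    | succ j hj ih =>
      intro hjl
      rw [pow_succ', Perm.mul_apply, ih (by omega), hfo]
      · rw [pow_succ' g, Perm.mul_apply]
      · exact hl.2.2 j (by omega) (by omega)
      · exact hga j
  have hl1 : 1 ≤ l := hl.1
  have hper : IsPer f s (l + 1) := by
    refine ⟨by omega, ?_, ?_⟩
    · rw [key l hl1 le_rfl]
      exact hl.2.1
    · intro j hj hjl hfix
      rcases Nat.lt_or_ge j 2 with h | h
      · have hj1 : j = 1 := by omega
        subst hj1
        rw [pow_one, hfs] at hfix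
        exact hs hfix.symm
      · obtain ⟨j', rfl⟩ : ∃ j', j = j' + 1 := ⟨j - 1, by omega⟩
        rw [key j' (by omega) (by omega)] at hfix
        exact hl.2.2 j' (by omega) (by omega) hfix
  refine ⟨hper, ?_, hfs, hfa, ?_⟩
  · rintro p ⟨i, rfl⟩
    rw [hl.pow_mod]
    rcases Nat.eq_zero_or_pos (i % l) with h | h
    · rw [h]
      exact ⟨0, by simp⟩
    · have hlt : i % l < l := Nat.mod_lt _ hl.1
      exact ⟨i % l + 1, (key (i % l) h hlt.le).symm⟩
  · intro p hp hpa k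
    induction k with
    | zero => simp
    | succ k ih =>
      rw [pow_succ', Perm.mul_apply, ih, hfo]
      · rw [pow_succ' g, Perm.mul_apply]
      · intro h
        exact hp (SO.symm ⟨k, h.symm⟩)
      · intro h
        apply hpa
        apply (g ^ k).injective
        rw [h, fix_pow g a ha]

theorem rem [Fintype α] (f : Perm α) (a : α) (l : ℕ) (hl : IsPer f a l) (h2 : f a ≠ a) :
    (swap a (f a) * f) a = a ∧
    (∀ p, SO f a p → p ≠ a → IsPer (swap a (f a) * f) p (l - 1)) ∧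
    (∀ p, ¬ SO f a p → ∀ k : ℕ, ((swap a (f a) * f) ^ k) p = (f ^ k) p) := by
  obtain ⟨g, hg⟩ : ∃ g : Perm α, g = swap a (f a) * f := ⟨_, rfl⟩
  rw [← hg]
  have hga : g a = a := by simp [hg]
  obtain ⟨s, hsdef⟩ : ∃ s : α, s = f⁻¹ a := ⟨_, rfl⟩
  have hfs : f s = a := by rw [hsdef]; exact Perm.eq_inv_iff_eq.mp rfl
  have hgs : g s = f a := by simp [hg, hfs]
  have hsa : s ≠ a := by
    intro h
    rw [h] at hfs
    exact h2 hfs
  have hfeq : swap a (g s) * g = f := by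
    rw [hgs, hg, ← mul_assoc, swap_mul_self, one_mul]
  obtain ⟨l', hl'⟩ := exists_isPer g s
  obtain ⟨h1, h2', h3, h4, h5⟩ := ins g a s hga hsa l' hl'
  rw [hfeq] at h1 h2' h5
  have hSs : SO f a s := by rw [hsdef]; exact SO.inv f a
  have hll : l = l' + 1 := (hl.of_SO hSs).unique h1
  refine ⟨hga, ?_, ?_⟩
  · intro p hp hpa
    have hl'' : l - 1 = l' := by omega
    rw [hl'']
    apply hl'.of_SO
    by_contra hnot
    have h6 := h5 p hnot hpa
    obtain ⟨k, hk⟩ := hp.symm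
    apply hpa
    apply (g ^ k).injective
    rw [fix_pow g a hga, ← h6, ← hk]
  · intro p hp k
    have hpa : p ≠ a := by
      rintro rfl
      exact hp (SO.refl f p)
    have hnot : ¬ SO g s p := by
      intro h
      exact hp (hSs.trans (h2' p h))
    exact (h5 p hnot hpa k).symm

theorem ins2 [Fintype α] (g : Perm α) (a b s : α) (ha : g a = a) (hb : g b = b) (hab : a ≠ b)
    (hsa : s ≠ a) (hsb : s ≠ b) (hall : ∀ p, OP g p) :
    ∀ p, OP (swap b (g s) * (swap a (g s) * g)) p := by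
  obtain ⟨l, hl⟩ := exists_isPer g s
  have hodd : Odd l := hl.odd_of_OP (hall s)
  obtain ⟨h1, h2, h3, h4, h5⟩ := ins g a s ha hsa l hl
  obtain ⟨g1, hg1⟩ : ∃ g1 : Perm α, g1 = swap a (g s) * g := ⟨_, rfl⟩
  rw [← hg1] at h1 h2 h3 h4 h5 ⊢
  have hbs : ¬ SO g s b := by
    rintro ⟨i, hi⟩
    apply hsb
    apply (g ^ i).injective
    rw [← hi, fix_pow g b hb]
  have hg1b : g1 b = b := by
    have h6 := h5 b hbs (Ne.symm hab) 1
    rw [pow_one, pow_one, hb] at h6
    exact h6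
  have hSa : SO g1 s a := ⟨1, by rw [pow_one, h3]⟩
  have hpa : IsPer g1 a (l + 1) := h1.of_SO hSa
  obtain ⟨k1, k2, k3, k4, k5⟩ := ins g1 b a hg1b hab (l + 1) hpa
  rw [h4] at k1 k2 k3 k4 k5
  have hodd2 : Odd (l + 1 + 1) := by
    obtain ⟨m, hm⟩ := hodd
    exact ⟨m + 1, by omega⟩
  intro p
  by_cases hp : SO g1 a p
  · exact (k1.of_SO (k2 p hp)).OP_of_odd hodd2
  · by_cases hpb : p = b
    · rw [hpb]
      exact (k1.of_SO ⟨1, by rw [pow_one, k3]⟩).OP_of_odd hodd2
    · apply OP.congr (k5 p hp hpb)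
      have hps : ¬ SO g s p := fun h => hp (hSa.symm.trans (h2 p h))
      have hpa' : p ≠ a := by
        rintro rfl
        exact hp (SO.refl g1 p)
      exact OP.congr (h5 p hps hpa') (hall p)

end Cfsg.Agent.Lib.Helper14.SymGr
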