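import Cfsg.Agent.Lib.Helper14.SymGr1

set_option autoImplicit false
set_option linter.unusedSectionVars false

namespace Cfsg.Agent.Lib.Helper14.SymGr

open Equiv

variable {α : Type*} [DecidableEq α]

noncomputable def ext {k : ℕ} (ι : Fin k → α) (hι : Function.Injective ι) (π : Perm (Fin k)) :
    Perm α :=
  @Perm.extendDomain (Fin k) α π (fun b => b ∈ Set.range ι) (Classical.decPred _)
    (Equiv.ofInjective ι hι)

theorem ext_apply {k : ℕ} (ι : Fin k → α) (hι : Function.Injective ι) (π : Perm (Fin k))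
    (i : Fin k) : ext ι hι π (ι i) = ι (π i) := by
  unfold ext
  exact @Perm.extendDomain_apply_image (Fin k) α π (fun b => b ∈ Set.range ι)
    (Classical.decPred _) (Equiv.ofInjective ι hι) i

theorem ext_apply_not {k : ℕ} (ι : Fin k → α) (hι : Function.Injective ι) (π : Perm (Fin k))
    (p : α) (hp : ∀ i, ι i ≠ p) : ext ι hι π p = p := by
  unfold ext
  apply @Perm.extendDomain_apply_not_subtype (Fin k) α π (fun b => b ∈ Set.range ι)
    (Classical.decPred _) (Equiv.ofInjective ι hι) p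
  rintro ⟨i, hi⟩
  exact hp i hi

theorem ext_moved {k : ℕ} (ι : Fin k → α) (hι : Function.Injective ι) (π : Perm (Fin k))
    (p : α) (hp : ext ι hι π p ≠ p) : ∃ i, ι i = p := by
  by_contra h
  push Not at h
  exact hp (ext_apply_not ι hι π p h)

theorem ext_mul {k : ℕ} (ι : Fin k → α) (hι : Function.Injective ι) (π π' : Perm (Fin k)) :
    ext ι hι π * ext ι hι π' = ext ι hι (π * π') := by
  unfold ext
  exact @Perm.extendDomain_mul (Fin k) α (fun b => b ∈ Set.range ι)
    (Classical.decPred _) (Equiv.ofInjective ι hι) π π'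

theorem ext_one {k : ℕ} (ι : Fin k → α) (hι : Function.Injective ι) :
    ext ι hι 1 = 1 := by
  unfold ext
  exact @Perm.extendDomain_one (Fin k) α (fun b => b ∈ Set.range ι)
    (Classical.decPred _) (Equiv.ofInjective ι hι)

theorem ext_inv {k : ℕ} (ι : Fin k → α) (hι : Function.Injective ι) (π : Perm (Fin k)) :
    (ext ι hι π)⁻¹ = ext ι hι π⁻¹ := by
  apply inv_eq_of_mul_eq_one_left
  rw [ext_mul, inv_mul_cancel, ext_one]

theorem ext_pow {k : ℕ} (ι : Fin k → α) (hι : Function.Injective ι) (π : Perm (Fin k))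
    (n : ℕ) : (ext ι hι π) ^ n = ext ι hι (π ^ n) := by
  induction n with
  | zero => rw [pow_zero, pow_zero, ext_one]
  | succ n ih => rw [pow_succ, pow_succ, ih, ext_mul]

theorem ext_swap {k : ℕ} (ι : Fin k → α) (hι : Function.Injective ι) (i j : Fin k) :
    ext ι hι (swap i j) = swap (ι i) (ι j) := by
  apply Equiv.ext
  intro p
  by_cases h : ∃ m, ι m = p
  · obtain ⟨m, rfl⟩ := h
    rw [ext_apply, hι.swap_apply]
  · push Not at h
    rw [ext_apply_not _ _ _ _ h, swap_apply_of_ne_of_ne (h i).symm (h j).symm]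

theorem xx (x : Perm α) (hx : x * x = 1) (q : α) : x (x q) = q := by
  have h := congrArg (fun f : Perm α => f q) hx
  simpa using h

theorem ext_inverted {k : ℕ} (x : Perm α) (hx : x * x = 1) (ι : Fin k → α)
    (hι : Function.Injective ι) (x₀ u₀ : Perm (Fin k))
    (hxι : ∀ i, x (ι i) = ι (x₀ i)) (h₀ : ∀ i, x₀ (u₀ (x₀ (u₀ i))) = i) :
    x * ext ι hι u₀ * x = (ext ι hι u₀)⁻¹ := by
  rw [eq_inv_iff_mul_eq_one]
  apply Equiv.ext
  intro p
  simp only [Perm.mul_apply, Perm.one_apply]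
  by_cases h : ∃ m, ι m = p
  · obtain ⟨m, rfl⟩ := h
    rw [ext_apply, hxι, ext_apply, hxι, h₀]
  · push Not at h
    have h' : ∀ i, ι i ≠ x p := by
      intro i hi
      apply h (x₀ i)
      rw [← hxι, hi, xx x hx]
    rw [ext_apply_not _ _ _ _ h, ext_apply_not _ _ _ _ h', xx x hx]

theorem ext_odd {k : ℕ} (ι : Fin k → α) (hι : Function.Injective ι) (u₀ : Perm (Fin k))
    (h : u₀ ^ 3 = 1) : Odd (orderOf (ext ι hι u₀)) := by
  have h1 : (ext ι hι u₀) ^ 3 = 1 := by rw [ext_pow, h, ext_one]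
  exact Odd.of_dvd_nat (by decide) (orderOf_dvd_of_pow_eq_one h1)

theorem pow_apply_named {k : ℕ} (f : Perm α) (ι : Fin k → α) (f₀ : Perm (Fin k))
    (h : ∀ i, f (ι i) = ι (f₀ i)) : ∀ (n : ℕ) (i : Fin k), (f ^ n) (ι i) = ι ((f₀ ^ n) i) := by
  intro n
  induction n with
  | zero => intro i; simp
  | succ n ih =>
    intro i
    rw [pow_succ', Perm.mul_apply, ih, h, pow_succ', Perm.mul_apply]

theorem inj_of_lt {k : ℕ} (v : Fin k → α) (h : ∀ i j : Fin k, i < j → v i ≠ v j) :
    Function.Injective v := by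
  intro i j hij
  rcases lt_trichotomy i j with hl | he | hg
  · exact absurd hij (h i j hl)
  · exact he
  · exact absurd hij.symm (h j i hg)

theorem forall_fin3 {P : Fin 3 → Prop} (h0 : P 0) (h1 : P 1) (h2 : P 2) : ∀ i, P i := by
  intro i
  fin_cases i
  · exact h0
  · exact h1
  · exact h2

theorem forall_fin5 {P : Fin 5 → Prop} (h0 : P 0) (h1 : P 1) (h2 : P 2) (h3 : P 3) (h4 : P 4) :
    ∀ i, P i := by
  intro i
  fin_cases i
  · exact h0
  · exact h1
  · exact h2
  · exact h3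
  · exact h4

theorem forall_fin6 {P : Fin 6 → Prop} (h0 : P 0) (h1 : P 1) (h2 : P 2) (h3 : P 3) (h4 : P 4)
    (h5 : P 5) : ∀ i, P i := by
  intro i
  fin_cases i
  · exact h0
  · exact h1
  · exact h2
  · exact h3
  · exact h4
  · exact h5

theorem forall_fin8 {P : Fin 8 → Prop} (h0 : P 0) (h1 : P 1) (h2 : P 2) (h3 : P 3) (h4 : P 4)
    (h5 : P 5) (h6 : P 6) (h7 : P 7) : ∀ i, P i := by
  intro i
  fin_cases i
  · exact h0
  · exact h1
  · exact h2
  · exact h3
  · exact h4
  · exact h5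
  · exact h6
  · exact h7

end Cfsg.Agent.Lib.Helper14.SymGr
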