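import Cfsg.Agent.Lib.Helper14.SymGr2

set_option autoImplicit false
set_option linter.unusedSectionVars false

namespace Cfsg.Agent.Lib.Helper14.SymGr

open Equiv

variable {α : Type*} [DecidableEq α]

theorem x_inv (x : Perm α) (hx : x * x = 1) : x⁻¹ = x := inv_eq_of_mul_eq_one_left hx

theorem x_sigma_pow (x σ : Perm α) (hx : x * x = 1) (hc : x * σ * x = σ⁻¹) (k : ℕ) (p : α) :
    x ((σ ^ k) p) = (σ ^ k)⁻¹ (x p) := by
  have hxi : x⁻¹ = x := x_inv x hx
  have h1 : x * σ ^ k * x = (σ ^ k)⁻¹ := by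
    have h := conj_pow (a := x) (b := σ) (i := k)
    rw [hxi, hc] at h
    rw [← h, inv_pow]
  have h2 : x * σ ^ k = (σ ^ k)⁻¹ * x := by
    calc x * σ ^ k = x * σ ^ k * (x * x) := by rw [hx, mul_one]
      _ = (x * σ ^ k * x) * x := by simp only [mul_assoc]
      _ = (σ ^ k)⁻¹ * x := by rw [h1]
  have h3 := congrArg (fun f : Perm α => f p) h2
  exact h3

theorem x_sigma (x σ : Perm α) (hx : x * x = 1) (hc : x * σ * x = σ⁻¹) (p : α) :
    x (σ p) = σ⁻¹ (x p) := by
  have h := x_sigma_pow x σ hx hc 1 p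
  rw [pow_one] at h
  exact h

theorem OP_x (x σ : Perm α) (hx : x * x = 1) (hc : x * σ * x = σ⁻¹) (p : α) (h : OP σ p) :
    OP σ (x p) := by
  obtain ⟨k, hk, hfix⟩ := h
  refine ⟨k, hk, ?_⟩
  have h1 := x_sigma_pow x σ hx hc k (x p)
  rw [xx x hx] at h1
  have h2 : (σ ^ k)⁻¹ p = p := by rw [Perm.inv_eq_iff_eq, hfix]
  rw [h2] at h1
  have h3 : x (x ((σ ^ k) (x p))) = x p := congrArg (fun q => x q) h1
  rw [xx x hx] at h3
  exact h3

theorem not_OP_x (x σ : Perm α) (hx : x * x = 1) (hc : x * σ * x = σ⁻¹) (p : α) (h : ¬ OP σ p) :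
    ¬ OP σ (x p) := by
  intro h'
  have h1 := OP_x x σ hx hc (x p) h'
  rw [xx x hx] at h1
  exact h h1

theorem t3 [Fintype α] (x σ : Perm α) (hx : x * x = 1) (hc : x * σ * x = σ⁻¹)
    (hxb : ∀ r, ¬ OP σ r → x r ≠ r) (hyb : ∀ r, ¬ OP σ r → x (σ r) ≠ r)
    (q : α) (hq : ¬ OP σ q) (r s : α) (hr : SO σ q r) (hs : SO σ q s) : x r ≠ s := by
  intro h
  obtain ⟨m, hm⟩ := hr.symm.trans hs
  have hrbad : ¬ OP σ r := not_OP_of_SO hq hr
  rw [hm] at h
  rcases Nat.even_or_odd' m with ⟨c, hc' | hc'⟩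
  · apply hxb ((σ ^ c) r) (not_OP_of_SO hrbad ⟨c, rfl⟩)
    rw [x_sigma_pow x σ hx hc, h, hc', two_mul, pow_add_apply]
    exact Perm.inv_eq_iff_eq.mpr rfl
  · apply hyb ((σ ^ c) r) (not_OP_of_SO hrbad ⟨c, rfl⟩)
    have h1 : σ ((σ ^ c) r) = (σ ^ (c + 1)) r := by rw [pow_succ', Perm.mul_apply]
    rw [h1, x_sigma_pow x σ hx hc, h, hc']
    have h2 : 2 * c + 1 = (c + 1) + c := by ring
    rw [h2, pow_add_apply]
    exact Perm.inv_eq_iff_eq.mpr rfl

theorem ps (x σ : Perm α) (hx : x * x = 1) (hc : x * σ * x = σ⁻¹) (b c : α)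
    (hb : ¬ OP σ b) (hyb : σ b = x b) (hxc : x c = c) : ¬ SO σ b c := by
  rintro ⟨i, rfl⟩
  have h2 := x_sigma_pow x σ hx hc i b
  rw [hxc, ← hyb] at h2
  have h3 : (σ ^ i) ((σ ^ i) b) = σ b := by
    rw [h2]
    exact Perm.eq_inv_iff_eq.mp rfl
  rcases Nat.eq_zero_or_pos i with h0 | hpos
  · subst h0
    simp only [pow_zero, Perm.one_apply] at h3
    exact hb (OP_of_fix h3.symm)
  · apply hb
    refine ⟨2 * i - 1, ⟨i - 1, by omega⟩, ?_⟩
    apply σ.injective
    have h5 : σ ((σ ^ (2 * i - 1)) b) = (σ ^ (2 * i - 1 + 1)) b := by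
      rw [pow_succ', Perm.mul_apply]
    have h6 : 2 * i - 1 + 1 = i + i := by omega
    rw [h5, h6, pow_add_apply]
    exact h3

theorem cnt [Fintype α] (x σ : Perm α) (hx : x * x = 1) (hc : x * σ * x = σ⁻¹)
    (hcard : Nat.card {p // x p = p} = Nat.card {p // x (σ p) = p}) :
    (∃ c, ¬ OP σ c ∧ x c = c) ↔ (∃ b, ¬ OP σ b ∧ x (σ b) = b) := by
  classical
  obtain ⟨N, hN, hfixN⟩ := exists_odd_exp σ
  obtain ⟨e, he⟩ := hN
  have hφ : ∀ p, x p = p → OP σ p → x (σ ((σ ^ e) p)) = (σ ^ e) p := by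
    intro p hxp hp
    have h1 : σ ((σ ^ e) p) = (σ ^ (e + 1)) p := by rw [pow_succ', Perm.mul_apply]
    rw [h1, x_sigma_pow x σ hx hc, hxp, Perm.inv_eq_iff_eq, ← pow_add_apply]
    have h2 : e + 1 + e = N := by omega
    rw [h2, hfixN p hp]
  have hψ : ∀ q, x (σ q) = q → OP σ q → x ((σ ^ (e + 1)) q) = (σ ^ (e + 1)) q := by
    intro q hyq hq
    have h1 : x q = σ q := by
      have h : x (x (σ q)) = x q := congrArg (fun q => x q) hyq
      rw [xx x hx] at h
      exact h.symm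
    rw [x_sigma_pow x σ hx hc, h1, Perm.inv_eq_iff_eq, ← pow_add_apply]
    have h2 : e + 1 + (e + 1) = N + 1 := by omega
    rw [h2, pow_succ', Perm.mul_apply, hfixN q hq]
  have hG : (Finset.univ.filter fun p => x p = p ∧ OP σ p).card =
      (Finset.univ.filter fun p => x (σ p) = p ∧ OP σ p).card := by
    apply le_antisymm
    · apply Finset.card_le_card_of_injOn (fun p => (σ ^ e) p)
      · intro p hp
        simp only [Finset.coe_filter, Finset.mem_univ, true_and, Set.mem_ofPred_eq] at hp ⊢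
        exact ⟨hφ p hp.1 hp.2, hp.2.of_SO ⟨e, rfl⟩⟩
      · intro p _ q _ h
        exact (σ ^ e).injective h
    · apply Finset.card_le_card_of_injOn (fun p => (σ ^ (e + 1)) p)
      · intro p hp
        simp only [Finset.coe_filter, Finset.mem_univ, true_and, Set.mem_ofPred_eq] at hp ⊢
        exact ⟨hψ p hp.1 hp.2, hp.2.of_SO ⟨e + 1, rfl⟩⟩
      · intro p _ q _ h
        exact (σ ^ (e + 1)).injective h
  have hX : Nat.card {p // x p = p} = (Finset.univ.filter fun p => x p = p).card := by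
    rw [Nat.card_eq_fintype_card, Fintype.card_subtype]
  have hY : Nat.card {p // x (σ p) = p} = (Finset.univ.filter fun p => x (σ p) = p).card := by
    rw [Nat.card_eq_fintype_card, Fintype.card_subtype]
  have hB : (Finset.univ.filter fun p => x p = p ∧ ¬ OP σ p).card =
      (Finset.univ.filter fun p => x (σ p) = p ∧ ¬ OP σ p).card := by
    have h1 : (Finset.univ.filter fun p => x p = p).card =
        (Finset.univ.filter fun p => x p = p ∧ OP σ p).card +
        (Finset.univ.filter fun p => x p = p ∧ ¬ OP σ p).card := by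
      rw [← Finset.card_filter_add_card_filter_not (fun p => OP σ p), Finset.filter_filter,
        Finset.filter_filter]
    have h2 : (Finset.univ.filter fun p => x (σ p) = p).card =
        (Finset.univ.filter fun p => x (σ p) = p ∧ OP σ p).card +
        (Finset.univ.filter fun p => x (σ p) = p ∧ ¬ OP σ p).card := by
      rw [← Finset.card_filter_add_card_filter_not (fun p => OP σ p), Finset.filter_filter,
        Finset.filter_filter]
    omega
  constructor
  · rintro ⟨c, hc1, hxc⟩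
    have hpos : 0 < (Finset.univ.filter fun p => x p = p ∧ ¬ OP σ p).card :=
      Finset.card_pos.mpr ⟨c, by simp [hxc, hc1]⟩
    rw [hB] at hpos
    obtain ⟨b, hb⟩ := Finset.card_pos.mp hpos
    simp only [Finset.mem_filter, Finset.mem_univ, true_and] at hb
    exact ⟨b, hb.2, hb.1⟩
  · rintro ⟨b, hb1, hyb⟩
    have hpos : 0 < (Finset.univ.filter fun p => x (σ p) = p ∧ ¬ OP σ p).card :=
      Finset.card_pos.mpr ⟨b, by simp [hyb, hb1]⟩
    rw [← hB] at hpos
    obtain ⟨c, hc2⟩ := Finset.card_pos.mp hpos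
    simp only [Finset.mem_filter, Finset.mem_univ, true_and] at hc2
    exact ⟨c, hc2.2, hc2.1⟩

theorem card_fix_conj (g x : Perm α) :
    Nat.card {p // (g * x * g⁻¹) p = p} = Nat.card {p // x p = p} := by
  apply Nat.card_congr
  refine Equiv.subtypeEquiv g⁻¹ ?_
  intro p
  simp only [Perm.mul_apply]
  rw [Perm.eq_inv_iff_eq]

theorem conj_of_inverted (x u : Perm α) (hx : x * x = 1) (hu : x * u * x = u⁻¹)
    (ho : Odd (orderOf u)) : ∃ w : Perm α, w * x * w⁻¹ = x * u := by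
  obtain ⟨j, hj⟩ := ho
  refine ⟨u⁻¹ ^ (j + 1), ?_⟩
  have hxi : x⁻¹ = x := x_inv x hx
  have h0 : x * u⁻¹ * x = u := by
    have h := congrArg (fun f : Perm α => f⁻¹) hu
    simp only [mul_inv_rev, inv_inv, hxi] at h
    rw [← mul_assoc] at h
    exact h
  have h1 : x * u⁻¹ ^ (j + 1) * x = u ^ (j + 1) := by
    have h := conj_pow (a := x) (b := u⁻¹) (i := j + 1)
    rw [hxi, h0] at h
    exact h.symm
  have h2 : u⁻¹ ^ (j + 1) * x = x * u ^ (j + 1) := by
    calc u⁻¹ ^ (j + 1) * x = (x * x) * u⁻¹ ^ (j + 1) * x := by rw [hx, one_mul]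
      _ = x * (x * u⁻¹ ^ (j + 1) * x) := by simp only [mul_assoc]
      _ = x * u ^ (j + 1) := by rw [h1]
  have hw : (u⁻¹ ^ (j + 1))⁻¹ = u ^ (j + 1) := by rw [inv_pow, inv_inv]
  rw [hw, h2, mul_assoc, ← pow_add]
  have h3 : j + 1 + (j + 1) = orderOf u + 1 := by omega
  rw [h3, pow_succ, pow_orderOf_eq_one, one_mul]

end Cfsg.Agent.Lib.Helper14.SymGr
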