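import Cfsg.Agent.Lib.Helper14.SymGr3

set_option autoImplicit false
set_option linter.unusedSectionVars false
set_option maxHeartbeats 1000000

namespace Cfsg.Agent.Lib.Helper14.SymGr

open Equiv

variable {α : Type*} [DecidableEq α]

theorem inj3 (v0 v1 v2 : α) (h01 : v0 ≠ v1) (h02 : v0 ≠ v2) (h12 : v1 ≠ v2) :
    Function.Injective ![v0, v1, v2] := by
  apply inj_of_lt
  intro i j hij
  fin_cases i <;> fin_cases j <;>
    first
    | exact absurd hij (by decide)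
    | exact h01 | exact h02 | exact h12

theorem inj5 (v0 v1 v2 v3 v4 : α) (h01 : v0 ≠ v1) (h02 : v0 ≠ v2) (h03 : v0 ≠ v3) (h04 : v0 ≠ v4)
    (h12 : v1 ≠ v2) (h13 : v1 ≠ v3) (h14 : v1 ≠ v4) (h23 : v2 ≠ v3) (h24 : v2 ≠ v4)
    (h34 : v3 ≠ v4) : Function.Injective ![v0, v1, v2, v3, v4] := by
  apply inj_of_lt
  intro i j hij
  fin_cases i <;> fin_cases j <;>
    first
    | exact absurd hij (by decide)
    | exact h01 | exact h02 | exact h03 | exact h04 | exact h12 | exact h13 | exact h14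
    | exact h23 | exact h24 | exact h34

theorem inj6 (v0 v1 v2 v3 v4 v5 : α) (h01 : v0 ≠ v1) (h02 : v0 ≠ v2) (h03 : v0 ≠ v3)
    (h04 : v0 ≠ v4) (h05 : v0 ≠ v5) (h12 : v1 ≠ v2) (h13 : v1 ≠ v3) (h14 : v1 ≠ v4)
    (h15 : v1 ≠ v5) (h23 : v2 ≠ v3) (h24 : v2 ≠ v4) (h25 : v2 ≠ v5) (h34 : v3 ≠ v4)
    (h35 : v3 ≠ v5) (h45 : v4 ≠ v5) : Function.Injective ![v0, v1, v2, v3, v4, v5] := by
  apply inj_of_lt
  intro i j hij
  fin_cases i <;> fin_cases j <;>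
    first
    | exact absurd hij (by decide)
    | exact h01 | exact h02 | exact h03 | exact h04 | exact h05 | exact h12 | exact h13
    | exact h14 | exact h15 | exact h23 | exact h24 | exact h25 | exact h34 | exact h35
    | exact h45

theorem inj8 (v0 v1 v2 v3 v4 v5 v6 v7 : α) (h01 : v0 ≠ v1) (h02 : v0 ≠ v2) (h03 : v0 ≠ v3)
    (h04 : v0 ≠ v4) (h05 : v0 ≠ v5) (h06 : v0 ≠ v6) (h07 : v0 ≠ v7) (h12 : v1 ≠ v2)
    (h13 : v1 ≠ v3) (h14 : v1 ≠ v4) (h15 : v1 ≠ v5) (h16 : v1 ≠ v6) (h17 : v1 ≠ v7)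
    (h23 : v2 ≠ v3) (h24 : v2 ≠ v4) (h25 : v2 ≠ v5) (h26 : v2 ≠ v6) (h27 : v2 ≠ v7)
    (h34 : v3 ≠ v4) (h35 : v3 ≠ v5) (h36 : v3 ≠ v6) (h37 : v3 ≠ v7) (h45 : v4 ≠ v5)
    (h46 : v4 ≠ v6) (h47 : v4 ≠ v7) (h56 : v5 ≠ v6) (h57 : v5 ≠ v7) (h67 : v6 ≠ v7) :
    Function.Injective ![v0, v1, v2, v3, v4, v5, v6, v7] := by
  apply inj_of_lt
  intro i j hij
  fin_cases i <;> fin_cases j <;>
    first
    | exact absurd hij (by decide)
    | exact h01 | exact h02 | exact h03 | exact h04 | exact h05 | exact h06 | exact h07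
    | exact h12 | exact h13 | exact h14 | exact h15 | exact h16 | exact h17 | exact h23
    | exact h24 | exact h25 | exact h26 | exact h27 | exact h34 | exact h35 | exact h36
    | exact h37 | exact h45 | exact h46 | exact h47 | exact h56 | exact h57 | exact h67

def MoveOK (x σ u : Perm α) : Prop :=
  Odd (orderOf u) ∧ x * u * x = u⁻¹ ∧ (∀ q, OP σ q → u q = q) ∧
  (∀ q, u q ≠ q → OP (u⁻¹ * σ) q) ∧
  ∃ w, OP (u⁻¹ * σ) w ∧ u w = w ∧ u (x w) = x w ∧ ¬ OP σ w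

theorem qblock [Fintype α] (x σ : Perm α) (hx : x * x = 1) (hc : x * σ * x = σ⁻¹)
    (hxb : ∀ r, ¬ OP σ r → x r ≠ r) (hyb : ∀ r, ¬ OP σ r → x (σ r) ≠ r)
    (p : α) (hp : ¬ OP σ p) (hp2 : σ (σ p) = p) :
    p ≠ σ p ∧ p ≠ x p ∧ p ≠ x (σ p) ∧ σ p ≠ x p ∧ σ p ≠ x (σ p) ∧ x p ≠ x (σ p) ∧
    σ (x p) = x (σ p) ∧ σ (x (σ p)) = x p ∧
    ¬ OP σ (σ p) ∧ ¬ OP σ (x p) ∧ ¬ OP σ (x (σ p)) := by
  have hT := t3 x σ hx hc hxb hyb p hp
  have S0 : SO σ p p := SO.refl σ p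
  have S1 : SO σ p (σ p) := SO.step σ p
  have h01 : p ≠ σ p := fun h => hp (OP_of_fix h.symm)
  have b1 : ¬ OP σ (σ p) := not_OP_of_SO hp S1
  refine ⟨h01, (hT p p S0 S0).symm, (hT (σ p) p S1 S0).symm, (hT p (σ p) S0 S1).symm,
    (hT (σ p) (σ p) S1 S1).symm, fun h => h01 (x.injective h), ?_, ?_, b1,
    not_OP_x x σ hx hc p hp, not_OP_x x σ hx hc (σ p) b1⟩
  · have h := x_sigma x σ hx hc (σ p)
    rw [hp2] at h
    rw [h]
    exact Perm.eq_inv_iff_eq.mp rfl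
  · have h := x_sigma x σ hx hc p
    rw [h]
    exact Perm.eq_inv_iff_eq.mp rfl

theorem move_a [Fintype α] (x σ : Perm α) (hx : x * x = 1) (hc : x * σ * x = σ⁻¹)
    (b c : α) (hb : ¬ OP σ b) (hyb : σ b = x b) (hcb : ¬ OP σ c) (hxc : x c = c) :
    ∃ u, MoveOK x σ u := by
  have hxx := xx x hx
  have hab : x b ≠ b := by
    intro h
    exact hb (OP_of_fix (hyb.trans h))
  have hSba : SO σ b (x b) := ⟨1, by rw [pow_one, hyb]⟩
  have hbc : ¬ SO σ b c := ps x σ hx hc b c hb hyb hxc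
  have hcb' : ¬ SO σ c b := fun h => hbc h.symm
  have hca : ¬ SO σ c (x b) := fun h => hcb' (h.trans hSba.symm)
  have hne_cb : c ≠ b := by
    rintro rfl
    exact hcb' (SO.refl _ _)
  have hne_ca : c ≠ x b := by
    intro h
    apply hca
    rw [← h]
    exact SO.refl _ _
  have hι : Function.Injective ![x b, b, c] := inj3 _ _ _ hab hne_ca.symm hne_cb.symm
  have hu3 : (swap (1 : Fin 3) 2 * swap 0 2) ^ 3 = 1 := by decide
  have hxι : ∀ i, x (![x b, b, c] i) = ![x b, b, c] (swap (0 : Fin 3) 1 i) :=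
    forall_fin3 (hxx b) rfl hxc
  have h₀ : ∀ i : Fin 3, swap (0 : Fin 3) 1 ((swap (1 : Fin 3) 2 * swap 0 2 : Perm (Fin 3))
      (swap (0 : Fin 3) 1 ((swap (1 : Fin 3) 2 * swap 0 2 : Perm (Fin 3)) i))) = i := by decide
  have hinv : (ext ![x b, b, c] hι (swap (1 : Fin 3) 2 * swap 0 2))⁻¹ =
      swap b c * swap b (x b) := by
    rw [ext_inv]
    have h0 : (swap (1 : Fin 3) 2 * swap 0 2)⁻¹ = swap 1 2 * swap 1 0 := by decide
    rw [h0, ← ext_mul, ext_swap, ext_swap]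
    all_goals rfl
  obtain ⟨m, hm⟩ := exists_isPer σ b
  have hmeven : Even m := hm.even_of_not_OP hb
  have hoddm : Odd (m - 1) := by
    obtain ⟨t, ht⟩ := hmeven
    have := hm.1
    exact ⟨t - 1, by omega⟩
  obtain ⟨R0, R1, R2⟩ := rem σ b m hm (by rw [hyb]; exact hab)
  rw [hyb] at R0 R1 R2
  obtain ⟨σ', hσ'⟩ : ∃ σ' : Perm α, σ' = swap b (x b) * σ := ⟨_, rfl⟩
  rw [← hσ'] at R0 R1 R2
  obtain ⟨m', hm'⟩ := exists_isPer σ c
  have hm'even : Even m' := hm'.even_of_not_OP hcb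
  have hodd1 : Odd (m' + 1) := by
    obtain ⟨t, ht⟩ := hm'even
    exact ⟨t, by omega⟩
  have hc' : IsPer σ' c m' := IsPer.congr (R2 c hbc) hm'
  obtain ⟨s, hs⟩ : ∃ s : α, s = σ'⁻¹ c := ⟨_, rfl⟩
  have hσ's : σ' s = c := by rw [hs]; exact Perm.eq_inv_iff_eq.mp rfl
  have hScs : SO σ' c s := by rw [hs]; exact SO.inv _ _
  have hs' : IsPer σ' s m' := hc'.of_SO hScs
  have hsb : s ≠ b := by
    intro h
    rw [h, R0] at hσ's
    exact hne_cb hσ's.symm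
  obtain ⟨I1, I2, I3, I4, I5⟩ := ins σ' b s R0 hsb m' hs'
  rw [hσ's] at I1 I2 I3 I4 I5
  have hσ1 : (ext ![x b, b, c] hι (swap (1 : Fin 3) 2 * swap 0 2))⁻¹ * σ = swap b c * σ' := by
    rw [hinv, hσ', mul_assoc]
  have hOPs : ∀ p, SO (swap b c * σ') s p → OP (swap b c * σ') p :=
    fun p hp => (I1.of_SO hp).OP_of_odd hodd1
  have hOPb : OP (swap b c * σ') b := hOPs b ⟨1, by rw [pow_one, I3]⟩
  have hOPc : OP (swap b c * σ') c := hOPs c (I2 c ⟨1, by rw [pow_one, hσ's]⟩)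
  have hOPa : OP (swap b c * σ') (x b) := by
    have h1 : OP σ' (x b) := (R1 (x b) hSba hab).OP_of_odd hoddm
    have hnot : ¬ SO σ' s (x b) := by
      intro h
      obtain ⟨k, hk⟩ := hScs.trans h
      rw [R2 c hbc k] at hk
      exact hca ⟨k, hk⟩
    exact OP.congr (I5 (x b) hnot hab) h1
  have hwσ' : σ' c = σ c := by
    have h := R2 c hbc 1
    rw [pow_one, pow_one] at h
    exact h
  have hOPw : OP (swap b c * σ') (σ c) := by
    apply hOPs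
    apply I2
    rw [← hwσ']
    exact (SO.symm hScs).trans (SO.step σ' c)
  have hwc : σ c ≠ c := fun h => hcb (OP_of_fix h)
  have hwb : σ c ≠ b := fun h => hcb' ⟨1, by rw [pow_one, h]⟩
  have hwa : σ c ≠ x b := fun h => hca ⟨1, by rw [pow_one, h]⟩
  have hxw : x (σ c) = σ⁻¹ c := by rw [x_sigma x σ hx hc, hxc]
  have hSinv : SO σ c (σ⁻¹ c) := SO.inv σ c
  have hxwc : σ⁻¹ c ≠ c := by
    intro h
    rw [Perm.inv_eq_iff_eq] at h
    exact hwc h.symm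
  have hxwb : σ⁻¹ c ≠ b := by
    intro h
    rw [h] at hSinv
    exact hcb' hSinv
  have hxwa : σ⁻¹ c ≠ x b := by
    intro h
    rw [h] at hSinv
    exact hca hSinv
  refine ⟨ext ![x b, b, c] hι (swap (1 : Fin 3) 2 * swap 0 2), ext_odd _ _ _ hu3,
    ext_inverted x hx _ hι (swap (0 : Fin 3) 1) _ hxι h₀, ?_, ?_, ?_⟩
  · intro q hq
    have hqa : x b ≠ q := by
      rintro rfl
      exact not_OP_of_SO hb hSba hq
    have hqb : b ≠ q := by
      rintro rfl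
      exact hb hq
    have hqc : c ≠ q := by
      rintro rfl
      exact hcb hq
    exact ext_apply_not _ _ _ q (forall_fin3 hqa hqb hqc)
  · intro q hq
    obtain ⟨i, rfl⟩ := ext_moved _ _ _ q hq
    rw [hσ1]
    exact forall_fin3 (P := fun i => OP (swap b c * σ') (![x b, b, c] i)) hOPa hOPb hOPc i
  · refine ⟨σ c, ?_, ?_, ?_, ?_⟩
    · rw [hσ1]
      exact hOPw
    · exact ext_apply_not _ _ _ _ (forall_fin3 hwa.symm hwb.symm hwc.symm)
    · rw [hxw]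
      exact ext_apply_not _ _ _ _ (forall_fin3 hxwa.symm hxwb.symm hxwc.symm)
    · exact not_OP_of_SO hcb (SO.step σ c)

theorem move_b [Fintype α] (x σ : Perm α) (hx : x * x = 1) (hc : x * σ * x = σ⁻¹)
    (hxb : ∀ r, ¬ OP σ r → x r ≠ r) (hyb : ∀ r, ¬ OP σ r → x (σ r) ≠ r)
    (q : α) (hq : ¬ OP σ q) (hq2 : σ (σ q) ≠ q) : ∃ u, MoveOK x σ u := by
  have hxx := xx x hx
  have hT := t3 x σ hx hc hxb hyb q hq
  have S0 : SO σ q q := SO.refl σ q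
  have S1 : SO σ q (σ q) := SO.step σ q
  have S2 : SO σ q (σ (σ q)) := S1.trans (SO.step σ (σ q))
  have Sm : SO σ q (σ⁻¹ q) := SO.inv σ q
  have h13 : q ≠ σ q := fun h => hq (OP_of_fix h.symm)
  have h15 : q ≠ σ (σ q) := fun h => hq2 h.symm
  have h35 : σ q ≠ σ (σ q) := fun h => h13 (σ.injective h)
  have b1 : ¬ OP σ (σ q) := not_OP_of_SO hq S1
  have b2 : ¬ OP σ (σ (σ q)) := not_OP_of_SO hq S2
  have hι : Function.Injective ![x q, q, x (σ q), σ q, x (σ (σ q)), σ (σ q)] :=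
    inj6 _ _ _ _ _ _
      (hT q q S0 S0)
      (fun h => h13 (x.injective h))
      (hT q (σ q) S0 S1)
      (fun h => h15 (x.injective h))
      (hT q _ S0 S2)
      (hT (σ q) q S1 S0).symm
      h13
      (hT _ q S2 S0).symm
      h15
      (hT (σ q) (σ q) S1 S1)
      (fun h => h35 (x.injective h))
      (hT (σ q) _ S1 S2)
      (hT _ (σ q) S2 S1).symm
      h35
      (hT _ _ S2 S2)
  have hu3 : ((swap (3 : Fin 6) 4 * (swap 2 0 * swap 1 3) * swap 5 2)⁻¹) ^ 3 = 1 := by decide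
  have hxι : ∀ i, x (![x q, q, x (σ q), σ q, x (σ (σ q)), σ (σ q)] i) =
      ![x q, q, x (σ q), σ q, x (σ (σ q)), σ (σ q)]
        ((swap (0 : Fin 6) 1 * swap 2 3 * swap 4 5 : Perm (Fin 6)) i) :=
    forall_fin6 (hxx q) rfl (hxx _) rfl (hxx _) rfl
  have h₀ : ∀ i : Fin 6, (swap (0 : Fin 6) 1 * swap 2 3 * swap 4 5 : Perm (Fin 6))
      (((swap (3 : Fin 6) 4 * (swap 2 0 * swap 1 3) * swap 5 2)⁻¹ : Perm (Fin 6))
      ((swap (0 : Fin 6) 1 * swap 2 3 * swap 4 5 : Perm (Fin 6))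
      (((swap (3 : Fin 6) 4 * (swap 2 0 * swap 1 3) * swap 5 2)⁻¹ : Perm (Fin 6)) i))) = i := by
    decide
  have hinv : (ext ![x q, q, x (σ q), σ q, x (σ (σ q)), σ (σ q)] hι
      (swap (3 : Fin 6) 4 * (swap 2 0 * swap 1 3) * swap 5 2)⁻¹)⁻¹ =
      swap (σ q) (x (σ (σ q))) * (swap (x (σ q)) (x q) * swap q (σ q)) *
        swap (σ (σ q)) (x (σ q)) := by
    rw [ext_inv, inv_inv, ← ext_mul, ← ext_mul, ← ext_mul, ext_swap, ext_swap, ext_swap,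
      ext_swap]
    all_goals rfl
  have hσv6 : σ (x (σ (σ q))) = x (σ q) := by
    rw [x_sigma x σ hx hc (σ q)]
    exact Perm.eq_inv_iff_eq.mp rfl
  have hσv4 : σ (x (σ q)) = x q := by
    rw [x_sigma x σ hx hc q]
    exact Perm.eq_inv_iff_eq.mp rfl
  have hτ : swap (σ (σ q)) (x (σ q)) * σ = σ * swap (σ q) (x (σ (σ q))) := by
    have h := swap_apply_apply σ (σ q) (x (σ (σ q)))
    rw [hσv6] at h
    rw [h, inv_mul_cancel_right]
  obtain ⟨l, hl⟩ := exists_isPer σ q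
  have hlodd : Odd (l - 1) := by
    obtain ⟨t, ht⟩ := hl.even_of_not_OP hq
    have := hl.1
    exact ⟨t - 1, by omega⟩
  obtain ⟨R0, R1, R2⟩ := rem σ q l hl (fun h => h13 h.symm)
  obtain ⟨σ', hσ'⟩ : ∃ σ' : Perm α, σ' = swap q (σ q) * σ := ⟨_, rfl⟩
  rw [← hσ'] at R0 R1 R2
  have hv4 : ¬ SO σ q (x (σ q)) := fun h => hT (σ q) _ S1 h rfl
  have hv4bad : ¬ OP σ (x (σ q)) := not_OP_x x σ hx hc _ b1
  obtain ⟨l4, hl4⟩ := exists_isPer σ (x (σ q))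
  have hl4odd : Odd (l4 - 1) := by
    obtain ⟨t, ht⟩ := hl4.even_of_not_OP hv4bad
    have := hl4.1
    exact ⟨t - 1, by omega⟩
  have hl4' : IsPer σ' (x (σ q)) l4 := IsPer.congr (R2 _ hv4) hl4
  have hσ'v4 : σ' (x (σ q)) = x q := by
    have h := R2 _ hv4 1
    rw [pow_one, pow_one, hσv4] at h
    exact h
  obtain ⟨Q0, Q1, Q2⟩ := rem σ' (x (σ q)) l4 hl4'
    (by rw [hσ'v4]; exact fun h => h13 (x.injective h))
  rw [hσ'v4] at Q0 Q1 Q2
  obtain ⟨σ'', hσ''⟩ : ∃ σ'' : Perm α, σ'' = swap (x (σ q)) (x q) * σ' := ⟨_, rfl⟩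
  rw [← hσ''] at Q0 Q1 Q2
  have hSO' : ∀ r, SO σ' (x (σ q)) r → SO σ (x (σ q)) r := by
    rintro r ⟨k, hk⟩
    exact ⟨k, by rw [hk, R2 _ hv4 k]⟩
  have hSO'' : ∀ r, SO σ (x (σ q)) r → SO σ' (x (σ q)) r := by
    rintro r ⟨k, hk⟩
    exact ⟨k, by rw [hk, R2 _ hv4 k]⟩
  have hA : ∀ r, SO σ q r → r ≠ q → OP σ'' r := by
    intro r hr hrq
    have h1 : OP σ' r := (R1 r hr hrq).OP_of_odd hlodd
    have hnot : ¬ SO σ' (x (σ q)) r := by
      intro h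
      exact hv4 (hr.trans (hSO' r h).symm)
    exact OP.congr (Q2 r hnot) h1
  have hBq : OP σ'' q := by
    have hnot : ¬ SO σ' (x (σ q)) q := fun h => hv4 (hSO' q h).symm
    have h := Q2 q hnot 1
    rw [pow_one, pow_one, R0] at h
    exact OP_of_fix h
  have hB4 : OP σ'' (x (σ q)) := OP_of_fix Q0
  have hC : ∀ r, SO σ (x (σ q)) r → r ≠ x (σ q) → OP σ'' r :=
    fun r hr hne => (Q1 r (hSO'' r hr) hne).OP_of_odd hl4odd
  have hO3 : OP σ'' (σ q) := hA _ S1 h13.symm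
  have hO5 : OP σ'' (σ (σ q)) := hA _ S2 h15.symm
  have hO0 : OP σ'' (x q) := hC _ ⟨1, by rw [pow_one, hσv4]⟩ (fun h => h13 (x.injective h))
  have hO4 : OP σ'' (x (σ (σ q))) := by
    apply hC
    · have h : x (σ (σ q)) = σ⁻¹ (x (σ q)) := x_sigma x σ hx hc (σ q)
      rw [h]
      exact SO.inv σ _
    · exact fun h => h35 (x.injective h).symm
  have hσ1 : (ext ![x q, q, x (σ q), σ q, x (σ (σ q)), σ (σ q)] hι
      (swap (3 : Fin 6) 4 * (swap 2 0 * swap 1 3) * swap 5 2)⁻¹)⁻¹ * σ =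
      swap (σ q) (x (σ (σ q))) * σ'' * (swap (σ q) (x (σ (σ q))))⁻¹ := by
    rw [hinv, hσ'', hσ', swap_inv]
    simp only [mul_assoc]
    rw [hτ]
  have hconj : ∀ r r', swap (σ q) (x (σ (σ q))) r = r' → OP σ'' r' →
      OP ((ext ![x q, q, x (σ q), σ q, x (σ (σ q)), σ (σ q)] hι
      (swap (3 : Fin 6) 4 * (swap 2 0 * swap 1 3) * swap 5 2)⁻¹)⁻¹ * σ) r := by
    intro r r' hr h
    rw [hσ1, OP_conj, swap_inv, hr]
    exact h
  have e0 := hconj (x q) (x q)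
    (swap_apply_of_ne_of_ne (hT q (σ q) S0 S1) (fun h => h15 (x.injective h))) hO0
  have e1 := hconj q q (swap_apply_of_ne_of_ne h13 (hT _ q S2 S0).symm) hBq
  have e2 := hconj (x (σ q)) (x (σ q))
    (swap_apply_of_ne_of_ne (hT (σ q) (σ q) S1 S1) (fun h => h35 (x.injective h))) hB4
  have e3 := hconj (σ q) (x (σ (σ q))) (swap_apply_left _ _) hO4
  have e4 := hconj (x (σ (σ q))) (σ q) (swap_apply_right _ _) hO3
  have e5 := hconj (σ (σ q)) (σ (σ q))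
    (swap_apply_of_ne_of_ne h35.symm (hT _ _ S2 S2).symm) hO5
  have hw1 : σ⁻¹ q ≠ q := by
    intro h
    rw [Perm.inv_eq_iff_eq] at h
    exact h13 h
  have hw3 : σ⁻¹ q ≠ σ q := by
    intro h
    rw [Perm.inv_eq_iff_eq] at h
    exact h15 h
  have hw5 : σ⁻¹ q ≠ σ (σ q) := by
    intro h
    rw [Perm.inv_eq_iff_eq] at h
    apply hq
    refine ⟨1 + 1 + 1, by decide, ?_⟩
    rw [pow_add_apply, pow_add_apply, pow_one]
    exact h.symm
  have ew := hconj (σ⁻¹ q) (σ⁻¹ q)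
    (swap_apply_of_ne_of_ne hw3 (hT _ _ S2 Sm).symm) (hA _ Sm hw1)
  have hbad : ∀ i, ¬ OP σ (![x q, q, x (σ q), σ q, x (σ (σ q)), σ (σ q)] i) :=
    forall_fin6 (not_OP_x x σ hx hc q hq) hq hv4bad b1 (not_OP_x x σ hx hc _ b2) b2
  refine ⟨ext ![x q, q, x (σ q), σ q, x (σ (σ q)), σ (σ q)] hι
      (swap (3 : Fin 6) 4 * (swap 2 0 * swap 1 3) * swap 5 2)⁻¹, ext_odd _ _ _ hu3,
    ext_inverted x hx _ hι (swap (0 : Fin 6) 1 * swap 2 3 * swap 4 5) _ hxι h₀, ?_, ?_, ?_⟩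
  · intro r hr
    apply ext_apply_not
    intro i h
    exact hbad i (by rw [h]; exact hr)
  · intro r hr
    obtain ⟨i, rfl⟩ := ext_moved _ _ _ r hr
    exact forall_fin6 (P := fun i => OP ((ext ![x q, q, x (σ q), σ q, x (σ (σ q)), σ (σ q)] hι
      (swap (3 : Fin 6) 4 * (swap 2 0 * swap 1 3) * swap 5 2)⁻¹)⁻¹ * σ)
      (![x q, q, x (σ q), σ q, x (σ (σ q)), σ (σ q)] i)) e0 e1 e2 e3 e4 e5 i
  · refine ⟨σ⁻¹ q, ew, ?_, ?_, not_OP_of_SO hq Sm⟩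
    · exact ext_apply_not _ _ _ _ (forall_fin6 (hT q _ S0 Sm) hw1.symm (hT (σ q) _ S1 Sm)
        hw3.symm (hT _ _ S2 Sm) hw5.symm)
    · exact ext_apply_not _ _ _ _ (forall_fin6 (fun h => hw1 (x.injective h).symm)
        (hT _ q Sm S0).symm (fun h => hw3 (x.injective h).symm) (hT _ _ Sm S1).symm
        (fun h => hw5 (x.injective h).symm) (hT _ _ Sm S2).symm)

end Cfsg.Agent.Lib.Helper14.SymGr
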