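import Cfsg.Agent.Lib.Helper14.SymGr4

set_option autoImplicit false
set_option linter.unusedSectionVars false
set_option maxHeartbeats 1000000

namespace Cfsg.Agent.Lib.Helper14.SymGr

open Equiv

variable {α : Type*} [DecidableEq α]

theorem move_c [Fintype α] (x σ : Perm α) (hx : x * x = 1) (hc : x * σ * x = σ⁻¹)
    (hxb : ∀ r, ¬ OP σ r → x r ≠ r) (hyb : ∀ r, ¬ OP σ r → x (σ r) ≠ r)
    (p : α) (hp : ¬ OP σ p) (hp2 : σ (σ p) = p) (q : α) (hq : ¬ OP σ q) (hq2 : σ (σ q) = q)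
    (hqp : ¬ (q = p ∨ q = σ p ∨ q = x p ∨ q = x (σ p))) : ∃ u, MoveOK x σ u := by
  have hxx := xx x hx
  obtain ⟨p01, p02, p03, p12, p13, p23, pσx, pσxσ, pb1, pb2, pb3⟩ :=
    qblock x σ hx hc hxb hyb p hp hp2
  obtain ⟨q01, q02, q03, q12, q13, q23, qσx, qσxσ, qb1, qb2, qb3⟩ :=
    qblock x σ hx hc hxb hyb q hq hq2
  have hSσ : ∀ r, (r = p ∨ r = σ p ∨ r = x p ∨ r = x (σ p)) →
      (σ r = p ∨ σ r = σ p ∨ σ r = x p ∨ σ r = x (σ p)) := by
    rintro r (rfl | rfl | rfl | rfl)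
    · exact Or.inr (Or.inl rfl)
    · exact Or.inl hp2
    · exact Or.inr (Or.inr (Or.inr pσx))
    · exact Or.inr (Or.inr (Or.inl pσxσ))
  have hSx : ∀ r, (r = p ∨ r = σ p ∨ r = x p ∨ r = x (σ p)) →
      (x r = p ∨ x r = σ p ∨ x r = x p ∨ x r = x (σ p)) := by
    rintro r (rfl | rfl | rfl | rfl)
    · exact Or.inr (Or.inr (Or.inl rfl))
    · exact Or.inr (Or.inr (Or.inr rfl))
    · exact Or.inl (hxx _)
    · exact Or.inr (Or.inl (hxx _))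
  have n1 : ¬ (σ q = p ∨ σ q = σ p ∨ σ q = x p ∨ σ q = x (σ p)) := by
    intro h
    have h' := hSσ _ h
    rw [hq2] at h'
    exact hqp h'
  have n2 : ¬ (x q = p ∨ x q = σ p ∨ x q = x p ∨ x q = x (σ p)) := by
    intro h
    have h' := hSx _ h
    rw [hxx] at h'
    exact hqp h'
  have n3 : ¬ (x (σ q) = p ∨ x (σ q) = σ p ∨ x (σ q) = x p ∨ x (σ q) = x (σ p)) := by
    intro h
    have h' := hSx _ h
    rw [hxx] at h'
    exact n1 h'
  have hne : ∀ r t, (r = p ∨ r = σ p ∨ r = x p ∨ r = x (σ p)) →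
      ¬ (t = p ∨ t = σ p ∨ t = x p ∨ t = x (σ p)) → r ≠ t := by
    rintro r t hr ht rfl
    exact ht hr
  have i0 : p = p ∨ p = σ p ∨ p = x p ∨ p = x (σ p) := Or.inl rfl
  have i1 : σ p = p ∨ σ p = σ p ∨ σ p = x p ∨ σ p = x (σ p) := Or.inr (Or.inl rfl)
  have i2 : x p = p ∨ x p = σ p ∨ x p = x p ∨ x p = x (σ p) := Or.inr (Or.inr (Or.inl rfl))
  have i3 : x (σ p) = p ∨ x (σ p) = σ p ∨ x (σ p) = x p ∨ x (σ p) = x (σ p) :=
    Or.inr (Or.inr (Or.inr rfl))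
  have hι : Function.Injective ![p, σ p, x p, x (σ p), q, σ q, x q, x (σ q)] :=
    inj8 _ _ _ _ _ _ _ _ p01 p02 p03 (hne _ _ i0 hqp) (hne _ _ i0 n1) (hne _ _ i0 n2)
      (hne _ _ i0 n3) p12 p13 (hne _ _ i1 hqp) (hne _ _ i1 n1) (hne _ _ i1 n2) (hne _ _ i1 n3)
      p23 (hne _ _ i2 hqp) (hne _ _ i2 n1) (hne _ _ i2 n2) (hne _ _ i2 n3)
      (hne _ _ i3 hqp) (hne _ _ i3 n1) (hne _ _ i3 n2) (hne _ _ i3 n3)
      q01 q02 q03 q12 q13 q23
  have hu3 : (swap (0 : Fin 8) 1 * swap 1 4 * (swap 3 2 * swap 2 6)) ^ 3 = 1 := by decide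
  have h₀ : ∀ i : Fin 8, (swap (0 : Fin 8) 2 * swap 1 3 * (swap 4 6 * swap 5 7) : Perm (Fin 8))
      ((swap (0 : Fin 8) 1 * swap 1 4 * (swap 3 2 * swap 2 6) : Perm (Fin 8))
      ((swap (0 : Fin 8) 2 * swap 1 3 * (swap 4 6 * swap 5 7) : Perm (Fin 8))
      ((swap (0 : Fin 8) 1 * swap 1 4 * (swap 3 2 * swap 2 6) : Perm (Fin 8)) i))) = i := by
    decide
  have hf3 : ∀ i : Fin 8, ((swap (0 : Fin 8) 1 * swap 1 4 * (swap 3 2 * swap 2 6))⁻¹ *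
      (swap (0 : Fin 8) 1 * swap 2 3 * (swap 4 5 * swap 6 7)) : Perm (Fin 8))
      (((swap (0 : Fin 8) 1 * swap 1 4 * (swap 3 2 * swap 2 6))⁻¹ *
      (swap (0 : Fin 8) 1 * swap 2 3 * (swap 4 5 * swap 6 7)) : Perm (Fin 8))
      (((swap (0 : Fin 8) 1 * swap 1 4 * (swap 3 2 * swap 2 6))⁻¹ *
      (swap (0 : Fin 8) 1 * swap 2 3 * (swap 4 5 * swap 6 7)) : Perm (Fin 8)) i)) = i := by
    set_option maxRecDepth 100000 in decide
  have e5 : (swap (0 : Fin 8) 1 * swap 1 4 * (swap 3 2 * swap 2 6) : Perm (Fin 8)) 5 = 5 := by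
    decide
  have e7 : (swap (0 : Fin 8) 1 * swap 1 4 * (swap 3 2 * swap 2 6) : Perm (Fin 8)) 7 = 7 := by
    decide
  have hσι : ∀ i, σ (![p, σ p, x p, x (σ p), q, σ q, x q, x (σ q)] i) =
      ![p, σ p, x p, x (σ p), q, σ q, x q, x (σ q)]
        ((swap (0 : Fin 8) 1 * swap 2 3 * (swap 4 5 * swap 6 7) : Perm (Fin 8)) i) :=
    forall_fin8 rfl hp2 pσx pσxσ rfl hq2 qσx qσxσ
  have hxι : ∀ i, x (![p, σ p, x p, x (σ p), q, σ q, x q, x (σ q)] i) =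
      ![p, σ p, x p, x (σ p), q, σ q, x q, x (σ q)]
        ((swap (0 : Fin 8) 2 * swap 1 3 * (swap 4 6 * swap 5 7) : Perm (Fin 8)) i) :=
    forall_fin8 rfl rfl (hxx p) (hxx (σ p)) rfl rfl (hxx q) (hxx (σ q))
  have hσ1ι : ∀ i, ((ext ![p, σ p, x p, x (σ p), q, σ q, x q, x (σ q)] hι
      (swap (0 : Fin 8) 1 * swap 1 4 * (swap 3 2 * swap 2 6)))⁻¹ * σ)
      (![p, σ p, x p, x (σ p), q, σ q, x q, x (σ q)] i) =
      ![p, σ p, x p, x (σ p), q, σ q, x q, x (σ q)]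
        (((swap (0 : Fin 8) 1 * swap 1 4 * (swap 3 2 * swap 2 6))⁻¹ *
      (swap (0 : Fin 8) 1 * swap 2 3 * (swap 4 5 * swap 6 7)) : Perm (Fin 8)) i) := by
    intro i
    rw [Perm.mul_apply, hσι, ext_inv, ext_apply]
    rfl
  have hOP : ∀ i, OP ((ext ![p, σ p, x p, x (σ p), q, σ q, x q, x (σ q)] hι
      (swap (0 : Fin 8) 1 * swap 1 4 * (swap 3 2 * swap 2 6)))⁻¹ * σ)
      (![p, σ p, x p, x (σ p), q, σ q, x q, x (σ q)] i) := by
    intro i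
    refine ⟨1 + 1 + 1, by decide, ?_⟩
    rw [pow_add_apply, pow_add_apply, pow_one, hσ1ι, hσ1ι, hσ1ι, hf3 i]
  have hbad : ∀ i, ¬ OP σ (![p, σ p, x p, x (σ p), q, σ q, x q, x (σ q)] i) :=
    forall_fin8 hp pb1 pb2 pb3 hq qb1 qb2 qb3
  refine ⟨ext ![p, σ p, x p, x (σ p), q, σ q, x q, x (σ q)] hι
      (swap (0 : Fin 8) 1 * swap 1 4 * (swap 3 2 * swap 2 6)), ext_odd _ _ _ hu3,
    ext_inverted x hx _ hι (swap (0 : Fin 8) 2 * swap 1 3 * (swap 4 6 * swap 5 7)) _ hxι h₀,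
    ?_, ?_, ?_⟩
  · intro r hr
    apply ext_apply_not
    intro i h
    exact hbad i (by rw [h]; exact hr)
  · intro r hr
    obtain ⟨i, rfl⟩ := ext_moved _ _ _ r hr
    exact hOP i
  · refine ⟨σ q, hOP 5, ?_, ?_, qb1⟩
    · have h := ext_apply ![p, σ p, x p, x (σ p), q, σ q, x q, x (σ q)] hι
        (swap (0 : Fin 8) 1 * swap 1 4 * (swap 3 2 * swap 2 6)) 5
      rw [e5] at h
      exact h
    · have h := ext_apply ![p, σ p, x p, x (σ p), q, σ q, x q, x (σ q)] hι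
        (swap (0 : Fin 8) 1 * swap 1 4 * (swap 3 2 * swap 2 6)) 7
      rw [e7] at h
      exact h

theorem move_lone [Fintype α] (x σ : Perm α) (hx : x * x = 1) (hc : x * σ * x = σ⁻¹)
    (hxb : ∀ r, ¬ OP σ r → x r ≠ r) (hyb : ∀ r, ¬ OP σ r → x (σ r) ≠ r)
    (p : α) (hp : ¬ OP σ p) (hp2 : σ (σ p) = p)
    (hall : ∀ r, ¬ OP σ r → r = p ∨ r = σ p ∨ r = x p ∨ r = x (σ p))
    (w : α) (hw : OP σ w) :
    ∃ u, Odd (orderOf u) ∧ x * u * x = u⁻¹ ∧ Odd (orderOf (u⁻¹ * σ)) ∧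
      ∀ r, r ≠ w → r ≠ x w → OP σ r → u r = r := by
  have hxx := xx x hx
  obtain ⟨p01, p02, p03, p12, p13, p23, pσx, pσxσ, pb1, pb2, pb3⟩ :=
    qblock x σ hx hc hxb hyb p hp hp2
  obtain ⟨g₀, hg₀⟩ : ∃ g₀ : Perm α, g₀ = swap (x p) (x (σ p)) * swap p (σ p) * σ := ⟨_, rfl⟩
  have g0 : g₀ (x p) = x p := by
    rw [hg₀, Perm.mul_apply, Perm.mul_apply, pσx, swap_apply_of_ne_of_ne p03.symm p13.symm,
      swap_apply_right]
  have g1 : g₀ p = p := by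
    rw [hg₀, Perm.mul_apply, Perm.mul_apply, swap_apply_right, swap_apply_of_ne_of_ne p02 p03]
  have g2 : g₀ (x (σ p)) = x (σ p) := by
    rw [hg₀, Perm.mul_apply, Perm.mul_apply, pσxσ, swap_apply_of_ne_of_ne p02.symm p12.symm,
      swap_apply_left]
  have g3 : g₀ (σ p) = σ p := by
    rw [hg₀, Perm.mul_apply, Perm.mul_apply, hp2, swap_apply_left, swap_apply_of_ne_of_ne p12 p13]
  have hgood : ∀ r, OP σ r → r ≠ x p ∧ r ≠ p ∧ r ≠ x (σ p) ∧ r ≠ σ p := by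
    intro r hr
    refine ⟨?_, ?_, ?_, ?_⟩ <;> rintro rfl
    · exact pb2 hr
    · exact hp hr
    · exact pb3 hr
    · exact pb1 hr
  have hg₀good : ∀ r, OP σ r → g₀ r = σ r := by
    intro r hr
    have hσr : OP σ (σ r) := hr.of_SO (SO.step σ r)
    obtain ⟨a0, a1, a2, a3⟩ := hgood _ hσr
    rw [hg₀, Perm.mul_apply, Perm.mul_apply, swap_apply_of_ne_of_ne a1 a3,
      swap_apply_of_ne_of_ne a0 a2]
  have hallg₀ : ∀ r, OP g₀ r := by
    intro r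
    by_cases hr : OP σ r
    · apply OP.congr _ hr
      rw [hg₀]
      apply pow_apply_of_fix
      intro k
      have hk : OP σ ((σ ^ (k + 1)) r) := hr.of_SO ⟨k + 1, rfl⟩
      obtain ⟨a0, a1, a2, a3⟩ := hgood _ hk
      rw [Perm.mul_apply, swap_apply_of_ne_of_ne a1 a3, swap_apply_of_ne_of_ne a0 a2]
    · rcases hall r hr with rfl | rfl | rfl | rfl
      · exact OP_of_fix g1
      · exact OP_of_fix g3
      · exact OP_of_fix g0
      · exact OP_of_fix g2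
  obtain ⟨w0, w1, w2, w3⟩ := hgood w hw
  have hsgood : OP σ (σ⁻¹ w) := hw.of_SO (SO.inv σ w)
  obtain ⟨s0, s1, s2, s3⟩ := hgood _ hsgood
  have hg₀s : g₀ (σ⁻¹ w) = w := by
    rw [hg₀good _ hsgood]
    exact Perm.eq_inv_iff_eq.mp rfl
  by_cases hxw : x w = w
  · have hι : Function.Injective ![x p, p, x (σ p), σ p, w] :=
      inj5 _ _ _ _ _ p02.symm p23 p12.symm w0.symm p03 p01 w1.symm p13.symm w2.symm w3.symm
    have hu3 : ((swap (0 : Fin 5) 4 * swap 2 4 * swap 1 4 * swap 3 4 * swap 0 2 *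
        swap 1 3)⁻¹) ^ 3 = 1 := by decide
    have hxι : ∀ i, x (![x p, p, x (σ p), σ p, w] i) =
        ![x p, p, x (σ p), σ p, w] ((swap (0 : Fin 5) 1 * swap 2 3 : Perm (Fin 5)) i) :=
      forall_fin5 (hxx p) rfl (hxx (σ p)) rfl hxw
    have h₀ : ∀ i : Fin 5, (swap (0 : Fin 5) 1 * swap 2 3 : Perm (Fin 5))
        (((swap (0 : Fin 5) 4 * swap 2 4 * swap 1 4 * swap 3 4 * swap 0 2 *
          swap 1 3)⁻¹ : Perm (Fin 5))
        ((swap (0 : Fin 5) 1 * swap 2 3 : Perm (Fin 5))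
        (((swap (0 : Fin 5) 4 * swap 2 4 * swap 1 4 * swap 3 4 * swap 0 2 *
          swap 1 3)⁻¹ : Perm (Fin 5)) i))) = i := by decide
    have hinv : (ext ![x p, p, x (σ p), σ p, w] hι
        (swap (0 : Fin 5) 4 * swap 2 4 * swap 1 4 * swap 3 4 * swap 0 2 * swap 1 3)⁻¹)⁻¹ =
        swap (x p) w * swap (x (σ p)) w * swap p w * swap (σ p) w * swap (x p) (x (σ p)) *
          swap p (σ p) := by
      rw [ext_inv, inv_inv, ← ext_mul, ← ext_mul, ← ext_mul, ← ext_mul, ← ext_mul, ext_swap,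
        ext_swap, ext_swap, ext_swap, ext_swap, ext_swap]
      all_goals rfl
    have hall1 := ins2 g₀ (σ p) p (σ⁻¹ w) g3 g1 p01.symm s3 s1 hallg₀
    rw [hg₀s] at hall1
    obtain ⟨f₁, hf₁⟩ : ∃ f₁ : Perm α, f₁ = swap p w * (swap (σ p) w * g₀) := ⟨_, rfl⟩
    rw [← hf₁] at hall1
    have f2 : f₁ (x (σ p)) = x (σ p) := by
      rw [hf₁, Perm.mul_apply, Perm.mul_apply, g2, swap_apply_of_ne_of_ne p13.symm w2.symm,
        swap_apply_of_ne_of_ne p03.symm w2.symm]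
    have f0 : f₁ (x p) = x p := by
      rw [hf₁, Perm.mul_apply, Perm.mul_apply, g0, swap_apply_of_ne_of_ne p12.symm w0.symm,
        swap_apply_of_ne_of_ne p02.symm w0.symm]
    have f1 : f₁ p = w := by
      rw [hf₁, Perm.mul_apply, Perm.mul_apply, g1, swap_apply_of_ne_of_ne p01 w1.symm,
        swap_apply_left]
    have hall2 := ins2 f₁ (x (σ p)) (x p) p f2 f0 p23.symm p03 p02 hall1
    rw [f1] at hall2
    have hσ1 : (ext ![x p, p, x (σ p), σ p, w] hι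
        (swap (0 : Fin 5) 4 * swap 2 4 * swap 1 4 * swap 3 4 * swap 0 2 * swap 1 3)⁻¹)⁻¹ * σ =
        swap (x p) w * (swap (x (σ p)) w * f₁) := by
      rw [hinv, hf₁, hg₀]
      simp only [mul_assoc]
    refine ⟨ext ![x p, p, x (σ p), σ p, w] hι
        (swap (0 : Fin 5) 4 * swap 2 4 * swap 1 4 * swap 3 4 * swap 0 2 * swap 1 3)⁻¹,
      ext_odd _ _ _ hu3,
      ext_inverted x hx _ hι (swap (0 : Fin 5) 1 * swap 2 3) _ hxι h₀, ?_, ?_⟩
    · rw [hσ1]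
      exact odd_orderOf_of_OP _ hall2
    · intro r hrw _ hr
      obtain ⟨r0, r1, r2, r3⟩ := hgood r hr
      exact ext_apply_not _ _ _ _ (forall_fin5 r0.symm r1.symm r2.symm r3.symm hrw.symm)
  · have hxwgood : OP σ (x w) := OP_x x σ hx hc w hw
    obtain ⟨xw0, xw1, xw2, xw3⟩ := hgood _ hxwgood
    have hs'good : OP σ (σ⁻¹ (x w)) := hxwgood.of_SO (SO.inv σ (x w))
    obtain ⟨t0, t1, t2, t3⟩ := hgood _ hs'good
    have hι : Function.Injective ![x p, p, x (σ p), σ p, x w, w] :=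
      inj6 _ _ _ _ _ _ p02.symm p23 p12.symm xw0.symm w0.symm p03 p01 xw1.symm w1.symm
        p13.symm xw2.symm w2.symm xw3.symm w3.symm hxw
    have hu3 : ((swap (3 : Fin 6) 4 * swap 2 4 * swap 1 5 * swap 0 5 * swap 0 2 *
        swap 1 3)⁻¹) ^ 3 = 1 := by decide
    have hxι : ∀ i, x (![x p, p, x (σ p), σ p, x w, w] i) =
        ![x p, p, x (σ p), σ p, x w, w]
          ((swap (0 : Fin 6) 1 * swap 2 3 * swap 4 5 : Perm (Fin 6)) i) :=
      forall_fin6 (hxx p) rfl (hxx (σ p)) rfl (hxx w) rfl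
    have h₀ : ∀ i : Fin 6, (swap (0 : Fin 6) 1 * swap 2 3 * swap 4 5 : Perm (Fin 6))
        (((swap (3 : Fin 6) 4 * swap 2 4 * swap 1 5 * swap 0 5 * swap 0 2 *
          swap 1 3)⁻¹ : Perm (Fin 6))
        ((swap (0 : Fin 6) 1 * swap 2 3 * swap 4 5 : Perm (Fin 6))
        (((swap (3 : Fin 6) 4 * swap 2 4 * swap 1 5 * swap 0 5 * swap 0 2 *
          swap 1 3)⁻¹ : Perm (Fin 6)) i))) = i := by decide
    have hinv : (ext ![x p, p, x (σ p), σ p, x w, w] hι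
        (swap (3 : Fin 6) 4 * swap 2 4 * swap 1 5 * swap 0 5 * swap 0 2 * swap 1 3)⁻¹)⁻¹ =
        swap (σ p) (x w) * swap (x (σ p)) (x w) * swap p w * swap (x p) w *
          swap (x p) (x (σ p)) * swap p (σ p) := by
      rw [ext_inv, inv_inv, ← ext_mul, ← ext_mul, ← ext_mul, ← ext_mul, ← ext_mul, ext_swap,
        ext_swap, ext_swap, ext_swap, ext_swap, ext_swap]
      all_goals rfl
    have hall1 := ins2 g₀ (x p) p (σ⁻¹ w) g0 g1 p02.symm s0 s1 hallg₀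
    rw [hg₀s] at hall1
    obtain ⟨f₁, hf₁⟩ : ∃ f₁ : Perm α, f₁ = swap p w * (swap (x p) w * g₀) := ⟨_, rfl⟩
    rw [← hf₁] at hall1
    have f2 : f₁ (x (σ p)) = x (σ p) := by
      rw [hf₁, Perm.mul_apply, Perm.mul_apply, g2, swap_apply_of_ne_of_ne p23.symm w2.symm,
        swap_apply_of_ne_of_ne p03.symm w2.symm]
    have f3 : f₁ (σ p) = σ p := by
      rw [hf₁, Perm.mul_apply, Perm.mul_apply, g3, swap_apply_of_ne_of_ne p12 w3.symm,
        swap_apply_of_ne_of_ne p01.symm w3.symm]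
    have fs : f₁ (σ⁻¹ (x w)) = x w := by
      have h1 : g₀ (σ⁻¹ (x w)) = x w := by
        rw [hg₀good _ hs'good]
        exact Perm.eq_inv_iff_eq.mp rfl
      rw [hf₁, Perm.mul_apply, Perm.mul_apply, h1, swap_apply_of_ne_of_ne xw0 hxw,
        swap_apply_of_ne_of_ne xw1 hxw]
    have hall2 := ins2 f₁ (x (σ p)) (σ p) (σ⁻¹ (x w)) f2 f3 p13.symm t2 t3 hall1
    rw [fs] at hall2
    have hσ1 : (ext ![x p, p, x (σ p), σ p, x w, w] hι
        (swap (3 : Fin 6) 4 * swap 2 4 * swap 1 5 * swap 0 5 * swap 0 2 * swap 1 3)⁻¹)⁻¹ * σ =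
        swap (σ p) (x w) * (swap (x (σ p)) (x w) * f₁) := by
      rw [hinv, hf₁, hg₀]
      simp only [mul_assoc]
    refine ⟨ext ![x p, p, x (σ p), σ p, x w, w] hι
        (swap (3 : Fin 6) 4 * swap 2 4 * swap 1 5 * swap 0 5 * swap 0 2 * swap 1 3)⁻¹,
      ext_odd _ _ _ hu3,
      ext_inverted x hx _ hι (swap (0 : Fin 6) 1 * swap 2 3 * swap 4 5) _ hxι h₀, ?_, ?_⟩
    · rw [hσ1]
      exact odd_orderOf_of_OP _ hall2
    · intro r hrw hrxw hr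
      obtain ⟨r0, r1, r2, r3⟩ := hgood r hr
      exact ext_apply_not _ _ _ _
        (forall_fin6 r0.symm r1.symm r2.symm r3.symm hrxw.symm hrw.symm)

end Cfsg.Agent.Lib.Helper14.SymGr
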