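import Cfsg.Agent.Lib.Helper14.SymGr5

set_option autoImplicit false
set_option linter.unusedSectionVars false
set_option maxHeartbeats 1000000

namespace Cfsg.Agent.Lib.Helper14.SymGr

open Equiv

variable {α : Type*} [DecidableEq α]

theorem all_op_done [Fintype α] (x σ : Perm α) (F : Finset α) (hx : x * x = 1)
    (hall : ∀ p, OP σ p) :
    ∃ u : Perm α, Odd (orderOf u) ∧ x * u * x = u⁻¹ ∧ Odd (orderOf (u⁻¹ * σ)) ∧
      ∀ q ∈ F, u q = q := by
  refine ⟨1, by simp, by simp [hx], ?_, fun q _ => rfl⟩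
  rw [inv_one, one_mul]
  exact odd_orderOf_of_OP σ hall

theorem step [Fintype α] (N : ℕ)
    (ih : ∀ (x σ : Perm α) (F : Finset α), x * x = 1 → x * σ * x = σ⁻¹ →
      Nat.card {p // x p = p} = Nat.card {p // x (σ p) = p} → (∀ q ∈ F, OP σ q) →
      Set.ncard {p | ¬ OP σ p} ≤ N →
      (∀ p, ¬ OP σ p → (∀ q, ¬ OP σ q → q = p ∨ q = σ p ∨ q = x p ∨ q = x (σ p)) →
        ∃ w, w ∉ F ∧ x w ∉ F ∧ OP σ w) →
      ∃ u : Perm α, Odd (orderOf u) ∧ x * u * x = u⁻¹ ∧ Odd (orderOf (u⁻¹ * σ)) ∧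
        ∀ q ∈ F, u q = q)
    (x σ : Perm α) (F : Finset α) (hx : x * x = 1) (hc : x * σ * x = σ⁻¹)
    (hcard : Nat.card {p // x p = p} = Nat.card {p // x (σ p) = p}) (hF : ∀ q ∈ F, OP σ q)
    (hN : Set.ncard {p | ¬ OP σ p} ≤ N + 1) (u₁ : Perm α) (hm : MoveOK x σ u₁) :
    ∃ u : Perm α, Odd (orderOf u) ∧ x * u * x = u⁻¹ ∧ Odd (orderOf (u⁻¹ * σ)) ∧
      ∀ q ∈ F, u q = q := by
  classical
  obtain ⟨m1, m2, m3, m7, w, hw1, hw2, hw3, hw4⟩ := hm
  have hx1 : (x * u₁) * (x * u₁) = 1 := by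
    calc (x * u₁) * (x * u₁) = (x * u₁ * x) * u₁ := by simp only [mul_assoc]
      _ = 1 := by rw [m2, inv_mul_cancel]
  have hc1 : (x * u₁) * (u₁⁻¹ * σ) * (x * u₁) = (u₁⁻¹ * σ)⁻¹ := by
    calc (x * u₁) * (u₁⁻¹ * σ) * (x * u₁) = (x * σ * x) * u₁ := by
          simp only [mul_assoc, mul_inv_cancel_left]
      _ = (u₁⁻¹ * σ)⁻¹ := by rw [hc, mul_inv_rev, inv_inv]
  have hcard1 : Nat.card {p // (x * u₁) p = p} =
      Nat.card {p // (x * u₁) ((u₁⁻¹ * σ) p) = p} := by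
    obtain ⟨g, hg⟩ := conj_of_inverted x u₁ hx m2 m1
    rw [← hg, card_fix_conj g x, hcard]
    apply Nat.card_congr
    refine Equiv.subtypeEquivRight (fun p => ?_)
    rw [hg]
    simp [Perm.mul_apply]
  have hgood : ∀ q, OP σ q → OP (u₁⁻¹ * σ) q := by
    intro q hq
    apply OP.congr _ hq
    apply pow_apply_of_fix
    intro k
    have hk : OP σ ((σ ^ (k + 1)) q) := hq.of_SO ⟨k + 1, rfl⟩
    exact Perm.inv_eq_iff_eq.mpr (m3 _ hk).symm
  have hF' : ∀ q ∈ F ∪ u₁.support, OP (u₁⁻¹ * σ) q := by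
    intro q hq
    rcases Finset.mem_union.mp hq with h | h
    · exact hgood q (hF q h)
    · exact m7 q (Perm.mem_support.mp h)
  have hN' : Set.ncard {p | ¬ OP (u₁⁻¹ * σ) p} ≤ N := by
    have hss : {p | ¬ OP (u₁⁻¹ * σ) p} ⊂ {p | ¬ OP σ p} := by
      rw [Set.ssubset_def]
      constructor
      · intro p hp hp'
        exact hp (hgood p hp')
      · intro h
        exact (h hw4) hw1
    have := Set.ncard_lt_ncard hss (Set.toFinite _)
    omega
  have hP' : ∀ p, ¬ OP (u₁⁻¹ * σ) p →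
      (∀ q, ¬ OP (u₁⁻¹ * σ) q → q = p ∨ q = (u₁⁻¹ * σ) p ∨ q = (x * u₁) p ∨
        q = (x * u₁) ((u₁⁻¹ * σ) p)) →
      ∃ w, w ∉ F ∪ u₁.support ∧ (x * u₁) w ∉ F ∪ u₁.support ∧ OP (u₁⁻¹ * σ) w := by
    intro _ _ _
    refine ⟨w, ?_, ?_, hw1⟩
    · intro h
      rcases Finset.mem_union.mp h with h | h
      · exact hw4 (hF w h)
      · exact Perm.mem_support.mp h hw2
    · rw [Perm.mul_apply, hw2]
      intro h
      rcases Finset.mem_union.mp h with h | h
      · exact not_OP_x x σ hx hc w hw4 (hF _ h)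
      · exact Perm.mem_support.mp h hw3
  obtain ⟨u₂, o2, inv2, odd2, fix2⟩ :=
    ih (x * u₁) (u₁⁻¹ * σ) (F ∪ u₁.support) hx1 hc1 hcard1 hF' hN' hP'
  have hdisj : Perm.Disjoint u₁ u₂ := by
    intro q
    by_cases h : u₁ q = q
    · exact Or.inl h
    · exact Or.inr (fix2 q (Finset.mem_union_right _ (Perm.mem_support.mpr h)))
  have hcomm : Commute u₁ u₂ := hdisj.commute
  have hxx' : ∀ g : Perm α, x * (x * g) = g := by
    intro g
    rw [← mul_assoc, hx, one_mul]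
  have h1 : u₁ * x * u₁ = x := by
    calc u₁ * x * u₁ = (x * x) * (u₁ * x * u₁) := by rw [hx, one_mul]
      _ = x * ((x * u₁ * x) * u₁) := by simp only [mul_assoc]
      _ = x := by rw [m2, inv_mul_cancel, mul_one]
  have hxu2 : x * u₂ * x = u₂⁻¹ := by
    rw [← inv2]
    calc x * u₂ * x = x * u₂ * (u₁ * x * u₁) := by rw [h1]
      _ = x * (u₂ * u₁) * x * u₁ := by simp only [mul_assoc]
      _ = x * (u₁ * u₂) * x * u₁ := by rw [← hcomm.eq]
      _ = x * u₁ * u₂ * (x * u₁) := by simp only [mul_assoc]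
  refine ⟨u₁ * u₂, ?_, ?_, ?_, ?_⟩
  · exact Odd.of_dvd_nat (m1.mul o2)
      (dvd_trans hcomm.orderOf_mul_dvd_lcm (Nat.lcm_dvd_mul _ _))
  · calc x * (u₁ * u₂) * x = (x * u₁ * x) * (x * u₂ * x) := by
          simp only [mul_assoc, hxx']
      _ = (u₁ * u₂)⁻¹ := by rw [m2, hxu2, hcomm.eq, mul_inv_rev]
  · rw [mul_inv_rev, mul_assoc]
    exact odd2
  · intro q hq
    rw [Perm.mul_apply, fix2 q (Finset.mem_union_left _ hq), m3 q (hF q hq)]

theorem main_ind [Fintype α] (N : ℕ) : ∀ (x σ : Perm α) (F : Finset α), x * x = 1 →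
      x * σ * x = σ⁻¹ →
      Nat.card {p // x p = p} = Nat.card {p // x (σ p) = p} → (∀ q ∈ F, OP σ q) →
      Set.ncard {p | ¬ OP σ p} ≤ N →
      (∀ p, ¬ OP σ p → (∀ q, ¬ OP σ q → q = p ∨ q = σ p ∨ q = x p ∨ q = x (σ p)) →
        ∃ w, w ∉ F ∧ x w ∉ F ∧ OP σ w) →
      ∃ u : Perm α, Odd (orderOf u) ∧ x * u * x = u⁻¹ ∧ Odd (orderOf (u⁻¹ * σ)) ∧
        ∀ q ∈ F, u q = q := by
  induction N with
  | zero =>
    intro x σ F hx hc hcard hF hN hP
    apply all_op_done x σ F hx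
    intro p
    by_contra hp
    have h0 : Set.ncard {p | ¬ OP σ p} = 0 := Nat.le_zero.mp hN
    rw [Set.ncard_eq_zero (Set.toFinite _)] at h0
    have hmem : p ∈ ({p | ¬ OP σ p} : Set α) := hp
    rw [h0] at hmem
    exact hmem
  | succ N ih =>
    intro x σ F hx hc hcard hF hN hP
    by_cases hall : ∀ p, OP σ p
    · exact all_op_done x σ F hx hall
    push Not at hall
    obtain ⟨p₀, hp₀⟩ := hall
    by_cases hA : ∃ r, ¬ OP σ r ∧ (x r = r ∨ x (σ r) = r)
    · have hcnt := cnt x σ hx hc hcard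
      have hboth : (∃ c, ¬ OP σ c ∧ x c = c) ∧ (∃ b, ¬ OP σ b ∧ x (σ b) = b) := by
        obtain ⟨r, hr, h | h⟩ := hA
        · exact ⟨⟨r, hr, h⟩, hcnt.mp ⟨r, hr, h⟩⟩
        · exact ⟨hcnt.mpr ⟨r, hr, h⟩, ⟨r, hr, h⟩⟩
      obtain ⟨⟨c, hcbad, hxc⟩, ⟨b, hbbad, hyb⟩⟩ := hboth
      have hyb' : σ b = x b := by
        have h : x (x (σ b)) = x b := congrArg (fun q => x q) hyb
        rw [xx x hx] at h
        exact h
      obtain ⟨u₁, hm⟩ := move_a x σ hx hc b c hbbad hyb' hcbad hxc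
      exact step N ih x σ F hx hc hcard hF hN u₁ hm
    · push Not at hA
      have hxb : ∀ r, ¬ OP σ r → x r ≠ r := fun r hr => (hA r hr).1
      have hyb : ∀ r, ¬ OP σ r → x (σ r) ≠ r := fun r hr => (hA r hr).2
      by_cases hB1 : ∃ q, ¬ OP σ q ∧ σ (σ q) ≠ q
      · obtain ⟨q, hq, hq2⟩ := hB1
        obtain ⟨u₁, hm⟩ := move_b x σ hx hc hxb hyb q hq hq2
        exact step N ih x σ F hx hc hcard hF hN u₁ hm
      · push Not at hB1
        by_cases hB2 : ∃ q, ¬ OP σ q ∧ ¬ (q = p₀ ∨ q = σ p₀ ∨ q = x p₀ ∨ q = x (σ p₀))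
        · obtain ⟨q, hq, hqp⟩ := hB2
          obtain ⟨u₁, hm⟩ :=
            move_c x σ hx hc hxb hyb p₀ hp₀ (hB1 p₀ hp₀) q hq (hB1 q hq) hqp
          exact step N ih x σ F hx hc hcard hF hN u₁ hm
        · have hB2' : ∀ q, ¬ OP σ q → q = p₀ ∨ q = σ p₀ ∨ q = x p₀ ∨ q = x (σ p₀) := by
            intro q hq
            by_contra hne
            exact hB2 ⟨q, hq, hne⟩
          obtain ⟨w, hwF, hxwF, hw⟩ := hP p₀ hp₀ hB2'
          obtain ⟨u, h1, h2, h3, h4⟩ :=
            move_lone x σ hx hc hxb hyb p₀ hp₀ (hB1 p₀ hp₀) hB2' w hw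
          refine ⟨u, h1, h2, h3, ?_⟩
          intro q hq
          apply h4 q _ _ (hF q hq)
          · rintro rfl
            exact hwF hq
          · rintro rfl
            exact hxwF hq

theorem core [Fintype α] (hα : 5 ≤ Fintype.card α) (x y : Perm α) (hx : x * x = 1)
    (hy : y * y = 1) (hcard : Nat.card {p // x p = p} = Nat.card {p // y p = p}) :
    ∃ z : Perm α, IsConj x z ∧ Odd (orderOf (x * z)) ∧ Odd (orderOf (z * y)) := by
  classical
  have hc : x * (x * y) * x = (x * y)⁻¹ := by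
    rw [eq_inv_iff_mul_eq_one]
    calc x * (x * y) * x * (x * y) = (x * x) * y * (x * x) * y := by simp only [mul_assoc]
      _ = 1 := by rw [hx, one_mul, mul_one, hy]
  have hcard' : Nat.card {p // x p = p} = Nat.card {p // x ((x * y) p) = p} := by
    rw [hcard]
    apply Nat.card_congr
    exact Equiv.subtypeEquivRight (fun p => by rw [Perm.mul_apply, xx x hx])
  have hP : ∀ p, ¬ OP (x * y) p →
      (∀ q, ¬ OP (x * y) q → q = p ∨ q = (x * y) p ∨ q = x p ∨ q = x ((x * y) p)) →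
      ∃ w, w ∉ (∅ : Finset α) ∧ x w ∉ (∅ : Finset α) ∧ OP (x * y) w := by
    intro p hp hall
    by_contra hno
    push Not at hno
    have hsub : (Finset.univ : Finset α) ⊆ {p, (x * y) p, x p, x ((x * y) p)} := by
      intro r _
      have h := hall r (hno r (by simp) (by simp))
      simp only [Finset.mem_insert, Finset.mem_singleton]
      exact h
    have h1 := Finset.card_le_card hsub
    have h4 : ({p, (x * y) p, x p, x ((x * y) p)} : Finset α).card ≤ 4 := Finset.card_le_four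
    rw [Finset.card_univ] at h1
    omega
  obtain ⟨u, h1, h2, h3, _⟩ := main_ind (Set.ncard {p | ¬ OP (x * y) p}) x (x * y) ∅ hx hc
    hcard' (by simp) le_rfl hP
  have hxu : x * u = u⁻¹ * x := by
    calc x * u = x * u * (x * x) := by rw [hx, mul_one]
      _ = (x * u * x) * x := by simp only [mul_assoc]
      _ = u⁻¹ * x := by rw [h2]
  refine ⟨x * u, ?_, ?_, ?_⟩
  · obtain ⟨g, hg⟩ := conj_of_inverted x u hx h2 h1
    exact isConj_iff.mpr ⟨g, hg⟩
  · rw [← mul_assoc, hx, one_mul]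
    exact h1
  · rw [hxu, mul_assoc]
    exact h3

theorem order_two_disjoint_swaps (a b c d : α) (hab : a ≠ b) (hac : a ≠ c)
    (had : a ≠ d) (hbc : b ≠ c) (hbd : b ≠ d) : orderOf (swap a b * swap c d) = 2 := by
  have hdisj : Perm.Disjoint (swap a b) (swap c d) := by
    intro p
    by_cases h : p = a ∨ p = b
    · right
      rcases h with rfl | rfl
      · exact swap_apply_of_ne_of_ne hac had
      · exact swap_apply_of_ne_of_ne hbc hbd
    · left
      push Not at h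
      exact swap_apply_of_ne_of_ne h.1 h.2
  have hcomm : Commute (swap a b) (swap c d) := hdisj.commute
  apply orderOf_eq_prime
  · rw [hcomm.mul_pow, sq, sq, swap_mul_self, swap_mul_self, one_mul]
  · intro h
    have h1 := congrArg (fun f : Perm α => f a) h
    simp only [Perm.mul_apply, Perm.one_apply] at h1
    rw [swap_apply_of_ne_of_ne hac had, swap_apply_left] at h1
    exact hab h1.symm

end Cfsg.Agent.Lib.Helper14.SymGr
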