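import Mathlib
import Cfsg.Prelude.Def_Sz

set_option autoImplicit false

namespace Cfsg.Agent.Lib.Helper14.SzFree

open Polynomial Matrix

universe u

section Ring

variable {R : Type u} [CommRing R]

def xm (a a' : R) : Matrix (Fin 4) (Fin 4) R := !![1, 0, 0, 0; 0, 1, 0, 0; a, 0, 1, 0; a', a, 0, 1]

def ym (c c' : R) : Matrix (Fin 4) (Fin 4) R := !![1, 0, c, c'; 0, 1, 0, c; 0, 0, 1, 0; 0, 0, 0, 1]

theorem xm_mul (a a' b b' : R) : xm a a' * xm b b' = xm (a + b) (a' + b') := by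
  ext i j
  fin_cases i <;> fin_cases j <;> simp [xm, Matrix.mul_apply, Fin.sum_univ_four]

theorem ym_mul (a a' b b' : R) : ym a a' * ym b b' = ym (a + b) (a' + b') := by
  ext i j
  fin_cases i <;> fin_cases j <;> simp [ym, Matrix.mul_apply, Fin.sum_univ_four] <;> ring

theorem xm_zero : xm (0 : R) 0 = 1 := by
  ext i j
  fin_cases i <;> fin_cases j <;> simp [xm]

theorem ym_zero : ym (0 : R) 0 = 1 := by
  ext i j
  fin_cases i <;> fin_cases j <;> simp [ym]

theorem xm_mulVec (a a' : R) (v : Fin 4 → R) :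
    xm a a' *ᵥ v = ![v 0, v 1, a * v 0 + v 2, a' * v 0 + a * v 1 + v 3] := by
  ext i
  fin_cases i <;> simp [xm, Matrix.mulVec, dotProduct, Fin.sum_univ_four]

theorem ym_mulVec (c c' : R) (v : Fin 4 → R) :
    ym c c' *ᵥ v = ![v 0 + c * v 2 + c' * v 3, v 1 + c * v 3, v 2, v 3] := by
  ext i
  fin_cases i <;> simp [ym, Matrix.mulVec, dotProduct, Fin.sum_univ_four]

variable [CharP R 2]

theorem xm_self (a a' : R) : xm a a' * xm a a' = 1 := by
  rw [xm_mul, CharTwo.add_self_eq_zero, CharTwo.add_self_eq_zero, xm_zero]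

theorem ym_self (a a' : R) : ym a a' * ym a a' = 1 := by
  rw [ym_mul, CharTwo.add_self_eq_zero, CharTwo.add_self_eq_zero, ym_zero]

def xu (s : ℕ) (a : R) : Matrix.GeneralLinearGroup (Fin 4) R :=
  ⟨xm a (a ^ s), xm a (a ^ s), xm_self _ _, xm_self _ _⟩

def yu (s : ℕ) (a : R) : Matrix.GeneralLinearGroup (Fin 4) R :=
  ⟨ym a (a ^ s), ym a (a ^ s), ym_self _ _, ym_self _ _⟩

theorem xu_inv (s : ℕ) (a : R) : (xu s a)⁻¹ = xu s a := rfl

theorem yu_inv (s : ℕ) (a : R) : (yu s a)⁻¹ = yu s a := rfl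

theorem xu_val (s : ℕ) (a : R) : ((xu s a : Matrix.GeneralLinearGroup (Fin 4) R) : Matrix (Fin 4) (Fin 4) R) = xm a (a ^ s) := rfl

theorem yu_val (s : ℕ) (a : R) : ((yu s a : Matrix.GeneralLinearGroup (Fin 4) R) : Matrix (Fin 4) (Fin 4) R) = ym a (a ^ s) := rfl

/-- The free generators. -/
def gen (s : ℕ) (t : R) (n : ℕ) : Matrix.GeneralLinearGroup (Fin 4) R :=
  xu s (t ^ (2 * n + 1)) * yu s t * xu s (t ^ (2 * n + 2))

theorem gen_inv (s : ℕ) (t : R) (n : ℕ) :
    (gen s t n)⁻¹ = xu s (t ^ (2 * n + 2)) * yu s t * xu s (t ^ (2 * n + 1)) := by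
  rw [gen, _root_.mul_inv_rev, _root_.mul_inv_rev, xu_inv, xu_inv, yu_inv, mul_assoc]

end Ring

section Field

variable {F : Type u} [Field F]

theorem xu_mem [CharP F 2] (s : ℕ) (hs0 : s ≠ 0) (hs : ∀ t : F, t ^ (s * s) = t ^ 2) (a : F) :
    xu s a ∈ Cfsg.Lie.Sz F s := by
  apply Subgroup.subset_closure
  refine ⟨?_, ?_⟩
  · intro u v
    have h2 : (2 : F) = 0 := CharTwo.two_eq_zero
    simp only [Units.coeHom_apply, xu_val, xm_mulVec, Cfsg.Lie.altForm4]
    simp
    linear_combination (a ^ s * u 0 * v 0 + a * u 0 * v 1 + a * u 1 * v 0) * h2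
  · rw [xu_val]
    have h1 : (a ^ s) ^ s = a * a := by rw [← pow_mul, hs, sq]
    ext i j
    fin_cases i <;> fin_cases j <;> simp [Cfsg.Lie.star4, Cfsg.Lie.pairOf, xm, h1, CharTwo.neg_eq, zero_pow hs0]

theorem yu_mem [CharP F 2] (s : ℕ) (hs0 : s ≠ 0) (hs : ∀ t : F, t ^ (s * s) = t ^ 2) (a : F) :
    yu s a ∈ Cfsg.Lie.Sz F s := by
  apply Subgroup.subset_closure
  refine ⟨?_, ?_⟩
  · intro u v
    have h2 : (2 : F) = 0 := CharTwo.two_eq_zero
    simp only [Units.coeHom_apply, yu_val, ym_mulVec, Cfsg.Lie.altForm4]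
    simp
    linear_combination (a ^ s * u 3 * v 3 + a * u 2 * v 3 + a * u 3 * v 2) * h2
  · rw [yu_val]
    have h1 : (a ^ s) ^ s = a * a := by rw [← pow_mul, hs, sq]
    ext i j
    fin_cases i <;> fin_cases j <;> simp [Cfsg.Lie.star4, Cfsg.Lie.pairOf, ym, h1, CharTwo.neg_eq, zero_pow hs0]

theorem gen_mem [CharP F 2] (s : ℕ) (hs0 : s ≠ 0) (hs : ∀ t : F, t ^ (s * s) = t ^ 2) (t : F) (n : ℕ) :
    gen s t n ∈ Cfsg.Lie.Sz F s :=
  mul_mem (mul_mem (xu_mem s hs0 hs _) (yu_mem s hs0 hs _)) (xu_mem s hs0 hs _)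

end Field

section Poly

variable {F : Type u} [Field F]

theorem deg_mul_lt {p q : F[X]} {m n : ℕ} (hp : p.degree < m) (hq : q.degree ≤ n) :
    (p * q).degree < ((m + n : ℕ) : WithBot ℕ) := by
  rcases eq_or_ne p 0 with rfl | hp0
  · rw [zero_mul, degree_zero]; exact WithBot.bot_lt_coe _
  rcases eq_or_ne q 0 with rfl | hq0
  · rw [mul_zero, degree_zero]; exact WithBot.bot_lt_coe _
  rw [degree_eq_natDegree hp0] at hp
  rw [degree_eq_natDegree hq0] at hq
  rw [degree_eq_natDegree (mul_ne_zero hp0 hq0), natDegree_mul hp0 hq0]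
  have h1 : p.natDegree < m := by exact_mod_cast hp
  have h2 : q.natDegree ≤ n := by exact_mod_cast hq
  exact_mod_cast (by omega : p.natDegree + q.natDegree < m + n)

/-- Vectors whose `i`-th coordinate strictly dominates in degree. -/
def S (i : Fin 4) (v : Fin 4 → F[X]) : Prop :=
  ∃ d : ℕ, (v i).degree = d ∧ ∀ j, j ≠ i → (v j).degree < d

theorem lt_add (d k : ℕ) {p : F[X]} (h : p.degree < d) : p.degree < ((k + d : ℕ) : WithBot ℕ) :=
  lt_of_lt_of_le h (by exact_mod_cast Nat.le_add_left d k)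

theorem pp_x (a a' : F[X]) (k : ℕ) (hk : 0 < k) (ha : a.degree < k) (ha' : a'.degree = k)
    (v : Fin 4 → F[X]) (hv : S 0 v) : S 3 (xm a a' *ᵥ v) := by
  obtain ⟨d, h0, hj⟩ := hv
  rw [xm_mulVec]
  have e1 : (a' * v 0).degree = ((k + d : ℕ) : WithBot ℕ) := by
    rw [degree_mul, ha', h0, Nat.cast_add]
  have e2 : (a * v 1).degree < ((k + d : ℕ) : WithBot ℕ) := deg_mul_lt ha (hj 1 (by decide)).le
  have e3 : (v 3).degree < ((k + d : ℕ) : WithBot ℕ) := lt_add d k (hj 3 (by decide))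
  refine ⟨k + d, ?_, ?_⟩
  · show (a' * v 0 + a * v 1 + v 3).degree = _
    rw [add_assoc, degree_add_eq_left_of_degree_lt, e1]
    rw [e1]
    exact lt_of_le_of_lt (degree_add_le _ _) (max_lt e2 e3)
  · intro j hj3
    fin_cases j
    · show (v 0).degree < _
      rw [h0]; exact_mod_cast (by omega : d < k + d)
    · show (v 1).degree < _
      exact lt_add d k (hj 1 (by decide))
    · show (a * v 0 + v 2).degree < _
      exact lt_of_le_of_lt (degree_add_le _ _) (max_lt (deg_mul_lt ha h0.le)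
        (lt_add d k (hj 2 (by decide))))
    · exact absurd rfl hj3

theorem pp_y (c c' : F[X]) (k : ℕ) (hk : 0 < k) (hc : c.degree < k) (hc' : c'.degree = k)
    (v : Fin 4 → F[X]) (hv : S 3 v) : S 0 (ym c c' *ᵥ v) := by
  obtain ⟨d, h0, hj⟩ := hv
  rw [ym_mulVec]
  have e1 : (c' * v 3).degree = ((k + d : ℕ) : WithBot ℕ) := by
    rw [degree_mul, hc', h0, Nat.cast_add]
  have e2 : (c * v 2).degree < ((k + d : ℕ) : WithBot ℕ) := deg_mul_lt hc (hj 2 (by decide)).le
  have e3 : (v 0).degree < ((k + d : ℕ) : WithBot ℕ) := lt_add d k (hj 0 (by decide))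
  refine ⟨k + d, ?_, ?_⟩
  · show (v 0 + c * v 2 + c' * v 3).degree = _
    rw [add_comm, degree_add_eq_left_of_degree_lt, e1]
    rw [e1]
    exact lt_of_le_of_lt (degree_add_le _ _) (max_lt e3 e2)
  · intro j hj3
    fin_cases j
    · exact absurd rfl hj3
    · show (v 1 + c * v 3).degree < _
      exact lt_of_le_of_lt (degree_add_le _ _) (max_lt (lt_add d k (hj 1 (by decide)))
        (deg_mul_lt hc h0.le))
    · show (v 2).degree < _
      exact lt_add d k (hj 2 (by decide))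
    · show (v 3).degree < _
      rw [h0]; exact_mod_cast (by omega : d < k + d)

theorem S_e1 : S 0 (Pi.single 0 1 : Fin 4 → F[X]) := by
  refine ⟨0, by simp, ?_⟩
  intro j hj
  rw [Pi.single_eq_of_ne hj, degree_zero]
  exact WithBot.bot_lt_coe _

theorem deg_single (s i : ℕ) (hs : 2 ≤ s) (hi : 1 ≤ i) :
    0 < i * s ∧ (X ^ i : F[X]).degree < ((i * s : ℕ) : WithBot ℕ) ∧
      (X ^ (i * s) : F[X]).degree = ((i * s : ℕ) : WithBot ℕ) := by
  refine ⟨by positivity, ?_, degree_X_pow _⟩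
  rw [degree_X_pow]
  exact_mod_cast (by nlinarith : i < i * s)

theorem deg_pair_lt (s i j : ℕ) (hs : 2 ≤ s) (hij : i < j) :
    0 < j * s ∧ (X ^ i + X ^ j : F[X]).degree < ((j * s : ℕ) : WithBot ℕ) ∧
      (X ^ (i * s) + X ^ (j * s) : F[X]).degree = ((j * s : ℕ) : WithBot ℕ) := by
  have hj : 1 ≤ j := by omega
  refine ⟨by positivity, ?_, ?_⟩
  · refine lt_of_le_of_lt (degree_add_le _ _) (max_lt ?_ ?_)
    · rw [degree_X_pow]
      exact_mod_cast (by nlinarith : i < j * s)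
    · rw [degree_X_pow]
      exact_mod_cast (by nlinarith : j < j * s)
  · rw [degree_add_eq_right_of_degree_lt, degree_X_pow]
    rw [degree_X_pow, degree_X_pow]
    exact_mod_cast (by nlinarith : i * s < j * s)

theorem deg_pair (s i j : ℕ) (hs : 2 ≤ s) (hij : i ≠ j) :
    ∃ k : ℕ, 0 < k ∧ (X ^ i + X ^ j : F[X]).degree < (k : WithBot ℕ) ∧
      (X ^ (i * s) + X ^ (j * s) : F[X]).degree = (k : WithBot ℕ) := by
  rcases Nat.lt_or_gt_of_ne hij with h | h
  · exact ⟨j * s, deg_pair_lt s i j hs h⟩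
  · refine ⟨i * s, ?_⟩
    have := deg_pair_lt (F := F) s j i hs h
    rw [add_comm (X ^ i), add_comm (X ^ (i * s))]
    exact this

/-- left and right exponents of a letter -/
def le (l : ℕ × Bool) : ℕ := if l.2 then 2 * l.1 + 1 else 2 * l.1 + 2

def re (l : ℕ × Bool) : ℕ := if l.2 then 2 * l.1 + 2 else 2 * l.1 + 1

theorem le_pos (l : ℕ × Bool) : 1 ≤ le l := by
  unfold le; split_ifs <;> omega

theorem re_pos (l : ℕ × Bool) : 1 ≤ re l := by
  unfold re; split_ifs <;> omega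

theorem re_ne_le (l l' : ℕ × Bool) (h : l.1 = l'.1 → l.2 = l'.2) : re l ≠ le l' := by
  rcases l with ⟨n, b⟩
  rcases l' with ⟨n', b'⟩
  cases b <;> cases b' <;> simp [re, le] at * <;> omega

variable (F) in
/-- The matrix of a letter. -/
noncomputable def Mle (s : ℕ) (l : ℕ × Bool) : Matrix (Fin 4) (Fin 4) F[X] :=
  xm (X ^ le l) (X ^ (le l * s)) * ym X (X ^ s) * xm (X ^ re l) (X ^ (re l * s))

theorem gen_val [CharP F 2] (s : ℕ) (l : ℕ × Bool) :
    ((cond l.2 (gen s (X : F[X]) l.1) (gen s (X : F[X]) l.1)⁻¹ : Matrix.GeneralLinearGroup (Fin 4) F[X]) :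
      Matrix (Fin 4) (Fin 4) F[X]) = Mle F s l := by
  rcases l with ⟨n, b⟩
  cases b
  · simp only [cond_false]
    rw [gen_inv]
    simp only [Units.val_mul, xu_val, yu_val, Mle, le, re, ← pow_mul]
    simp
  · simp only [cond_true]
    rw [gen]
    simp only [Units.val_mul, xu_val, yu_val, Mle, le, re, ← pow_mul]
    simp

theorem word_S (s : ℕ) (hs : 2 ≤ s) (L : List (ℕ × Bool)) :
    ∀ l, FreeGroup.IsReduced (l :: L) → ∃ u : Fin 4 → F[X], S 0 u ∧
      (((l :: L).map (Mle F s)).prod) *ᵥ (Pi.single 0 1) = xm (X ^ le l) (X ^ (le l * s)) *ᵥ u := by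
  have hy : (X : F[X]).degree < ((s : ℕ) : WithBot ℕ) := by
    rw [degree_X]; exact_mod_cast (by omega : 1 < s)
  induction L with
  | nil =>
    intro l _
    refine ⟨ym X (X ^ s) *ᵥ (xm (X ^ re l) (X ^ (re l * s)) *ᵥ Pi.single 0 1), ?_, ?_⟩
    · apply pp_y _ _ s (by omega) hy (degree_X_pow s)
      obtain ⟨h1, h2, h3⟩ := deg_single (F := F) s (re l) hs (re_pos l)
      exact pp_x _ _ _ h1 h2 h3 _ S_e1
    · simp only [List.map_cons, List.map_nil, List.prod_cons, List.prod_nil, mul_one, Mle,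
        Matrix.mulVec_mulVec, mul_assoc]
  | cons l' L ih =>
    intro l hred
    rw [FreeGroup.isReduced_cons_cons] at hred
    obtain ⟨u', hu', he⟩ := ih l' hred.2
    obtain ⟨k, hk, hk1, hk2⟩ := deg_pair (F := F) s (re l) (le l') hs (re_ne_le l l' hred.1)
    refine ⟨ym X (X ^ s) *ᵥ (xm (X ^ re l + X ^ le l') (X ^ (re l * s) + X ^ (le l' * s)) *ᵥ u'), ?_, ?_⟩
    · apply pp_y _ _ s (by omega) hy (degree_X_pow s)
      exact pp_x _ _ k hk hk1 hk2 _ hu'
    · rw [List.map_cons, List.prod_cons, ← Matrix.mulVec_mulVec, he, Mle]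
      simp only [Matrix.mulVec_mulVec]
      rw [← xm_mul]
      simp only [mul_assoc]

theorem word_ne (s : ℕ) (hs : 2 ≤ s) (L : List (ℕ × Bool)) (hL : FreeGroup.IsReduced L)
    (hne : L ≠ []) : ((L.map (Mle F s)).prod) 3 0 ≠ 0 := by
  cases L with
  | nil => exact absurd rfl hne
  | cons l L =>
    obtain ⟨u, hu, he⟩ := word_S (F := F) s hs L l hL
    obtain ⟨h1, h2, h3⟩ := deg_single (F := F) s (le l) hs (le_pos l)
    obtain ⟨d, hd, -⟩ := pp_x _ _ _ h1 h2 h3 u hu
    rw [← he] at hd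
    intro h0
    have h4 : ((((l :: L).map (Mle F s)).prod) *ᵥ (Pi.single 0 1)) 3 =
        (((l :: L).map (Mle F s)).prod) 3 0 := by
      rw [Matrix.mulVec_single_one]
      rfl
    rw [h4, h0, degree_zero] at hd
    exact WithBot.bot_ne_coe hd

end Poly

section Bound

variable {F : Type u} [Field F]

def dle (A : Matrix (Fin 4) (Fin 4) F[X]) (d : ℕ) : Prop := ∀ i j, (A i j).natDegree ≤ d

theorem dle_mul {A B : Matrix (Fin 4) (Fin 4) F[X]} {d e : ℕ} (hA : dle A d) (hB : dle B e) :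
    dle (A * B) (d + e) := by
  intro i j
  rw [Matrix.mul_apply]
  exact natDegree_sum_le_of_forall_le _ _ (fun k _ => natDegree_mul_le_of_le (hA i k) (hB k j))

theorem dle_one : dle (1 : Matrix (Fin 4) (Fin 4) F[X]) 0 := by
  intro i j
  rw [Matrix.one_apply]
  split_ifs <;> simp

theorem dle_xm (a a' : F[X]) (d : ℕ) (h1 : a.natDegree ≤ d) (h2 : a'.natDegree ≤ d) :
    dle (xm a a') d := by
  intro i j
  fin_cases i <;> fin_cases j <;> simp [xm] <;> assumption

theorem dle_ym (a a' : F[X]) (d : ℕ) (h1 : a.natDegree ≤ d) (h2 : a'.natDegree ≤ d) :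
    dle (ym a a') d := by
  intro i j
  fin_cases i <;> fin_cases j <;> simp [ym] <;> assumption

def degB (L : List (ℕ × Bool)) : ℕ := (L.map (fun l => 4 * l.1 + 4)).sum

theorem le_add_re (l : ℕ × Bool) : le l + re l = 4 * l.1 + 3 := by
  rcases l with ⟨n, b⟩
  cases b <;> simp [le, re] <;> omega

theorem dle_Mle (s : ℕ) (hs : 1 ≤ s) (l : ℕ × Bool) : dle (Mle F s l) (s * (4 * l.1 + 4)) := by
  have h : s * (4 * l.1 + 4) = le l * s + s + re l * s := by
    have := le_add_re l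
    have h2 : 4 * l.1 + 4 = le l + 1 + re l := by omega
    rw [h2]; ring
  rw [h, Mle]
  refine dle_mul (dle_mul (dle_xm _ _ _ ?_ ?_) (dle_ym _ _ _ ?_ ?_)) (dle_xm _ _ _ ?_ ?_)
  · rw [natDegree_X_pow]; exact Nat.le_mul_of_pos_right _ (by omega)
  · rw [natDegree_X_pow]
  · rw [natDegree_X]; exact hs
  · rw [natDegree_X_pow]
  · rw [natDegree_X_pow]; exact Nat.le_mul_of_pos_right _ (by omega)
  · rw [natDegree_X_pow]

theorem dle_word (s : ℕ) (hs : 1 ≤ s) (L : List (ℕ × Bool)) :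
    dle ((L.map (Mle F s)).prod) (s * degB L) := by
  induction L with
  | nil =>
    simp only [List.map_nil, List.prod_nil, degB, List.sum_nil, mul_zero]
    exact dle_one
  | cons l L ih =>
    rw [List.map_cons, List.prod_cons]
    have h : s * degB (l :: L) = s * (4 * l.1 + 4) + s * degB L := by
      simp [degB, mul_add]
    rw [h]
    exact dle_mul (dle_Mle s hs l) ih

end Bound

section Final

theorem map_xu {R R' : Type u} [CommRing R] [CommRing R'] [CharP R 2] [CharP R' 2] (f : R →+* R')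
    (s : ℕ) (a : R) : Matrix.GeneralLinearGroup.map f (xu s a) = xu s (f a) := by
  apply Units.ext
  ext i j
  fin_cases i <;> fin_cases j <;> simp [Matrix.GeneralLinearGroup.map, xu, xm]

theorem map_yu {R R' : Type u} [CommRing R] [CommRing R'] [CharP R 2] [CharP R' 2] (f : R →+* R')
    (s : ℕ) (a : R) : Matrix.GeneralLinearGroup.map f (yu s a) = yu s (f a) := by
  apply Units.ext
  ext i j
  fin_cases i <;> fin_cases j <;> simp [Matrix.GeneralLinearGroup.map, yu, ym]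

theorem map_gen {R R' : Type u} [CommRing R] [CommRing R'] [CharP R 2] [CharP R' 2] (f : R →+* R')
    (s : ℕ) (t : R) (n : ℕ) : Matrix.GeneralLinearGroup.map f (gen s t n) = gen s (f t) n := by
  rw [gen, map_mul, map_mul, map_xu, map_yu, map_xu, map_pow, map_pow]
  rfl

theorem exists_ne_one (w : FreeGroup ℕ) (hw : w ≠ 1) (F : Type u) [Field F] [Fintype F] [CharP F 2]
    (s : ℕ) (hs : 2 ≤ s) (hs2 : ∀ t : F, t ^ (s * s) = t ^ 2)
    (hcard : s * degB w.toWord < Fintype.card F) :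
    ∃ f : ℕ → ↥(Cfsg.Lie.Sz F s), FreeGroup.lift f w ≠ 1 := by
  set V : Matrix.GeneralLinearGroup (Fin 4) F[X] := FreeGroup.lift (gen s (X : F[X])) w with hVdef
  have hV : (V : Matrix (Fin 4) (Fin 4) F[X]) = (w.toWord.map (Mle F s)).prod := by
    have h1 : V = (w.toWord.map fun x =>
        cond x.2 (gen s (X : F[X]) x.1) (gen s (X : F[X]) x.1)⁻¹).prod := by
      rw [hVdef]
      conv_lhs => rw [← FreeGroup.mk_toWord (x := w)]
      rw [FreeGroup.lift_mk]
    rw [h1]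
    have h2 := map_list_prod (Units.coeHom (Matrix (Fin 4) (Fin 4) F[X])) (w.toWord.map fun x =>
        cond x.2 (gen s (X : F[X]) x.1) (gen s (X : F[X]) x.1)⁻¹)
    rw [Units.coeHom_apply] at h2
    rw [h2, List.map_map]
    congr 1
    apply List.map_congr_left
    intro l _
    exact gen_val s l
  set P : F[X] := (V : Matrix (Fin 4) (Fin 4) F[X]) 3 0 with hP
  have hP0 : P ≠ 0 := by
    rw [hP, hV]
    exact word_ne s hs _ FreeGroup.isReduced_toWord
      (fun h => hw (FreeGroup.toWord_eq_nil_iff.mp h))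
  have hPdeg : P.natDegree ≤ s * degB w.toWord := by
    rw [hP, hV]
    exact dle_word s (by omega) _ 3 0
  obtain ⟨τ, hτ⟩ : ∃ τ : F, P.eval τ ≠ 0 := by
    by_contra hcon
    push Not at hcon
    apply hP0
    apply eq_zero_of_natDegree_lt_card_of_eval_eq_zero' P Finset.univ (fun t _ => hcon t)
    rw [Finset.card_univ]
    omega
  have hs0 : s ≠ 0 := by omega
  let φ : Matrix.GeneralLinearGroup (Fin 4) F[X] →* Matrix.GeneralLinearGroup (Fin 4) F :=
    Matrix.GeneralLinearGroup.map (evalRingHom τ)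
  refine ⟨fun n => ⟨gen s τ n, gen_mem s hs0 hs2 τ n⟩, ?_⟩
  intro h1
  have hφ : (Cfsg.Lie.Sz F s).subtype.comp (FreeGroup.lift fun n =>
      (⟨gen s τ n, gen_mem s hs0 hs2 τ n⟩ : ↥(Cfsg.Lie.Sz F s))) =
      φ.comp (FreeGroup.lift (gen s (X : F[X]))) := by
    ext n
    simp only [MonoidHom.comp_apply, FreeGroup.lift_apply_of, Subgroup.coe_subtype, φ]
    rw [map_gen]
    simp
  have h2 := DFunLike.congr_fun hφ w
  rw [MonoidHom.comp_apply, h1, map_one, MonoidHom.comp_apply, ← hVdef] at h2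
  apply hτ
  have h3 : ((φ V : Matrix.GeneralLinearGroup (Fin 4) F) : Matrix (Fin 4) (Fin 4) F) 3 0 =
      P.eval τ := rfl
  rw [← h3, ← h2]
  simp

end Final

end Cfsg.Agent.Lib.Helper14.SzFree
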