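import Mathlib

namespace Cfsg.Agent.Lib.Helper14.WeightBound

open Polynomial

variable {G : Type*} [Group G] {K : Type*} [Field K] {d : ℕ}

/-- the operator of `g` -/
noncomputable def T (ρ : G →* GL (Fin d) K) (g : G) : Module.End K (Fin d → K) :=
  Matrix.toLin' (ρ g : Matrix (Fin d) (Fin d) K)

theorem T_mul (ρ : G →* GL (Fin d) K) (g h : G) : T ρ (g * h) = T ρ g * T ρ h := by
  unfold T
  rw [map_mul, Matrix.GeneralLinearGroup.coe_mul, Matrix.toLin'_mul]; rfl

theorem T_one (ρ : G →* GL (Fin d) K) : T ρ 1 = 1 := by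
  unfold T
  rw [map_one]; exact Matrix.toLin'_one

theorem T_pow (ρ : G →* GL (Fin d) K) (g : G) (k : ℕ) : T ρ (g ^ k) = T ρ g ^ k := by
  induction k with
  | zero => simp [T_one]
  | succ k ih => rw [pow_succ, T_mul, ih, pow_succ]

theorem T_inj (ρ : G →* GL (Fin d) K) (g : G) : Function.Injective (T ρ g) := by
  intro v w h
  have h1 : T ρ g⁻¹ (T ρ g v) = T ρ g⁻¹ (T ρ g w) := by rw [h]
  rwa [← Module.End.mul_apply, ← Module.End.mul_apply, ← T_mul, inv_mul_cancel, T_one] at h1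

theorem T_eq_one_iff (ρ : G →* GL (Fin d) K) (g : G) : T ρ g = 1 ↔ ρ g = 1 := by
  unfold T
  constructor
  · intro h
    apply Units.ext
    apply Matrix.toLin'.injective
    rw [h]; simp; rfl
  · intro h; rw [h]; simp; rfl

theorem semisimple (ρ : G →* GL (Fin d) K) (p : ℕ) (hp : (p : K) ≠ 0) (x : G)
    (hx : x ^ p = 1) : (T ρ x).IsSemisimple := by
  apply Module.End.isSemisimple_of_squarefree_aeval_eq_zero (p := X ^ p - C (1 : K))
  · exact (Polynomial.separable_X_pow_sub_C 1 hp one_ne_zero).squarefree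
  · simp [← T_pow, hx, T_one]

variable (ρ : G →* GL (Fin d) K) (Q : Subgroup G)

/-- simultaneous eigenspace -/
noncomputable def E (χ : Q → K) : Submodule K (Fin d → K) :=
  ⨅ x : Q, (T ρ (x : G)).eigenspace (χ x)

theorem mem_E (χ : Q → K) (v : Fin d → K) :
    v ∈ E ρ Q χ ↔ ∀ x : Q, T ρ (x : G) v = χ x • v := by
  simp [E, Module.End.mem_eigenspace_iff]

theorem comm (hQc : ∀ x ∈ Q, ∀ y ∈ Q, x * y = y * x) (x y : Q) :
    Commute (T ρ (x : G)) (T ρ (y : G)) := by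
  show T ρ (x : G) * T ρ (y : G) = T ρ (y : G) * T ρ (x : G)
  rw [← T_mul, ← T_mul, hQc x x.2 y y.2]

theorem E_eq (p : ℕ) (hp : (p : K) ≠ 0) (hQp : ∀ x ∈ Q, x ^ p = 1) (χ : Q → K) :
    E ρ Q χ = ⨅ x : Q, (T ρ (x : G)).maxGenEigenspace (χ x) := by
  unfold E
  congr 1
  funext x
  exact ((semisimple ρ p hp x (hQp x x.2)).isFinitelySemisimple.maxGenEigenspace_eq_eigenspace
    _).symm

theorem iSup_E [IsAlgClosed K] (p : ℕ) (hp : (p : K) ≠ 0)
    (hQc : ∀ x ∈ Q, ∀ y ∈ Q, x * y = y * x) (hQp : ∀ x ∈ Q, x ^ p = 1) :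
    ⨆ χ : Q → K, E ρ Q χ = ⊤ := by
  have h1 := Module.End.iSup_iInf_maxGenEigenspace_eq_top_of_iSup_maxGenEigenspace_eq_top_of_commute
    (fun x : Q => T ρ (x : G)) (fun x y _ => comm ρ Q hQc x y)
    (fun x => Module.End.iSup_maxGenEigenspace_eq_top _)
  rw [← h1]
  congr 1
  funext χ
  exact E_eq ρ Q p hp hQp χ

theorem indep_E (p : ℕ) (hp : (p : K) ≠ 0)
    (hQc : ∀ x ∈ Q, ∀ y ∈ Q, x * y = y * x) (hQp : ∀ x ∈ Q, x ^ p = 1) :
    iSupIndep (fun χ : Q → K => E ρ Q χ) := by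
  have h := Module.End.independent_iInf_maxGenEigenspace_of_forall_mapsTo
    (fun x : Q => T ρ (x : G))
    (fun i j φ => Module.End.mapsTo_maxGenEigenspace_of_comm (comm ρ Q hQc j i) φ)
  have h2 : (fun χ : Q → K => E ρ Q χ) =
      fun χ : Q → K => ⨅ x : Q, (T ρ (x : G)).maxGenEigenspace (χ x) := by
    funext χ
    exact E_eq ρ Q p hp hQp χ
  rw [h2]; exact h

/-- a weight is a character -/
theorem exists_hom (χ : Q → K) (h : E ρ Q χ ≠ ⊥) :
    ∃ φ : Q →* Kˣ, ∀ x, (φ x : K) = χ x := by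
  obtain ⟨v, hv, hv0⟩ := Submodule.exists_mem_ne_zero_of_ne_bot h
  rw [mem_E] at hv
  have h1 : χ 1 = 1 := by
    have := hv 1
    rw [Subgroup.coe_one, T_one, Module.End.one_apply] at this
    have h2 : (χ 1 - 1) • v = 0 := by rw [sub_smul, one_smul, ← this, sub_self]
    rcases smul_eq_zero.mp h2 with h3 | h3
    · exact sub_eq_zero.mp h3
    · exact absurd h3 hv0
  have hm : ∀ x y : Q, χ (x * y) = χ x * χ y := by
    intro x y
    have := hv (x * y)
    rw [Subgroup.coe_mul, T_mul, Module.End.mul_apply, hv y, map_smul, hv x, smul_smul] at this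
    have h2 : (χ (x * y) - χ y * χ x) • v = 0 := by rw [sub_smul, ← this, sub_self]
    rcases smul_eq_zero.mp h2 with h3 | h3
    · rw [sub_eq_zero.mp h3, mul_comm]
    · exact absurd h3 hv0
  let φ₀ : Q →* K := { toFun := χ, map_one' := h1, map_mul' := hm }
  exact ⟨φ₀.toHomUnits, fun x => rfl⟩

/-- fibre count for a nontrivial character of an exponent-p group. -/
theorem fiber_card {Q : Type*} [Group Q] [Fintype Q] [DecidableEq K] (p : ℕ) [Fact p.Prime]
    (hQp : ∀ x : Q, x ^ p = 1) (φ : Q →* Kˣ) (y : Q) (hy : φ y ≠ 1) (ζ : Kˣ) (hζ : ζ ^ p = 1) :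
    (Finset.univ.filter (fun x : Q => (φ x : K) = (ζ : K))).card * p = Fintype.card Q := by
  have hp : p.Prime := Fact.out
  have : NeZero p := ⟨hp.ne_zero⟩
  have hr : φ.range ≤ rootsOfUnity p K := by
    rintro _ ⟨x, rfl⟩
    rw [mem_rootsOfUnity, ← map_pow, hQp, map_one]
  have hcard_roots : Nat.card (rootsOfUnity p K) ≤ p := by
    exact card_rootsOfUnity K p
  have hor : orderOf (φ y) = p := orderOf_eq_prime (by rw [← map_pow, hQp, map_one]) hy
  have hdiv : p ∣ Nat.card φ.range := by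
    have := orderOf_dvd_natCard (⟨φ y, y, rfl⟩ : φ.range)
    have h2 : orderOf (⟨φ y, y, rfl⟩ : φ.range) = orderOf (φ y) := (Subgroup.orderOf_coe _).symm
    rwa [h2, hor] at this
  have hle : Nat.card φ.range ≤ p := (Subgroup.card_le_of_le hr).trans hcard_roots
  have hrange : Nat.card φ.range = p := le_antisymm hle (Nat.le_of_dvd Nat.card_pos hdiv)
  have heq : φ.range = rootsOfUnity p K :=
    Subgroup.eq_of_le_of_card_ge hr (by rw [hrange]; exact hcard_roots)
  obtain ⟨x₁, hx₁⟩ : ζ ∈ φ.range := by rw [heq, mem_rootsOfUnity]; exact hζ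
  have e : {x : Q // (φ x : K) = (ζ : K)} ≃ φ.ker :=
    { toFun := fun x => ⟨x₁⁻¹ * x.1, by
        rw [MonoidHom.mem_ker, map_mul, map_inv, hx₁, Units.ext x.2, inv_mul_cancel]⟩
      invFun := fun k => ⟨x₁ * k.1, by
        rw [map_mul, hx₁, MonoidHom.mem_ker.mp k.2, mul_one]⟩
      left_inv := fun x => by simp
      right_inv := fun k => by simp }
  rw [← Fintype.card_subtype, ← Nat.card_eq_fintype_card, Nat.card_congr e, ← hrange,
    ← Subgroup.index_ker, Subgroup.card_mul_index, Nat.card_eq_fintype_card]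

/-- conjugation on `Q` by a normalizing element -/
def cj (Q : Subgroup G) (g : G) (hg : g ∈ Subgroup.normalizer (Q : Set G)) (z : Q) : Q :=
  ⟨g⁻¹ * z * g, (Subgroup.mem_normalizer_iff''.mp hg z).mp z.2⟩

theorem cj_surj (Q : Subgroup G) (g : G) (hg : g ∈ Subgroup.normalizer (Q : Set G)) :
    Function.Surjective (cj Q g hg) := by
  intro z
  refine ⟨⟨g * z * g⁻¹, (Subgroup.mem_normalizer_iff.mp hg z).mp z.2⟩, ?_⟩
  apply Subtype.ext
  show g⁻¹ * (g * z * g⁻¹) * g = z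
  group

theorem E_conj (ρ : G →* GL (Fin d) K) (Q : Subgroup G) (g : G) (hg : g ∈ Subgroup.normalizer (Q : Set G))
    (χ : Q → K) (h : E ρ Q χ ≠ ⊥) : E ρ Q (χ ∘ cj Q g hg) ≠ ⊥ := by
  obtain ⟨v, hv, hv0⟩ := Submodule.exists_mem_ne_zero_of_ne_bot h
  rw [mem_E] at hv
  have hmem : T ρ g v ∈ E ρ Q (χ ∘ cj Q g hg) := by
    rw [mem_E]
    intro z
    have h1 : (z : G) * g = g * ((cj Q g hg z : Q) : G) := by
      show (z : G) * g = g * (g⁻¹ * z * g)
      group
    rw [← Module.End.mul_apply, ← T_mul, h1, T_mul, Module.End.mul_apply, hv, map_smul]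
    rfl
  intro hbot
  rw [hbot, Submodule.mem_bot] at hmem
  exact hv0 (T_inj ρ g (by rw [hmem, map_zero]))

end Cfsg.Agent.Lib.Helper14.WeightBound
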