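import Mathlib
import Cfsg.Agent.Lib.Helper3.Sz5
import Cfsg.Agent.Lib.Helper14.WeightBound

set_option autoImplicit false

namespace Cfsg.Agent.Lib.Helper14.SzHeis

open Cfsg.Agent.Lib.Helper3.Sz1 Cfsg.Agent.Lib.Helper3.Sz5

/-- Heisenberg-type bound: operators `A i` on an invariant subspace `W` that are simultaneous
eigenvectors with pairwise distinct characters for the conjugation action of a family `B`
are linearly independent in `End W`. -/
theorem heis_bound {K : Type*} [Field K] {d : ℕ} (W : Submodule K (Fin d → K)) (hW : W ≠ ⊥)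
    {Γ : Type*} [Monoid Γ] {ι : Type*} [Fintype ι]
    (A : ι → Module.End K (Fin d → K)) (B : Γ → Module.End K (Fin d → K))
    (ψ : ι → (Γ →* K))
    (hAW : ∀ i, ∀ w ∈ W, A i w ∈ W)
    (hAinj : ∀ i, ∀ w ∈ W, A i w = 0 → w = 0)
    (hBsurj : ∀ γ, ∀ w ∈ W, ∃ w' ∈ W, B γ w' = w)
    (hrel : ∀ i γ, ∀ w ∈ W, B γ (A i w) = ψ i γ • A i (B γ w))
    (hψ : Function.Injective ψ) :
    Fintype.card ι ≤ (Module.finrank K W) ^ 2 := by
  classical
  let a : ι → (W →ₗ[K] W) := fun i => (A i).restrict (hAW i)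
  have hLI : LinearIndependent K a := by
    refine (Fintype.linearIndependent_iff (R := K) (v := a)).mpr ?_
    intro x hx i
    have h1 : ∀ w ∈ W, ∑ j, x j • A j w = 0 := by
      intro w hw
      have h2 := congrArg (fun f : W →ₗ[K] W => ((f ⟨w, hw⟩ : W) : Fin d → K)) hx
      simp only [LinearMap.sum_apply, LinearMap.smul_apply, LinearMap.zero_apply,
        Submodule.coe_sum, Submodule.coe_smul, Submodule.coe_zero] at h2
      exact h2
    have h3 : ∀ (γ : Γ), ∀ w ∈ W, ∑ j, (x j * ψ j γ) • A j w = 0 := by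
      intro γ w hw
      obtain ⟨w', hw', rfl⟩ := hBsurj γ w hw
      have h4 := congrArg (B γ) (h1 w' hw')
      rw [map_sum, map_zero] at h4
      rw [← h4]
      apply Finset.sum_congr rfl
      intro j _
      rw [map_smul, hrel j γ w' hw', smul_smul]
    obtain ⟨w, hw, hw0⟩ := Submodule.exists_mem_ne_zero_of_ne_bot hW
    have hne : A i w ≠ 0 := fun h => hw0 (hAinj i w hw h)
    obtain ⟨c, hc⟩ : ∃ c, A i w c ≠ 0 := by
      by_contra hcon
      push Not at hcon
      exact hne (funext hcon)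
    have hD := (linearIndependent_monoidHom Γ K).comp ψ hψ
    rw [Fintype.linearIndependent_iff] at hD
    have h5 := hD (fun j => x j * A j w c) (by
      funext γ
      have h6 := congrFun (h3 γ w hw) c
      simp only [Finset.sum_apply, Pi.smul_apply, smul_eq_mul, Pi.zero_apply] at h6 ⊢
      rw [← h6]
      apply Finset.sum_congr rfl
      intro j _
      simp only [Function.comp_apply]
      ring) i
    rcases mul_eq_zero.mp h5 with h | h
    · exact h
    · exact absurd h hc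
  have h7 := hLI.fintype_card_le_finrank
  rw [Module.finrank_linearMap] at h7
  rw [sq]
  exact h7

/-- sum of the dimensions of finitely many members of an independent family -/
theorem sum_finrank_le {K : Type*} [Field K] {V : Type*} [AddCommGroup V] [Module K V]
    [FiniteDimensional K V] {ι : Type*} [DecidableEq ι] (p : ι → Submodule K V) (hp : iSupIndep p)
    (s : Finset ι) : ∑ i ∈ s, Module.finrank K (p i) ≤ Module.finrank K V := by
  have key : ∑ i ∈ s, Module.finrank K (p i) = Module.finrank K ↥(⨆ i ∈ s, p i) := by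
    induction s using Finset.induction_on with
    | empty =>
      rw [Finset.sum_empty]
      have : (⨆ i ∈ (∅ : Finset ι), p i) = ⊥ := by simp
      rw [this, finrank_bot]
    | insert a s ha ih =>
      rw [Finset.sum_insert ha, Finset.iSup_insert, ih]
      have hd : Disjoint (p a) (⨆ i ∈ s, p i) := by
        have := hp.disjoint_biSup (x := a) (y := (s : Set ι)) (by simpa using ha)
        simpa using this
      have h1 := Submodule.finrank_sup_add_finrank_inf_eq (p a) (⨆ i ∈ s, p i)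
      rw [disjoint_iff.mp hd, finrank_bot, add_zero] at h1
      exact h1.symm
  rw [key]
  exact Submodule.finrank_le _

/-- character sums -/
theorem sum_char {A : Type*} [AddGroup A] [Fintype A] {K : Type*} [Field K] (f : A → K)
    (hf : ∀ x y, f (x + y) = f x * f y) (x₀ : A) (hx₀ : f x₀ ≠ 1) : ∑ x, f x = 0 := by
  have h1 : ∑ x, f x = ∑ x, f (x + x₀) := (Equiv.sum_comp (Equiv.addRight x₀) f).symm
  have h2 : ∑ x, f (x + x₀) = (∑ x, f x) * f x₀ := by
    rw [Finset.sum_mul]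
    exact Finset.sum_congr rfl (fun x _ => hf x x₀)
  have h3 : (∑ x, f x) * (f x₀ - 1) = 0 := by
    rw [mul_sub, mul_one, ← h2, ← h1, sub_self]
  rcases mul_eq_zero.mp h3 with h | h
  · exact h
  · exact absurd (sub_eq_zero.mp h) hx₀

section Arith

variable {F : Type*} [Field F]

theorem pow_s1_eq_one {s : ℕ} (hs : Hyp F s) {u : F} (h : u ^ (s + 1) = 1) : u = 1 := by
  have h1 : u ^ s * u = 1 := by rw [← pow_succ]; exact h
  have h2 : u ^ 2 * u ^ s = 1 := by
    have := congrArg (fun z => z ^ s) h1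
    simp only [mul_pow, hs.sq, one_pow] at this
    exact this
  calc u = u * (u ^ s * u) := by rw [h1, mul_one]
    _ = u ^ 2 * u ^ s := by ring
    _ = 1 := h2

theorem pow_s1_inj {s : ℕ} (hs : Hyp F s) {x y : F} (h : x ^ (s + 1) = y ^ (s + 1)) : x = y := by
  by_cases hy : y = 0
  · rw [hy, zero_pow (by omega)] at h
    rw [hy]
    exact (pow_eq_zero_iff (by omega)).mp h
  · have h1 : (x / y) ^ (s + 1) = 1 := by
      rw [div_pow, h, div_self (pow_ne_zero _ hy)]
    have h2 := pow_s1_eq_one hs h1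
    field_simp at h2
    exact h2

theorem pow_s2_eq_one {s : ℕ} (hs : Hyp F s) {u : F} (h : u ^ (s + 2) = 1) : u = 1 := by
  have h1 : u ^ s * u ^ 2 = 1 := by rw [← pow_add]; exact h
  have h2 : (u * u ^ s) ^ 2 = 1 := by
    have := congrArg (fun z => z ^ s) h1
    simp only [mul_pow, hs.sq, one_pow] at this
    rw [mul_pow, ← this]
    ring
  have h3 : u * u ^ s = 1 := sq_eq_one_char2 hs.two h2
  calc u = (u * u ^ s) * u := by rw [h3, one_mul]
    _ = u ^ s * u ^ 2 := by ring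
    _ = 1 := h1

variable [Fintype F] {K : Type*} [Field K] [CharZero K]

theorem card_St [DecidableEq F] {s : ℕ} (hs : Hyp F s) (Λ : F → K)
    (hΛ : ∀ x y, Λ (x + y) = Λ x * Λ y) (hΛ0 : Λ 0 = 1) (x₀ : F) (hx₀ : Λ x₀ ≠ 1)
    [DecidablePred (fun μ : F => ∀ t, Λ (μ * (t + t ^ s)) = 1)] :
    (Finset.univ.filter (fun μ : F => ∀ t, Λ (μ * (t + t ^ s)) = 1)).card = 2 := by
  have hs0 : s ≠ 0 := by have := hs.pos; omega
  have hA : ∀ μ : F, ∑ t, Λ (μ * (t + t ^ s)) =
      if (∀ t, Λ (μ * (t + t ^ s)) = 1) then (Fintype.card F : K) else 0 := by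
    intro μ
    split_ifs with h
    · rw [Finset.sum_congr rfl (fun t _ => h t), Finset.sum_const, Finset.card_univ, nsmul_eq_mul,
        mul_one]
    · push Not at h
      obtain ⟨t₀, ht₀⟩ := h
      refine sum_char (fun t => Λ (μ * (t + t ^ s))) ?_ t₀ ht₀
      intro x y
      show Λ (μ * (x + y + (x + y) ^ s)) = Λ (μ * (x + x ^ s)) * Λ (μ * (y + y ^ s))
      rw [← hΛ, hs.add]
      congr 1
      ring
  have hB : ∀ t : F, ∑ μ, Λ (μ * (t + t ^ s)) =
      if t + t ^ s = 0 then (Fintype.card F : K) else 0 := by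
    intro t
    split_ifs with h
    · rw [h]
      simp only [mul_zero, hΛ0, Finset.sum_const, Finset.card_univ, nsmul_eq_mul, mul_one]
    · refine sum_char (fun μ => Λ (μ * (t + t ^ s))) ?_ (x₀ / (t + t ^ s)) ?_
      · intro x y
        show Λ ((x + y) * (t + t ^ s)) = Λ (x * (t + t ^ s)) * Λ (y * (t + t ^ s))
        rw [← hΛ, add_mul]
      · show Λ (x₀ / (t + t ^ s) * (t + t ^ s)) ≠ 1
        rw [div_mul_cancel₀ _ h]
        exact hx₀
  have hfil : (Finset.univ.filter (fun t : F => t + t ^ s = 0)) = {0, 1} := by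
    ext t
    simp only [Finset.mem_filter, Finset.mem_univ, true_and, Finset.mem_insert,
      Finset.mem_singleton]
    constructor
    · intro h
      have h1 : t ^ s = t := by linear_combination h - t * hs.two
      have h2 : t ^ 2 = t := by
        have := hs.sq t
        rw [h1, h1] at this
        exact this.symm
      have h3 : t * (t - 1) = 0 := by linear_combination h2
      rcases mul_eq_zero.mp h3 with h4 | h4
      · exact Or.inl h4
      · exact Or.inr (sub_eq_zero.mp h4)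
    · rintro (rfl | rfl)
      · rw [zero_pow hs0, add_zero]
      · rw [one_pow]
        linear_combination hs.two
  have hsum : ∑ μ : F, ∑ t : F, Λ (μ * (t + t ^ s)) = ∑ t : F, ∑ μ : F, Λ (μ * (t + t ^ s)) :=
    Finset.sum_comm
  rw [Finset.sum_congr rfl (fun μ _ => hA μ), Finset.sum_congr rfl (fun t _ => hB t),
    Finset.sum_ite, Finset.sum_ite, Finset.sum_const_zero, Finset.sum_const_zero, add_zero,
    add_zero, Finset.sum_const, Finset.sum_const, hfil, nsmul_eq_mul, nsmul_eq_mul] at hsum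
  have hq : (Fintype.card F : K) ≠ 0 := by
    exact_mod_cast Fintype.card_ne_zero
  have h5 := mul_right_cancel₀ hq hsum
  have h6 : (({0, 1} : Finset F).card) = 2 := Finset.card_pair zero_ne_one
  rw [h6] at h5
  exact_mod_cast h5

theorem card_Rad [DecidableEq F] {s : ℕ} (hs : Hyp F s) (Λ : F → K)
    (hΛ : ∀ x y, Λ (x + y) = Λ x * Λ y) (hΛ0 : Λ 0 = 1) (x₀ : F) (hx₀ : Λ x₀ ≠ 1)
    [DecidablePred (fun r : F => ∀ a', Λ (r ^ s * a' + r * a' ^ s) = 1)] :
    (Finset.univ.filter (fun r : F => ∀ a', Λ (r ^ s * a' + r * a' ^ s) = 1)).card ≤ 2 := by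
  classical
  rw [← card_St hs Λ hΛ hΛ0 x₀ hx₀]
  apply Finset.card_le_card_of_injOn (fun r => r ^ (s + 1))
  · intro r hr
    simp only [Finset.coe_filter, Finset.mem_univ, true_and, Set.mem_ofPred_eq] at hr ⊢
    intro t
    have := hr (r * t)
    rw [← this]
    congr 1
    rw [mul_pow]
    ring
  · intro x _ y _ h
    exact pow_s1_inj hs h

theorem card_image [DecidableEq F] {s : ℕ} (hs : Hyp F s) (Λ : F → K)
    (hΛ : ∀ x y, Λ (x + y) = Λ x * Λ y) (hΛ0 : Λ 0 = 1) (x₀ : F) (hx₀ : Λ x₀ ≠ 1)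
    [DecidableEq (F → K)] :
    Fintype.card F ≤ 2 * (Finset.univ.image
      (fun a : F => fun a' : F => Λ (a ^ s * a' + a * a' ^ s))).card := by
  classical
  rw [← Finset.card_univ]
  apply Finset.card_le_mul_card_image
  intro f hf
  obtain ⟨a, -, rfl⟩ := Finset.mem_image.mp hf
  refine le_trans ?_ (card_Rad hs Λ hΛ hΛ0 x₀ hx₀)
  apply Finset.card_le_card_of_injOn (fun x => x + a)
  · intro x hx
    simp only [Finset.coe_filter, Finset.mem_univ, true_and, Set.mem_ofPred_eq] at hx ⊢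
    intro a'
    have h1 : Λ (x ^ s * a' + x * a' ^ s) = Λ (a ^ s * a' + a * a' ^ s) := congrFun hx a'
    have h2 : (x + a) ^ s * a' + (x + a) * a' ^ s =
        (x ^ s * a' + x * a' ^ s) + (a ^ s * a' + a * a' ^ s) := by
      rw [hs.add]; ring
    rw [h2, hΛ, h1, ← hΛ]
    have h3 : a ^ s * a' + a * a' ^ s + (a ^ s * a' + a * a' ^ s) = 0 := by
      linear_combination (a ^ s * a' + a * a' ^ s) * hs.two
    rw [h3, hΛ0]
  · intro x _ y _ h
    exact add_right_cancel h

end Arith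

section Sz

open Matrix Cfsg.Agent.Lib.Helper3.Sz2 Cfsg.Agent.Lib.Helper3.Sz3 Cfsg.Agent.Lib.Helper3.Sz4

theorem D_T_comm {F : Type*} [Field F] {s : ℕ} (hs : Hyp F s) (k : Fˣ) (c : F) :
    Dm s k * Tm s 0 c = Tm s 0 ((k : F) ^ (s + 2) * c) * Dm s k := by
  have hs0 : s ≠ 0 := by have := hs.pos; omega
  have hsq := hs.sq
  have hk : (k : F) ≠ 0 := k.ne_zero
  rw [Dm]
  ext i j
  rw [Matrix.diagonal_mul, Matrix.mul_diagonal]
  fin_cases i <;> fin_cases j <;>
    simp [Tm, fq, zero_pow hs0, pow_succ, mul_pow, hsq]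
  all_goals field_simp

variable {F : Type*} [Field F] [Fintype F] {m : ℕ}

/-- the unipotent elements -/
def tt (hm : 1 ≤ m) (hF : Fintype.card F = 2 ^ (2 * m + 1)) (a b : F) : Cfsg.Sz F m :=
  ⟨T (2 ^ (m + 1)) a b, T_mem hm hF a b⟩

/-- the torus elements -/
def dd (hm : 1 ≤ m) (hF : Fintype.card F = 2 ^ (2 * m + 1)) (k : Fˣ) : Cfsg.Sz F m :=
  ⟨D (2 ^ (m + 1)) k, D_mem hm hF k⟩

theorem tt_mul (hm : 1 ≤ m) (hF : Fintype.card F = 2 ^ (2 * m + 1)) (a b c d : F) :
    tt hm hF c d * tt hm hF a b = tt hm hF (a + c) (b + d + c ^ (2 ^ (m + 1)) * a) :=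
  Subtype.ext (T_mul hm hF a b c d)

theorem tt_zero (hm : 1 ≤ m) (hF : Fintype.card F = 2 ^ (2 * m + 1)) : tt hm hF 0 0 = 1 :=
  Subtype.ext (T_zero hm hF)

theorem tt_z_mul (hm : 1 ≤ m) (hF : Fintype.card F = 2 ^ (2 * m + 1)) (e x y : F) :
    tt hm hF 0 e * tt hm hF x y = tt hm hF x (y + e) := by
  have hs := hyp_of_card hm hF
  rw [tt_mul, pow_s_zero hs, zero_mul, add_zero, add_zero]

theorem tt_mul_z (hm : 1 ≤ m) (hF : Fintype.card F = 2 ^ (2 * m + 1)) (e x y : F) :
    tt hm hF x y * tt hm hF 0 e = tt hm hF x (y + e) := by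
  rw [tt_mul, zero_add, mul_zero, add_zero, add_comm]

/-- the centre of the Sylow 2-subgroup, as a homomorphic image of `(F, +)` -/
def zhom (hm : 1 ≤ m) (hF : Fintype.card F = 2 ^ (2 * m + 1)) : Multiplicative F →* Cfsg.Sz F m where
  toFun c := tt hm hF 0 c.toAdd
  map_one' := tt_zero hm hF
  map_mul' x y := by
    rw [tt_z_mul, toAdd_mul, add_comm]

def Zs (hm : 1 ≤ m) (hF : Fintype.card F = 2 ^ (2 * m + 1)) : Subgroup (Cfsg.Sz F m) :=
  (zhom hm hF).range

theorem tt_mem_Zs (hm : 1 ≤ m) (hF : Fintype.card F = 2 ^ (2 * m + 1)) (c : F) :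
    tt hm hF 0 c ∈ Zs hm hF := ⟨Multiplicative.ofAdd c, rfl⟩

theorem Zs_comm (hm : 1 ≤ m) (hF : Fintype.card F = 2 ^ (2 * m + 1)) :
    ∀ x ∈ Zs hm hF, ∀ y ∈ Zs hm hF, x * y = y * x := by
  rintro _ ⟨a, rfl⟩ _ ⟨b, rfl⟩
  rw [← map_mul, ← map_mul, mul_comm]

theorem Zs_sq (hm : 1 ≤ m) (hF : Fintype.card F = 2 ^ (2 * m + 1)) :
    ∀ x ∈ Zs hm hF, x ^ 2 = 1 := by
  have hs := hyp_of_card hm hF
  rintro _ ⟨a, rfl⟩
  show tt hm hF 0 a.toAdd ^ 2 = 1
  rw [sq, tt_z_mul, ← tt_zero hm hF]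
  congr 1
  linear_combination (Multiplicative.toAdd a) * hs.two

theorem Zs_central (hm : 1 ≤ m) (hF : Fintype.card F = 2 ^ (2 * m + 1)) (a b : F) :
    ∀ z ∈ Zs hm hF, z * tt hm hF a b = tt hm hF a b * z := by
  rintro _ ⟨c, rfl⟩
  show tt hm hF 0 c.toAdd * tt hm hF a b = tt hm hF a b * tt hm hF 0 c.toAdd
  rw [tt_z_mul, tt_mul_z]

theorem dd_conj (hm : 1 ≤ m) (hF : Fintype.card F = 2 ^ (2 * m + 1)) (k : Fˣ) (c : F) :
    dd hm hF k * tt hm hF 0 c * (dd hm hF k)⁻¹ = tt hm hF 0 ((k : F) ^ (2 ^ (m + 1) + 2) * c) := by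
  have hs := hyp_of_card hm hF
  rw [mul_inv_eq_iff_eq_mul]
  apply Subtype.ext
  apply Subtype.ext
  exact D_T_comm hs k c

theorem dd_mem_normalizer (hm : 1 ≤ m) (hF : Fintype.card F = 2 ^ (2 * m + 1)) (k : Fˣ) :
    (dd hm hF k)⁻¹ ∈ Subgroup.normalizer ((Zs hm hF : Subgroup (Cfsg.Sz F m)) : Set (Cfsg.Sz F m)) := by
  apply inv_mem
  rw [Subgroup.mem_normalizer_iff]
  intro z
  constructor
  · rintro ⟨c, rfl⟩
    show dd hm hF k * tt hm hF 0 c.toAdd * (dd hm hF k)⁻¹ ∈ Zs hm hF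
    rw [dd_conj]
    exact tt_mem_Zs hm hF _
  · intro h
    obtain ⟨c, hc⟩ := h
    have hc' : tt hm hF 0 c.toAdd = dd hm hF k * z * (dd hm hF k)⁻¹ := hc
    have h1 : z = (dd hm hF k⁻¹) * tt hm hF 0 c.toAdd * (dd hm hF k⁻¹)⁻¹ := by
      have h2 : dd hm hF k⁻¹ = (dd hm hF k)⁻¹ := by
        apply Subtype.ext
        show D (2 ^ (m + 1)) k⁻¹ = (D (2 ^ (m + 1)) k)⁻¹
        rw [eq_inv_iff_mul_eq_one, ← D_mul, inv_mul_cancel, D_one]
      rw [h2, hc']
      group
    rw [h1, dd_conj]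
    exact tt_mem_Zs hm hF _

theorem tt_inv_mul (hm : 1 ≤ m) (hF : Fintype.card F = 2 ^ (2 * m + 1)) (a : F) :
    tt hm hF a 0 * tt hm hF a (a ^ (2 ^ (m + 1)) * a) = 1 := by
  have hs := hyp_of_card hm hF
  rw [tt_mul, ← tt_zero hm hF]
  congr 1
  · linear_combination a * hs.two
  · linear_combination (a ^ (2 ^ (m + 1)) * a) * hs.two

theorem tt_comm_rel (hm : 1 ≤ m) (hF : Fintype.card F = 2 ^ (2 * m + 1)) (a a' : F) :
    tt hm hF a' 0 * tt hm hF a 0 =
      tt hm hF 0 (a ^ (2 ^ (m + 1)) * a' + a * a' ^ (2 ^ (m + 1))) *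
        (tt hm hF a 0 * tt hm hF a' 0) := by
  have hs := hyp_of_card hm hF
  rw [tt_mul, tt_mul, tt_z_mul]
  congr 1
  · ring
  · linear_combination (-(a ^ (2 ^ (m + 1)) * a')) * hs.two

theorem sz_bound (hm : 1 ≤ m) (hF : Fintype.card F = 2 ^ (2 * m + 1)) {K : Type*} [Field K]
    [IsAlgClosed K] [CharZero K] {d : ℕ} (ρ : Cfsg.Sz F m →* GL (Fin d) K)
    (hnt : ∃ x ∈ Zs hm hF, ρ x ≠ 1) : 2 ^ m * (2 ^ (2 * m + 1) - 1) ≤ d := by
  classical
  have hs := hyp_of_card hm hF
  have hp : ((2 : ℕ) : K) ≠ 0 := by norm_num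
  have hQc := Zs_comm hm hF
  have hQp := Zs_sq hm hF
  have hind := WeightBound.indep_E ρ (Zs hm hF) 2 hp hQc hQp
  -- a nontrivial weight
  obtain ⟨χ₀, hχ₀, x₀, hx₀⟩ : ∃ χ₀ : Zs hm hF → K, WeightBound.E ρ (Zs hm hF) χ₀ ≠ ⊥ ∧
      ∃ x₀ : Zs hm hF, χ₀ x₀ ≠ 1 := by
    by_contra hcon
    push Not at hcon
    obtain ⟨x, hxQ, hx⟩ := hnt
    apply hx
    rw [← WeightBound.T_eq_one_iff]
    apply LinearMap.ext
    intro v
    have hv : v ∈ (⨆ χ : Zs hm hF → K, WeightBound.E ρ (Zs hm hF) χ) := by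
      rw [WeightBound.iSup_E ρ (Zs hm hF) 2 hp hQc hQp]; trivial
    refine Submodule.iSup_induction (fun χ => WeightBound.E ρ (Zs hm hF) χ)
      (motive := fun v => WeightBound.T ρ x v = v) hv ?_ ?_ ?_
    · intro χ w hw
      by_cases hb : WeightBound.E ρ (Zs hm hF) χ = ⊥
      · rw [hb] at hw; rw [(Submodule.mem_bot K).mp hw]; simp
      · have h1 := hcon χ hb ⟨x, hxQ⟩
        rw [WeightBound.mem_E] at hw
        have := hw ⟨x, hxQ⟩
        rw [h1, one_smul] at this; exact this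
    · simp
    · intro a b ha hb; rw [map_add, ha, hb]
  obtain ⟨φ₀, hφ₀⟩ := WeightBound.exists_hom ρ (Zs hm hF) χ₀ hχ₀
  -- the additive character
  let zel : F → Zs hm hF := fun c => ⟨tt hm hF 0 c, tt_mem_Zs hm hF c⟩
  have zel_add : ∀ x y, zel (x + y) = zel x * zel y := by
    intro x y
    apply Subtype.ext
    show tt hm hF 0 (x + y) = tt hm hF 0 x * tt hm hF 0 y
    rw [tt_z_mul, add_comm]
  have zel_zero : zel 0 = 1 := Subtype.ext (tt_zero hm hF)
  let Λ : F → K := fun c => χ₀ (zel c)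
  have hΛ : ∀ x y, Λ (x + y) = Λ x * Λ y := by
    intro x y
    show χ₀ (zel (x + y)) = χ₀ (zel x) * χ₀ (zel y)
    rw [zel_add, ← hφ₀, ← hφ₀, ← hφ₀, map_mul]
    rfl
  have hΛ0 : Λ 0 = 1 := by
    show χ₀ (zel 0) = 1
    rw [zel_zero, ← hφ₀, map_one]
    rfl
  obtain ⟨c₀, hc₀⟩ : ∃ c₀, Λ c₀ ≠ 1 := by
    obtain ⟨c, hc⟩ := x₀.2
    refine ⟨Multiplicative.toAdd c, ?_⟩
    have h1 : zel (Multiplicative.toAdd c) = x₀ := Subtype.ext hc
    show χ₀ (zel (Multiplicative.toAdd c)) ≠ 1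
    rw [h1]
    exact hx₀
  -- invariance of the weight space under the unipotent elements
  have hinv : ∀ (a b : F), ∀ w ∈ WeightBound.E ρ (Zs hm hF) χ₀,
      WeightBound.T ρ (tt hm hF a b) w ∈ WeightBound.E ρ (Zs hm hF) χ₀ := by
    intro a b w hw
    rw [WeightBound.mem_E] at hw ⊢
    intro z
    have hz := Zs_central hm hF a b z z.2
    calc WeightBound.T ρ (z : Cfsg.Sz F m) (WeightBound.T ρ (tt hm hF a b) w)
        = WeightBound.T ρ ((z : Cfsg.Sz F m) * tt hm hF a b) w := by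
          rw [WeightBound.T_mul]; rfl
      _ = WeightBound.T ρ (tt hm hF a b * (z : Cfsg.Sz F m)) w := by rw [hz]
      _ = WeightBound.T ρ (tt hm hF a b) (WeightBound.T ρ (z : Cfsg.Sz F m) w) := by
          rw [WeightBound.T_mul]; rfl
      _ = χ₀ z • WeightBound.T ρ (tt hm hF a b) w := by rw [hw z, map_smul]
  -- the dimension of the weight space
  have hWdim : 2 ^ m ≤ Module.finrank K (WeightBound.E ρ (Zs hm hF) χ₀) := by
    let Ψ : F → F → K := fun a a' => Λ (a ^ (2 ^ (m + 1)) * a' + a * a' ^ (2 ^ (m + 1)))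
    have himg : Fintype.card F ≤ 2 * (Finset.univ.image Ψ).card :=
      card_image hs Λ hΛ hΛ0 c₀ hc₀
    have hτ : ∀ i : {f // f ∈ Finset.univ.image Ψ}, ∃ a, Ψ a = i.1 := fun i => by
      obtain ⟨a, -, ha⟩ := Finset.mem_image.mp i.2
      exact ⟨a, ha⟩
    choose τ hτ' using hτ
    let ψ : {f // f ∈ Finset.univ.image Ψ} → (Multiplicative F →* K) := fun i =>
      { toFun := fun γ => Ψ (τ i) (Multiplicative.toAdd γ)
        map_one' := by
          show Λ (τ i ^ (2 ^ (m + 1)) * 0 + τ i * 0 ^ (2 ^ (m + 1))) = 1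
          rw [pow_s_zero hs, mul_zero, mul_zero, add_zero, hΛ0]
        map_mul' := fun x y => by
          show Λ (τ i ^ (2 ^ (m + 1)) * (Multiplicative.toAdd x + Multiplicative.toAdd y) +
            τ i * (Multiplicative.toAdd x + Multiplicative.toAdd y) ^ (2 ^ (m + 1))) =
            Λ (τ i ^ (2 ^ (m + 1)) * Multiplicative.toAdd x +
              τ i * Multiplicative.toAdd x ^ (2 ^ (m + 1))) *
            Λ (τ i ^ (2 ^ (m + 1)) * Multiplicative.toAdd y +
              τ i * Multiplicative.toAdd y ^ (2 ^ (m + 1)))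
          rw [hs.add, ← hΛ]
          congr 1
          ring }
    have hψinj : Function.Injective ψ := by
      intro i j hij
      apply Subtype.ext
      rw [← hτ' i, ← hτ' j]
      funext a'
      exact DFunLike.congr_fun hij (Multiplicative.ofAdd a')
    have key := heis_bound (WeightBound.E ρ (Zs hm hF) χ₀) hχ₀
      (fun i : {f // f ∈ Finset.univ.image Ψ} => WeightBound.T ρ (tt hm hF (τ i) 0))
      (fun γ : Multiplicative F => WeightBound.T ρ (tt hm hF (Multiplicative.toAdd γ) 0)) ψ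
      (fun i w hw => hinv _ _ w hw)
      (fun i w _ h => WeightBound.T_inj ρ _ (h.trans (map_zero _).symm))
      (fun γ w hw => ⟨WeightBound.T ρ (tt hm hF (Multiplicative.toAdd γ)
          (Multiplicative.toAdd γ ^ (2 ^ (m + 1)) * Multiplicative.toAdd γ)) w, hinv _ _ w hw, by
        rw [← Module.End.mul_apply, ← WeightBound.T_mul, tt_inv_mul, WeightBound.T_one]
        rfl⟩)
      (fun i γ w hw => by
        have h1 := hinv (τ i) 0 _ (hinv (Multiplicative.toAdd γ) 0 w hw)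
        rw [WeightBound.mem_E] at h1
        have h2 := h1 (zel (τ i ^ (2 ^ (m + 1)) * Multiplicative.toAdd γ +
          τ i * Multiplicative.toAdd γ ^ (2 ^ (m + 1))))
        show WeightBound.T ρ (tt hm hF (Multiplicative.toAdd γ) 0)
            (WeightBound.T ρ (tt hm hF (τ i) 0) w) = _
        rw [← Module.End.mul_apply, ← WeightBound.T_mul, tt_comm_rel, WeightBound.T_mul,
          WeightBound.T_mul]
        exact h2)
      hψinj
    have hcardI := Fintype.card_coe (Finset.univ.image Ψ)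
    rw [hF] at himg
    have h1 : (2 ^ m) ^ 2 ≤ (Module.finrank K (WeightBound.E ρ (Zs hm hF) χ₀)) ^ 2 := by
      have h3 : 2 ^ (2 * m + 1) = 2 * (2 ^ m) ^ 2 := by ring
      rw [hcardI] at key
      linarith
    exact (Nat.pow_le_pow_iff_left (by norm_num)).mp h1
  -- the conjugate weights
  let χk : Fˣ → (Zs hm hF → K) := fun k =>
    χ₀ ∘ WeightBound.cj (Zs hm hF) (dd hm hF k)⁻¹ (dd_mem_normalizer hm hF k)
  have hχk_val : ∀ (k : Fˣ) (c : F), χk k (zel c) = Λ ((k : F) ^ (2 ^ (m + 1) + 2) * c) := by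
    intro k c
    show χ₀ (WeightBound.cj (Zs hm hF) (dd hm hF k)⁻¹ (dd_mem_normalizer hm hF k) (zel c)) =
      χ₀ (zel ((k : F) ^ (2 ^ (m + 1) + 2) * c))
    congr 1
    apply Subtype.ext
    show ((dd hm hF k)⁻¹)⁻¹ * tt hm hF 0 c * (dd hm hF k)⁻¹ = tt hm hF 0 _
    rw [inv_inv, dd_conj]
  have hχk_dim : ∀ k : Fˣ, 2 ^ m ≤ Module.finrank K (WeightBound.E ρ (Zs hm hF) (χk k)) := by
    intro k
    refine le_trans hWdim ?_
    have hmem : ∀ v ∈ WeightBound.E ρ (Zs hm hF) χ₀,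
        WeightBound.T ρ (dd hm hF k)⁻¹ v ∈ WeightBound.E ρ (Zs hm hF) (χk k) := by
      intro v hv
      rw [WeightBound.mem_E] at hv ⊢
      intro z
      have h1 : (z : Cfsg.Sz F m) * (dd hm hF k)⁻¹ = (dd hm hF k)⁻¹ *
          ((WeightBound.cj (Zs hm hF) (dd hm hF k)⁻¹ (dd_mem_normalizer hm hF k) z : Zs hm hF) :
            Cfsg.Sz F m) := by
        show (z : Cfsg.Sz F m) * (dd hm hF k)⁻¹ =
          (dd hm hF k)⁻¹ * (((dd hm hF k)⁻¹)⁻¹ * z * (dd hm hF k)⁻¹)
        group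
      rw [← Module.End.mul_apply, ← WeightBound.T_mul, h1, WeightBound.T_mul,
        Module.End.mul_apply, hv, map_smul]
      rfl
    exact LinearMap.finrank_le_finrank_of_injective
      (f := (WeightBound.T ρ (dd hm hF k)⁻¹).restrict hmem) (by
        intro x y hxy
        apply Subtype.ext
        apply WeightBound.T_inj ρ (dd hm hF k)⁻¹
        exact congrArg Subtype.val hxy)
  have hχk_inj : Function.Injective χk := by
    intro k k' h
    by_contra hne
    have h1 : ∀ c, Λ ((k : F) ^ (2 ^ (m + 1) + 2) * c) = Λ ((k' : F) ^ (2 ^ (m + 1) + 2) * c) :=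
      fun c => by rw [← hχk_val, ← hχk_val, h]
    have hu : (k : F) ^ (2 ^ (m + 1) + 2) + (k' : F) ^ (2 ^ (m + 1) + 2) ≠ 0 := by
      intro h0
      apply hne
      have h2 : ((k : F) / (k' : F)) ^ (2 ^ (m + 1) + 2) = 1 := by
        rw [div_pow, div_eq_one_iff_eq (pow_ne_zero _ k'.ne_zero)]
        linear_combination h0 - (k' : F) ^ (2 ^ (m + 1) + 2) * hs.two
      have h3 := pow_s2_eq_one hs h2
      rw [div_eq_one_iff_eq k'.ne_zero] at h3
      exact Units.ext h3
    apply hc₀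
    have h4 : c₀ = (k : F) ^ (2 ^ (m + 1) + 2) *
        (c₀ / ((k : F) ^ (2 ^ (m + 1) + 2) + (k' : F) ^ (2 ^ (m + 1) + 2))) +
        (k' : F) ^ (2 ^ (m + 1) + 2) *
        (c₀ / ((k : F) ^ (2 ^ (m + 1) + 2) + (k' : F) ^ (2 ^ (m + 1) + 2))) := by
      field_simp
    rw [h4, hΛ, h1, ← hΛ]
    have h5 : ∀ y : F, y + y = 0 := fun y => by linear_combination y * hs.two
    rw [h5, hΛ0]
  -- the sum of the dimensions
  have hsum := sum_finrank_le (WeightBound.E ρ (Zs hm hF)) hind (Finset.univ.image χk)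
  rw [Module.finrank_fin_fun] at hsum
  have hcard : (Finset.univ.image χk).card = 2 ^ (2 * m + 1) - 1 := by
    rw [Finset.card_image_of_injective _ hχk_inj, Finset.card_univ, Fintype.card_units, hF]
  have hle : (Finset.univ.image χk).card • 2 ^ m ≤
      ∑ χ ∈ Finset.univ.image χk, Module.finrank K (WeightBound.E ρ (Zs hm hF) χ) := by
    apply Finset.card_nsmul_le_sum
    intro χ hχ
    obtain ⟨k, -, rfl⟩ := Finset.mem_image.mp hχ
    exact hχk_dim k
  rw [hcard, smul_eq_mul] at hle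
  calc 2 ^ m * (2 ^ (2 * m + 1) - 1) = (2 ^ (2 * m + 1) - 1) * 2 ^ m := mul_comm _ _
    _ ≤ _ := hle
    _ ≤ d := hsum

end Sz

section Rep

variable {G : Type*} [Group G] {K : Type*} [Field K] {k : ℕ}

/-- the matrix form of a representation on `Fin k → K` -/
noncomputable def repGL (ρ : Representation K G (Fin k → K)) : G →* GL (Fin k) K :=
  MonoidHom.toHomUnits ((MonoidHomClass.toMonoidHom
    (LinearMap.toMatrixAlgEquiv' : ((Fin k → K) →ₗ[K] (Fin k → K)) ≃ₐ[K] Matrix (Fin k) (Fin k) K)).comp ρ)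

theorem repGL_val (ρ : Representation K G (Fin k → K)) (g : G) :
    ((repGL ρ g : GL (Fin k) K) : Matrix (Fin k) (Fin k) K) = LinearMap.toMatrix' (ρ g) := rfl

theorem repGL_eq_one (ρ : Representation K G (Fin k → K)) (g : G) (h : repGL ρ g = 1) :
    ρ g = 1 := by
  have h1 : LinearMap.toMatrix' (ρ g) = 1 := by
    rw [← repGL_val, h]; rfl
  apply LinearMap.toMatrix'.injective
  rw [h1]
  exact LinearMap.toMatrix'_one.symm

theorem rep_nontrivial (ρ : Representation K G (Fin k → K)) (hirr : ρ.IsIrreducible) (hk : 2 ≤ k) :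
    ∃ g, ρ g ≠ 1 := by
  by_contra hcon
  push Not at hcon
  let e₀ : Fin k → K := Pi.single ⟨0, by omega⟩ 1
  have he₀ : e₀ ≠ 0 := by
    intro h
    have := congrFun h ⟨0, by omega⟩
    simp [e₀] at this
  let N₀ : Subrepresentation ρ := ⟨Submodule.span K {e₀}, fun g v hv => by
    rw [hcon g]; exact hv⟩
  rcases hirr.eq_bot_or_eq_top N₀ with h | h
  · have h1 : N₀.toSubmodule = ⊥ := by rw [h]; rfl
    have h2 : e₀ ∈ N₀.toSubmodule := Submodule.subset_span rfl
    rw [h1, Submodule.mem_bot] at h2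
    exact he₀ h2
  · have h1 : Submodule.span K {e₀} = ⊤ := by
      have : N₀.toSubmodule = ⊤ := by rw [h]; rfl
      exact this
    have h2 := finrank_span_singleton (K := K) he₀
    rw [h1, finrank_top, Module.finrank_fin_fun] at h2
    omega

end Rep

end Cfsg.Agent.Lib.Helper14.SzHeis
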