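import Mathlib

set_option autoImplicit false

namespace Cfsg.Agent.Lib.Helper14.SzTrans

/-- A `p`-subgroup of full `p`-power order fixing a point `inf`, normal in its stabiliser and regular on
the remaining points of a doubly transitive set: it is a Sylow subgroup whose normaliser is the point
stabiliser; the coset action is doubly transitive and `Q` is regular off the base coset. -/
theorem sylow_normalizer_action {L : Type*} [Group L] [Finite L] {Ω : Type*} [MulAction L Ω]
    (p : ℕ) [Fact p.Prime]
    (inf : Ω) (Q : Subgroup L) (hQcard : Nat.card Q = p ^ (Nat.card L).factorization p)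
    (h2t : ∀ a b c d : Ω, a ≠ b → c ≠ d → ∃ g : L, g • a = c ∧ g • b = d)
    (hQfix : ∀ s ∈ Q, s • inf = inf)
    (hQreg : ∀ x y : Ω, x ≠ inf → y ≠ inf → ∃! s : Q, (s : L) • x = y)
    (hQnorm : ∀ g : L, g • inf = inf → ∀ s ∈ Q, g * s * g⁻¹ ∈ Q)
    (hne : ∃ x y : Ω, x ≠ inf ∧ y ≠ inf ∧ x ≠ y) :
    ∃ S : Sylow p L, (S : Subgroup L) = Q ∧
      Subgroup.normalizer ((S : Subgroup L) : Set L) = MulAction.stabilizer L inf ∧
      MulAction.IsMultiplyPretransitive L (L ⧸ Subgroup.normalizer ((S : Subgroup L) : Set L)) 2 ∧
      ∀ x y : L ⧸ Subgroup.normalizer ((S : Subgroup L) : Set L),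
        x ≠ QuotientGroup.mk 1 → y ≠ QuotientGroup.mk 1 →
        ∃! s : ↥(S : Subgroup L), (s : L) • x = y := by
  refine ⟨Sylow.ofCard Q hQcard, rfl, ?_⟩
  have hN : Subgroup.normalizer (((Sylow.ofCard Q hQcard : Sylow p L) : Subgroup L) : Set L) =
      MulAction.stabilizer L inf := by
    show Subgroup.normalizer (Q : Set L) = MulAction.stabilizer L inf
    ext g
    rw [MulAction.mem_stabilizer_iff]
    constructor
    · intro hg
      by_contra hgi
      obtain ⟨x, y, hx, hy, hxy⟩ := hne
      have hfix : ∀ s ∈ Q, s • (g • inf) = g • inf := by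
        intro s hs
        have h1 : g⁻¹ * s * g ∈ Q := (Subgroup.mem_normalizer_iff''.mp hg s).mp hs
        have h2 : s • (g • inf) = g • ((g⁻¹ * s * g) • inf) := by
          simp only [← mul_smul]
          congr 1
          group
        rw [h2, hQfix _ h1]
      have key : ∀ z : Ω, z ≠ inf → z = g • inf := by
        intro z hz
        obtain ⟨s, hs, -⟩ := hQreg (g • inf) z hgi hz
        rw [← hs, hfix s s.2]
      exact hxy ((key x hx).trans (key y hy).symm)
    · intro hg
      rw [Subgroup.mem_normalizer_iff]
      intro h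
      constructor
      · exact hQnorm g hg h
      · intro hh
        have hg' : g⁻¹ • inf = inf := by rw [inv_smul_eq_iff, hg]
        have := hQnorm g⁻¹ hg' _ hh
        simpa [mul_assoc] using this
  have hmem : ∀ g : L, g ∈ Subgroup.normalizer
      (((Sylow.ofCard Q hQcard : Sylow p L) : Subgroup L) : Set L) ↔ g • inf = inf := by
    intro g
    rw [hN, MulAction.mem_stabilizer_iff]
  have hmk : ∀ a b : L, (QuotientGroup.mk a : L ⧸ Subgroup.normalizer
      (((Sylow.ofCard Q hQcard : Sylow p L) : Subgroup L) : Set L)) = QuotientGroup.mk b ↔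
      a • inf = b • inf := by
    intro a b
    rw [QuotientGroup.eq, hmem, mul_smul, inv_smul_eq_iff]
    exact eq_comm
  refine ⟨hN, ?_, ?_⟩
  · rw [MulAction.is_two_pretransitive_iff]
    intro a b c d hab hcd
    induction a using QuotientGroup.induction_on with | _ a => ?_
    induction b using QuotientGroup.induction_on with | _ b => ?_
    induction c using QuotientGroup.induction_on with | _ c => ?_
    induction d using QuotientGroup.induction_on with | _ d => ?_
    have hab' : a • inf ≠ b • inf := fun h => hab ((hmk a b).mpr h)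
    have hcd' : c • inf ≠ d • inf := fun h => hcd ((hmk c d).mpr h)
    obtain ⟨g, hg1, hg2⟩ := h2t _ _ _ _ hab' hcd'
    refine ⟨g, ?_, ?_⟩
    · show (QuotientGroup.mk (g * a) : L ⧸ _) = QuotientGroup.mk c
      rw [hmk, mul_smul, hg1]
    · show (QuotientGroup.mk (g * b) : L ⧸ _) = QuotientGroup.mk d
      rw [hmk, mul_smul, hg2]
  · intro x y hx hy
    induction x using QuotientGroup.induction_on with | _ a => ?_
    induction y using QuotientGroup.induction_on with | _ b => ?_
    have ha : a • inf ≠ inf := by
      intro h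
      apply hx
      rw [hmk, h, one_smul]
    have hb : b • inf ≠ inf := by
      intro h
      apply hy
      rw [hmk, h, one_smul]
    obtain ⟨s, hs, hu⟩ := hQreg _ _ ha hb
    refine ⟨s, ?_, ?_⟩
    · show (QuotientGroup.mk ((s : L) * a) : L ⧸ _) = QuotientGroup.mk b
      rw [hmk, mul_smul]
      exact hs
    · intro s' hs'
      apply hu
      have h1 : (QuotientGroup.mk ((s' : L) * a) : L ⧸ _) = QuotientGroup.mk b := hs'
      rw [hmk, mul_smul] at h1
      exact h1

end Cfsg.Agent.Lib.Helper14.SzTrans
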