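import Mathlib
import Cfsg.Agent.Lib.Helper3.Sz6
import Cfsg.Agent.Lib.Helper3.Sz7
import Cfsg.Agent.Lib.Helper14.SzLink
import Cfsg.Agent.Lib.Helper14.SzTrans

set_option autoImplicit false

namespace Cfsg.Agent.Lib.Helper14.SzTrans2

open Matrix Cfsg.Agent.Lib.Helper3.Sz1 Cfsg.Agent.Lib.Helper3.Sz2 Cfsg.Agent.Lib.Helper3.Sz3
open Cfsg.Agent.Lib.Helper3.Sz4 Cfsg.Agent.Lib.Helper3.Sz5 Cfsg.Agent.Lib.Helper3.Sz6
open Cfsg.Agent.Lib.Helper3.Sz7 Cfsg.Agent.Lib.Helper14.SzLink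

variable {F : Type*} [Field F] [Fintype F] {m : ℕ}

/-- the point at infinity of the ovoid -/
def oInf (F : Type*) [Field F] (m : ℕ) : ↥(Cfsg.suzukiOvoid F m) :=
  ⟨Cfsg.suzukiPointInfinity F, pInf_mem m⟩

omit [Fintype F] in
theorem smul_val (g : Cfsg.Sz F m) (x : ↥(Cfsg.suzukiOvoid F m)) :
    ((g • x : ↥(Cfsg.suzukiOvoid F m)) : Projectivization F (Fin 4 → F)) =
      (g : Matrix.SpecialLinearGroup (Fin 4) F) • (x : Projectivization F (Fin 4 → F)) := rfl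

theorem two_transG (hm : 1 ≤ m) (hF : Fintype.card F = 2 ^ (2 * m + 1)) :
    ∀ a b c d : ↥(Cfsg.suzukiOvoid F m), a ≠ b → c ≠ d → ∃ g : Cfsg.Sz F m, g • a = c ∧ g • b = d := by
  have h := (zassenhaus hm hF).2.1
  rw [MulAction.is_two_pretransitive_iff] at h
  intro a b c d hab hcd
  exact h hab hcd

theorem U_fix (hm : 1 ≤ m) (hF : Fintype.card F = 2 ^ (2 * m + 1)) :
    ∀ s ∈ U hm hF, s • oInf F m = oInf F m := by
  rintro _ ⟨a, b, rfl⟩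
  apply Subtype.ext
  exact T_pInf _ a b

theorem U_reg (hm : 1 ≤ m) (hF : Fintype.card F = 2 ^ (2 * m + 1)) :
    ∀ x y : ↥(Cfsg.suzukiOvoid F m), x ≠ oInf F m → y ≠ oInf F m →
      ∃! s : U hm hF, (s : Cfsg.Sz F m) • x = y := by
  have hs := hyp_of_card hm hF
  intro x y hx hy
  rcases ovoid_cases x.2 with h | ⟨x₁, y₁, h1⟩
  · exact absurd (Subtype.ext h) hx
  rcases ovoid_cases y.2 with h | ⟨x₂, y₂, h2⟩
  · exact absurd (Subtype.ext h) hy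
  refine ⟨⟨u hm hF (x₂ + x₁) (y₂ + y₁ + (x₂ + x₁) ^ (2 ^ (m + 1)) * x₁),
    x₂ + x₁, y₂ + y₁ + (x₂ + x₁) ^ (2 ^ (m + 1)) * x₁, rfl⟩, ?_, ?_⟩
  · apply Subtype.ext
    show (T (2 ^ (m + 1)) (x₂ + x₁) (y₂ + y₁ + (x₂ + x₁) ^ (2 ^ (m + 1)) * x₁) :
      Matrix.SpecialLinearGroup (Fin 4) F) • (x : Projectivization F (Fin 4 → F)) =
      (y : Projectivization F (Fin 4 → F))
    rw [h1, h2, T_pt hs]
    congr 1
    · linear_combination x₁ * hs.two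
    · linear_combination (y₁ + (x₂ + x₁) ^ (2 ^ (m + 1)) * x₁) * hs.two
  · rintro ⟨_, a, b, rfl⟩ hab
    have h3 : (T (2 ^ (m + 1)) a b : Matrix.SpecialLinearGroup (Fin 4) F) •
        (x : Projectivization F (Fin 4 → F)) = (y : Projectivization F (Fin 4 → F)) :=
      congrArg Subtype.val hab
    rw [h1, h2, T_pt hs] at h3
    obtain ⟨e1, e2⟩ := pt_inj h3
    apply Subtype.ext
    show u hm hF a b = u hm hF _ _
    have ha : a = x₂ + x₁ := by linear_combination e1 - x₁ * hs.two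
    subst ha
    congr 1
    linear_combination e2 - (y₁ + (x₂ + x₁) ^ (2 ^ (m + 1)) * x₁) * hs.two

theorem U_norm (hm : 1 ≤ m) (hF : Fintype.card F = 2 ^ (2 * m + 1)) :
    ∀ g : Cfsg.Sz F m, g • oInf F m = oInf F m → ∀ s ∈ U hm hF, g * s * g⁻¹ ∈ U hm hF := by
  intro g hg s hs
  have hg' : (g : Matrix.SpecialLinearGroup (Fin 4) F) • Cfsg.suzukiPointInfinity F =
      Cfsg.suzukiPointInfinity F := congrArg Subtype.val hg
  obtain ⟨a, b, k, hk⟩ := stab_one hm hF g.2 hg'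
  obtain ⟨c, d, rfl⟩ := hs
  have hgd : g = u hm hF a b * ⟨D (2 ^ (m + 1)) k, D_mem hm hF k⟩ := Subtype.ext hk
  have hconj : (⟨D (2 ^ (m + 1)) k, D_mem hm hF k⟩ : Cfsg.Sz F m) * u hm hF c d *
      (⟨D (2 ^ (m + 1)) k, D_mem hm hF k⟩ : Cfsg.Sz F m)⁻¹ =
      u hm hF ((k : F) ^ (2 ^ (m + 1)) * c) ((k : F) ^ (2 ^ (m + 1) + 2) * d) := by
    rw [mul_inv_eq_iff_eq_mul]
    apply Subtype.ext
    exact D_T hm hF k c d
  have h1 : g * u hm hF c d * g⁻¹ = u hm hF a b *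
      ((⟨D (2 ^ (m + 1)) k, D_mem hm hF k⟩ : Cfsg.Sz F m) * u hm hF c d *
      (⟨D (2 ^ (m + 1)) k, D_mem hm hF k⟩ : Cfsg.Sz F m)⁻¹) * (u hm hF a b)⁻¹ := by
    rw [hgd]; group
  rw [h1, hconj]
  exact (U hm hF).mul_mem ((U hm hF).mul_mem ⟨a, b, rfl⟩ ⟨_, _, rfl⟩)
    ((U hm hF).inv_mem ⟨a, b, rfl⟩)

theorem card_U (hm : 1 ≤ m) (hF : Fintype.card F = 2 ^ (2 * m + 1)) :
    Nat.card (U hm hF) = (2 ^ (2 * m + 1)) ^ 2 := by
  have hb : Function.Bijective (fun p : F × F => (⟨u hm hF p.1 p.2, p.1, p.2, rfl⟩ : U hm hF)) := by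
    constructor
    · rintro ⟨a, b⟩ ⟨a', b'⟩ h
      have h1 := u_inj hm hF (congrArg Subtype.val h)
      exact Prod.ext h1.1 h1.2
    · rintro ⟨_, a, b, rfl⟩
      exact ⟨(a, b), rfl⟩
  rw [← Nat.card_congr (Equiv.ofBijective _ hb), Nat.card_prod, Nat.card_eq_fintype_card, hF, sq]

theorem exists_two (hm : 1 ≤ m) (hF : Fintype.card F = 2 ^ (2 * m + 1)) :
    ∃ x y : ↥(Cfsg.suzukiOvoid F m), x ≠ oInf F m ∧ y ≠ oInf F m ∧ x ≠ y := by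
  have hs := hyp_of_card hm hF
  refine ⟨⟨Cfsg.suzukiPointZero F, pZero_mem hm hF⟩, ⟨pt (2 ^ (m + 1)) 1 0, pt_mem m 1 0⟩, ?_, ?_, ?_⟩
  · exact fun h => pZero_ne_inf (congrArg Subtype.val h)
  · exact fun h => pt_ne_inf _ _ _ (congrArg Subtype.val h)
  · exact fun h => pt_one_ne_zero hs (congrArg Subtype.val h).symm

/-- `S1163`. -/
theorem lie_struct (hm : 1 ≤ m) (hF : Fintype.card F = 2 ^ (2 * m + 1)) :
    Nat.card ↥(Cfsg.Lie.Sz F (2 ^ (m + 1))) = (2 ^ (2 * m + 1)) ^ 2 * (2 ^ (2 * m + 1) - 1) * ((2 ^ (2 * m + 1)) ^ 2 + 1) ∧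
    ∃ S : Sylow 2 ↥(Cfsg.Lie.Sz F (2 ^ (m + 1))),
      Nat.card (Subgroup.normalizer ((S : Subgroup ↥(Cfsg.Lie.Sz F (2 ^ (m + 1)))) : Set ↥(Cfsg.Lie.Sz F (2 ^ (m + 1))))) = (2 ^ (2 * m + 1)) ^ 2 * (2 ^ (2 * m + 1) - 1) ∧
      (Subgroup.normalizer ((S : Subgroup ↥(Cfsg.Lie.Sz F (2 ^ (m + 1)))) : Set ↥(Cfsg.Lie.Sz F (2 ^ (m + 1))))).index = (2 ^ (2 * m + 1)) ^ 2 + 1 ∧
      MulAction.IsMultiplyPretransitive ↥(Cfsg.Lie.Sz F (2 ^ (m + 1))) (↥(Cfsg.Lie.Sz F (2 ^ (m + 1))) ⧸ Subgroup.normalizer ((S : Subgroup ↥(Cfsg.Lie.Sz F (2 ^ (m + 1)))) : Set ↥(Cfsg.Lie.Sz F (2 ^ (m + 1))))) 2 ∧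
      ∀ x y : ↥(Cfsg.Lie.Sz F (2 ^ (m + 1))) ⧸ Subgroup.normalizer ((S : Subgroup ↥(Cfsg.Lie.Sz F (2 ^ (m + 1)))) : Set ↥(Cfsg.Lie.Sz F (2 ^ (m + 1)))),
        x ≠ (QuotientGroup.mk 1) → y ≠ (QuotientGroup.mk 1) → ∃! s : ↥(S : Subgroup ↥(Cfsg.Lie.Sz F (2 ^ (m + 1)))), (s : ↥(Cfsg.Lie.Sz F (2 ^ (m + 1)))) • x = y := by
  classical
  have hs := hyp_of_card hm hF
  have hfinG : Finite (Cfsg.Sz F m) := by
    apply Nat.finite_of_card_ne_zero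
    rw [card_Sz hm hF]
    have h1 : 2 ^ 1 ≤ 2 ^ (2 * m + 1) := Nat.pow_le_pow_right (by norm_num) (by omega)
    have h2 : 0 < 2 ^ (2 * m + 1) - 1 := by omega
    positivity
  have hfinL : Finite ↥(Cfsg.Lie.Sz F (2 ^ (m + 1))) := Finite.of_equiv _ (szEquiv hm hF).toEquiv
  let act : MulAction ↥(Cfsg.Lie.Sz F (2 ^ (m + 1))) ↥(Cfsg.suzukiOvoid F m) :=
    MulAction.compHom _ (szEquiv hm hF).symm.toMonoidHom
  have hsmul : ∀ (g : ↥(Cfsg.Lie.Sz F (2 ^ (m + 1)))) (x : ↥(Cfsg.suzukiOvoid F m)),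
      g • x = (szEquiv hm hF).symm g • x := fun g x => rfl
  have hcardL : Nat.card ↥(Cfsg.Lie.Sz F (2 ^ (m + 1))) =
      (2 ^ (2 * m + 1)) ^ 2 * (2 ^ (2 * m + 1) - 1) * ((2 ^ (2 * m + 1)) ^ 2 + 1) := by
    rw [← Nat.card_congr (szEquiv hm hF).toEquiv, card_Sz hm hF]
    ring
  have hQcard : Nat.card ((U hm hF).map (szEquiv hm hF).toMonoidHom) =
      2 ^ (Nat.card ↥(Cfsg.Lie.Sz F (2 ^ (m + 1)))).factorization 2 := by
    rw [Subgroup.card_map_of_injective (szEquiv hm hF).injective, card_U hm hF, hcardL]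
    have hq : 2 ^ (2 * m + 1) = 2 * 2 ^ (2 * m) := pow_succ' 2 (2 * m)
    have ht : 1 ≤ 2 ^ (2 * m) := Nat.one_le_two_pow
    have hodd : ¬ 2 ∣ (2 ^ (2 * m + 1) - 1) * ((2 ^ (2 * m + 1)) ^ 2 + 1) := by
      rw [Nat.Prime.dvd_mul Nat.prime_two]
      rintro (h | h)
      · rw [hq] at h
        generalize 2 ^ (2 * m) = t at ht h
        omega
      · have h1 : 2 ∣ (2 ^ (2 * m + 1)) ^ 2 := dvd_pow (dvd_pow_self 2 (by omega)) two_ne_zero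
        exact absurd ((Nat.dvd_add_right h1).mp h) (by norm_num)
    have he : (2 ^ (2 * m + 1)) ^ 2 * (2 ^ (2 * m + 1) - 1) * ((2 ^ (2 * m + 1)) ^ 2 + 1) =
        2 ^ ((2 * m + 1) * 2) * ((2 ^ (2 * m + 1) - 1) * ((2 ^ (2 * m + 1)) ^ 2 + 1)) := by
      rw [pow_mul, mul_assoc]
    rw [he, fact2 _ _ hodd, pow_mul]
  have : Fact (Nat.Prime 2) := ⟨Nat.prime_two⟩
  obtain ⟨S, hSQ, hN, h2, hreg⟩ := Cfsg.Agent.Lib.Helper14.SzTrans.sylow_normalizer_action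
    (L := ↥(Cfsg.Lie.Sz F (2 ^ (m + 1)))) (Ω := ↥(Cfsg.suzukiOvoid F m)) 2 (oInf F m)
    ((U hm hF).map (szEquiv hm hF).toMonoidHom) hQcard
    (by
      intro a b c d hab hcd
      obtain ⟨g, h1, h2⟩ := two_transG hm hF a b c d hab hcd
      refine ⟨szEquiv hm hF g, ?_, ?_⟩
      · rw [hsmul, MulEquiv.symm_apply_apply]; exact h1
      · rw [hsmul, MulEquiv.symm_apply_apply]; exact h2)
    (by
      rintro _ ⟨s, hs, rfl⟩
      rw [hsmul]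
      show (szEquiv hm hF).symm (szEquiv hm hF s) • _ = _
      rw [MulEquiv.symm_apply_apply]
      exact U_fix hm hF s hs)
    (by
      intro x y hx hy
      obtain ⟨s, hs, hu⟩ := U_reg hm hF x y hx hy
      refine ⟨⟨szEquiv hm hF s, Subgroup.mem_map_of_mem _ s.2⟩, ?_, ?_⟩
      · show (szEquiv hm hF).symm (szEquiv hm hF s) • x = y
        rw [MulEquiv.symm_apply_apply]; exact hs
      · rintro ⟨_, s', hs', rfl⟩ h
        have h1 : (szEquiv hm hF).symm (szEquiv hm hF s') • x = y := h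
        rw [MulEquiv.symm_apply_apply] at h1
        have h2 := hu ⟨s', hs'⟩ h1
        apply Subtype.ext
        show szEquiv hm hF s' = szEquiv hm hF s
        rw [← h2])
    (by
      intro g hg
      rintro _ ⟨s, hs, rfl⟩
      have h1 := U_norm hm hF ((szEquiv hm hF).symm g) hg s hs
      refine ⟨(szEquiv hm hF).symm g * s * ((szEquiv hm hF).symm g)⁻¹, h1, ?_⟩
      simp)
    (exists_two hm hF)
  have hidx : (Subgroup.normalizer ((S : Subgroup ↥(Cfsg.Lie.Sz F (2 ^ (m + 1)))) :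
      Set ↥(Cfsg.Lie.Sz F (2 ^ (m + 1))))).index = (2 ^ (2 * m + 1)) ^ 2 + 1 := by
    rw [hN, MulAction.index_stabilizer]
    have horb : MulAction.orbit ↥(Cfsg.Lie.Sz F (2 ^ (m + 1))) (oInf F m) = Set.univ := by
      ext x
      simp only [Set.mem_univ, iff_true]
      obtain ⟨g, hg, hgx⟩ := move_to_inf hm hF x.2
      refine ⟨szEquiv hm hF (⟨g, hg⟩ : Cfsg.Sz F m)⁻¹, ?_⟩
      show (szEquiv hm hF).symm (szEquiv hm hF (⟨g, hg⟩ : Cfsg.Sz F m)⁻¹) • oInf F m = x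
      rw [MulEquiv.symm_apply_apply, inv_smul_eq_iff]
      apply Subtype.ext
      exact hgx.symm
    rw [horb, Set.ncard_univ, Nat.card_coe_set_eq, card_ovoid hF]
  refine ⟨hcardL, S, ?_, hidx, h2, hreg⟩
  have h3 := Subgroup.card_mul_index (Subgroup.normalizer
    ((S : Subgroup ↥(Cfsg.Lie.Sz F (2 ^ (m + 1)))) : Set ↥(Cfsg.Lie.Sz F (2 ^ (m + 1)))))
  rw [hidx, hcardL] at h3
  exact Nat.eq_of_mul_eq_mul_right (by positivity) h3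

end Cfsg.Agent.Lib.Helper14.SzTrans2
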